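import Cfsg.Agent.H53.Basic

set_option autoImplicit false

namespace Cfsg.Agent.H53

/-- A group generated by pairwise commuting elements is commutative. -/
theorem comm_of_closure {G : Type*} [Group G] {T : Set G} (hT : Subgroup.closure T = ⊤)
    (h : ∀ s ∈ T, ∀ t ∈ T, s * t = t * s) (a b : G) : a * b = b * a := by
  have h1 : Subgroup.closure T ≤ Subgroup.centralizer T := by
    rw [Subgroup.closure_le]
    intro s hs
    rw [SetLike.mem_coe, Subgroup.mem_centralizer_iff]
    intro t ht
    exact h t ht s hs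
  have h2 : Subgroup.closure T ≤ Subgroup.center G := by
    rw [Subgroup.closure_le]
    intro s hs
    rw [SetLike.mem_coe, Subgroup.mem_center_iff]
    intro g
    have hg : g ∈ Subgroup.centralizer T := h1 (by rw [hT]; exact Subgroup.mem_top g)
    exact (Subgroup.mem_centralizer_iff.mp hg s hs).symm
  have hb : b ∈ Subgroup.center G := h2 (by rw [hT]; exact Subgroup.mem_top b)
  exact Subgroup.mem_center_iff.mp hb a

/-- If `G` is generated by `T` and the commutators of elements of `T` lie in the normal subgroup `N` then so does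
the commutator subgroup. -/
theorem commutator_le_of_closure {G : Type*} [Group G] {T : Set G} (hT : Subgroup.closure T = ⊤)
    (N : Subgroup G) [N.Normal] (h : ∀ s ∈ T, ∀ t ∈ T, s * t * s⁻¹ * t⁻¹ ∈ N) : commutator G ≤ N := by
  have hc : ∀ a b : G ⧸ N, a * b = b * a := by
    apply comm_of_closure (T := (QuotientGroup.mk' N) '' T)
    · rw [← MonoidHom.map_closure, hT, ← MonoidHom.range_eq_map,
        MonoidHom.range_eq_top.mpr (QuotientGroup.mk'_surjective N)]
    · rintro _ ⟨s, hs, rfl⟩ _ ⟨t, ht, rfl⟩
      rw [← map_mul, ← map_mul]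
      rw [eq_comm, QuotientGroup.mk'_eq_mk']
      refine ⟨(t * s)⁻¹ * (s * t), ?_, by group⟩
      have h1 := h s hs t ht
      have h2 := (inferInstance : N.Normal).conj_mem _ h1 ((t * s)⁻¹)
      have : (t * s)⁻¹ * (s * t * s⁻¹ * t⁻¹) * ((t * s)⁻¹)⁻¹ = (t * s)⁻¹ * (s * t) := by group
      rwa [this] at h2
  rw [commutator_def, Subgroup.commutator_le]
  intro a _ b _
  have e : a * b * a⁻¹ * b⁻¹ = (a * b) * (b * a)⁻¹ := by group
  rw [← QuotientGroup.eq_one_iff, commutatorElement_def, e, QuotientGroup.mk_mul, QuotientGroup.mk_inv,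
    QuotientGroup.mk_mul, QuotientGroup.mk_mul, hc (a : G ⧸ N) b, mul_inv_cancel]

end Cfsg.Agent.H53
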