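import Cfsg.Agent.H53.D3CaseIIb
import Cfsg.Agent.S0168

/-!
# Products of irreducible characters (owner: helper53)
-/

set_option autoImplicit false
set_option linter.style.haveILetI false
set_option linter.unusedSectionVars false

namespace Cfsg.Agent.H53.D3

open scoped ComplexConjugate BigOperators commutatorElement
open Cfsg Cfsg.Agent.CharBase Cfsg.Agent.Char Cfsg.Agent.H75

universe u

variable {G : Type u} [Group G] [Fintype G]

/-- Burnside–Brauer -/
theorem burnside_brauer (χ : IrrCharacter G)
    (hf : ∀ g, (χ : G → ℂ) g = (χ : G → ℂ) 1 → g = 1) (ψ : IrrCharacter G) :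
    ∃ n : ℕ, classInner (fun g => (χ : G → ℂ) g ^ n) (ψ : G → ℂ) ≠ 0 := by
  obtain ⟨d, ρ, hρ⟩ := irr_isCharacter χ
  have hinj : Function.Injective ρ := by
    rw [injective_iff_map_eq_one]
    intro g hg
    apply hf
    rw [← hρ, H75.rep_eq_char_one_iff]
    exact hg
  obtain ⟨i, -, hi⟩ := S0168.result ρ hinj (ψ : G → ℂ) ψ.2
  refine ⟨i, ?_⟩
  rw [← hρ]
  exact hi

/-- the complex conjugate -/
noncomputable def conjIrr (χ : IrrCharacter G) : IrrCharacter G :=
  ⟨fun g => conj ((χ : G → ℂ) g), isIrrCharacter_conj χ.2⟩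

theorem conjIrr_apply (χ : IrrCharacter G) (g : G) :
    (conjIrr χ : G → ℂ) g = conj ((χ : G → ℂ) g) := rfl

theorem conjIrr_conjIrr (χ : IrrCharacter G) : conjIrr (conjIrr χ) = χ := by
  apply Subtype.ext
  funext g
  show conj (conj ((χ : G → ℂ) g)) = _
  simp

theorem deg_conjIrr (χ : IrrCharacter G) : deg (conjIrr χ) = deg χ := by
  have h1 := deg_spec (conjIrr χ)
  rw [conjIrr_apply, deg_spec] at h1
  have h2 : ((deg χ : ℕ) : ℂ) = (deg (conjIrr χ) : ℂ) := by
    rw [← h1]; simp
  exact_mod_cast h2.symm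

/-- triple products -/
noncomputable def tri (x y z : IrrCharacter G) : ℂ :=
  (Nat.card G : ℂ)⁻¹ * ∑ g : G, (x : G → ℂ) g * (y : G → ℂ) g * (z : G → ℂ) g

theorem tri_comm (x y z : IrrCharacter G) : tri x y z = tri y x z := by
  unfold tri
  congr 1
  exact Finset.sum_congr rfl (fun g _ => by ring)

theorem tri_comm' (x y z : IrrCharacter G) : tri x y z = tri x z y := by
  unfold tri
  congr 1
  exact Finset.sum_congr rfl (fun g _ => by ring)

theorem tri_eq (x y z : IrrCharacter G) :
    tri x y z = classInner ((x : G → ℂ) * (y : G → ℂ)) (conjIrr z : G → ℂ) := by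
  unfold tri classInner
  congr 1
  refine Finset.sum_congr rfl (fun g _ => ?_)
  rw [conjIrr_apply, Complex.conj_conj, Pi.mul_apply]

theorem classInner_mul_eq (x y z : IrrCharacter G) :
    classInner ((x : G → ℂ) * (y : G → ℂ)) (z : G → ℂ) = tri x y (conjIrr z) := by
  rw [tri_eq, conjIrr_conjIrr]

theorem exists_tri (x y : IrrCharacter G) [Fintype (IrrCharacter G)] :
    ∃ m : IrrCharacter G → ℕ, (∀ z, tri x y z = m z) ∧ deg x * deg y = ∑ z, m z * deg z := by
  classical
  obtain ⟨m, hm, hsum⟩ := exists_mult_of_isCharacter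
    (isCharacter_mul (irr_isCharacter x) (irr_isCharacter y))
  refine ⟨fun z => m (conjIrr z), ?_, ?_⟩
  · intro z
    rw [tri_eq]
    exact hm _
  · have h1 : (((deg x * deg y : ℕ)) : ℂ) = ((∑ z, m z * deg z : ℕ) : ℂ) := by
      have h2 := congrFun hsum 1
      push_cast
      rw [← deg_spec x, ← deg_spec y]
      refine h2.trans ?_
      simp [Finset.sum_apply, deg_spec]
    have h3 : deg x * deg y = ∑ z, m z * deg z := by exact_mod_cast h1
    rw [h3]
    let e : IrrCharacter G ≃ IrrCharacter G :=
      ⟨conjIrr, conjIrr, conjIrr_conjIrr, conjIrr_conjIrr⟩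
    refine Fintype.sum_equiv e _ _ ?_
    intro z
    show m z * deg z = m (conjIrr (conjIrr z)) * deg (conjIrr z)
    rw [conjIrr_conjIrr, deg_conjIrr]

/-- the product with a linear character, as an irreducible character -/
noncomputable def lmul (l χ : IrrCharacter G) (hl : deg l = 1) : IrrCharacter G :=
  ⟨fun g => (l : G → ℂ) g * (χ : G → ℂ) g, Glaub.isIrr_mul_linear χ.2 (irr_isCharacter l)
    (by rw [deg_spec, hl, Nat.cast_one])⟩

theorem lmul_apply (l χ : IrrCharacter G) (hl : deg l = 1) (g : G) :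
    (lmul l χ hl : G → ℂ) g = (l : G → ℂ) g * (χ : G → ℂ) g := rfl

theorem deg_lmul (l χ : IrrCharacter G) (hl : deg l = 1) : deg (lmul l χ hl) = deg χ := by
  have h1 := deg_spec (lmul l χ hl)
  rw [lmul_apply, deg_spec, deg_spec, hl, Nat.cast_one, one_mul] at h1
  exact_mod_cast h1.symm

theorem eq_of_tri_linear {x y l : IrrCharacter G} (hl : deg l = 1) (h : tri x y l ≠ 0) :
    y = conjIrr (lmul l x hl) := by
  by_contra hne
  apply h
  have h1 : classInner (y : G → ℂ) (conjIrr (lmul l x hl) : G → ℂ) = 0 :=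
    classInner_irr_of_ne hne
  rw [← h1]
  unfold tri classInner
  congr 1
  refine Finset.sum_congr rfl (fun g _ => ?_)
  rw [conjIrr_apply, Complex.conj_conj, lmul_apply]
  ring

/-- sets closed under multiplication by a character -/
theorem closure_pow (A : Set (IrrCharacter G)) (ψ : IrrCharacter G)
    (hA : ∀ θ ∈ A, ∀ ω, tri θ ψ (conjIrr ω) ≠ 0 → ω ∈ A) (n : ℕ) :
    ∀ χ ∈ A, ∀ ω : IrrCharacter G,
      classInner (fun g => (χ : G → ℂ) g * (ψ : G → ℂ) g ^ n) (ω : G → ℂ) ≠ 0 → ω ∈ A := by
  classical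
  haveI := Fintype.ofFinite (IrrCharacter G)
  induction n with
  | zero =>
    intro χ hχ ω h
    by_contra hω
    apply h
    have h1 : (fun g => (χ : G → ℂ) g * (ψ : G → ℂ) g ^ 0) = (χ : G → ℂ) := by
      funext g; simp
    rw [h1]
    exact classInner_irr_of_ne (fun h => hω (h ▸ hχ))
  | succ n ih =>
    intro χ hχ ω h
    by_contra hω
    apply h
    obtain ⟨m, hm, hsum⟩ := exists_mult_of_isCharacter
      (isCharacter_mul (irr_isCharacter χ) (irr_isCharacter ψ))
    have h1 : (fun g => (χ : G → ℂ) g * (ψ : G → ℂ) g ^ (n + 1)) =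
        ∑ θ : IrrCharacter G, (m θ : ℂ) • (fun g => (θ : G → ℂ) g * (ψ : G → ℂ) g ^ n) := by
      funext g
      have h2 := congrFun hsum g
      rw [pow_succ']
      have h3 : (χ : G → ℂ) g * ((ψ : G → ℂ) g * (ψ : G → ℂ) g ^ n) =
        ((χ : G → ℂ) g * (ψ : G → ℂ) g) * (ψ : G → ℂ) g ^ n := by ring
      rw [h3]
      have h4 : (χ : G → ℂ) g * (ψ : G → ℂ) g = ∑ θ : IrrCharacter G, (m θ : ℂ) * (θ : G → ℂ) g := by
        refine h2.trans ?_
        simp [Finset.sum_apply]
      rw [h4, Finset.sum_mul]
      simp only [Finset.sum_apply, Pi.smul_apply, smul_eq_mul]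
      exact Finset.sum_congr rfl (fun θ _ => by ring)
    rw [h1, classInner_sum_left]
    refine Finset.sum_eq_zero (fun θ _ => ?_)
    rw [classInner_smul_left]
    by_cases h0 : (m θ : ℂ) = 0
    · rw [h0, zero_mul]
    · have h5 : θ ∈ A := by
        apply hA χ hχ
        rw [← classInner_mul_eq]
        intro h6
        apply h0
        rw [← h6]
        exact (hm θ).symm
      have h6 : classInner (fun g => (θ : G → ℂ) g * (ψ : G → ℂ) g ^ n) (ω : G → ℂ) = 0 := by
        by_contra h7
        exact hω (ih θ h5 ω h7)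
      rw [h6, mul_zero]

theorem tri_conj (x y z : IrrCharacter G) : tri (conjIrr x) (conjIrr y) (conjIrr z) = conj (tri x y z) := by
  unfold tri
  rw [map_mul, map_sum, map_inv₀]
  congr 1
  · simp
  · refine Finset.sum_congr rfl (fun g _ => ?_)
    rw [conjIrr_apply, conjIrr_apply, conjIrr_apply, map_mul, map_mul]

theorem tri_lmul (l x y z : IrrCharacter G) (hl : deg l = 1) :
    tri (lmul l x hl) y z = tri x y (lmul l z hl) := by
  unfold tri
  congr 1
  refine Finset.sum_congr rfl (fun g _ => ?_)
  rw [lmul_apply, lmul_apply]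
  ring

/-- faithful characters generate everything -/
theorem mem_of_closed (A : Set (IrrCharacter G)) (ψ : IrrCharacter G)
    (hf : ∀ g, (ψ : G → ℂ) g = (ψ : G → ℂ) 1 → g = 1)
    (hA : ∀ θ ∈ A, ∀ ω, tri θ ψ (conjIrr ω) ≠ 0 → ω ∈ A) (h1 : oneIrr G ∈ A)
    (ω : IrrCharacter G) : ω ∈ A := by
  obtain ⟨n, hn⟩ := burnside_brauer ψ hf ω
  refine closure_pow A ψ hA n _ h1 ω ?_
  have h2 : (fun g => (oneIrr G : G → ℂ) g * (ψ : G → ℂ) g ^ n) = fun g => (ψ : G → ℂ) g ^ n := by
    funext g
    rw [oneIrr_apply, one_mul]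
  rw [h2]
  exact hn

theorem one_mem_of_closed (A : Set (IrrCharacter G)) (ψ : IrrCharacter G)
    (hf : ∀ g, (ψ : G → ℂ) g = (ψ : G → ℂ) 1 → g = 1)
    (hA : ∀ θ ∈ A, ∀ ω, tri θ ψ (conjIrr ω) ≠ 0 → ω ∈ A) {χ : IrrCharacter G} (h1 : χ ∈ A) :
    oneIrr G ∈ A := by
  obtain ⟨n, hn⟩ := burnside_brauer ψ hf (conjIrr χ)
  refine closure_pow A ψ hA n _ h1 (oneIrr G) ?_
  have h2 : classInner (fun g => (χ : G → ℂ) g * (ψ : G → ℂ) g ^ n) (oneIrr G : G → ℂ) =
      classInner (fun g => (ψ : G → ℂ) g ^ n) (conjIrr χ : G → ℂ) := by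
    unfold classInner
    congr 1
    refine Finset.sum_congr rfl (fun g _ => ?_)
    rw [conjIrr_apply, Complex.conj_conj, oneIrr_apply, map_one, mul_one, mul_comm]
  rw [h2]
  exact hn

/-- **the final contradiction**: all nonlinear characters faithful, two coprime nonlinear
degrees -/
theorem no_three (a b : ℕ) (hab : a < b) (ha1 : a ≠ 1) (ha0 : 0 < a) (hcop : a.Coprime b)
    (hcd : ∀ χ : IrrCharacter G, deg χ = 1 ∨ deg χ = a ∨ deg χ = b)
    (hf : ∀ χ : IrrCharacter G, deg χ ≠ 1 → ∀ g, (χ : G → ℂ) g = (χ : G → ℂ) 1 → g = 1)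
    {χa χb : IrrCharacter G} (hχa : deg χa = a) (hχb : deg χb = b) : False := by
  classical
  haveI := Fintype.ofFinite (IrrCharacter G)
  have hb1 : b ≠ 1 := by omega
  have hone : deg (oneIrr G) = 1 := by
    have := deg_spec (oneIrr G)
    rw [oneIrr_apply] at this
    exact_mod_cast this.symm
  -- the decomposition of sums
  have hsum : ∀ m : IrrCharacter G → ℕ, ∑ z, m z * deg z =
      (∑ z, if deg z = 1 then m z else 0) + a * (∑ z, if deg z = a then m z else 0) +
      b * (∑ z, if deg z = b then m z else 0) := by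
    intro m
    rw [Finset.mul_sum, Finset.mul_sum, ← Finset.sum_add_distrib, ← Finset.sum_add_distrib]
    refine Finset.sum_congr rfl (fun z _ => ?_)
    rcases hcd z with h | h | h
    · rw [h, if_pos rfl, if_neg (Ne.symm ha1), if_neg (Ne.symm hb1)]; ring
    · rw [h, if_neg ha1, if_pos rfl, if_neg (by omega)]; ring
    · rw [h, if_neg hb1, if_neg (by omega), if_pos rfl]; ring
  -- P1
  have P1 : ∀ x y : IrrCharacter G, deg x = a → deg y = a → (∀ l, deg l = 1 → tri x y l = 0) →
      ∀ z, tri x y z ≠ 0 → deg z ≠ b := by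
    intro x y hx hy hl z hz hzb
    obtain ⟨m, hm, hs⟩ := exists_tri x y
    rw [hsum, hx, hy] at hs
    have h1 : (∑ z, if deg z = 1 then m z else 0) = 0 := by
      refine Finset.sum_eq_zero (fun w _ => ?_)
      split_ifs with hw
      · have := hl w hw
        rw [hm] at this
        exact_mod_cast this
      · rfl
    rw [h1, zero_add] at hs
    set X := ∑ z, if deg z = a then m z else 0
    set Y := ∑ z, if deg z = b then m z else 0 with hY
    have h2 : a ∣ b * Y := by
      rw [← Nat.dvd_add_right (Dvd.intro X rfl : a ∣ a * X), ← hs]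
      exact Dvd.intro a rfl
    have h3 : a ∣ Y := hcop.dvd_of_dvd_mul_left h2
    have h4 : m z ≤ Y := by
      have h5 : (if deg z = b then m z else 0) ≤ Y :=
        Finset.single_le_sum (f := fun z => if deg z = b then m z else 0)
          (fun _ _ => Nat.zero_le _) (Finset.mem_univ z)
      rwa [if_pos hzb] at h5
    have h5 : 0 < m z := by
      rcases Nat.eq_zero_or_pos (m z) with h6 | h6
      · exfalso
        apply hz
        rw [hm, h6, Nat.cast_zero]
      · exact h6
    have h6 : a ≤ Y := Nat.le_of_dvd (by omega) h3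
    nlinarith
  -- P2
  have P2 : ∀ x y z : IrrCharacter G, deg x = a → deg y = b → deg z = a → tri x y z ≠ 0 →
      ∀ w, tri x y w ≠ 0 → deg w = a := by
    intro x y z hx hy hza hz w hw
    obtain ⟨m, hm, hs⟩ := exists_tri x y
    rw [hsum, hx, hy] at hs
    have h0 : ∀ l, deg l = 1 → m l = 0 := by
      intro l hl
      by_contra h
      have h1 : tri x y l ≠ 0 := by
        rw [hm]; exact_mod_cast h
      have h2 := eq_of_tri_linear hl h1
      have h3 : deg y = deg x := by
        rw [h2, deg_conjIrr, deg_lmul]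
      omega
    have h1 : (∑ z, if deg z = 1 then m z else 0) = 0 := by
      refine Finset.sum_eq_zero (fun w _ => ?_)
      split_ifs with hw
      · exact h0 w hw
      · rfl
    rw [h1, zero_add] at hs
    set X := ∑ z, if deg z = a then m z else 0 with hX
    set Y := ∑ z, if deg z = b then m z else 0 with hY
    have h2 : b ∣ a * X := by
      rw [Nat.dvd_add_iff_left (Dvd.intro Y rfl : b ∣ b * Y), ← hs]
      exact Dvd.intro_left a rfl
    have h3 : b ∣ X := hcop.symm.dvd_of_dvd_mul_left h2
    have h4 : m z ≤ X := by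
      have h5 : (if deg z = a then m z else 0) ≤ X :=
        Finset.single_le_sum (f := fun z => if deg z = a then m z else 0)
          (fun _ _ => Nat.zero_le _) (Finset.mem_univ z)
      rwa [if_pos hza] at h5
    have h5 : 0 < m z := by
      rcases Nat.eq_zero_or_pos (m z) with h6 | h6
      · exfalso
        apply hz
        rw [hm, h6, Nat.cast_zero]
      · exact h6
    have h6 : b ≤ X := Nat.le_of_dvd (by omega) h3
    have h7 : Y = 0 := by
      rcases Nat.eq_zero_or_pos Y with h8 | h8
      · exact h8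
      · exfalso
        have : a * b ≤ a * X := Nat.mul_le_mul_left a h6
        have : 0 < b * Y := Nat.mul_pos (by omega) h8
        omega
    rcases hcd w with h | h | h
    · exfalso
      apply hw
      rw [hm, h0 w h, Nat.cast_zero]
    · exact h
    · exfalso
      apply hw
      rw [hm]
      have h8 : (if deg w = b then m w else 0) ≤ Y :=
        Finset.single_le_sum (f := fun z => if deg z = b then m z else 0)
          (fun _ _ => Nat.zero_le _) (Finset.mem_univ w)
      rw [if_pos h, h7] at h8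
      rw [Nat.le_zero.mp h8, Nat.cast_zero]
  by_cases hA : ∃ x z : IrrCharacter G, deg x = a ∧ deg z = b ∧ tri x (conjIrr x) z ≠ 0
  · -- Case B
    obtain ⟨x, z, hx, hz, hxz⟩ := hA
    have h1 : ∀ w, tri x z w ≠ 0 → deg w = a := by
      refine P2 x z (conjIrr x) hx hz (by rw [deg_conjIrr, hx]) ?_
      rwa [tri_comm']
    have h2 : ∀ w, tri x z w ≠ 0 → ∃ l, ∃ hl : deg l = 1, w = conjIrr (lmul l x hl) := by
      intro w hw
      have hwa := h1 w hw
      by_contra hcon
      push Not at hcon
      refine P1 x w hx hwa ?_ z ?_ hz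
      · intro l hl
        by_contra h
        exact hcon l hl (eq_of_tri_linear hl h)
      · rwa [tri_comm']
    have h3 := one_mem_of_closed {w | ∃ l, ∃ hl : deg l = 1, w = lmul l x hl} z
      (hf z (by rw [hz]; exact hb1)) (by
        rintro θ ⟨l, hl, rfl⟩ ω hω
        rw [tri_lmul] at hω
        obtain ⟨l', hl', h5⟩ := h2 _ hω
        refine ⟨lmul l l' hl, by rw [deg_lmul, hl'], ?_⟩
        apply Subtype.ext
        funext g
        have h6 := congrArg (fun w : IrrCharacter G => (w : G → ℂ) g) h5
        simp only [lmul_apply, conjIrr_apply] at h6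
        have h7 := congrArg (conj : ℂ → ℂ) h6
        rw [map_mul, Complex.conj_conj, Complex.conj_conj] at h7
        rw [lmul_apply, lmul_apply]
        have h8 : (l : G → ℂ) g * conj ((l : G → ℂ) g) = 1 := by
          have h9 := irr_isCharacter l
          have h10 : (l : G → ℂ) 1 = 1 := by rw [deg_spec, hl, Nat.cast_one]
          rw [← irr_inv, ← Char.linChar_mul h9 h10, mul_inv_cancel, h10]
        calc (ω : G → ℂ) g = ((l : G → ℂ) g * conj ((l : G → ℂ) g)) * (ω : G → ℂ) g := by
              rw [h8, one_mul]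
          _ = (l : G → ℂ) g * (conj ((l : G → ℂ) g) * (ω : G → ℂ) g) := by ring
          _ = (l : G → ℂ) g * ((l' : G → ℂ) g * (x : G → ℂ) g) := by rw [h7]
          _ = _ := by ring)
      (χ := x) ⟨oneIrr G, hone, by
        apply Subtype.ext
        funext g
        rw [lmul_apply, oneIrr_apply, one_mul]⟩
    obtain ⟨l, hl, h4⟩ := h3
    have h5 := deg_lmul l x hl
    rw [← h4, hone, hx] at h5
    exact ha1 h5.symm
  · -- Case A
    push Not at hA
    have h1 : ∀ x y z : IrrCharacter G, deg x = a → deg y = a → tri x y z ≠ 0 → deg z ≠ b := by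
      intro x y z hx hy hxyz hz
      by_cases h : ∀ l, deg l = 1 → tri x y l = 0
      · exact P1 x y hx hy h z hxyz hz
      · push Not at h
        obtain ⟨l, hl, hne⟩ := h
        have h2 := eq_of_tri_linear hl hne
        have hcl : deg (conjIrr l) = 1 := by rw [deg_conjIrr, hl]
        have h3 : tri x (conjIrr x) (lmul (conjIrr l) z hcl) = tri x y z := by
          rw [h2]
          unfold tri
          congr 1
          refine Finset.sum_congr rfl (fun g _ => ?_)
          rw [conjIrr_apply, conjIrr_apply, lmul_apply, lmul_apply, conjIrr_apply, map_mul]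
          ring
        rw [← h3] at hxyz
        exact hxyz (hA x _ hx (by rw [deg_lmul, hz]))
    have h2 := mem_of_closed {w : IrrCharacter G | deg w ≠ b} χa
      (hf χa (by rw [hχa]; exact ha1)) (by
        intro θ hθ ω hω hωb
        rw [← deg_conjIrr ω] at hωb
        rcases hcd θ with h | h | h
        · -- θ linear
          have h3 := eq_of_tri_linear (x := χa) (y := conjIrr ω) (l := θ) h (by
            have : tri χa (conjIrr ω) θ = tri θ χa (conjIrr ω) := by
              rw [tri_comm', tri_comm]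
            rwa [this])
          rw [h3, deg_conjIrr, deg_lmul, hχa] at hωb
          omega
        · exact h1 θ χa _ h hχa hω hωb
        · exact hθ h) (by
        show deg (oneIrr G) ≠ b
        rw [hone]; exact Ne.symm hb1) χb
    exact h2 hχb

end Cfsg.Agent.H53.D3
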