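import Cfsg.Agent.H53.D3Prod
import Cfsg.Agent.Char.CentralChar

/-!
# Groups with at most three character degrees are solvable (owner: helper53)
-/

set_option autoImplicit false
set_option linter.style.haveILetI false
set_option linter.unusedSectionVars false

namespace Cfsg.Agent.H53.D3

open scoped ComplexConjugate BigOperators commutatorElement
open Cfsg Cfsg.Agent.CharBase Cfsg.Agent.Char Cfsg.Agent.H75

universe u

/-- perfect subgroups lie in every normal subgroup with solvable quotient -/
theorem perfect_le {X : Type u} [Group X] (N M : Subgroup X) [M.Normal] (hN : ⁅N, N⁆ = N)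
    (hs : Group.IsSolvable (X ⧸ M)) : N ≤ M := by
  obtain ⟨k, hk⟩ := hs.solvable
  have key : ∀ k, N.map (QuotientGroup.mk' M) ≤ derivedSeries (X ⧸ M) k := by
    intro k
    induction k with
    | zero => rw [derivedSeries_zero]; exact le_top
    | succ k ih =>
      rw [derivedSeries_succ, ← hN, Subgroup.map_commutator]
      exact Subgroup.commutator_mono ih ih
  have h1 := key k
  rw [hk, le_bot_iff, Subgroup.map_eq_bot_iff, QuotientGroup.ker_mk'] at h1
  exact h1

/-- the solvable residual -/
theorem exists_residual {X : Type u} [Group X] [Finite X] : ∃ N : Subgroup X, ∃ _ : N.Normal,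
    ⁅N, N⁆ = N ∧ Group.IsSolvable (X ⧸ N) := by
  classical
  obtain ⟨n, hn⟩ : ∃ n, ∀ m, Nat.card (derivedSeries X n) ≤ Nat.card (derivedSeries X m) := by
    have h := (wellFounded_lt (α := ℕ)).has_min
      (Set.range (fun n => Nat.card (derivedSeries X n))) ⟨_, ⟨0, rfl⟩⟩
    obtain ⟨_, ⟨n, rfl⟩, hmin⟩ := h
    exact ⟨n, fun m => not_lt.mp (hmin _ ⟨m, rfl⟩)⟩
  refine ⟨derivedSeries X n, inferInstance, ?_, ?_⟩
  · have h1 : derivedSeries X (n + 1) ≤ derivedSeries X n := by
      rw [derivedSeries_succ]
      exact Subgroup.commutator_le_right _ _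
    have h2 := Subgroup.eq_of_le_of_card_ge h1 (hn (n + 1))
    rw [derivedSeries_succ] at h2
    exact h2
  · refine ⟨⟨n, ?_⟩⟩
    have hs : Function.Surjective (QuotientGroup.mk' (derivedSeries X n)) :=
      QuotientGroup.mk'_surjective _
    rw [← map_derivedSeries_eq hs n, Subgroup.map_eq_bot_iff, QuotientGroup.ker_mk']

theorem solvable_of_comm_comm {X : Type u} [Group X]
    (h : ∀ a ∈ commutator X, ∀ b ∈ commutator X, a * b = b * a) : Group.IsSolvable X := by
  refine ⟨⟨2, ?_⟩⟩
  rw [derivedSeries_succ, derivedSeries_one, eq_bot_iff, Subgroup.commutator_le]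
  intro a ha b hb
  rw [Subgroup.mem_bot, commutatorElement_eq_one_iff_mul_comm]
  exact h a ha b hb

variable {G : Type u} [Group G] [Finite G]

/-- induced characters of degree prime to `p` -/
theorem exists_above_coprime (X : Subgroup G) (ψ : IrrCharacter X) {p : ℕ}
    (h : ¬ p ∣ X.index * deg ψ) : ∃ χ : IrrCharacter G, Over X χ ψ ∧ ¬ p ∣ deg χ := by
  classical
  haveI := Fintype.ofFinite G
  haveI := Fintype.ofFinite X
  haveI := Fintype.ofFinite (IrrCharacter G)
  obtain ⟨m, hm, hsum⟩ := exists_mult_of_isCharacter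
    (indFun_isCharacter X (ψ : X → ℂ) (irr_isCharacter ψ))
  have h1 : X.index * deg ψ = ∑ χ, m χ * deg χ := by
    have h2 := congrFun hsum 1
    rw [indFun_one_apply, deg_spec] at h2
    have h3 : (((X.index * deg ψ : ℕ)) : ℂ) = ((∑ χ, m χ * deg χ : ℕ) : ℂ) := by
      push_cast
      rw [h2]
      simp [Finset.sum_apply, deg_spec]
    exact_mod_cast h3
  have h4 : ∃ χ, ¬ p ∣ m χ * deg χ := by
    by_contra hcon
    push Not at hcon
    apply h
    rw [h1]
    exact Finset.dvd_sum (fun χ _ => hcon χ)
  obtain ⟨χ, hχ⟩ := h4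
  refine ⟨χ, ?_, fun hd => hχ (hd.mul_left _)⟩
  rw [over_iff]
  intro h5
  apply hχ
  have h6 := hm χ
  rw [frobenius_reciprocity X _ _ (irr_isClassFunction χ)] at h6
  have h7 : classInner (ψ : X → ℂ) (fun k : X => (χ : G → ℂ) k) = 0 := by
    rw [← CharBase.classInner_conj_symm, h5, map_zero]
  rw [h7] at h6
  have h8 : m χ = 0 := by exact_mod_cast h6.symm
  rw [h8, zero_mul]
  exact dvd_zero _

/-- linear characters kill perfect subgroups -/
theorem kills_perfect (N : Subgroup G) (hN : ⁅N, N⁆ = N) (χ : IrrCharacter G) (h : deg χ = 1) :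
    ∀ x ∈ N, (χ : G → ℂ) x = (χ : G → ℂ) 1 := by
  intro x hx
  haveI := charKer_normal (irr_isCharacter χ)
  have hχ1 : (χ : G → ℂ) 1 = 1 := by rw [deg_spec, h, Nat.cast_one]
  have h1 : N ≤ charKer (irr_isCharacter χ) := by
    rw [← hN, Subgroup.commutator_le]
    intro a _ b _
    rw [mem_charKer, hχ1, commutatorElement_def]
    exact linear_commutator (irr_isCharacter χ) hχ1 a b
  exact h1 hx

/-- relative version of Thompson's theorem for perfect normal subgroups -/
theorem rel_thompson (N : Subgroup G) [hNn : N.Normal] (hN : ⁅N, N⁆ = N) {p : ℕ} (hp : p.Prime)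
    (hpN : p ∣ Nat.card N) :
    ∃ χ : IrrCharacter G, (¬ ∀ x ∈ N, (χ : G → ℂ) x = (χ : G → ℂ) 1) ∧ ¬ p ∣ deg χ := by
  classical
  haveI : Fact p.Prime := ⟨hp⟩
  obtain ⟨P⟩ : Nonempty (Sylow p G) := inferInstance
  set X := N ⊔ (P : Subgroup G) with hX
  have hNX : N ≤ X := le_sup_left
  have hPX : (P : Subgroup G) ≤ X := le_sup_right
  let N1 : Subgroup X := N.subgroupOf X
  haveI : N1.Normal := inferInstance
  have hN1 : ⁅N1, N1⁆ = N1 := by
    apply Subgroup.map_injective X.subtype_injective
    rw [Subgroup.map_commutator, Subgroup.map_subgroupOf_eq_of_le hNX, hN]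
  have hex : ∃ ψ : IrrCharacter X, deg ψ ≠ 1 ∧ ¬ p ∣ deg ψ := by
    by_contra hcon
    push Not at hcon
    obtain ⟨M, hM, hMp, k, hk⟩ := S4456.result (G := X) p hp (fun ψ hψ' => by
      rw [charDegree_eq_deg] at hψ' ⊢
      exact hcon ψ hψ')
    haveI := hM
    have hs : Group.IsSolvable (X ⧸ M) := by
      have hpg : IsPGroup p (X ⧸ M) := by
        rw [IsPGroup.iff_card]
        exact ⟨k, by rw [← Subgroup.index_eq_card]; exact hk⟩
      haveI := hpg.isNilpotent
      infer_instance
    have h1 := perfect_le N1 M hN1 hs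
    have h2 : Nat.card N1 ∣ Nat.card M := Subgroup.card_dvd_of_le h1
    have h3 : Nat.card N1 = Nat.card N := Nat.card_congr (Subgroup.subgroupOfEquivOfLe hNX).toEquiv
    rw [h3] at h2
    have h4 := Nat.dvd_gcd (hpN.trans h2) (dvd_refl p)
    rw [hMp] at h4
    exact hp.one_lt.ne' (Nat.dvd_one.mp h4)
  obtain ⟨ψ, hψ1, hψp⟩ := hex
  have hXi : ¬ p ∣ X.index := by
    intro h
    apply P.not_dvd_index
    rw [← Subgroup.relIndex_mul_index hPX]
    exact h.mul_left _
  obtain ⟨χ, hχ, hχp⟩ := exists_above_coprime X ψ (p := p) (by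
    intro h
    rcases (Nat.Prime.dvd_mul hp).mp h with h | h
    · exact hXi h
    · exact hψp h)
  refine ⟨χ, ?_, hχp⟩
  intro hk
  apply hψ1
  obtain ⟨θ, hθ⟩ := exists_under N1 ψ
  have hθ1 : deg θ = 1 := by
    apply deg_eq_one_of_forall
    intro x
    apply hθ.kills
    have := hχ.kills (x := (x : X)) (hk _ x.2)
    exact this
  obtain ⟨m, hm, hmi⟩ := hθ.deg_dvd
  rw [hθ1, one_mul] at hm
  have h1 : N1.index ∣ Nat.card P := by
    have : N1.index = N.relIndex (P : Subgroup G) := Subgroup.relIndex_sup_left _ _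
    rw [this]
    exact Subgroup.relIndex_dvd_card _ _
  obtain ⟨n, hn⟩ := (IsPGroup.iff_card (p := p)).mp P.isPGroup'
  rw [hn] at h1
  have h2 : deg ψ ∣ p ^ n := by rw [hm]; exact hmi.trans h1
  obtain ⟨i, -, hi⟩ := (Nat.dvd_prime_pow hp).mp h2
  rcases Nat.eq_zero_or_pos i with h0 | h0
  · rw [hi, h0, pow_zero]
  · exfalso
    apply hψp
    rw [hi]
    exact dvd_pow_self p h0.ne'

/-- **groups with at most three character degrees are solvable** -/
theorem isSolvable_three_aux (n : ℕ) : ∀ (G : Type u) [Group G] [Finite G], Nat.card G = n →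
    ∀ a b : ℕ, (∀ χ : IrrCharacter G, deg χ = 1 ∨ deg χ = a ∨ deg χ = b) →
    Group.IsSolvable G := by
  induction n using Nat.strong_induction_on with
  | _ n ih =>
  intro G _ _ hn a b hcd
  classical
  haveI := Fintype.ofFinite G
  by_contra hns
  wlog hab : a ≤ b generalizing a b
  · exact this b a (fun χ => by rcases hcd χ with h | h | h <;> tauto) (by omega)
  -- both degrees occur
  have htwo : ∀ c : ℕ, ¬ ∀ χ : IrrCharacter G, deg χ = 1 ∨ deg χ = c := by
    intro c hc
    exact hns (solvable_of_comm_comm (two_deg_comm c hc))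
  obtain ⟨χa, hχa⟩ : ∃ χ : IrrCharacter G, deg χ = a := by
    by_contra hcon
    push Not at hcon
    exact htwo b (fun χ => by
      rcases hcd χ with h | h | h
      · exact Or.inl h
      · exact absurd h (hcon χ)
      · exact Or.inr h)
  obtain ⟨χb, hχb⟩ : ∃ χ : IrrCharacter G, deg χ = b := by
    by_contra hcon
    push Not at hcon
    exact htwo a (fun χ => by
      rcases hcd χ with h | h | h
      · exact Or.inl h
      · exact Or.inr h
      · exact absurd h (hcon χ))
  have ha1 : a ≠ 1 := by
    rintro rfl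
    exact htwo b (fun χ => by rcases hcd χ with h | h | h <;> tauto)
  have hab' : a ≠ b := by
    rintro rfl
    exact htwo a (fun χ => by rcases hcd χ with h | h | h <;> tauto)
  have hlt : a < b := by omega
  have ha0 : 0 < a := hχa ▸ deg_pos χa
  have hb1 : b ≠ 1 := by omega
  -- proper quotients
  have hquot : ∀ (M : Subgroup G) (_ : M.Normal), M ≠ ⊥ → Group.IsSolvable (G ⧸ M) := by
    intro M hM hMb
    refine ih (Nat.card (G ⧸ M)) ?_ (G ⧸ M) rfl a b (fun χ => ?_)
    · rw [← hn, Subgroup.card_eq_card_quotient_mul_card_subgroup M]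
      have h1 : 1 < Nat.card M := by
        rw [Subgroup.one_lt_card_iff_ne_bot]; exact hMb
      have h2 : 0 < Nat.card (G ⧸ M) := Nat.card_pos
      nlinarith
    · obtain ⟨ψ, -, hψ⟩ := inflate M χ
      rw [← hψ]
      exact hcd ψ
  obtain ⟨N, hNn, hNp, hNs⟩ := exists_residual (X := G)
  have hNb : N ≠ ⊥ := by
    rintro rfl
    apply hns
    rw [Group.isSolvable_iff_subgroup_quotient (⊥ : Subgroup G)]
    exact ⟨inferInstance, hNs⟩
  have hNmin : ∀ M : Subgroup G, M.Normal → M ≠ ⊥ → N ≤ M := by
    intro M hM hMb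
    exact perfect_le N M hNp (hquot M hM hMb)
  have hfaith : ∀ χ : IrrCharacter G, (¬ ∀ x ∈ N, (χ : G → ℂ) x = (χ : G → ℂ) 1) →
      ∀ g, (χ : G → ℂ) g = (χ : G → ℂ) 1 → g = 1 := by
    intro χ hχ g hg
    by_contra hg1
    apply hχ
    haveI hkn := charKer_normal (irr_isCharacter χ)
    have h1 := hNmin (charKer (irr_isCharacter χ)) hkn (by
      intro h
      have h2 : g ∈ charKer (irr_isCharacter χ) := hg
      rw [h, Subgroup.mem_bot] at h2
      exact hg1 h2)
    intro x hx
    exact h1 hx
  have hNG : Nat.card N ∣ Nat.card G := Subgroup.card_subgroup_dvd_card N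
  -- coprime degrees
  have hcop : a.Coprime b := by
    by_contra hcon
    obtain ⟨p, hp, hpa, hpb⟩ := Nat.Prime.not_coprime_iff_dvd.mp hcon
    haveI : Fact p.Prime := ⟨hp⟩
    obtain ⟨M, hM, hMp, k, hk⟩ := S4456.result (G := G) p hp (fun ψ hψ' => by
      rw [charDegree_eq_deg] at hψ' ⊢
      rcases hcd ψ with h | h | h
      · exact absurd h hψ'
      · rw [h]; exact hpa
      · rw [h]; exact hpb)
    haveI := hM
    have hpG : p ∣ Nat.card G := by
      rw [← hχa] at hpa
      exact hpa.trans (deg_dvd χa)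
    have hMs : Group.IsSolvable M := by
      refine ih (Nat.card M) ?_ M rfl (ordCompl[p] a) (ordCompl[p] b) (fun θ => ?_)
      · rw [← hn]
        rcases (Subgroup.card_le_card_group M).lt_or_eq with h | h
        · exact h
        · exfalso
          have h4 := Nat.dvd_gcd hpG (dvd_refl p)
          rw [← h, hMp] at h4
          exact hp.one_lt.ne' (Nat.dvd_one.mp h4)
      · obtain ⟨χ, hχ⟩ := exists_above M θ
        obtain ⟨m, hm, hmi⟩ := hχ.deg_dvd
        rw [hk] at hmi
        obtain ⟨i, -, hi⟩ := (Nat.dvd_prime_pow hp).mp hmi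
        have hnd : ¬ p ∣ deg θ := by
          intro h5
          have h6 := Nat.dvd_gcd (h5.trans (deg_dvd θ)) (dvd_refl p)
          rw [hMp] at h6
          exact hp.one_lt.ne' (Nat.dvd_one.mp h6)
        have h7 : deg θ = ordCompl[p] (deg χ) := by
          rw [hm, hi, mul_comm, Nat.ordCompl_pow_mul_of_not_dvd i hp hnd]
        rw [h7]
        rcases hcd χ with h | h | h
        · left; rw [h]; simp
        · right; left; rw [h]
        · right; right; rw [h]
    apply hns
    rw [Group.isSolvable_iff_subgroup_quotient M]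
    refine ⟨hMs, ?_⟩
    have hpg : IsPGroup p (G ⧸ M) := by
      rw [IsPGroup.iff_card]
      exact ⟨k, by rw [← Subgroup.index_eq_card]; exact hk⟩
    haveI := hpg.isNilpotent
    infer_instance
  -- both degrees occur over N
  have hover : ∀ c : ℕ, ¬ ∀ χ : IrrCharacter G,
      (¬ ∀ x ∈ N, (χ : G → ℂ) x = (χ : G → ℂ) 1) → deg χ = c := by
    intro c hc
    apply hNb
    have hlin : ∀ θ : IrrCharacter N, deg θ = 1 := by
      intro θ
      obtain ⟨χ, hχ⟩ := exists_above N θ
      by_cases hk : ∀ x ∈ N, (χ : G → ℂ) x = (χ : G → ℂ) 1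
      · apply deg_eq_one_of_forall
        intro x
        exact hχ.kills (hk x x.2)
      · have h1 := hc χ hk
        by_contra h2
        obtain ⟨p, hp, hpd⟩ := Nat.exists_prime_and_dvd h2
        obtain ⟨χ', hχ', hp'⟩ := rel_thompson N hNp hp (hpd.trans (deg_dvd θ))
        apply hp'
        rw [hc χ' hχ', ← h1]
        exact hpd.trans hχ.dvd
    have h3 := comm_of_all_linear hlin
    rw [← hNp, eq_bot_iff, Subgroup.commutator_le]
    intro x hx y hy
    rw [Subgroup.mem_bot, commutatorElement_eq_one_iff_mul_comm]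
    exact congrArg Subtype.val (h3 ⟨x, hx⟩ ⟨y, hy⟩)
  obtain ⟨ξa, hξa, hξad⟩ : ∃ χ : IrrCharacter G,
      (¬ ∀ x ∈ N, (χ : G → ℂ) x = (χ : G → ℂ) 1) ∧ deg χ = a := by
    by_contra hcon
    push Not at hcon
    apply hover b
    intro χ hχ
    rcases hcd χ with h | h | h
    · exact absurd (kills_perfect N hNp χ h) hχ
    · push Not at hχ
      exact absurd h (hcon χ hχ)
    · exact h
  obtain ⟨ξb, hξb, hξbd⟩ : ∃ χ : IrrCharacter G,
      (¬ ∀ x ∈ N, (χ : G → ℂ) x = (χ : G → ℂ) 1) ∧ deg χ = b := by
    by_contra hcon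
    push Not at hcon
    apply hover a
    intro χ hχ
    rcases hcd χ with h | h | h
    · exact absurd (kills_perfect N hNp χ h) hχ
    · exact h
    · push Not at hχ
      exact absurd h (hcon χ hχ)
  by_cases hc : commutator G ≤ N
  · refine no_three a b hlt ha1 ha0 hcop hcd ?_ hχa hχb
    intro χ hχ
    apply hfaith
    intro hk
    apply hχ
    have h1 := Char.CC.degree_one_of_commutator χ.2 (fun x y => hk _ (hc (by
      rw [commutator_def]
      exact Subgroup.commutator_mem_commutator (Subgroup.mem_top _) (Subgroup.mem_top _))))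
    rw [deg_spec] at h1
    exact_mod_cast h1
  · haveI := hNs
    obtain ⟨K, hK, hNK, hKc, p, hp, h | ⟨L, hL⟩⟩ := exists_min_quot N hc
    · -- p-quotient
      haveI : Fact p.Prime := ⟨hp⟩
      obtain ⟨β, hβ⟩ := exists_nonlinear_quot K hKc
      obtain ⟨φ, -, hφ⟩ := inflate K β
      obtain ⟨k, hk⟩ := card_eq_pow hp h
      rw [← Subgroup.index_eq_card] at hk
      have h1 := deg_quot_dvd K β
      rw [hk] at h1
      obtain ⟨e, -, he⟩ := (Nat.dvd_prime_pow hp).mp h1
      have he0 : e ≠ 0 := by
        rintro rfl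
        exact hβ (by rw [he, pow_zero])
      have hprod : ∀ χ : IrrCharacter G, deg χ ≠ 1 → ¬ p ∣ deg χ →
          ∃ ψ : IrrCharacter G, deg ψ = deg β * deg χ := by
        intro χ _ hpd
        have h2 : (deg χ).Coprime K.index := by
          rw [hk]
          exact Nat.Coprime.pow_right k ((Nat.Prime.coprime_iff_not_dvd hp).mpr hpd).symm
        obtain ⟨ψ, -, hψ⟩ := gallagher_mul K χ (restrict_irr χ h2) β
        exact ⟨ψ, hψ⟩
      have hpβ : p ∣ deg β := by rw [he]; exact dvd_pow_self p he0
      have hβ' : deg β = a ∨ deg β = b := by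
        rcases hcd φ with h | h | h
        · exact absurd (hφ.symm.trans h) hβ
        · left; rw [← hφ, h]
        · right; rw [← hφ, h]
      have hfin : ∀ ψ : IrrCharacter G, deg ψ ≠ a * b := by
        intro ψ hψ
        rcases hcd ψ with h | h | h
        · rw [h] at hψ
          exact ha1 (Nat.eq_one_of_mul_eq_one_right hψ.symm)
        · rw [h] at hψ
          have : a * 1 = a * b := by rw [mul_one]; exact hψ
          exact hb1 (Nat.eq_of_mul_eq_mul_left ha0 this).symm
        · rw [h] at hψ
          have : 1 * b = a * b := by rw [one_mul]; exact hψ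
          exact ha1 (Nat.eq_of_mul_eq_mul_right (by omega) this).symm
      rcases hβ' with h2 | h2
      · have hpb : ¬ p ∣ b := by
          intro h3
          rw [h2] at hpβ
          have h4 := Nat.dvd_gcd hpβ h3
          rw [hcop] at h4
          exact hp.one_lt.ne' (Nat.dvd_one.mp h4)
        obtain ⟨ψ, hψ⟩ := hprod χb (by rw [hχb]; exact hb1) (by rw [hχb]; exact hpb)
        exact hfin ψ (by rw [hψ, h2, hχb])
      · have hpa : ¬ p ∣ a := by
          intro h3
          rw [h2] at hpβ
          have h4 := Nat.dvd_gcd h3 hpβ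
          rw [hcop] at h4
          exact hp.one_lt.ne' (Nat.dvd_one.mp h4)
        obtain ⟨ψ, hψ⟩ := hprod χa (by rw [hχa]; exact ha1) (by rw [hχa]; exact hpa)
        exact hfin ψ (by rw [hψ, h2, hχa, mul_comm])
    · -- Frobenius quotient
      haveI := hL.hL
      haveI := hL.hK
      haveI : Fact p.Prime := ⟨hL.hp⟩
      have hL1 : L.index ≠ 1 := fun h => hL.hLtop (Subgroup.index_eq_one.mp h)
      have hL0 : L.index ≠ 0 := Subgroup.index_ne_zero_of_finite
      have hone : deg (oneIrr L) = 1 := by
        have := deg_spec (oneIrr L)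
        rw [oneIrr_apply] at this
        exact_mod_cast this.symm
      obtain ⟨χ0, hχ0⟩ := hL.deg (oneIrr L) (by
        rw [hone]
        intro h
        exact hL.hp.one_lt.ne' (Nat.dvd_one.mp h))
      rw [hone, mul_one] at hχ0
      have hLi : L.index = a ∨ L.index = b := by
        rcases hcd χ0 with h | h | h
        · exact absurd (hχ0.symm.trans h) hL1
        · left; rw [← hχ0, h]
        · right; rw [← hχ0, h]
      -- nonlinear characters of L
      have hψ : ∀ ψ : IrrCharacter L, deg ψ ≠ 1 → p ∣ deg ψ := by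
        intro ψ h1
        by_contra h2
        obtain ⟨χ, hχ⟩ := hL.deg ψ h2
        have h3 : L.index ∣ deg χ := ⟨_, hχ⟩
        rcases hcd χ with h | h | h
        · rw [h] at h3
          exact hL1 (Nat.dvd_one.mp h3)
        · rcases hLi with h4 | h4
          · rw [h4, h] at hχ
            have : a * 1 = a * deg ψ := by rw [mul_one]; exact hχ
            exact h1 (Nat.eq_of_mul_eq_mul_left ha0 this).symm
          · rw [h4, h] at h3
            have h5 := Nat.dvd_gcd h3 (dvd_refl b)
            rw [hcop] at h5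
            exact hb1 (Nat.dvd_one.mp h5)
        · rcases hLi with h4 | h4
          · rw [h4, h] at h3
            have h5 := Nat.dvd_gcd (dvd_refl a) h3
            rw [hcop] at h5
            exact ha1 (Nat.dvd_one.mp h5)
          · rw [h4, h] at hχ
            have : b * 1 = b * deg ψ := by rw [mul_one]; exact hχ
            exact h1 (Nat.eq_of_mul_eq_mul_left (by omega) this).symm
      have hall : ∀ χ : IrrCharacter G, (¬ ∀ x ∈ N, (χ : G → ℂ) x = (χ : G → ℂ) 1) →
          p ∣ deg χ := by
        intro χ hχ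
        by_contra hpd
        apply hχ
        have h1 := kills_of_linear L χ (fun ψ hψo => by
          by_contra h2
          exact hpd ((hψ ψ h2).trans hψo.dvd))
        intro x hx
        apply h1
        rw [← hNp] at hx
        exact Subgroup.commutator_mono (hNK.trans hL.hKL) (hNK.trans hL.hKL) hx
      have h2 := hall ξa hξa
      have h3 := hall ξb hξb
      rw [hξad] at h2
      rw [hξbd] at h3
      have h4 := Nat.dvd_gcd h2 h3
      rw [hcop] at h4
      exact hL.hp.one_lt.ne' (Nat.dvd_one.mp h4)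

/-- **Isaacs**: at most three character degrees -/
theorem derived_three (a b : ℕ) (hcd : ∀ χ : IrrCharacter G, deg χ = 1 ∨ deg χ = a ∨ deg χ = b) :
    derivedSeries G 3 = ⊥ :=
  solvable_three (isSolvable_three_aux _ G rfl a b hcd) a b hcd

end Cfsg.Agent.H53.D3
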