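import Mathlib

/-!
Complete families of orthogonal projections permuted by a linear map, and the projections of a finite
abelian group of operators.
-/

set_option autoImplicit false
open Module

namespace Cfsg.Agent.H53.Fl

section star
variable {K : Type*} [Field K] {W : Type*} [AddCommGroup W] [Module K W]
  {Ω : Type*} [Fintype Ω] {π : Ω → Module.End K W}

/-- complete family of orthogonal projections -/
structure Fam (π : Ω → Module.End K W) : Prop where
  sum : ∑ ω, π ω = 1
  orth : ∀ ω ω', ω ≠ ω' → π ω * π ω' = 0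

theorem Fam.idem (h : Fam π) (ω : Ω) : π ω * π ω = π ω := by
  classical
  have h1 : π ω * ∑ ω', π ω' = π ω := by rw [h.sum, mul_one]
  rw [Finset.mul_sum, Finset.sum_eq_single ω] at h1
  · exact h1
  · intro b _ hb; exact h.orth ω b (Ne.symm hb)
  · intro hω; exact absurd (Finset.mem_univ ω) hω

theorem Fam.apply_mem (h : Fam π) {ω : Ω} {v : W} (hv : v ∈ LinearMap.range (π ω)) : π ω v = v := by
  obtain ⟨w, rfl⟩ := hv
  rw [← Module.End.mul_apply, h.idem]

theorem Fam.eq_sum (h : Fam π) (v : W) : v = ∑ ω, π ω v := by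
  have := congrArg (fun f : Module.End K W => f v) h.sum
  simp only [LinearMap.sum_apply, Module.End.one_apply] at this
  exact this.symm

theorem Fam.eq_zero (h : Fam π) {v : W} (hv : ∀ ω, π ω v = 0) : v = 0 := by
  rw [h.eq_sum v]
  exact Finset.sum_eq_zero (fun ω _ => hv ω)

/-- dimension of a component -/
noncomputable def dm (π : Ω → Module.End K W) (ω : Ω) : ℕ := finrank K (LinearMap.range (π ω))

variable [FiniteDimensional K W]

omit [Fintype Ω] in
theorem Fam.finrank_le (C : Submodule K W) {ι : Type*} [Fintype ι] (f : ι → Ω)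
    (hC : ∀ v ∈ C, (∀ i, π (f i) v = 0) → v = 0) : finrank K C ≤ ∑ i, dm π (f i) := by
  let F : C →ₗ[K] (∀ i, LinearMap.range (π (f i))) :=
    LinearMap.pi (fun i => (π (f i)).rangeRestrict.comp C.subtype)
  have hF : Function.Injective F := by
    rw [injective_iff_map_eq_zero]
    intro v hv
    apply Subtype.ext
    apply hC v v.2
    intro i
    have := congrFun hv i
    exact congrArg Subtype.val this
  have h1 := LinearMap.finrank_le_finrank_of_injective hF
  rw [Module.finrank_pi_fintype] at h1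
  exact h1

theorem Fam.sum_dm (h : Fam π) : ∑ ω, dm π ω = finrank K W := by
  classical
  apply le_antisymm
  · let F : (∀ ω, LinearMap.range (π ω)) →ₗ[K] W :=
      ∑ ω, (LinearMap.range (π ω)).subtype.comp (LinearMap.proj ω)
    have hFa : ∀ w, F w = ∑ ω, (w ω : W) := by
      intro w
      simp [F, LinearMap.sum_apply]
    have hF : Function.Injective F := by
      rw [injective_iff_map_eq_zero]
      intro w hw
      funext ω
      apply Subtype.ext
      have h1 : π ω (F w) = (w ω : W) := by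
        rw [hFa, map_sum, Finset.sum_eq_single ω]
        · exact h.apply_mem (w ω).2
        · intro b _ hb
          rw [← h.apply_mem (w b).2, ← Module.End.mul_apply, h.orth ω b (Ne.symm hb)]
          rfl
        · intro hω; exact absurd (Finset.mem_univ ω) hω
      rw [← h1, hw, map_zero]
      rfl
    have h1 := LinearMap.finrank_le_finrank_of_injective hF
    rw [Module.finrank_pi_fintype] at h1
    exact h1
  · rw [← finrank_top K W]
    exact Fam.finrank_le ⊤ id (fun v _ hv => h.eq_zero hv)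

theorem Fam.sum_le (h : Fam π) (C : Submodule K W) (S : Ω → Prop) [DecidablePred S]
    (hS : ∀ ω, S ω → LinearMap.range (π ω) ≤ C) : ∑ ω with S ω, dm π ω ≤ finrank K C := by
  classical
  let F : (∀ ω : {ω // S ω}, LinearMap.range (π ω)) →ₗ[K] C :=
    (∑ ω : {ω // S ω}, (LinearMap.range (π ω)).subtype.comp (LinearMap.proj ω)).codRestrict C (fun w => by
      rw [LinearMap.sum_apply]
      exact Submodule.sum_mem _ (fun ω _ => hS ω ω.2 (w ω).2))
  have hFa : ∀ w, (F w : W) = ∑ ω : {ω // S ω}, (w ω : W) := by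
    intro w
    change (∑ ω : {ω // S ω}, (LinearMap.range (π ω)).subtype.comp (LinearMap.proj ω)) w = _
    simp [LinearMap.sum_apply]
  have hF : Function.Injective F := by
    rw [injective_iff_map_eq_zero]
    intro w hw
    funext ω
    apply Subtype.ext
    have h1 : π ω (F w : W) = (w ω : W) := by
      rw [hFa, map_sum, Finset.sum_eq_single ω]
      · exact h.apply_mem (w ω).2
      · intro b _ hb
        rw [← h.apply_mem (w b).2, ← Module.End.mul_apply, h.orth ω b (fun hh => hb (Subtype.ext hh.symm))]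
        rfl
      · intro hω; exact absurd (Finset.mem_univ ω) hω
    rw [← h1, hw, Submodule.coe_zero, map_zero]
    rfl
  have h1 := LinearMap.finrank_le_finrank_of_injective hF
  rw [Module.finrank_pi_fintype] at h1
  rw [← Finset.sum_subtype_eq_sum_filter, Finset.subtype_univ]
  exact h1

variable {T : Module.End K W} {σ : Equiv.Perm Ω}

theorem dm_le (h : Fam π) (hTi : Function.Injective T) (hT : ∀ ω, T * π ω = π (σ ω) * T) (ω : Ω) :
    dm π ω ≤ dm π (σ ω) := by
  let F : LinearMap.range (π ω) →ₗ[K] LinearMap.range (π (σ ω)) :=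
    (T.comp (LinearMap.range (π ω)).subtype).codRestrict _ (fun v => by
      refine ⟨T v, ?_⟩
      rw [← Module.End.mul_apply, ← hT, Module.End.mul_apply, h.apply_mem v.2]
      rfl)
  apply LinearMap.finrank_le_finrank_of_injective (f := F)
  intro a b hab
  apply Subtype.ext
  exact hTi (congrArg Subtype.val hab)

theorem dm_eq (h : Fam π) (hTi : Function.Injective T) (hT : ∀ ω, T * π ω = π (σ ω) * T) (ω : Ω) :
    dm π (σ ω) = dm π ω := by
  have h1 : ∑ ω, dm π ω = ∑ ω, dm π (σ ω) := (Equiv.sum_comp σ (dm π)).symm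
  have h2 := (Finset.sum_eq_sum_iff_of_le (fun ω _ => dm_le h hTi hT ω)).1 h1 ω (Finset.mem_univ ω)
  exact h2.symm

theorem dm_pow (h : Fam π) (hTi : Function.Injective T) (hT : ∀ ω, T * π ω = π (σ ω) * T) (ω : Ω) (n : ℕ) :
    dm π ((σ ^ n) ω) = dm π ω := by
  induction n with
  | zero => simp
  | succ n ih => rw [pow_succ', Equiv.Perm.mul_apply, dm_eq h hTi hT, ih]

omit [Fintype Ω] [FiniteDimensional K W] in
theorem T_pow (hT : ∀ ω, T * π ω = π (σ ω) * T) {v : W} (hv : T v = v) {ω : Ω} (h0 : π ω v = 0) (n : ℕ) :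
    π ((σ ^ n) ω) v = 0 := by
  induction n with
  | zero => simpa using h0
  | succ n ih =>
    rw [pow_succ', Equiv.Perm.mul_apply]
    nth_rewrite 1 [← hv]
    rw [← Module.End.mul_apply, ← hT, Module.End.mul_apply, ih, map_zero]

/-- The averaging inequality. -/
theorem Fam.averaging (h : Fam π) (hTi : Function.Injective T) (hT : ∀ ω, T * π ω = π (σ ω) * T)
    (S : Ω → Prop) [DecidablePred S] (m k : ℕ)
    (hS : ∀ ω, dm π ω ≠ 0 → ((Finset.range m).filter (fun i => S ((σ ^ i) ω))).card ≤ k) :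
    m * ∑ ω with S ω, dm π ω ≤ k * finrank K W := by
  have h1 : ∀ i : ℕ, ∑ ω with S ω, dm π ω = ∑ ω, if S ((σ ^ i) ω) then dm π ω else 0 := by
    intro i
    rw [Finset.sum_filter, ← Equiv.sum_comp (σ ^ i)]
    refine Finset.sum_congr rfl (fun ω _ => ?_)
    rw [dm_pow h hTi hT]
  calc m * ∑ ω with S ω, dm π ω = ∑ i ∈ Finset.range m, ∑ ω, (if S ((σ ^ i) ω) then dm π ω else 0) := by
        rw [Finset.sum_congr rfl (fun i _ => (h1 i).symm), Finset.sum_const, Finset.card_range, smul_eq_mul]
    _ = ∑ ω, ∑ i ∈ Finset.range m, (if S ((σ ^ i) ω) then dm π ω else 0) := Finset.sum_comm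
    _ ≤ ∑ ω, k * dm π ω := by
        refine Finset.sum_le_sum (fun ω _ => ?_)
        rw [← Finset.sum_filter, Finset.sum_const, smul_eq_mul]
        by_cases h0 : dm π ω = 0
        · simp [h0]
        · exact Nat.mul_le_mul_right _ (hS ω h0)
    _ = k * finrank K W := by rw [← Finset.mul_sum, h.sum_dm]

/-- The fixed space of an operator of prime order permuting the components. -/
theorem Fam.star (h : Fam π) (hTi : Function.Injective T) (hT : ∀ ω, T * π ω = π (σ ω) * T)
    {p : ℕ} (hp : p.Prime) (hσ : σ ^ p = 1) [DecidableEq Ω] :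
    p * finrank K (LinearMap.ker (T - 1)) ≤ finrank K W + (p - 1) * ∑ ω with σ ω = ω, dm π ω := by
  classical
  let s := Equiv.Perm.SameCycle.setoid σ
  have : Fintype (Quotient s) := Fintype.ofFinite _
  have hcyc : ∀ a b : Ω, Equiv.Perm.SameCycle σ a b → ∃ n : ℕ, (σ ^ n) a = b := by
    intro a b hab
    obtain ⟨n, -, hn⟩ := hab.exists_pow_eq' 
    exact ⟨n, hn⟩
  have h1 : finrank K (LinearMap.ker (T - 1)) ≤ ∑ q : Quotient s, dm π q.out := by
    apply Fam.finrank_le
    intro v hv h0
    have hv' : T v = v := by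
      rw [LinearMap.mem_ker, LinearMap.sub_apply, Module.End.one_apply, sub_eq_zero] at hv
      exact hv
    apply h.eq_zero
    intro ω
    have h2 : Equiv.Perm.SameCycle σ (Quotient.mk s ω).out ω :=
      Quotient.exact (s := s) (Quotient.out_eq (Quotient.mk s ω))
    obtain ⟨n, hn⟩ := hcyc _ _ h2
    rw [← hn]
    exact T_pow hT hv' (h0 _) n
  have h2 : ∀ q : Quotient s, p * dm π q.out ≤ ∑ ω with Quotient.mk s ω = q, dm π ω +
      (p - 1) * ∑ ω with Quotient.mk s ω = q, (if σ ω = ω then dm π ω else 0) := by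
    intro q
    set ω₀ := q.out with hω₀
    have hq : Quotient.mk s ω₀ = q := Quotient.out_eq q
    by_cases hfix : σ ω₀ = ω₀
    · have h3 : dm π ω₀ ≤ ∑ ω with Quotient.mk s ω = q, dm π ω :=
        Finset.single_le_sum (f := fun ω => dm π ω) (fun _ _ => Nat.zero_le _)
          (Finset.mem_filter.2 ⟨Finset.mem_univ _, hq⟩)
      have h4 : dm π ω₀ ≤ ∑ ω with Quotient.mk s ω = q, (if σ ω = ω then dm π ω else 0) := by
        have := Finset.single_le_sum (s := Finset.univ.filter (fun ω => Quotient.mk s ω = q))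
          (f := fun ω => if σ ω = ω then dm π ω else 0) (fun _ _ => Nat.zero_le _)
          (Finset.mem_filter.2 ⟨Finset.mem_univ ω₀, hq⟩)
        simpa [hfix] using this
      calc p * dm π ω₀ = dm π ω₀ + (p - 1) * dm π ω₀ := by
            have := hp.one_lt
            obtain ⟨m, rfl⟩ : ∃ m, p = m + 1 := ⟨p - 1, by omega⟩
            simp; ring
        _ ≤ _ := Nat.add_le_add h3 (Nat.mul_le_mul_left _ h4)
    · refine le_trans ?_ (Nat.le_add_right _ _)
      have hinj : Set.InjOn (fun i : ℕ => (σ ^ i) ω₀) (Finset.range p : Set ℕ) := by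
        have hper : Function.IsPeriodicPt σ p ω₀ := by
          change σ^[p] ω₀ = ω₀
          rw [Equiv.Perm.iterate_eq_pow, hσ]; rfl
        have hmin : Function.minimalPeriod σ ω₀ = p := by
          rcases (Nat.dvd_prime hp).1 hper.minimalPeriod_dvd with h3 | h3
          · exact absurd (Function.minimalPeriod_eq_one_iff_isFixedPt.1 h3) hfix
          · exact h3
        intro i hi j hj hij
        have h5 := Function.iterate_injOn_Iio_minimalPeriod (f := σ) (x := ω₀)
        rw [hmin] at h5
        apply h5 (by simpa using hi) (by simpa using hj)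
        simpa [Equiv.Perm.iterate_eq_pow] using hij
      have h6 : ∑ i ∈ Finset.range p, dm π ((σ ^ i) ω₀) ≤ ∑ ω with Quotient.mk s ω = q, dm π ω := by
        rw [← Finset.sum_image (f := dm π) hinj]
        apply Finset.sum_le_sum_of_subset
        intro ω hω
        rw [Finset.mem_image] at hω
        obtain ⟨i, -, rfl⟩ := hω
        rw [Finset.mem_filter]
        refine ⟨Finset.mem_univ _, ?_⟩
        rw [← hq]
        apply Quotient.sound
        change Equiv.Perm.SameCycle σ _ _
        exact Equiv.Perm.SameCycle.symm ⟨i, by simp⟩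
      refine le_trans ?_ h6
      rw [Finset.sum_congr rfl (fun i _ => dm_pow h hTi hT ω₀ i), Finset.sum_const, Finset.card_range, smul_eq_mul]
  calc p * finrank K (LinearMap.ker (T - 1)) ≤ p * ∑ q : Quotient s, dm π q.out := Nat.mul_le_mul_left _ h1
    _ = ∑ q : Quotient s, p * dm π q.out := Finset.mul_sum _ _ _
    _ ≤ ∑ q : Quotient s, (∑ ω with Quotient.mk s ω = q, dm π ω +
      (p - 1) * ∑ ω with Quotient.mk s ω = q, (if σ ω = ω then dm π ω else 0)) := Finset.sum_le_sum (fun q _ => h2 q)
    _ = ∑ ω, dm π ω + (p - 1) * ∑ ω, (if σ ω = ω then dm π ω else 0) := by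
        rw [Finset.sum_add_distrib, ← Finset.mul_sum, Finset.sum_fiberwise, Finset.sum_fiberwise]
    _ = _ := by rw [h.sum_dm, Finset.sum_filter]

end star

section prj
variable {K : Type*} [Field K] {U : Type*} [AddCommGroup U] [Module K U]
  {A : Type*} [CommGroup A] [Fintype A] (α : A →* Module.End K U)

/-- projection on a weight space -/
noncomputable def prj (χ : A →* Kˣ) : Module.End K U :=
  (Nat.card A : K)⁻¹ • ∑ b : A, ((χ b⁻¹ : Kˣ) : K) • α b

theorem mul_prj (χ : A →* Kˣ) (a : A) : α a * prj α χ = (χ a : K) • prj α χ := by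
  rw [prj, mul_smul_comm, smul_comm (χ a : K)]
  congr 1
  rw [Finset.mul_sum, Finset.smul_sum]
  rw [← Equiv.sum_comp (Equiv.mulLeft a) (fun b => (χ a : K) • ((χ b⁻¹ : Kˣ) : K) • α b)]
  refine Finset.sum_congr rfl (fun b _ => ?_)
  rw [mul_smul_comm, ← map_mul, smul_smul, Equiv.coe_mulLeft, ← Units.val_mul, ← map_mul]
  congr 3
  rw [mul_inv, mul_inv_cancel_left]

theorem prj_mul (χ : A →* Kˣ) (a : A) : prj α χ * α a = (χ a : K) • prj α χ := by
  rw [← mul_prj, prj, mul_smul_comm, smul_mul_assoc, Finset.mul_sum, Finset.sum_mul]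
  congr 1
  refine Finset.sum_congr rfl (fun b _ => ?_)
  rw [mul_smul_comm, smul_mul_assoc, ← map_mul, ← map_mul, mul_comm]

theorem prj_apply_of_mem (hA : (Nat.card A : K) ≠ 0) {χ : A →* Kˣ} {v : U} (hv : ∀ b, α b v = (χ b : K) • v) :
    prj α χ v = v := by
  rw [prj, LinearMap.smul_apply, LinearMap.sum_apply]
  have : ∀ b ∈ Finset.univ, (((χ b⁻¹ : Kˣ) : K) • α b) v = v := by
    intro b _
    rw [LinearMap.smul_apply, hv, smul_smul, ← Units.val_mul, ← map_mul]
    simp
  rw [Finset.sum_congr rfl this, Finset.sum_const, Finset.card_univ, ← Nat.card_eq_fintype_card,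
    ← Nat.cast_smul_eq_nsmul K, smul_smul, inv_mul_cancel₀ hA, one_smul]

theorem mem_range_prj (hA : (Nat.card A : K) ≠ 0) {χ : A →* Kˣ} {v : U} :
    v ∈ LinearMap.range (prj α χ) ↔ ∀ b, α b v = (χ b : K) • v := by
  constructor
  · rintro ⟨w, rfl⟩ b
    rw [← Module.End.mul_apply, mul_prj]
    rfl
  · intro hv
    exact ⟨v, prj_apply_of_mem α hA hv⟩

theorem prj_fam [Fintype (A →* Kˣ)] [HasEnoughRootsOfUnity K (Monoid.exponent A)]
    (hA : (Nat.card A : K) ≠ 0) : Fam (prj α) := by
  classical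
  constructor
  · have h1 : ∀ b : A, b ≠ 1 → ∑ χ : A →* Kˣ, ((χ b⁻¹ : Kˣ) : K) = 0 := by
      intro b hb
      obtain ⟨ψ, hψ⟩ := CommGroup.exists_apply_ne_one_of_hasEnoughRootsOfUnity A K (a := b⁻¹) (by simpa using hb)
      have h2 : ∑ χ : A →* Kˣ, ((χ b⁻¹ : Kˣ) : K) = ((ψ b⁻¹ : Kˣ) : K) * ∑ χ : A →* Kˣ, ((χ b⁻¹ : Kˣ) : K) := by
        rw [Finset.mul_sum]
        rw [← Equiv.sum_comp (Equiv.mulLeft ψ)]
        refine Finset.sum_congr rfl (fun χ _ => ?_)
        simp
      have h3 : (1 - ((ψ b⁻¹ : Kˣ) : K)) * ∑ χ : A →* Kˣ, ((χ b⁻¹ : Kˣ) : K) = 0 := by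
        rw [sub_mul, one_mul, ← h2, sub_self]
      rcases mul_eq_zero.1 h3 with h4 | h4
      · exfalso
        apply hψ
        apply Units.ext
        rw [Units.val_one]
        exact (sub_eq_zero.1 h4).symm
      · exact h4
    simp only [prj]
    rw [← Finset.smul_sum, Finset.sum_comm]
    have h2 : ∀ b ∈ (Finset.univ : Finset A), ∑ χ : A →* Kˣ, ((χ b⁻¹ : Kˣ) : K) • α b =
        if b = 1 then (Nat.card A : K) • (1 : Module.End K U) else 0 := by
      intro b _
      rw [← Finset.sum_smul]
      split_ifs with hb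
      · subst hb
        rw [map_one]
        congr 1
        simp only [inv_one, map_one, Units.val_one, Finset.sum_const, Finset.card_univ, nsmul_eq_mul, mul_one]
        rw [← Nat.card_eq_fintype_card, CommGroup.card_monoidHom_of_hasEnoughRootsOfUnity]
      · rw [h1 b hb, zero_smul]
    rw [Finset.sum_congr rfl h2, Finset.sum_ite_eq' Finset.univ (1 : A), if_pos (Finset.mem_univ _), smul_smul,
      inv_mul_cancel₀ hA, one_smul]
  · intro χ ψ hne
    have h1 : prj α χ * prj α ψ = ((Nat.card A : K)⁻¹ * ∑ b : A, ((χ * ψ⁻¹ : A →* Kˣ) b : K)) • prj α χ := by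
      conv_lhs => rw [prj.eq_def α ψ]
      rw [mul_smul_comm, Finset.mul_sum, mul_smul, Finset.sum_smul]
      congr 1
      refine Finset.sum_congr rfl (fun b _ => ?_)
      rw [mul_smul_comm, prj_mul, smul_smul, mul_comm]
      congr 1
      simp
    have h2 : ∑ b : A, ((χ * ψ⁻¹ : A →* Kˣ) b : K) = 0 := by
      have h3 : ((Units.coeHom K).comp (χ * ψ⁻¹)) ≠ 1 := by
        intro h4
        apply hne
        have h5 : χ * ψ⁻¹ = 1 := by
          ext b
          exact congrArg (fun f : A →* K => f b) h4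
        exact mul_inv_eq_one.1 h5
      exact sum_hom_units_eq_zero _ h3
    rw [h1, h2, mul_zero, zero_smul]

theorem conj_prj {T : Module.End K U} {τ : A ≃* A} (hT : ∀ a, T * α a = α (τ a) * T) (χ : A →* Kˣ) :
    T * prj α χ = prj α (χ.comp τ.symm.toMonoidHom) * T := by
  rw [prj, prj, mul_smul_comm, smul_mul_assoc, Finset.mul_sum, Finset.sum_mul]
  congr 1
  rw [← Equiv.sum_comp τ.toEquiv (fun b => ((χ.comp τ.symm.toMonoidHom) b⁻¹ : K) • α b * T)]
  refine Finset.sum_congr rfl (fun b _ => ?_)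
  rw [mul_smul_comm, hT, smul_mul_assoc]
  congr 2
  simp

end prj

end Cfsg.Agent.H53.Fl
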