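import Mathlib
import Cfsg.Agent.Solv.MinNormal

/-!
A solvable group generated by the conjugates of an element of prime order `p`: at most the fraction `1/p` of the
conjugates lies in a given proper subgroup.
-/

set_option autoImplicit false
open Subgroup

namespace Cfsg.Agent.H53.Fl

theorem fixed_mul_le {B : Type*} [CommGroup B] [Finite B] (τ : B ≃* B) {p : ℕ} (hp : p.Prime)
    (hτ : ∀ b, τ^[p] b = b) (hne : ∃ b, τ b ≠ b) : p * Nat.card {b : B // τ b = b} ≤ Nat.card B := by
  classical
  let φ : B →* B :=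
    { toFun := fun b => b⁻¹ * τ b
      map_one' := by simp
      map_mul' := by
        intro a b
        rw [map_mul, mul_inv]
        rw [mul_mul_mul_comm] }
  have hφ : ∀ b, φ b = b⁻¹ * τ b := fun _ => rfl
  have hker : Nat.card {b : B // τ b = b} = Nat.card φ.ker := by
    apply Nat.card_congr
    refine Equiv.subtypeEquivRight (fun b => ?_)
    rw [MonoidHom.mem_ker, hφ, inv_mul_eq_one, eq_comm]
  have hcard : Nat.card B = Nat.card φ.ker * Nat.card φ.range := by
    have h1 := Subgroup.card_mul_index φ.ker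
    rw [Subgroup.index_ker] at h1
    exact h1.symm
  obtain ⟨b, hb⟩ := hne
  have hmem : ∀ i : ℕ, b⁻¹ * τ^[i] b ∈ φ.range := by
    intro i
    induction i with
    | zero => simp
    | succ i ih =>
      rw [Function.iterate_succ_apply']
      have : b⁻¹ * τ (τ^[i] b) = (b⁻¹ * τ^[i] b) * φ (τ^[i] b) := by
        rw [hφ]; group
      rw [this]
      exact mul_mem ih ⟨_, rfl⟩
  have hmin : Function.minimalPeriod τ b = p := by
    have hper : Function.IsPeriodicPt τ p b := hτ b
    rcases (Nat.dvd_prime hp).1 hper.minimalPeriod_dvd with h3 | h3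
    · exact absurd (Function.minimalPeriod_eq_one_iff_isFixedPt.1 h3) hb
    · exact h3
  have hle : p ≤ Nat.card φ.range := by
    have hinj : Function.Injective (fun i : Fin p => (⟨b⁻¹ * τ^[i] b, hmem i⟩ : φ.range)) := by
      intro i j hij
      have h1 : τ^[i] b = τ^[j] b := mul_left_cancel (congrArg Subtype.val hij)
      have h5 := Function.iterate_injOn_Iio_minimalPeriod (f := τ) (x := b)
      rw [hmin] at h5
      exact Fin.ext (h5 i.2 j.2 h1)
    have := Nat.card_le_card_of_injective _ hinj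
    rwa [Nat.card_fin] at this
  rw [hker, hcard, mul_comm]
  exact Nat.mul_le_mul_left _ hle

/-- core-free case -/
theorem ratio_core {G : Type*} [Group G] [Finite G] [Group.IsSolvable G] {p : ℕ} (hp : p.Prime) {x : G}
    (hx : orderOf x = p) (hgen : normalClosure ({x} : Set G) = ⊤) (T : Subgroup G) (hT : IsCoatom T)
    (hcore : T.normalCore = ⊥) : p * Nat.card {g : G // g * x * g⁻¹ ∈ T} ≤ Nat.card G := by
  classical
  -- a minimal normal subgroup
  have hGnt : Nontrivial G := by
    refine ⟨⟨x, 1, ?_⟩⟩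
    rintro rfl
    rw [orderOf_one] at hx
    exact hp.one_lt.ne hx
  obtain ⟨M, hMn, hMne, hMmin⟩ : ∃ M : Subgroup G, M.Normal ∧ M ≠ ⊥ ∧ ∀ L : Subgroup G, L.Normal → L ≤ M → L ≠ ⊥ → L = M := by
    have hwf : WellFounded (fun a b : Subgroup G => a < b) := wellFounded_lt
    let s : Set (Subgroup G) := {L | L.Normal ∧ L ≠ ⊥}
    have hs : s.Nonempty := ⟨⊤, inferInstance, top_ne_bot⟩
    refine ⟨hwf.min s hs, (hwf.min_mem s hs).1, (hwf.min_mem s hs).2, ?_⟩
    intro L hL hLM hLne
    by_contra hne
    exact hwf.not_lt_min s ⟨hL, hLne⟩ (lt_of_le_of_ne hLM hne)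
  have hMc : ∀ a ∈ M, ∀ b ∈ M, a * b = b * a := by
    have h1 : ⁅M, M⁆ = ⊥ := by
      by_contra hne
      have h2 := hMmin ⁅M, M⁆ inferInstance (Subgroup.commutator_le_left M M) hne
      have h3 : ¬ Group.IsSolvable M := by
        intro hs
        have := hs
        apply hMne
        have hd : ∀ n, (derivedSeries M n).map M.subtype = M := by
          intro n
          induction n with
          | zero => rw [derivedSeries_zero, ← MonoidHom.range_eq_map, Subgroup.range_subtype]
          | succ n ih => rw [derivedSeries_succ, Subgroup.map_commutator, ih, h2]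
        obtain ⟨n, hn⟩ := hs.solvable
        rw [← hd n, hn, Subgroup.map_bot]
      exact h3 inferInstance
    intro a ha b hb
    have h2 := Subgroup.commutator_mem_commutator ha hb
    rw [h1, Subgroup.mem_bot, commutatorElement_eq_one_iff_mul_comm] at h2
    exact h2
  have hMT : ¬ M ≤ T := by
    intro h
    have : M ≤ T.normalCore := Subgroup.normal_le_normalCore.2 h
    rw [hcore] at this
    exact hMne (le_bot_iff.1 this)
  have hsup : T ⊔ M = ⊤ := by
    apply hT.2
    refine lt_of_le_of_ne le_sup_left ?_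
    intro h
    exact hMT (h ▸ le_sup_right)
  have hdec : ∀ g : G, ∃ t ∈ T, ∃ m ∈ M, g = t * m := by
    intro g
    have : g ∈ T ⊔ M := by rw [hsup]; trivial
    obtain ⟨t, ht, m, hm, h⟩ := Subgroup.mem_sup_of_normal_right.1 this
    exact ⟨t, ht, m, hm, h.symm⟩
  have hinf : M ⊓ T = ⊥ := by
    have hn : (M ⊓ T).Normal := by
      constructor
      rintro n ⟨hn1, hn2⟩ g
      obtain ⟨t, ht, m, hm, rfl⟩ := hdec g
      have h1 : m * n * m⁻¹ = n := by rw [hMc m hm n hn1]; group
      have h2 : t * m * n * (t * m)⁻¹ = t * n * t⁻¹ := by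
        calc t * m * n * (t * m)⁻¹ = t * (m * n * m⁻¹) * t⁻¹ := by group
          _ = _ := by rw [h1]
      rw [h2]
      exact ⟨hMn.conj_mem n hn1 t, T.mul_mem (T.mul_mem ht hn2) (T.inv_mem ht)⟩
    have h1 : M ⊓ T ≤ T.normalCore := Subgroup.normal_le_normalCore.2 inf_le_right
    rw [hcore] at h1
    exact le_bot_iff.1 h1
  let _ : CommGroup M := { (inferInstance : Group M) with
    mul_comm := fun a b => Subtype.ext (hMc a a.2 b b.2) }
  -- the number of `m` with `m y m⁻¹ ∈ T`
  have key : ∀ y : G, IsConj x y → p * Nat.card {m : M // (m : G) * y * (m : G)⁻¹ ∈ T} ≤ Nat.card M := by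
    -- first for `y ∈ T`
    have key1 : ∀ y : G, IsConj x y → y ∈ T → p * Nat.card {m : M // (m : G) * y * (m : G)⁻¹ ∈ T} ≤ Nat.card M := by
      intro y hy hyT
      have hyp : orderOf y = p := by
        obtain ⟨c, hc⟩ := isConj_iff.1 hy
        rw [← hc, ← hx]
        exact (MulAut.conj c).orderOf_eq x
      have hynm : normalClosure ({y} : Set G) = ⊤ := by
        rw [eq_top_iff, ← hgen]
        apply Subgroup.normalClosure_le_normal
        rintro _ rfl
        obtain ⟨c, hc⟩ := isConj_iff.1 hy.symm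
        rw [SetLike.mem_coe, ← hc]
        exact Subgroup.normalClosure_normal.conj_mem y (Subgroup.subset_normalClosure (Set.mem_singleton y)) c
      let τ : M ≃* M :=
        { toFun := fun m => ⟨y * m * y⁻¹, hMn.conj_mem m m.2 y⟩
          invFun := fun m => ⟨y⁻¹ * m * y, by simpa using hMn.conj_mem m m.2 y⁻¹⟩
          left_inv := fun m => Subtype.ext (by simp [mul_assoc])
          right_inv := fun m => Subtype.ext (by simp [mul_assoc])
          map_mul' := fun a b => Subtype.ext (by simp [mul_assoc]) }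
      have hτ : ∀ m : M, (τ m : G) = y * m * y⁻¹ := fun _ => rfl
      have hit : ∀ (n : ℕ) (m : M), ((τ^[n] m : M) : G) = y ^ n * m * (y ^ n)⁻¹ := by
        intro n m
        induction n with
        | zero => simp
        | succ n ih => rw [Function.iterate_succ_apply', hτ, ih, pow_succ']; group
      have h1 := fixed_mul_le τ hp (fun m => Subtype.ext (by
        rw [hit, ← hyp, pow_orderOf_eq_one]; simp)) (by
        by_contra hcon
        push Not at hcon
        -- `y` centralises `M`, so `M` is central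
        have h2 : ∀ m ∈ M, ∀ g : G, g * m = m * g := by
          intro m hm g
          have h3 : normalClosure ({y} : Set G) ≤ centralizer (M : Set G) := by
            have : (centralizer (M : Set G)).Normal := inferInstance
            apply Subgroup.normalClosure_le_normal
            rintro _ rfl
            rw [SetLike.mem_coe, Subgroup.mem_centralizer_iff]
            intro k hk
            have h4 := congrArg Subtype.val (hcon ⟨k, hk⟩)
            rw [hτ] at h4
            exact (mul_inv_eq_iff_eq_mul.1 h4).symm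
          rw [hynm] at h3
          have h5 := h3 (Subgroup.mem_top g)
          exact (Subgroup.mem_centralizer_iff.1 h5 m hm).symm
        have hTn : T.Normal := by
          constructor
          intro n hn g
          obtain ⟨t, ht, m, hm, rfl⟩ := hdec g
          have h6 : t * m * n * (t * m)⁻¹ = t * n * t⁻¹ := by
            calc t * m * n * (t * m)⁻¹ = t * (m * n) * m⁻¹ * t⁻¹ := by group
              _ = t * (n * m) * m⁻¹ * t⁻¹ := by rw [h2 m hm n]
              _ = _ := by group
          rw [h6]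
          exact T.mul_mem (T.mul_mem ht hn) (T.inv_mem ht)
        have h7 : T ≤ T.normalCore := Subgroup.normal_le_normalCore.2 le_rfl
        have h8 := h7 hyT
        rw [hcore, Subgroup.mem_bot] at h8
        rw [h8, orderOf_one] at hyp
        exact hp.one_lt.ne hyp)
      refine le_trans (Nat.mul_le_mul_left _ (le_of_eq ?_)) h1
      apply Nat.card_congr
      refine Equiv.subtypeEquivRight (fun m => ?_)
      constructor
      · intro hm
        have h2 : (m : G) * (y * (m : G)⁻¹ * y⁻¹) ∈ M ⊓ T := by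
          refine ⟨M.mul_mem m.2 (hMn.conj_mem _ (M.inv_mem m.2) y), ?_⟩
          have := T.mul_mem hm (T.inv_mem hyT)
          rwa [show (m : G) * y * (m : G)⁻¹ * y⁻¹ = (m : G) * (y * (m : G)⁻¹ * y⁻¹) by group] at this
        rw [hinf, Subgroup.mem_bot] at h2
        apply Subtype.ext
        rw [hτ]
        have h3 : y * (m : G)⁻¹ * y⁻¹ = (m : G)⁻¹ := eq_inv_of_mul_eq_one_right h2
        calc y * (m : G) * y⁻¹ = (y * (m : G)⁻¹ * y⁻¹)⁻¹ := by group
          _ = m := by rw [h3, inv_inv]
      · intro hm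
        have h2 : y * (m : G) * y⁻¹ = m := congrArg Subtype.val hm
        have h3 : (m : G) * y * (m : G)⁻¹ = y := by
          have : y * (m : G) = m * y := mul_inv_eq_iff_eq_mul.1 h2
          rw [← this]; group
        rw [h3]; exact hyT
    intro y hy
    by_cases hex : ∃ m : M, (m : G) * y * (m : G)⁻¹ ∈ T
    · obtain ⟨m₀, hm₀⟩ := hex
      have h1 := key1 _ (hy.trans (isConj_iff.2 ⟨(m₀ : G), rfl⟩)) hm₀
      refine le_trans (Nat.mul_le_mul_left _ (le_of_eq ?_)) h1
      apply Nat.card_congr
      refine (Equiv.subtypeEquiv (Equiv.mulRight m₀⁻¹) (fun m => ?_))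
      rw [Equiv.coe_mulRight]
      have : ((m * m₀⁻¹ : M) : G) * ((m₀ : G) * y * (m₀ : G)⁻¹) * ((m * m₀⁻¹ : M) : G)⁻¹ = (m : G) * y * (m : G)⁻¹ := by
        push_cast
        group
      rw [this]
    · have : IsEmpty {m : M // (m : G) * y * (m : G)⁻¹ ∈ T} := ⟨fun m => hex ⟨m.1, m.2⟩⟩
      rw [Nat.card_of_isEmpty, mul_zero]
      exact Nat.zero_le _
  -- double counting
  have := Fintype.ofFinite G
  have : Fintype M := Fintype.ofFinite M
  have hcount : Nat.card {q : G × M // (q.2 : G) * (q.1 * x * q.1⁻¹) * (q.2 : G)⁻¹ ∈ T} =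
      Nat.card M * Nat.card {g : G // g * x * g⁻¹ ∈ T} := by
    rw [← Nat.card_prod]
    apply Nat.card_congr
    refine ⟨fun q => (q.1.2, ⟨(q.1.2 : G) * q.1.1, ?_⟩), fun q => ⟨((q.1 : G)⁻¹ * q.2.1, q.1), ?_⟩, ?_, ?_⟩
    · have := q.2
      rwa [show (q.1.2 : G) * (q.1.1 * x * q.1.1⁻¹) * (q.1.2 : G)⁻¹ =
        (q.1.2 : G) * q.1.1 * x * ((q.1.2 : G) * q.1.1)⁻¹ by group] at this
    · have := q.2.2
      rwa [show (q.1 : G) * ((q.1 : G)⁻¹ * q.2.1 * x * ((q.1 : G)⁻¹ * q.2.1)⁻¹) * (q.1 : G)⁻¹ =
        q.2.1 * x * (q.2.1)⁻¹ by group]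
    · intro q
      apply Subtype.ext
      simp
    · intro q
      refine Prod.ext rfl (Subtype.ext ?_)
      simp
  have hcount2 : p * Nat.card {q : G × M // (q.2 : G) * (q.1 * x * q.1⁻¹) * (q.2 : G)⁻¹ ∈ T} ≤
      Nat.card G * Nat.card M := by
    have e : {q : G × M // (q.2 : G) * (q.1 * x * q.1⁻¹) * (q.2 : G)⁻¹ ∈ T} ≃
        Σ g : G, {m : M // (m : G) * (g * x * g⁻¹) * (m : G)⁻¹ ∈ T} :=
      ⟨fun q => ⟨q.1.1, ⟨q.1.2, q.2⟩⟩, fun q => ⟨(q.1, q.2.1), q.2.2⟩, fun _ => rfl, fun _ => rfl⟩
    rw [Nat.card_congr e, Nat.card_sigma, Finset.mul_sum]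
    refine le_trans (Finset.sum_le_sum (fun g _ => key (g * x * g⁻¹) (isConj_iff.2 ⟨g, rfl⟩))) ?_
    rw [Finset.sum_const, Finset.card_univ, smul_eq_mul, ← Nat.card_eq_fintype_card]
  rw [hcount] at hcount2
  have hMpos : 0 < Nat.card M := Nat.card_pos
  have : Nat.card M * (p * Nat.card {g : G // g * x * g⁻¹ ∈ T}) ≤ Nat.card M * Nat.card G := by
    calc _ = p * (Nat.card M * Nat.card {g : G // g * x * g⁻¹ ∈ T}) := by ring
      _ ≤ Nat.card G * Nat.card M := hcount2
      _ = _ := mul_comm _ _
  exact Nat.le_of_mul_le_mul_left this hMpos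

/-- In a finite solvable group generated by the conjugates of an element of prime order `p`, at most the fraction
`1/p` of the conjugates lies in a proper subgroup. -/
theorem ratio {G : Type*} [Group G] [Finite G] [Group.IsSolvable G] {p : ℕ} (hp : p.Prime) {x : G}
    (hx : orderOf x = p) (hgen : normalClosure ({x} : Set G) = ⊤) (T : Subgroup G) (hT : T ≠ ⊤) :
    p * Nat.card {g : G // g * x * g⁻¹ ∈ T} ≤ Nat.card G := by
  classical
  obtain ⟨T', hT', hTT'⟩ := (eq_top_or_exists_le_coatom T).resolve_left hT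
  obtain ⟨L, hLn, hLT, hLmax⟩ : ∃ L : Subgroup G, L.Normal ∧ L ≤ T' ∧ ∀ M : Subgroup G, M.Normal → M ≤ T' → M ≤ L :=
    ⟨T'.normalCore, inferInstance, Subgroup.normalCore_le T', fun M hM hMT => by
      have := hM
      exact Subgroup.normal_le_normalCore.2 hMT⟩
  have hcm : (T'.map (QuotientGroup.mk' L)).comap (QuotientGroup.mk' L) = T' := by
    rw [Subgroup.comap_map_eq, QuotientGroup.ker_mk', sup_of_le_left hLT]
  have hmk : Function.Surjective (QuotientGroup.mk' L) := QuotientGroup.mk'_surjective L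
  have hcoat : IsCoatom (T'.map (QuotientGroup.mk' L)) := by
    constructor
    · intro h
      apply hT'.1
      have h1 := Subgroup.comap_map_eq (QuotientGroup.mk' L) T'
      rw [h, Subgroup.comap_top, QuotientGroup.ker_mk', sup_of_le_left hLT] at h1
      exact h1.symm
    · intro S hS
      have h1 : T' < S.comap (QuotientGroup.mk' L) := by
        have h2 : T' ≤ S.comap (QuotientGroup.mk' L) := Subgroup.map_le_iff_le_comap.1 hS.le
        refine lt_of_le_of_ne h2 ?_
        intro h3
        apply hS.ne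
        have h4 := congrArg (Subgroup.map (QuotientGroup.mk' L)) h3
        rwa [Subgroup.map_comap_eq_self_of_surjective hmk] at h4
      have h2 := hT'.2 _ h1
      rw [← Subgroup.map_comap_eq_self_of_surjective hmk S, h2, Subgroup.map_top_of_surjective _ hmk]
  have hcore : (T'.map (QuotientGroup.mk' L)).normalCore = ⊥ := by
    rw [eq_bot_iff]
    intro q hq
    obtain ⟨g, rfl⟩ := hmk q
    have h1 : ((T'.map (QuotientGroup.mk' L)).normalCore).comap (QuotientGroup.mk' L) ≤ L := by
      apply hLmax _ inferInstance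
      intro u hu
      have h2 := Subgroup.normalCore_le _ (Subgroup.mem_comap.1 hu)
      have h3 : u ∈ (T'.map (QuotientGroup.mk' L)).comap (QuotientGroup.mk' L) := h2
      rwa [hcm] at h3
    have h2 : g ∈ L := h1 (Subgroup.mem_comap.2 hq)
    rw [Subgroup.mem_bot]
    exact (QuotientGroup.eq_one_iff g).2 h2
  have hxL : x ∉ L := by
    intro h
    have h1 : normalClosure ({x} : Set G) ≤ L := Subgroup.normalClosure_le_normal (by rintro _ rfl; exact h)
    rw [hgen] at h1
    exact hT'.1 (eq_top_iff.2 (h1.trans hLT))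
  have hxo : orderOf (QuotientGroup.mk' L x) = p := by
    have : Fact p.Prime := ⟨hp⟩
    apply orderOf_eq_prime
    · rw [← map_pow, ← hx, pow_orderOf_eq_one, map_one]
    · intro h
      exact hxL ((QuotientGroup.eq_one_iff x).1 h)
  have hgen' : normalClosure ({QuotientGroup.mk' L x} : Set (G ⧸ L)) = ⊤ := by
    have h1 := Subgroup.map_normalClosure ({x} : Set G) (QuotientGroup.mk' L) hmk
    rw [hgen, Subgroup.map_top_of_surjective _ hmk, Set.image_singleton] at h1
    exact h1.symm
  have h1 := ratio_core hp hxo hgen' _ hcoat hcore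
  -- transfer the count
  have h2 : Nat.card {g : G // g * x * g⁻¹ ∈ T'} = Nat.card L *
      Nat.card {q : G ⧸ L // q * (QuotientGroup.mk' L x) * q⁻¹ ∈ T'.map (QuotientGroup.mk' L)} := by
    have e := QuotientGroup.preimageMkEquivSubgroupProdSet L
      {q : G ⧸ L | q * (QuotientGroup.mk' L x) * q⁻¹ ∈ T'.map (QuotientGroup.mk' L)}
    have h3 := Nat.card_congr e
    rw [Nat.card_prod] at h3
    have h4 : (QuotientGroup.mk ⁻¹' {q : G ⧸ L | q * (QuotientGroup.mk' L x) * q⁻¹ ∈ T'.map (QuotientGroup.mk' L)} : Set G) =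
        {g : G | g * x * g⁻¹ ∈ T'} := by
      ext g
      change (QuotientGroup.mk g : G ⧸ L) * (QuotientGroup.mk' L x) * (QuotientGroup.mk g : G ⧸ L)⁻¹ ∈
        T'.map (QuotientGroup.mk' L) ↔ g * x * g⁻¹ ∈ T'
      have h5 : (QuotientGroup.mk g : G ⧸ L) * (QuotientGroup.mk' L x) * (QuotientGroup.mk g : G ⧸ L)⁻¹ =
        QuotientGroup.mk' L (g * x * g⁻¹) := by rw [map_mul, map_mul, map_inv]; rfl
      rw [h5, ← Subgroup.mem_comap, hcm]
    rw [h4] at h3
    exact h3
  have h3 : Nat.card {g : G // g * x * g⁻¹ ∈ T} ≤ Nat.card {g : G // g * x * g⁻¹ ∈ T'} :=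
    Nat.card_le_card_of_injective (fun g => ⟨g.1, hTT' g.2⟩) (fun a b hab => Subtype.ext (congrArg (fun z => z.1) hab))
  calc p * Nat.card {g : G // g * x * g⁻¹ ∈ T} ≤ p * Nat.card {g : G // g * x * g⁻¹ ∈ T'} := Nat.mul_le_mul_left _ h3
    _ = Nat.card L * (p * Nat.card {q : G ⧸ L // q * (QuotientGroup.mk' L x) * q⁻¹ ∈ T'.map (QuotientGroup.mk' L)}) := by
        rw [h2]; ring
    _ ≤ Nat.card L * Nat.card (G ⧸ L) := Nat.mul_le_mul_left _ h1
    _ = Nat.card G := by rw [mul_comm, ← Subgroup.card_eq_card_quotient_mul_card_subgroup]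

end Cfsg.Agent.H53.Fl
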