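import Mathlib
import Cfsg.Agent.H53.FlLin
import Cfsg.Agent.H53.FlRatio

/-!
Weights of abelian subgroups; the case of a noncentral abelian normal subgroup.
-/

set_option autoImplicit false
open Module

namespace Cfsg.Agent.H53.Fl

section perm
variable {K : Type*} [Field K] {A : Type*} [CommGroup A]

/-- an automorphism acts on the characters -/
def permOf (K : Type*) [Field K] (τ : MulAut A) : Equiv.Perm (A →* Kˣ) where
  toFun χ := χ.comp τ.symm.toMonoidHom
  invFun χ := χ.comp τ.toMonoidHom
  left_inv χ := by ext a; simp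
  right_inv χ := by ext a; simp

theorem permOf_apply (τ : MulAut A) (χ : A →* Kˣ) (a : A) : permOf K τ χ a = χ (τ.symm a) := rfl

theorem permOf_one : permOf K (1 : MulAut A) = 1 := by
  ext χ a; rfl

theorem permOf_mul (τ τ' : MulAut A) : permOf K (τ * τ') = permOf K τ * permOf K τ' := by
  ext χ a; rfl

theorem permOf_pow (τ : MulAut A) (n : ℕ) : (permOf K τ) ^ n = permOf K (τ ^ n) := by
  induction n with
  | zero => rw [pow_zero, pow_zero, permOf_one]
  | succ n ih => rw [pow_succ, pow_succ, ih, permOf_mul]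

theorem permOf_pow_apply (τ : MulAut A) (n : ℕ) (χ : A →* Kˣ) (a : A) :
    ((permOf K τ) ^ n) χ a = χ ((τ ^ n).symm a) := by rw [permOf_pow]; rfl

end perm

section rep
variable {K : Type*} [Field K] {U : Type*} [AddCommGroup U] [Module K U] {G : Type*} [Group G]

theorem rho_inj (ρ : Representation K G U) (g : G) : Function.Injective (ρ g) := by
  intro a b hab
  have h1 := congrArg (ρ g⁻¹) hab
  rwa [← Module.End.mul_apply, ← Module.End.mul_apply, ← map_mul, inv_mul_cancel, map_one] at h1

theorem mem_ker_iff (f : Module.End K U) (v : U) : v ∈ LinearMap.ker (f - 1) ↔ f v = v := by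
  rw [LinearMap.mem_ker, LinearMap.sub_apply, Module.End.one_apply, sub_eq_zero]

theorem finrank_ker_conj [FiniteDimensional K U] (ρ : Representation K G U) (g x : G) :
    finrank K (LinearMap.ker (ρ x - 1)) ≤ finrank K (LinearMap.ker (ρ (g * x * g⁻¹) - 1)) := by
  let F : LinearMap.ker (ρ x - 1) →ₗ[K] LinearMap.ker (ρ (g * x * g⁻¹) - 1) :=
    ((ρ g).comp (LinearMap.ker (ρ x - 1)).subtype).codRestrict _ (fun v => by
      rw [mem_ker_iff]
      have h := (mem_ker_iff _ _).1 v.2
      rw [LinearMap.comp_apply, Submodule.subtype_apply, ← Module.End.mul_apply, ← map_mul, inv_mul_cancel_right,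
        map_mul, Module.End.mul_apply, h])
  apply LinearMap.finrank_le_finrank_of_injective (f := F)
  intro a b hab
  exact Subtype.ext (rho_inj ρ g (congrArg Subtype.val hab))

theorem final_ineq {p f D n : ℕ} (hp : 3 < p) (hD : 0 < D) (hn : 0 < n) (h : n * (p * (p * f)) ≤ n * (p * D + (p - 1) * D)) :
    2 * f < D := by
  have h1 : p * (p * f) ≤ p * D + (p - 1) * D := Nat.le_of_mul_le_mul_left h hn
  by_contra hcon
  push Not at hcon
  obtain ⟨q, rfl⟩ : ∃ q, p = q + 4 := ⟨p - 4, by omega⟩
  simp only [show q + 4 - 1 = q + 3 by omega] at h1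
  have hf : 0 < f := by omega
  have h2 : (q + 4) * D + (q + 3) * D ≤ (2 * q + 7) * (2 * f) := by
    calc (q + 4) * D + (q + 3) * D = (2 * q + 7) * D := by ring
      _ ≤ _ := Nat.mul_le_mul_left _ hcon
  have h3 : ((q + 4) * (q + 4)) * f ≤ (4 * q + 14) * f := by
    calc _ = (q + 4) * ((q + 4) * f) := by ring
      _ ≤ _ := h1.trans h2
      _ = _ := by ring
  have h4 := Nat.le_of_mul_le_mul_right h3 hf
  nlinarith

/-- the noncentral abelian normal subgroup case -/
theorem caseA [IsAlgClosed K] [FiniteDimensional K U] [Nontrivial U] [Finite G] [Group.IsSolvable G] {p : ℕ} (hp : p.Prime) (hp3 : 3 < p)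
    {x : G} (hx : orderOf x = p) (hgen : Subgroup.normalClosure ({x} : Set G) = ⊤) (ρ : Representation K G U)
    (hfix : ∀ N : Subgroup G, N.Normal → N ≠ ⊥ → ∀ v, (∀ n ∈ N, ρ n v = v) → v = 0)
    (A : Subgroup G) [hAn : A.Normal] (hAc : ∀ a ∈ A, ∀ b ∈ A, a * b = b * a) (hAK : (Nat.card A : K) ≠ 0)
    (hAZ : ¬ A ≤ Subgroup.center G) : 2 * finrank K (LinearMap.ker (ρ x - 1)) < finrank K U := by
  classical
  let _ : CommGroup A := { (inferInstance : Group A) with
    mul_comm := fun a b => Subtype.ext (hAc a a.2 b b.2) }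
  have _ : Fintype A := Fintype.ofFinite A
  have _ : Fintype G := Fintype.ofFinite G
  have hexp : NeZero ((Monoid.exponent A : ℕ) : K) := by
    constructor
    intro h
    apply hAK
    obtain ⟨c, hc⟩ : Monoid.exponent A ∣ Nat.card A := Group.exponent_dvd_nat_card
    rw [hc, Nat.cast_mul, h, zero_mul]
  have : HasEnoughRootsOfUnity K (Monoid.exponent A) := inferInstance
  have _ : Fintype (A →* Kˣ) := Fintype.ofFinite _
  let α : A →* Module.End K U := (ρ : G →* Module.End K U).comp A.subtype
  have hα : ∀ a : A, α a = ρ (a : G) := fun _ => rfl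
  have hF : Fam (prj α) := prj_fam α hAK
  let c : G →* MulAut A := MulAut.conjNormal
  have hc : ∀ (g : G) (a : A), ((c g a : A) : G) = g * a * g⁻¹ := fun g a => MulAut.conjNormal_apply g a
  have hcs : ∀ (g : G) (a : A), (((c g).symm a : A) : G) = g⁻¹ * a * g := fun g a => MulAut.conjNormal_symm_apply g a
  have hT : ∀ (g : G) (χ : A →* Kˣ), ρ g * prj α χ = prj α (permOf K (c g) χ) * ρ g := by
    intro g χ
    apply conj_prj
    intro a
    rw [hα, hα, hc, ← map_mul, ← map_mul, inv_mul_cancel_right]
  -- stabilizers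
  let Tχ : (A →* Kˣ) → Subgroup G := fun χ =>
    { carrier := {g | permOf K (c g) χ = χ}
      one_mem' := by
        change permOf K (c 1) χ = χ
        rw [map_one, permOf_one]; rfl
      mul_mem' := by
        intro a b ha hb
        change permOf K (c (a * b)) χ = χ
        rw [map_mul, permOf_mul, Equiv.Perm.mul_apply, hb, ha]
      inv_mem' := by
        intro a ha
        change permOf K (c a⁻¹) χ = χ
        have h1 : permOf K (c a⁻¹) (permOf K (c a) χ) = χ := by
          rw [← Equiv.Perm.mul_apply, ← permOf_mul, ← map_mul, inv_mul_cancel, map_one, permOf_one]; rfl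
        rw [ha] at h1
        exact h1 }
  have hTχ : ∀ χ g, g ∈ Tχ χ ↔ permOf K (c g) χ = χ := fun _ _ => Iff.rfl
  -- the stabilizer of an occurring weight is proper
  have hprop : ∀ χ : A →* Kˣ, dm (prj α) χ ≠ 0 → Tχ χ ≠ ⊤ := by
    intro χ hχ htop
    apply hχ
    rw [dm, Submodule.finrank_eq_zero, Submodule.eq_bot_iff]
    intro v hv
    rw [mem_range_prj α hAK] at hv
    obtain ⟨a, haA, haZ⟩ : ∃ a ∈ A, a ∉ Subgroup.center G := by
      by_contra hcon
      push Not at hcon
      exact hAZ hcon
    obtain ⟨g, hg⟩ : ∃ g : G, g * a ≠ a * g := by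
      by_contra hcon
      push Not at hcon
      exact haZ (Subgroup.mem_center_iff.2 hcon)
    set t : G := a⁻¹ * (g⁻¹ * a * g) with ht
    have htne : t ≠ 1 := by
      intro h
      apply hg
      rw [ht, inv_mul_eq_one] at h
      calc g * a = g * (g⁻¹ * a * g) := by rw [← h]
        _ = a * g := by group
    refine hfix (Subgroup.normalClosure {t}) inferInstance ?_ v ?_
    · intro h
      have h1 : t ∈ Subgroup.normalClosure {t} := Subgroup.subset_normalClosure (Set.mem_singleton t)
      rw [h, Subgroup.mem_bot] at h1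
      exact htne h1
    · intro n hn
      have h1 : Subgroup.normalClosure {t} ≤
          { carrier := {n : G | ρ n v = v}
            one_mem' := by
              change ρ 1 v = v
              rw [map_one]; rfl
            mul_mem' := by
              intro a b ha hb
              change ρ (a * b) v = v
              rw [map_mul, Module.End.mul_apply, hb, ha]
            inv_mem' := by
              intro a ha
              change ρ a⁻¹ v = v
              have h2 : ρ a⁻¹ (ρ a v) = v := by
                rw [← Module.End.mul_apply, ← map_mul, inv_mul_cancel, map_one]; rfl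
              rw [ha] at h2
              exact h2 : Subgroup G } := by
        rw [Subgroup.normalClosure, Subgroup.closure_le]
        intro y hy
        rw [Group.mem_conjugatesOfSet_iff] at hy
        obtain ⟨t', ht', hy⟩ := hy
        rw [Set.mem_singleton_iff.1 ht'] at hy
        obtain ⟨h, hh⟩ := isConj_iff.1 hy
        change ρ y v = v
        -- y = h t h⁻¹
        have hinv : ∀ (k : G) (b : A), χ ((c k).symm b) = χ b := by
          intro k b
          have h3 : k ∈ Tχ χ := by rw [htop]; trivial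
          have h4 := congrArg (fun f : A →* Kˣ => f b) ((hTχ _ _).1 h3)
          exact h4
        have hy2 : y = ((((c h⁻¹).symm ⟨a, haA⟩)⁻¹ * (c (g * h⁻¹)).symm ⟨a, haA⟩ : A) : G) := by
          rw [Subgroup.coe_mul, Subgroup.coe_inv, hcs, hcs, ← hh, ht]
          group
        rw [hy2, ← hα, hv, map_mul, map_inv, hinv, hinv, inv_mul_cancel, Units.val_one, one_smul]
      exact h1 hn
  -- the inequality for one element
  have hone : ∀ g : G, p * finrank K (LinearMap.ker (ρ x - 1)) ≤ finrank K U +
      (p - 1) * ∑ χ with permOf K (c (g * x * g⁻¹)) χ = χ, dm (prj α) χ := by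
    intro g
    have h1 := hF.star (rho_inj ρ (g * x * g⁻¹)) (hT (g * x * g⁻¹)) hp (by
      rw [permOf_pow, ← map_pow]
      have : (g * x * g⁻¹) ^ p = 1 := by
        rw [conj_pow, ← hx, pow_orderOf_eq_one]; simp
      rw [this, map_one, permOf_one])
    exact le_trans (Nat.mul_le_mul_left _ (finrank_ker_conj ρ g x)) h1
  have hsum : ∑ g : G, ∑ χ with permOf K (c (g * x * g⁻¹)) χ = χ, dm (prj α) χ =
      ∑ χ : A →* Kˣ, dm (prj α) χ * Nat.card {g : G // g * x * g⁻¹ ∈ Tχ χ} := by
    simp_rw [Finset.sum_filter]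
    rw [Finset.sum_comm]
    refine Finset.sum_congr rfl (fun χ _ => ?_)
    rw [← Finset.sum_filter, Finset.sum_const, smul_eq_mul, mul_comm, Nat.card_eq_fintype_card, Fintype.card_subtype]
    congr 2
    ext g
    simp only [Finset.mem_filter, hTχ]
  have hrat : ∀ χ : A →* Kˣ, p * (dm (prj α) χ * Nat.card {g : G // g * x * g⁻¹ ∈ Tχ χ}) ≤ Nat.card G * dm (prj α) χ := by
    intro χ
    by_cases h0 : dm (prj α) χ = 0
    · simp [h0]
    · have h1 := ratio hp hx hgen (Tχ χ) (hprop χ h0)
      calc p * (dm (prj α) χ * Nat.card {g : G // g * x * g⁻¹ ∈ Tχ χ}) =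
          dm (prj α) χ * (p * Nat.card {g : G // g * x * g⁻¹ ∈ Tχ χ}) := by ring
        _ ≤ dm (prj α) χ * Nat.card G := Nat.mul_le_mul_left _ h1
        _ = _ := mul_comm _ _
  have htot : Nat.card G * (p * finrank K (LinearMap.ker (ρ x - 1))) ≤ Nat.card G * finrank K U +
      (p - 1) * ∑ χ : A →* Kˣ, dm (prj α) χ * Nat.card {g : G // g * x * g⁻¹ ∈ Tχ χ} := by
    have h1 := Finset.sum_le_sum (fun (g : G) (_ : g ∈ Finset.univ) => hone g)
    rw [Finset.sum_const, Finset.sum_add_distrib, Finset.sum_const, ← Finset.mul_sum, hsum, Finset.card_univ,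
      ← Nat.card_eq_fintype_card, smul_eq_mul, smul_eq_mul] at h1
    exact h1
  have hrat' : p * ∑ χ : A →* Kˣ, dm (prj α) χ * Nat.card {g : G // g * x * g⁻¹ ∈ Tχ χ} ≤ Nat.card G * finrank K U := by
    rw [Finset.mul_sum, ← hF.sum_dm, Finset.mul_sum]
    exact Finset.sum_le_sum (fun χ _ => hrat χ)
  apply final_ineq hp3 Module.finrank_pos (Nat.card_pos (α := G))
  calc Nat.card G * (p * (p * finrank K (LinearMap.ker (ρ x - 1)))) =
      p * (Nat.card G * (p * finrank K (LinearMap.ker (ρ x - 1)))) := by ring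
    _ ≤ p * (Nat.card G * finrank K U +
      (p - 1) * ∑ χ : A →* Kˣ, dm (prj α) χ * Nat.card {g : G // g * x * g⁻¹ ∈ Tχ χ}) := Nat.mul_le_mul_left _ htot
    _ = p * (Nat.card G * finrank K U) +
      (p - 1) * (p * ∑ χ : A →* Kˣ, dm (prj α) χ * Nat.card {g : G // g * x * g⁻¹ ∈ Tχ χ}) := by ring
    _ ≤ p * (Nat.card G * finrank K U) + (p - 1) * (Nat.card G * finrank K U) :=
      Nat.add_le_add_left (Nat.mul_le_mul_left _ hrat') _
    _ = _ := by ring

end rep

end Cfsg.Agent.H53.Fl
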