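import Mathlib
import Cfsg.Agent.H53.FlA

/-!
Weights of abelian subgroups: averaging and fixed space inequalities; groups with scalar centre.
-/

set_option autoImplicit false
open Module

namespace Cfsg.Agent.H53.Fl

section rep
variable {K : Type*} [Field K] {U : Type*} [AddCommGroup U] [Module K U] {G : Type*} [Group G]

/-- the conjugation automorphism of a subgroup -/
theorem exists_aut [Finite G] (A : Subgroup G) (g : G) (hg : ∀ a ∈ A, g * a * g⁻¹ ∈ A) :
    ∃ τ : MulAut A, (∀ a, ((τ a : A) : G) = g * a * g⁻¹) ∧ (∀ a, ((τ.symm a : A) : G) = g⁻¹ * a * g) := by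
  have h1 : ∀ (n : ℕ), ∀ a ∈ A, g ^ n * a * (g ^ n)⁻¹ ∈ A := by
    intro n
    induction n with
    | zero => intro a ha; simpa using ha
    | succ n ih =>
      intro a ha
      have := hg _ (ih a ha)
      rwa [show g * (g ^ n * a * (g ^ n)⁻¹) * g⁻¹ = g ^ (n + 1) * a * (g ^ (n + 1))⁻¹ by rw [pow_succ']; group] at this
  have h2 : g⁻¹ = g ^ (orderOf g - 1) := by
    rw [inv_eq_iff_mul_eq_one, ← pow_succ', Nat.sub_add_cancel (orderOf_pos g), pow_orderOf_eq_one]
  have hg' : ∀ a ∈ A, g⁻¹ * a * g ∈ A := by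
    intro a ha
    have := h1 (orderOf g - 1) a ha
    rw [← h2] at this
    simpa using this
  exact ⟨{ toFun := fun a => ⟨g * a * g⁻¹, hg a a.2⟩
           invFun := fun a => ⟨g⁻¹ * a * g, hg' a a.2⟩
           left_inv := fun a => Subtype.ext (by simp [mul_assoc])
           right_inv := fun a => Subtype.ext (by simp [mul_assoc])
           map_mul' := fun a b => Subtype.ext (by simp [mul_assoc]) }, fun _ => rfl, fun _ => rfl⟩

variable [IsAlgClosed K] [FiniteDimensional K U] [Finite G]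

theorem exists_fam (ρ : Representation K G U) (A : Subgroup G)
    (hAc : ∀ a ∈ A, ∀ b ∈ A, a * b = b * a) (hAK : (Nat.card A : K) ≠ 0) :
    ∃ (_ : Fintype (A →* Kˣ)) (π : (A →* Kˣ) → Module.End K U), Fam π ∧
      (∀ χ v, v ∈ LinearMap.range (π χ) ↔ ∀ b : A, ρ (b : G) v = (χ b : K) • v) ∧
      (∀ (g : G) (τ : MulAut A), (∀ a, ((τ a : A) : G) = g * a * g⁻¹) →
        ∃ σ : Equiv.Perm (A →* Kˣ), (∀ χ, ρ g * π χ = π (σ χ) * ρ g) ∧
          (∀ n χ a, (σ ^ n) χ a = χ ((τ ^ n).symm a)) ∧ (∀ n, τ ^ n = 1 → σ ^ n = 1)) := by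
  classical
  let _ : CommGroup A := { (inferInstance : Group A) with
    mul_comm := fun a b => Subtype.ext (hAc a a.2 b b.2) }
  have _ : Fintype A := Fintype.ofFinite A
  have hexp : NeZero ((Monoid.exponent A : ℕ) : K) := by
    constructor
    intro h
    apply hAK
    obtain ⟨c, hc⟩ : Monoid.exponent A ∣ Nat.card A := Group.exponent_dvd_nat_card
    rw [hc, Nat.cast_mul, h, zero_mul]
  have : HasEnoughRootsOfUnity K (Monoid.exponent A) := inferInstance
  let α : A →* Module.End K U := (ρ : G →* Module.End K U).comp A.subtype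
  have hft : Fintype (A →* Kˣ) := Fintype.ofFinite _
  refine ⟨hft, prj α, ?_, ?_, ?_⟩
  · exact prj_fam α hAK
  · intro χ v
    exact mem_range_prj α hAK
  · intro g τ hτ
    refine ⟨permOf K τ, ?_, ?_, ?_⟩
    · intro χ
      apply conj_prj
      intro a
      change ρ g * ρ (a : G) = ρ (τ a : G) * ρ g
      rw [hτ, ← map_mul, ← map_mul, inv_mul_cancel_right]
    · intro n χ a
      exact permOf_pow_apply τ n χ a
    · intro n hn
      rw [permOf_pow, hn, permOf_one]

theorem avgSub (ρ : Representation K G U) (A : Subgroup G)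
    (hAc : ∀ a ∈ A, ∀ b ∈ A, a * b = b * a) (hAK : (Nat.card A : K) ≠ 0)
    (g : G) (hg : ∀ a ∈ A, g * a * g⁻¹ ∈ A) (t : A) (m k : ℕ)
    (hS : ∀ χ : A →* Kˣ, (∃ u : U, u ≠ 0 ∧ ∀ b : A, ρ (b : G) u = (χ b : K) • u) →
      ∀ s : Finset ℕ, s ⊆ Finset.range m → (∀ i ∈ s, ∀ t' : A, (t' : G) = (g ^ i)⁻¹ * t * g ^ i → χ t' = 1) →
      s.card ≤ k) :
    m * finrank K (LinearMap.ker (ρ (t : G) - 1)) ≤ k * finrank K U := by
  classical
  obtain ⟨τ, hτ, hτs⟩ := exists_aut A g hg
  obtain ⟨_, π, hF, hr, hσ⟩ := exists_fam ρ A hAc hAK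
  obtain ⟨σ, hσ1, hσ2, hσ3⟩ := hσ g τ hτ
  have hpow : ∀ (n : ℕ) (a : A), (((τ ^ n).symm a : A) : G) = (g ^ n)⁻¹ * a * g ^ n := by
    intro n
    induction n with
    | zero => intro a; simp; rfl
    | succ n ih =>
      intro a
      have h1 : (τ ^ (n + 1)).symm a = τ.symm ((τ ^ n).symm a) := by
        rw [pow_succ]; rfl
      rw [h1, hτs, ih, pow_succ]
      group
  have h1 : finrank K (LinearMap.ker (ρ (t : G) - 1)) ≤ ∑ χ with χ t = 1, dm π χ := by
    have h2 := Fam.finrank_le (π := π) (LinearMap.ker (ρ (t : G) - 1)) (fun χ : {χ : A →* Kˣ // χ t = 1} => χ.1) (by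
      intro v hv h0
      apply hF.eq_zero
      intro χ
      by_cases hχ : χ t = 1
      · exact h0 ⟨χ, hχ⟩
      · have h3 : π χ v ∈ LinearMap.range (π χ) := ⟨v, rfl⟩
        have h4 := (hr χ _).1 h3 t
        -- `π χ` commutes with `ρ t`
        obtain ⟨σ', hs1, hs2, -⟩ := hσ (t : G) 1 (by
          intro a
          change (a : G) = _
          rw [hAc t t.2 a a.2]; group)
        have h5 : σ' χ = χ := by
          ext a
          have := hs2 1 χ a
          rw [pow_one, pow_one] at this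
          rw [this]; rfl
        have h6 : ρ (t : G) (π χ v) = π χ v := by
          rw [← Module.End.mul_apply, hs1, h5, Module.End.mul_apply, (mem_ker_iff _ _).1 hv]
        rw [h6] at h4
        have h7 : ((χ t : K) - 1) • π χ v = 0 := by rw [sub_smul, one_smul, ← h4, sub_self]
        rcases smul_eq_zero.1 h7 with h8 | h8
        · exact absurd (Units.ext (by rw [Units.val_one]; exact sub_eq_zero.1 h8)) hχ
        · exact h8)
    rw [← Finset.sum_subtype_eq_sum_filter, Finset.subtype_univ]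
    exact h2
  refine le_trans (Nat.mul_le_mul_left _ h1) ?_
  apply hF.averaging (rho_inj ρ g) hσ1
  intro χ hχ
  apply hS χ
  · obtain ⟨u, hu⟩ := Submodule.exists_mem_ne_zero_of_ne_bot (p := LinearMap.range (π χ)) (by
      intro h; apply hχ; rw [dm, h, finrank_bot])
    exact ⟨u, hu.2, (hr χ u).1 hu.1⟩
  · exact Finset.filter_subset _ _
  · intro i hi t' ht'
    have h2 := (Finset.mem_filter.1 hi).2
    rw [hσ2] at h2
    rw [← h2]
    congr 1
    apply Subtype.ext
    rw [ht', hpow]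

theorem starSub (ρ : Representation K G U) (A : Subgroup G)
    (hAc : ∀ a ∈ A, ∀ b ∈ A, a * b = b * a) (hAK : (Nat.card A : K) ≠ 0) {p : ℕ} (hp : p.Prime)
    (x : G) (hx : x ^ p = 1) (hxA : ∀ a ∈ A, x * a * x⁻¹ ∈ A) (a : G) (ha : a ∈ A) :
    p * finrank K (LinearMap.ker (ρ x - 1)) ≤ finrank K U +
      (p - 1) * finrank K (LinearMap.ker (ρ (x * a * x⁻¹ * a⁻¹) - 1)) := by
  classical
  obtain ⟨τ, hτ, hτs⟩ := exists_aut A x hxA
  obtain ⟨_, π, hF, hr, hσ⟩ := exists_fam ρ A hAc hAK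
  obtain ⟨σ, hσ1, hσ2, hσ3⟩ := hσ x τ hτ
  have hτp : τ ^ p = 1 := by
    have hpow : ∀ (n : ℕ) (a : A), (((τ ^ n) a : A) : G) = x ^ n * a * (x ^ n)⁻¹ := by
      intro n
      induction n with
      | zero => intro a; simp
      | succ n ih =>
        intro a
        rw [pow_succ', MulAut.mul_apply, hτ, ih, pow_succ']
        group
    ext b
    rw [hpow, hx]
    simp
  have h1 := hF.star (rho_inj ρ x) hσ1 hp (hσ3 p hτp)
  refine le_trans h1 (Nat.add_le_add_left (Nat.mul_le_mul_left _ ?_) _)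
  apply hF.sum_le
  intro χ hχ v hv
  rw [hr] at hv
  rw [mem_ker_iff]
  have h2 : x * a * x⁻¹ * a⁻¹ = ((τ ⟨a, ha⟩ * ⟨a, ha⟩⁻¹ : A) : G) := by
    rw [Subgroup.coe_mul, hτ, Subgroup.coe_inv]
  have h3 : χ (τ ⟨a, ha⟩) = χ ⟨a, ha⟩ := by
    have h4 := hσ2 1 χ (τ ⟨a, ha⟩)
    rw [pow_one, pow_one, hχ, MulEquiv.symm_apply_apply] at h4
    exact h4
  rw [h2, hv, map_mul, map_inv, h3, mul_inv_cancel, Units.val_one, one_smul]

end rep

section mk
variable {G : Type*} [Group G]

/-- the subgroup generated by commuting elements and the centre -/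
theorem mkA (S : Set G) (hS : ∀ s ∈ S, ∀ t ∈ S, s * t = t * s) (n : ℕ) (hn : ∀ s ∈ S, s ^ n ∈ Subgroup.center G) :
    ∃ A : Subgroup G, S ⊆ A ∧ Subgroup.center G ≤ A ∧ (∀ a ∈ A, ∀ b ∈ A, a * b = b * a) ∧
      (∀ a ∈ A, a ^ n ∈ Subgroup.center G) ∧ (∀ g, (∀ s ∈ S, g * s * g⁻¹ ∈ A) → ∀ a ∈ A, g * a * g⁻¹ ∈ A) := by
  set A := Subgroup.closure (S ∪ (Subgroup.center G : Set G)) with hA
  have hc : ∀ a ∈ A, ∀ b ∈ A, a * b = b * a := by
    intro a ha b hb
    refine Subgroup.closure_induction₂ (p := fun a b _ _ => a * b = b * a) ?_ ?_ ?_ ?_ ?_ ?_ ?_ ha hb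
    · intro u v hu hv
      rcases hu with hu | hu
      · rcases hv with hv | hv
        · exact hS u hu v hv
        · exact Subgroup.mem_center_iff.1 hv u
      · exact (Subgroup.mem_center_iff.1 hu v).symm
    · intro u _; simp
    · intro u _; simp
    · intro u v w _ _ _ h1 h2
      rw [mul_assoc, h2, ← mul_assoc, h1, mul_assoc]
    · intro u v w _ _ _ h1 h2
      rw [← mul_assoc, h1, mul_assoc, h2, ← mul_assoc]
    · intro u v _ _ h1
      have : Commute u v := h1
      exact this.inv_left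
    · intro u v _ _ h1
      have : Commute u v := h1
      exact this.inv_right
  refine ⟨A, ?_, ?_, hc, ?_, ?_⟩
  · exact fun s hs => Subgroup.subset_closure (Or.inl hs)
  · exact fun s hs => Subgroup.subset_closure (Or.inr hs)
  · intro a ha
    refine Subgroup.closure_induction (p := fun a _ => a ^ n ∈ Subgroup.center G) ?_ ?_ ?_ ?_ ha
    · rintro u (hu | hu)
      · exact hn u hu
      · exact Subgroup.pow_mem _ hu n
    · rw [one_pow]; exact Subgroup.one_mem _
    · intro u v hu hv h1 h2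
      have : Commute u v := hc u hu v hv
      rw [this.mul_pow]
      exact Subgroup.mul_mem _ h1 h2
    · intro u _ h1
      rw [inv_pow]; exact Subgroup.inv_mem _ h1
  · intro g hg a ha
    refine Subgroup.closure_induction (p := fun a _ => g * a * g⁻¹ ∈ A) ?_ ?_ ?_ ?_ ha
    · rintro u (hu | hu)
      · exact hg u hu
      · have : g * u * g⁻¹ = u := by rw [Subgroup.mem_center_iff.1 hu g]; group
        rw [this]
        exact Subgroup.subset_closure (Or.inr hu)
    · simp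
    · intro u v _ _ h1 h2
      have := A.mul_mem h1 h2
      rwa [show g * u * g⁻¹ * (g * v * g⁻¹) = g * (u * v) * g⁻¹ by group] at this
    · intro u _ h1
      have := A.inv_mem h1
      rwa [show (g * u * g⁻¹)⁻¹ = g * u⁻¹ * g⁻¹ by group] at this

end mk

section sc
variable {K : Type*} [Field K] {U : Type*} [AddCommGroup U] [Module K U] {G : Type*} [Group G]

/-- the centre acts by scalars, faithfully -/
structure Sc (ρ : Representation K G U) (ζ : G → K) : Prop where
  hζ : ∀ z ∈ Subgroup.center G, ∀ u, ρ z u = ζ z • u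
  inj : ∀ z ∈ Subgroup.center G, ζ z = 1 → z = 1

variable {ρ : Representation K G U} {ζ : G → K}

theorem Sc.eq_of (h : Sc ρ ζ) {z : G} (hz : z ∈ Subgroup.center G) {u : U} (hu : u ≠ 0) {c : K} (hc : ρ z u = c • u) :
    c = ζ z := by
  rw [h.hζ z hz] at hc
  have h1 : (ζ z - c) • u = 0 := by rw [sub_smul, hc, sub_self]
  rcases smul_eq_zero.1 h1 with h2 | h2
  · exact (sub_eq_zero.1 h2).symm
  · exact absurd h2 hu

variable [Nontrivial U]

theorem Sc.one (h : Sc ρ ζ) : ζ 1 = 1 := by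
  obtain ⟨u, hu⟩ := exists_ne (0 : U)
  exact (h.eq_of (Subgroup.one_mem _) hu (by rw [map_one, one_smul]; rfl)).symm

theorem Sc.mul (h : Sc ρ ζ) {a b : G} (ha : a ∈ Subgroup.center G) (hb : b ∈ Subgroup.center G) :
    ζ (a * b) = ζ a * ζ b := by
  obtain ⟨u, hu⟩ := exists_ne (0 : U)
  refine (h.eq_of (Subgroup.mul_mem _ ha hb) hu ?_).symm
  rw [map_mul, Module.End.mul_apply, h.hζ b hb, map_smul, h.hζ a ha, smul_smul, mul_comm]

theorem Sc.pow (h : Sc ρ ζ) {a : G} (ha : a ∈ Subgroup.center G) (n : ℕ) : ζ (a ^ n) = ζ a ^ n := by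
  induction n with
  | zero => rw [pow_zero, pow_zero, h.one]
  | succ n ih => rw [pow_succ, h.mul (Subgroup.pow_mem _ ha n) ha, ih, pow_succ]

theorem Sc.eq_one_of_pow (h : Sc ρ ζ) {q : ℕ} [CharP K q] (hq : q.Prime) {z : G} (hz : z ∈ Subgroup.center G)
    (h1 : z ^ q = 1) : z = 1 := by
  apply h.inj z hz
  have : Fact q.Prime := ⟨hq⟩
  have : ExpChar K q := ExpChar.prime hq
  have h2 : (ζ z - 1) ^ q = 0 := by
    rw [sub_pow_expChar, one_pow, ← h.pow hz, h1, h.one, sub_self]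
  exact sub_eq_zero.1 (pow_eq_zero_iff hq.ne_zero |>.1 h2)

theorem Sc.card_ne (h : Sc ρ ζ) (A : Subgroup G) [Finite A] (n : ℕ) (hn : (n : K) ≠ 0)
    (hA : ∀ a ∈ A, a ^ n ∈ Subgroup.center G) : (Nat.card A : K) ≠ 0 := by
  intro h0
  obtain ⟨q, hq⟩ := CharP.exists K
  have hdvd : q ∣ Nat.card A := (CharP.cast_eq_zero_iff K q _).1 h0
  have hq0 : q ≠ 0 := by
    rintro rfl
    rw [zero_dvd_iff] at hdvd
    exact Nat.card_pos.ne' hdvd
  have hqp : q.Prime := (CharP.char_is_prime_or_zero K q).resolve_right hq0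
  have : Fact q.Prime := ⟨hqp⟩
  obtain ⟨a, ha⟩ := exists_prime_orderOf_dvd_card' q hdvd
  have h1 := hA a a.2
  have h2 : (a : G) ^ n = 1 := by
    apply h.eq_one_of_pow hqp h1
    rw [← pow_mul, mul_comm, pow_mul]
    have : (a : G) ^ q = 1 := by
      rw [← Subgroup.coe_pow, ← ha, pow_orderOf_eq_one, Subgroup.coe_one]
    rw [this, one_pow]
  have h3 : q ∣ n := by
    rw [← ha, orderOf_dvd_iff_pow_eq_one]
    exact Subtype.ext (by rw [Subgroup.coe_pow, h2, Subgroup.coe_one])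
  exact hn ((CharP.cast_eq_zero_iff K q n).2 h3)

/-- `r` is invertible -/
theorem Sc.prime_ne (h : Sc ρ ζ) {r : ℕ} (hr : r.Prime) (E : Subgroup G)
    (hEc : ∀ e ∈ E, ∀ f ∈ E, e * f * e⁻¹ * f⁻¹ ∈ Subgroup.center G) (hEr : ∀ e ∈ E, e ^ r ∈ Subgroup.center G)
    {e f : G} (he : e ∈ E) (hf : f ∈ E) (hef : e * f * e⁻¹ * f⁻¹ ≠ 1) :
    (r : K) ≠ 0 ∧ (e * f * e⁻¹ * f⁻¹) ^ r = 1 := by
  set z := e * f * e⁻¹ * f⁻¹ with hz
  have hzZ : z ∈ Subgroup.center G := hEc e he f hf
  have h1 : ∀ n : ℕ, e ^ n * f * (e ^ n)⁻¹ = z ^ n * f := by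
    intro n
    induction n with
    | zero => simp
    | succ n ih =>
      have h2 : e * f * e⁻¹ = z * f := by rw [hz]; group
      have h3 : e * z ^ n = z ^ n * e := Subgroup.mem_center_iff.1 (Subgroup.pow_mem _ hzZ n) e
      calc e ^ (n + 1) * f * (e ^ (n + 1))⁻¹ = e * (e ^ n * f * (e ^ n)⁻¹) * e⁻¹ := by rw [pow_succ']; group
        _ = e * (z ^ n * f) * e⁻¹ := by rw [ih]
        _ = (e * z ^ n) * f * e⁻¹ := by group
        _ = z ^ n * (e * f * e⁻¹) := by rw [h3]; group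
        _ = z ^ n * (z * f) := by rw [h2]
        _ = _ := by rw [pow_succ]; group
  have h2 : z ^ r = 1 := by
    have h3 := h1 r
    have h4 : e ^ r * f * (e ^ r)⁻¹ = f := by
      rw [← Subgroup.mem_center_iff.1 (hEr e he) f]; group
    rw [h4] at h3
    exact (mul_eq_right.1 h3.symm)
  refine ⟨?_, h2⟩
  intro h0
  have hc : CharP K r := by
    obtain ⟨q, hq⟩ := CharP.exists K
    have h5 : q ∣ r := (CharP.cast_eq_zero_iff K q r).1 h0
    rcases (Nat.dvd_prime hr).1 h5 with h6 | h6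
    · subst h6
      have := hq
      exact (CharP.char_ne_one K 1 rfl).elim
    · exact h6 ▸ hq
  exact hef (h.eq_one_of_pow hr hzZ h2)

end sc

end Cfsg.Agent.H53.Fl
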