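import Mathlib
import Cfsg.Agent.H53.FlSub

/-!
The case of a normal `p`-section with scalar centre on which an element of order `p` acts nontrivially.
-/

set_option autoImplicit false
open Module

namespace Cfsg.Agent.H53.Fl

/-- in a nontrivial automorphism of order `p` of a finite abelian group of exponent `p`, some commutator
is nontrivial and fixed -/
theorem exists_fixed_comm {B : Type*} [CommGroup B] [Finite B] {p : ℕ} (hp : p.Prime) (hB : ∀ b : B, b ^ p = 1)
    (τ : MulAut B) (hτ : τ ^ p = 1) (hne : ∃ b, τ b ≠ b) : ∃ b : B, τ b * b⁻¹ ≠ 1 ∧ τ (τ b * b⁻¹) = τ b * b⁻¹ := by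
  classical
  have hpf : Fact p.Prime := ⟨hp⟩
  let D : B →* B :=
    { toFun := fun b => τ b * b⁻¹
      map_one' := by simp
      map_mul' := by
        intro a b
        rw [map_mul, mul_inv, mul_mul_mul_comm] }
  have hD : ∀ b, D b = τ b * b⁻¹ := fun _ => rfl
  have hτD : ∀ b, τ (D b) = D (τ b) := by
    intro b
    rw [hD, hD, map_mul, map_inv]
  have hRτ : ∀ r ∈ D.range, τ r ∈ D.range := by
    rintro _ ⟨b, rfl⟩
    exact ⟨τ b, (hτD b).symm⟩
  have hRne : Nontrivial D.range := by
    obtain ⟨b, hb⟩ := hne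
    refine ⟨⟨⟨D b, b, rfl⟩, 1, ?_⟩⟩
    intro h
    apply hb
    have h1 : D b = 1 := congrArg Subtype.val h
    rw [hD, mul_inv_eq_one] at h1
    exact h1
  have hRp : IsPGroup p D.range := by
    intro r
    refine ⟨1, ?_⟩
    rw [pow_one]
    exact Subtype.ext (hB r)
  have hdvd : p ∣ Nat.card D.range := by
    obtain ⟨n, hn⟩ := hRp.exists_card_eq
    rw [hn]
    refine dvd_pow_self p ?_
    rintro rfl
    rw [pow_zero] at hn
    have := (Nat.card_eq_one_iff_unique.1 hn).1
    exact not_subsingleton _ this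
  have _ : Fintype D.range := Fintype.ofFinite _
  let f : Function.End D.range := fun r => ⟨τ r, hRτ r r.2⟩
  have hf : ∀ r, ((f r : D.range) : B) = τ r := fun _ => rfl
  have hfp : f ^ p ^ 1 = 1 := by
    rw [pow_one]
    have h1 : ∀ (n : ℕ) (r : D.range), (((f ^ n) r : D.range) : B) = (τ ^ n) r := by
      intro n
      induction n with
      | zero => intro r; simp; rfl
      | succ n ih =>
        intro r
        rw [pow_succ', pow_succ', MulAut.mul_apply, ← ih]
        rfl
    funext r
    apply Subtype.ext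
    rw [h1, hτ]
    rfl
  have h1 := Equiv.Perm.card_fixedPoints_modEq hfp
  have h2 : (1 : D.range) ∈ Function.fixedPoints f := by
    change f 1 = 1
    apply Subtype.ext
    rw [hf]
    simp
  have h3 : p ∣ Fintype.card (Function.fixedPoints f) := by
    rw [Nat.card_eq_fintype_card] at hdvd
    exact (Nat.modEq_zero_iff_dvd.1 (h1.symm.trans (Nat.modEq_zero_iff_dvd.2 hdvd)))
  have h4 : 1 < Fintype.card (Function.fixedPoints f) := by
    have h5 : 0 < Fintype.card (Function.fixedPoints f) := Fintype.card_pos_iff.2 ⟨⟨1, h2⟩⟩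
    exact lt_of_lt_of_le hp.one_lt (Nat.le_of_dvd h5 h3)
  obtain ⟨r, hr⟩ := Fintype.exists_ne_of_one_lt_card h4 ⟨1, h2⟩
  obtain ⟨b, hb⟩ := r.1.2
  refine ⟨b, ?_, ?_⟩
  · intro h
    apply hr
    apply Subtype.ext
    apply Subtype.ext
    change (r.1 : B) = 1
    rw [← hb]
    exact h
  · have h5 : f r.1 = r.1 := r.2
    have h6 := congrArg Subtype.val h5
    rw [hf, ← hb] at h6
    exact h6

section main
variable {K : Type*} [Field K] {U : Type*} [AddCommGroup U] [Module K U] {G : Type*} [Group G]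
  [IsAlgClosed K] [FiniteDimensional K U] [Finite G] [Nontrivial U]

/-- the commutative normal subgroup `E/Z` -/
theorem exists_fixed_sec (E : Subgroup G) [hEn : E.Normal]
    (hEc : ∀ e ∈ E, ∀ f ∈ E, e * f * e⁻¹ * f⁻¹ ∈ Subgroup.center G) {p : ℕ} (hp : p.Prime)
    (hEp : ∀ e ∈ E, e ^ p ∈ Subgroup.center G) {x : G} (hx : x ^ p = 1)
    (hEx : ∃ e ∈ E, x * e * x⁻¹ * e⁻¹ ∉ Subgroup.center G) :
    ∃ v ∈ E, x * v * x⁻¹ * v⁻¹ ∉ Subgroup.center G ∧
      x * (x * v * x⁻¹ * v⁻¹) * x⁻¹ * (x * v * x⁻¹ * v⁻¹)⁻¹ ∈ Subgroup.center G := by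
  classical
  set Z := Subgroup.center G with hZ
  let q : G →* G ⧸ Z := QuotientGroup.mk' Z
  have hq : ∀ g, q g = 1 ↔ g ∈ Z := fun g => QuotientGroup.eq_one_iff g
  let B : Subgroup (G ⧸ Z) := E.map q
  have hBn : B.Normal := hEn.map q (QuotientGroup.mk'_surjective Z)
  have hBc : ∀ a ∈ B, ∀ b ∈ B, a * b = b * a := by
    rintro _ ⟨e, he, rfl⟩ _ ⟨f, hf, rfl⟩
    have h1 := (hq _).2 (hEc e he f hf)
    rw [map_mul, map_mul, map_mul, map_inv, map_inv, mul_inv_eq_one, mul_inv_eq_iff_eq_mul] at h1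
    exact h1
  let _ : CommGroup B := { (inferInstance : Group B) with
    mul_comm := fun a b => Subtype.ext (hBc a a.2 b b.2) }
  let τ : MulAut B := MulAut.conjNormal (q x)
  have hτa : ∀ b : B, ((τ b : B) : G ⧸ Z) = q x * b * (q x)⁻¹ := fun b => MulAut.conjNormal_apply _ _
  have hτ : τ ^ p = 1 := by
    rw [← map_pow, ← map_pow, hx, map_one, map_one]
  have hB : ∀ b : B, b ^ p = 1 := by
    rintro ⟨_, e, he, rfl⟩
    apply Subtype.ext
    change (q e) ^ p = 1
    rw [← map_pow]
    exact (hq _).2 (hEp e he)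
  obtain ⟨e, he, hex⟩ := hEx
  obtain ⟨b, hb1, hb2⟩ := exists_fixed_comm hp hB τ hτ ⟨⟨q e, e, he, rfl⟩, by
    intro h
    apply hex
    have h1 := congrArg Subtype.val h
    rw [hτa] at h1
    change q x * q e * (q x)⁻¹ = q e at h1
    rw [← hq, map_mul, map_mul, map_mul, map_inv, map_inv, mul_inv_eq_one]
    exact h1⟩
  obtain ⟨v, hv, hvb⟩ := b.2
  have h1 : q (x * v * x⁻¹ * v⁻¹) = ((τ b * b⁻¹ : B) : G ⧸ Z) := by
    rw [Subgroup.coe_mul, hτa, Subgroup.coe_inv, ← hvb, map_mul, map_mul, map_mul, map_inv, map_inv]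
  refine ⟨v, hv, ?_, ?_⟩
  · intro h
    apply hb1
    apply Subtype.ext
    rw [← h1]
    exact (hq _).2 h
  · rw [← hq, map_mul, map_mul, map_mul, map_inv, map_inv, h1, mul_inv_eq_one, ← hτa, hb2]

variable {ρ : Representation K G U} {ζ : G → K}

/-- an element of `E` outside the centre has a small fixed space -/
theorem fix_small (h : Sc ρ ζ) (E : Subgroup G)
    (hEc : ∀ e ∈ E, ∀ f ∈ E, e * f * e⁻¹ * f⁻¹ ∈ Subgroup.center G) {p : ℕ} (hp : p.Prime)
    (hEp : ∀ e ∈ E, e ^ p ∈ Subgroup.center G)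
    (hZE : ∀ e ∈ E, (∀ f ∈ E, e * f = f * e) → e ∈ Subgroup.center G)
    {w : G} (hw : w ∈ E) (hwZ : w ∉ Subgroup.center G) :
    p * finrank K (LinearMap.ker (ρ w - 1)) ≤ finrank K U := by
  classical
  obtain ⟨e, he, hew⟩ : ∃ e ∈ E, e * w * e⁻¹ * w⁻¹ ≠ 1 := by
    by_contra hcon
    push Not at hcon
    apply hwZ
    apply hZE w hw
    intro f hf
    have h1 := hcon f hf
    rw [mul_inv_eq_one, mul_inv_eq_iff_eq_mul] at h1
    exact h1.symm
  obtain ⟨hpK, hzp⟩ := h.prime_ne hp E hEc hEp he hw hew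
  set z := e * w * e⁻¹ * w⁻¹ with hz
  have hzZ : z ∈ Subgroup.center G := hEc e he w hw
  obtain ⟨A, hSA, hZA, hAc, hAp, hAg⟩ := mkA ({w} : Set G) (by
    intro s hs t ht
    rw [Set.mem_singleton_iff] at hs ht
    rw [hs, ht]) p (by
    intro s hs
    rw [Set.mem_singleton_iff] at hs
    rw [hs]; exact hEp w hw)
  have hwA : w ∈ A := hSA (Set.mem_singleton w)
  have hAK := h.card_ne A p hpK hAp
  have hewe : e * w * e⁻¹ = z * w := by rw [hz]; group
  have hcase := avgSub ρ A hAc hAK e (hAg e (by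
    intro s hs
    rw [Set.mem_singleton_iff] at hs
    rw [hs, hewe]
    exact A.mul_mem (hZA hzZ) hwA)) ⟨w, hwA⟩ p 1 (by
    rintro χ ⟨u, hu, hχ⟩ s hs hs1
    rw [Finset.card_le_one]
    -- conjugates of `w`
    have hconj : ∀ i : ℕ, (e ^ i)⁻¹ * w * e ^ i = w * (z ^ i)⁻¹ := by
      intro i
      induction i with
      | zero => simp
      | succ i ih =>
        have h1 : e⁻¹ * w * e = w * z⁻¹ := by
          have h2 : w = e⁻¹ * (z * w) * e := by rw [← hewe]; group
          have h3 : e⁻¹ * (z * w) * e = z * (e⁻¹ * w * e) := by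
            have := Subgroup.mem_center_iff.1 hzZ e⁻¹
            calc e⁻¹ * (z * w) * e = (e⁻¹ * z) * w * e := by group
              _ = (z * e⁻¹) * w * e := by rw [this]
              _ = _ := by group
          rw [h3] at h2
          have h4 : e⁻¹ * w * e = z⁻¹ * w := by rw [eq_inv_mul_iff_mul_eq]; exact h2.symm
          rw [h4]
          exact (Subgroup.mem_center_iff.1 (Subgroup.inv_mem _ hzZ) w).symm
        have h5 : (z ^ i)⁻¹ ∈ Subgroup.center G := Subgroup.inv_mem _ (Subgroup.pow_mem _ hzZ i)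
        calc (e ^ (i + 1))⁻¹ * w * e ^ (i + 1) = e⁻¹ * ((e ^ i)⁻¹ * w * e ^ i) * e := by rw [pow_succ]; group
          _ = e⁻¹ * (w * (z ^ i)⁻¹) * e := by rw [ih]
          _ = e⁻¹ * w * ((z ^ i)⁻¹ * e) := by group
          _ = e⁻¹ * w * (e * (z ^ i)⁻¹) := by rw [Subgroup.mem_center_iff.1 h5 e]
          _ = (e⁻¹ * w * e) * (z ^ i)⁻¹ := by group
          _ = _ := by rw [h1, pow_succ']; group
    have hχz : ∀ (c : G) (hc : c ∈ Subgroup.center G), (χ ⟨c, hZA hc⟩ : K) = ζ c := by
      intro c hc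
      exact h.eq_of hc hu (hχ ⟨c, hZA hc⟩)
    have key : ∀ i ∈ s, (χ ⟨w, hwA⟩ : K) = ζ z ^ i := by
      intro i hi
      have h1 := hs1 i hi (⟨w, hwA⟩ * (⟨z ^ i, hZA (Subgroup.pow_mem _ hzZ i)⟩)⁻¹) (by
        rw [Subgroup.coe_mul, Subgroup.coe_inv]
        exact (hconj i).symm)
      rw [map_mul, map_inv, mul_inv_eq_one] at h1
      rw [h1, hχz _ (Subgroup.pow_mem _ hzZ i), h.pow hzZ]
    intro i hi j hj
    have h1 := (key i hi).symm.trans (key j hj)
    have h2 : orderOf (ζ z) = p := by
      have : Fact p.Prime := ⟨hp⟩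
      apply orderOf_eq_prime
      · rw [← h.pow hzZ, hzp, h.one]
      · intro h3; exact hew (h.inj z hzZ h3)
    have hi' := Finset.mem_range.1 (hs hi)
    have hj' := Finset.mem_range.1 (hs hj)
    exact pow_injOn_Iio_orderOf (x := ζ z) (by rw [h2]; exact hi') (by rw [h2]; exact hj') h1)
  rw [one_mul] at hcase
  exact hcase

theorem tri_succ (i : ℕ) : (i + 1) * (i + 1 + 1) / 2 = i * (i + 1) / 2 + (i + 1) := by
  have : (i + 1) * (i + 1 + 1) = i * (i + 1) + (i + 1) * 2 := by ring
  rw [this, Nat.add_mul_div_right _ _ (by norm_num)]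

theorem lemP (h : Sc ρ ζ) (E : Subgroup G) [hEn : E.Normal]
    (hEc : ∀ e ∈ E, ∀ f ∈ E, e * f * e⁻¹ * f⁻¹ ∈ Subgroup.center G) {p : ℕ} (hp : p.Prime) (hp3 : 3 < p)
    (hEp : ∀ e ∈ E, e ^ p ∈ Subgroup.center G)
    (hZE : ∀ e ∈ E, (∀ f ∈ E, e * f = f * e) → e ∈ Subgroup.center G)
    {x : G} (hx : x ^ p = 1) (hEx : ∃ e ∈ E, x * e * x⁻¹ * e⁻¹ ∉ Subgroup.center G) :
    2 * finrank K (LinearMap.ker (ρ x - 1)) < finrank K U := by
  classical
  have hDpos : 0 < finrank K U := Module.finrank_pos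
  obtain ⟨v, hv, hwZ, hsZ⟩ := exists_fixed_sec E hEc hp hEp hx hEx
  set w := x * v * x⁻¹ * v⁻¹ with hw
  have hwE : w ∈ E := E.mul_mem (hEn.conj_mem v hv x) (E.inv_mem hv)
  have hxv : x * v * x⁻¹ = w * v := by rw [hw]; group
  obtain ⟨e, he, hew⟩ : ∃ e ∈ E, e * w * e⁻¹ * w⁻¹ ≠ 1 := by
    by_contra hcon
    push Not at hcon
    apply hwZ
    apply hZE w hwE
    intro f hf
    have h1 := hcon f hf
    rw [mul_inv_eq_one, mul_inv_eq_iff_eq_mul] at h1
    exact h1.symm
  obtain ⟨hpK, -⟩ := h.prime_ne hp E hEc hEp he hwE hew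
  have hM := fix_small h E hEc hp hEp hZE hwE hwZ
  set s := x * w * x⁻¹ * w⁻¹ with hs
  have hxw : x * w * x⁻¹ = s * w := by rw [hs]; group
  by_cases hs1 : s = 1
  · -- `x` commutes with `w`
    rw [hs1, one_mul] at hxw
    have hxw' : x * w = w * x := mul_inv_eq_iff_eq_mul.1 hxw
    set z := v * w * v⁻¹ * w⁻¹ with hz
    have hzZ : z ∈ Subgroup.center G := hEc v hv w hwE
    have hvw : v * w = z * w * v := by rw [hz]; group
    by_cases hz1 : z = 1
    · -- case (b)
      rw [hz1, one_mul] at hvw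
      obtain ⟨A, hSA, hZA, hAc, hAp, hAg⟩ := mkA ({v, w} : Set G) (by
        intro a ha b hb
        rcases ha with rfl | ha
        · rcases hb with rfl | hb
          · rfl
          · rw [Set.mem_singleton_iff.1 hb]; exact hvw
        · rw [Set.mem_singleton_iff.1 ha]
          rcases hb with rfl | hb
          · exact hvw.symm
          · rw [Set.mem_singleton_iff.1 hb]) p (by
        intro a ha
        rcases ha with rfl | ha
        · exact hEp _ hv
        · rw [Set.mem_singleton_iff.1 ha]; exact hEp w hwE)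
      have hvA : v ∈ A := hSA (Or.inl rfl)
      have hwA : w ∈ A := hSA (Or.inr rfl)
      have h1 := starSub ρ A hAc (h.card_ne A p hpK hAp) hp x hx (hAg x (by
        intro a ha
        rcases ha with rfl | ha
        · rw [hxv]; exact A.mul_mem hwA hvA
        · rw [Set.mem_singleton_iff.1 ha, hxw]; exact hwA)) v hvA
      rw [← hw] at h1
      apply final_ineq (n := 1) hp3 hDpos one_pos
      rw [one_mul, one_mul]
      calc p * (p * finrank K (LinearMap.ker (ρ x - 1))) ≤
          p * (finrank K U + (p - 1) * finrank K (LinearMap.ker (ρ w - 1))) := Nat.mul_le_mul_left _ h1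
        _ = p * finrank K U + (p - 1) * (p * finrank K (LinearMap.ker (ρ w - 1))) := by ring
        _ ≤ _ := Nat.add_le_add_left (Nat.mul_le_mul_left _ hM) _
    · -- case (c)
      obtain ⟨-, hzp⟩ := h.prime_ne hp E hEc hEp hv hwE hz1
      have hwp : w ^ p = 1 := by
        have h1 : ∀ n : ℕ, x ^ n * v * (x ^ n)⁻¹ = w ^ n * v := by
          intro n
          induction n with
          | zero => simp
          | succ n ih =>
            have h2 : x * w ^ n = w ^ n * x := (Commute.pow_right (show Commute x w from hxw') n)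
            calc x ^ (n + 1) * v * (x ^ (n + 1))⁻¹ = x * (x ^ n * v * (x ^ n)⁻¹) * x⁻¹ := by rw [pow_succ']; group
              _ = x * (w ^ n * v) * x⁻¹ := by rw [ih]
              _ = (x * w ^ n) * v * x⁻¹ := by group
              _ = w ^ n * (x * v * x⁻¹) := by rw [h2]; group
              _ = w ^ n * (w * v) := by rw [hxv]
              _ = _ := by rw [pow_succ]; group
        have h2 := h1 p
        rw [hx] at h2
        simp only [one_mul, inv_one, mul_one] at h2
        exact mul_eq_right.1 h2.symm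
      obtain ⟨A, hSA, hZA, hAc, hAp, hAg⟩ := mkA ({x, w} : Set G) (by
        intro a ha b hb
        rcases ha with rfl | ha
        · rcases hb with rfl | hb
          · rfl
          · rw [Set.mem_singleton_iff.1 hb]; exact hxw'
        · rw [Set.mem_singleton_iff.1 ha]
          rcases hb with rfl | hb
          · exact hxw'.symm
          · rw [Set.mem_singleton_iff.1 hb]) p (by
        intro a ha
        rcases ha with rfl | ha
        · rw [hx]; exact Subgroup.one_mem _
        · rw [Set.mem_singleton_iff.1 ha]; exact hEp w hwE)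
      have hxA : x ∈ A := hSA (Or.inl rfl)
      have hwA : w ∈ A := hSA (Or.inr rfl)
      have hvwv : v⁻¹ * w * v = w * z⁻¹ := by
        have h2 : z⁻¹ * (v * w) = w * v := by rw [hvw]; group
        have h3 : z⁻¹ ∈ Subgroup.center G := Subgroup.inv_mem _ hzZ
        have h4 : w * v = v * (w * z⁻¹) := by
          rw [← h2, ← Subgroup.mem_center_iff.1 h3 (v * w)]; group
        calc v⁻¹ * w * v = v⁻¹ * (w * v) := by group
          _ = v⁻¹ * (v * (w * z⁻¹)) := by rw [h4]
          _ = _ := by group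
      have hvxv : v⁻¹ * x * v = x * w * z⁻¹ := by
        -- `x v = w v x`, so `v⁻¹ x v = (v⁻¹ w v) x`
        have h2 : x * v = w * v * x := by rw [← hxv]; group
        calc v⁻¹ * x * v = v⁻¹ * (x * v) := by group
          _ = v⁻¹ * (w * v * x) := by rw [h2]
          _ = (v⁻¹ * w * v) * x := by group
          _ = w * z⁻¹ * x := by rw [hvwv]
          _ = w * (z⁻¹ * x) := by group
          _ = w * (x * z⁻¹) := by rw [Subgroup.mem_center_iff.1 (Subgroup.inv_mem _ hzZ) x]
          _ = (w * x) * z⁻¹ := by group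
          _ = _ := by rw [← hxw']
      have hconjA : ∀ a ∈ A, v⁻¹ * a * v⁻¹⁻¹ ∈ A := hAg v⁻¹ (by
        intro a ha
        rw [inv_inv]
        rcases ha with rfl | ha
        · rw [hvxv]; exact A.mul_mem (A.mul_mem hxA hwA) (A.inv_mem (hZA hzZ))
        · rw [Set.mem_singleton_iff.1 ha, hvwv]; exact A.mul_mem hwA (A.inv_mem (hZA hzZ)))
      have hconjA' : ∀ a ∈ A, v * a * v⁻¹ ∈ A := by
        obtain ⟨τ, hτ1, hτ2⟩ := exists_aut A v⁻¹ hconjA
        intro a ha
        have := (τ.symm ⟨a, ha⟩).2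
        rw [hτ2, inv_inv] at this
        exact this
      have hcase := avgSub ρ A hAc (h.card_ne A p hpK hAp) v hconjA' ⟨x, hxA⟩ p 2 (by
        rintro χ ⟨u, hu, hχ⟩ S hS hS1
        have hconj : ∀ i : ℕ, (v ^ i)⁻¹ * x * v ^ i = x * w ^ i * (z ^ (i * (i + 1) / 2))⁻¹ := by
          intro i
          induction i with
          | zero => simp
          | succ i ih =>
            have hwi : v⁻¹ * w ^ i * v = w ^ i * (z ^ i)⁻¹ := by
              have h5 : v⁻¹ * w ^ i * v = (v⁻¹ * w * v) ^ i := by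
                have := conj_pow (i := i) (a := v⁻¹) (b := w)
                rw [inv_inv] at this
                exact this.symm
              rw [h5, hvwv]
              have h6 : Commute w z⁻¹ := Subgroup.mem_center_iff.1 (Subgroup.inv_mem _ hzZ) w
              rw [h6.mul_pow, inv_pow]
            have h5 : (z ^ (i * (i + 1) / 2))⁻¹ ∈ Subgroup.center G := Subgroup.inv_mem _ (Subgroup.pow_mem _ hzZ _)
            have h6 : z⁻¹ ∈ Subgroup.center G := Subgroup.inv_mem _ hzZ
            rw [tri_succ]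
            calc (v ^ (i + 1))⁻¹ * x * v ^ (i + 1) = v⁻¹ * ((v ^ i)⁻¹ * x * v ^ i) * v := by rw [pow_succ]; group
              _ = v⁻¹ * (x * w ^ i * (z ^ (i * (i + 1) / 2))⁻¹) * v := by rw [ih]
              _ = v⁻¹ * x * w ^ i * ((z ^ (i * (i + 1) / 2))⁻¹ * v) := by group
              _ = v⁻¹ * x * w ^ i * (v * (z ^ (i * (i + 1) / 2))⁻¹) := by rw [Subgroup.mem_center_iff.1 h5 v]
              _ = (v⁻¹ * x * v) * (v⁻¹ * w ^ i * v) * (z ^ (i * (i + 1) / 2))⁻¹ := by group
              _ = (x * w * z⁻¹) * (w ^ i * (z ^ i)⁻¹) * (z ^ (i * (i + 1) / 2))⁻¹ := by rw [hvxv, hwi]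
              _ = x * w * (z⁻¹ * w ^ i) * (z ^ i)⁻¹ * (z ^ (i * (i + 1) / 2))⁻¹ := by group
              _ = x * w * (w ^ i * z⁻¹) * (z ^ i)⁻¹ * (z ^ (i * (i + 1) / 2))⁻¹ := by
                rw [Subgroup.mem_center_iff.1 h6 (w ^ i)]
              _ = _ := by
                rw [pow_succ' w i, pow_add z, pow_succ z i]
                group
        have hχz : ∀ (c : G) (hc : c ∈ Subgroup.center G), (χ ⟨c, hZA hc⟩ : K) = ζ c := by
          intro c hc
          exact h.eq_of hc hu (hχ ⟨c, hZA hc⟩)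
        set a : K := (χ ⟨x, hxA⟩ : K) with ha
        set b : K := (χ ⟨w, hwA⟩ : K) with hb
        set c : K := ζ z with hc
        have hc0 : c ≠ 0 := by
          intro h0
          have h1 := h.pow hzZ p
          rw [hzp, h.one, ← hc, h0, zero_pow hp.ne_zero] at h1
          exact one_ne_zero h1
        have hb0 : b ≠ 0 := (χ ⟨w, hwA⟩).ne_zero
        have ha0 : a ≠ 0 := (χ ⟨x, hxA⟩).ne_zero
        have hbp : b ^ p = 1 := by
          rw [hb, ← Units.val_pow_eq_pow_val, ← map_pow]
          have : (⟨w, hwA⟩ : A) ^ p = 1 := Subtype.ext (by rw [Subgroup.coe_pow, hwp, Subgroup.coe_one])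
          rw [this, map_one, Units.val_one]
        have hcp : c ^ p = 1 := by rw [hc, ← h.pow hzZ, hzp, h.one]
        have hc2 : orderOf c = p := by
          have : Fact p.Prime := ⟨hp⟩
          apply orderOf_eq_prime hcp
          intro h3; exact hz1 (h.inj z hzZ h3)
        have key : ∀ i ∈ S, a * b ^ i = c ^ (i * (i + 1) / 2) := by
          intro i hi
          have h1 := hS1 i hi (⟨x, hxA⟩ * ⟨w, hwA⟩ ^ i * (⟨z ^ (i * (i + 1) / 2), hZA (Subgroup.pow_mem _ hzZ _)⟩)⁻¹) (by
            rw [Subgroup.coe_mul, Subgroup.coe_inv, Subgroup.coe_mul, Subgroup.coe_pow]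
            exact (hconj i).symm)
          rw [map_mul, map_inv, mul_inv_eq_one, map_mul, map_pow] at h1
          have h2 := congrArg (fun y : Kˣ => (y : K)) h1
          simp only [Units.val_mul, Units.val_pow_eq_pow_val] at h2
          rw [hχz _ (Subgroup.pow_mem _ hzZ _), h.pow hzZ] at h2
          exact h2
        -- two solutions determine `b ^ 2`
        have key2 : ∀ i ∈ S, ∀ j ∈ S, i < j → b ^ 2 = c ^ (i + j + 1) := by
          intro i hi j hj hij
          have h1 := key i hi
          have h2 := key j hj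
          obtain ⟨d, rfl⟩ : ∃ d, j = i + d := ⟨j - i, by omega⟩
          have hd : 0 < d := by omega
          have hdp : d < p := by
            have := Finset.mem_range.1 (hS hj); omega
          -- squares
          have h3 : a ^ 2 * b ^ (2 * i) = c ^ (i * (i + 1)) := by
            have h4 : i * (i + 1) / 2 * 2 = i * (i + 1) := Nat.div_mul_cancel (Nat.even_mul_succ_self i).two_dvd
            calc a ^ 2 * b ^ (2 * i) = (a * b ^ i) ^ 2 := by ring
              _ = c ^ (i * (i + 1) / 2 * 2) := by rw [h1, ← pow_mul]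
              _ = _ := by rw [h4]
          have h3' : a ^ 2 * b ^ (2 * (i + d)) = c ^ ((i + d) * (i + d + 1)) := by
            have h4 : (i + d) * (i + d + 1) / 2 * 2 = (i + d) * (i + d + 1) :=
              Nat.div_mul_cancel (Nat.even_mul_succ_self (i + d)).two_dvd
            calc a ^ 2 * b ^ (2 * (i + d)) = (a * b ^ (i + d)) ^ 2 := by ring
              _ = c ^ ((i + d) * (i + d + 1) / 2 * 2) := by rw [h2, ← pow_mul]
              _ = _ := by rw [h4]
          have h5 : (b ^ 2) ^ d = (c ^ (i + (i + d) + 1)) ^ d := by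
            have h6 : (a ^ 2 * b ^ (2 * i)) * (b ^ 2) ^ d = (a ^ 2 * b ^ (2 * i)) * (c ^ (i + (i + d) + 1)) ^ d := by
              calc (a ^ 2 * b ^ (2 * i)) * (b ^ 2) ^ d = a ^ 2 * b ^ (2 * (i + d)) := by ring
                _ = c ^ ((i + d) * (i + d + 1)) := h3'
                _ = c ^ (i * (i + 1)) * (c ^ (i + (i + d) + 1)) ^ d := by
                  rw [← pow_mul, ← pow_add]
                  congr 1
                  ring
                _ = _ := by rw [h3]
            exact mul_left_cancel₀ (mul_ne_zero (pow_ne_zero _ ha0) (pow_ne_zero _ hb0)) h6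
          have h7 : (b ^ 2 / c ^ (i + (i + d) + 1)) ^ d = 1 := by
            rw [div_pow, h5, div_self (pow_ne_zero _ (pow_ne_zero _ hc0))]
          have h8 : (b ^ 2 / c ^ (i + (i + d) + 1)) ^ p = 1 := by
            rw [div_pow, ← pow_mul, ← pow_mul, mul_comm 2 p, mul_comm _ p, pow_mul, pow_mul, hbp, hcp, one_pow, one_pow,
              div_one]
          have h9 : b ^ 2 / c ^ (i + (i + d) + 1) = 1 := by
            have hcop : Nat.Coprime d p := Nat.Coprime.symm ((Nat.Prime.coprime_iff_not_dvd hp).2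
              (fun hdv => absurd (Nat.le_of_dvd hd hdv) (by omega)))
            have h10 := pow_gcd_eq_one.2 ⟨h7, h8⟩
            rw [hcop.gcd_eq_one, pow_one] at h10
            exact h10
          have h11 := (div_eq_one_iff_eq (pow_ne_zero _ hc0)).1 h9
          rw [h11]
        have key3 : ∀ i ∈ S, ∀ j ∈ S, i ≠ j → b ^ 2 = c ^ (i + j + 1) := by
          intro i hi j hj hij
          rcases lt_or_gt_of_ne hij with h1 | h1
          · exact key2 i hi j hj h1
          · rw [add_comm i j]; exact key2 j hj i hi h1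
        by_contra hcon
        push Not at hcon
        obtain ⟨i, hi, j, hj, k, hk, hij, hik, hjk⟩ := Finset.two_lt_card.1 hcon
        have h1 := (key3 i hi j hj hij).symm.trans (key3 i hi k hk hik)
        have h2 : c ^ j = c ^ k := by
          have h3 : c ^ (i + 1) * c ^ j = c ^ (i + 1) * c ^ k := by
            rw [← pow_add, ← pow_add, show i + 1 + j = i + j + 1 by ring, show i + 1 + k = i + k + 1 by ring]
            exact h1
          exact mul_left_cancel₀ (pow_ne_zero _ hc0) h3
        apply hjk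
        exact pow_injOn_Iio_orderOf (x := c) (by rw [hc2]; exact Finset.mem_range.1 (hS hj))
          (by rw [hc2]; exact Finset.mem_range.1 (hS hk)) h2)
      have h5 : 5 * finrank K (LinearMap.ker (ρ x - 1)) ≤ 2 * finrank K U := by
        refine le_trans (Nat.mul_le_mul_right _ ?_) hcase
        have : p ≠ 4 := by rintro rfl; exact absurd hp (by norm_num)
        omega
      omega
  · -- case (a)
    obtain ⟨A, hSA, hZA, hAc, hAp, hAg⟩ := mkA ({w} : Set G) (by
      intro a ha b hb
      rw [Set.mem_singleton_iff] at ha hb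
      rw [ha, hb]) p (by
      intro a ha
      rw [Set.mem_singleton_iff] at ha
      rw [ha]; exact hEp w hwE)
    have hwA : w ∈ A := hSA (Set.mem_singleton w)
    have h1 := starSub ρ A hAc (h.card_ne A p hpK hAp) hp x hx (hAg x (by
      intro a ha
      rw [Set.mem_singleton_iff.1 ha, hxw]
      exact A.mul_mem (hZA hsZ) hwA)) w hwA
    rw [← hs] at h1
    have h2 : finrank K (LinearMap.ker (ρ s - 1)) = 0 := by
      rw [Submodule.finrank_eq_zero, Submodule.eq_bot_iff]
      intro u hu
      by_contra hu0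
      rw [mem_ker_iff] at hu
      have := h.eq_of hsZ hu0 (c := 1) (by rw [one_smul]; exact hu)
      exact hs1 (h.inj s hsZ this.symm)
    rw [h2, mul_zero, add_zero] at h1
    have h5 : 4 * finrank K (LinearMap.ker (ρ x - 1)) ≤ finrank K U :=
      le_trans (Nat.mul_le_mul_right _ (by omega)) h1
    omega

end main

end Cfsg.Agent.H53.Fl
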