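import Mathlib
import Cfsg.Agent.H53.FlSub

/-!
The case of a normal `r`-section with scalar centre on which an element of order `p ≠ r` acts nontrivially.
-/

set_option autoImplicit false
open Module

namespace Cfsg.Agent.H53.Fl

section lin
variable {K : Type*} [Field K] {U : Type*} [AddCommGroup U] [Module K U] [FiniteDimensional K U]

/-- the square of the dimension of the fixed space is smaller than the dimension of the centralizer -/
theorem sq_lt (T : Module.End K U) (hT : T ≠ 1) (S : Submodule K (Module.End K U))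
    (hS : ∀ f, f ∈ S ↔ T * f = f * T) :
    finrank K (LinearMap.ker (T - 1)) * finrank K (LinearMap.ker (T - 1)) < finrank K S := by
  set C := LinearMap.ker (T - 1) with hC
  set R := LinearMap.range (T - 1) with hR
  have hdim : finrank K (U ⧸ R) = finrank K C := by
    have h1 := Submodule.finrank_quotient_add_finrank R
    have h2 := LinearMap.finrank_range_add_finrank_ker (T - 1)
    rw [← hR, ← hC] at h2
    omega
  let F : ((U ⧸ R) →ₗ[K] C) →ₗ[K] Module.End K U :=
    { toFun := fun φ => C.subtype ∘ₗ φ ∘ₗ R.mkQ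
      map_add' := fun φ ψ => by ext u; simp
      map_smul' := fun c φ => by ext u; simp }
  have hFa : ∀ φ u, F φ u = (φ (R.mkQ u) : U) := fun _ _ => rfl
  have hF : Function.Injective F := by
    intro φ ψ h
    ext u
    have h1 := congrArg (fun f : Module.End K U => f u) h
    simp only [hFa] at h1
    exact h1
  have hTC : ∀ c : C, T (c : U) = c := by
    intro c
    exact (mem_ker_iff T _).1 c.2
  have hrange : LinearMap.range F ≤ S := by
    rintro _ ⟨φ, rfl⟩
    rw [hS]
    ext u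
    rw [Module.End.mul_apply, Module.End.mul_apply, hFa, hFa, hTC]
    congr 2
    rw [Submodule.mkQ_apply, Submodule.mkQ_apply, Submodule.Quotient.eq]
    rw [← neg_sub]
    exact R.neg_mem ⟨u, by rw [LinearMap.sub_apply, Module.End.one_apply]⟩
  have hlt : LinearMap.range F < S := by
    refine lt_of_le_of_ne hrange ?_
    intro h
    have h1 : (1 : Module.End K U) ∈ LinearMap.range F := by
      rw [h, hS, mul_one, one_mul]
    obtain ⟨φ, hφ⟩ := h1
    apply hT
    ext u
    have h2 : F φ u = u := by rw [hφ]; rfl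
    rw [hFa] at h2
    rw [← h2, hTC]
    rfl
  have h1 := Submodule.finrank_lt_finrank_of_lt hlt
  rw [LinearMap.finrank_range_of_inj hF, Module.finrank_linearMap, hdim] at h1
  exact h1

end lin

section main
variable {K : Type*} [Field K] {U : Type*} [AddCommGroup U] [Module K U] {G : Type*} [Group G]

/-- the conjugation representation on endomorphisms -/
noncomputable def conjRep (ρ : Representation K G U) : G →* Module.End K (Module.End K U) where
  toFun g := (LinearMap.mulLeft K (ρ g)).comp (LinearMap.mulRight K (ρ g⁻¹))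
  map_one' := by
    ext f : 1
    simp
  map_mul' a b := by
    ext f : 1
    simp [mul_assoc, Module.End.mul_apply]

theorem conjRep_apply (ρ : Representation K G U) (g : G) (f : Module.End K U) :
    conjRep ρ g f = ρ g * (f * ρ g⁻¹) := rfl

theorem rho_mul_inv (ρ : Representation K G U) (g : G) : ρ g * ρ g⁻¹ = 1 := by
  rw [← map_mul, mul_inv_cancel, map_one]

theorem rho_inv_mul (ρ : Representation K G U) (g : G) : ρ g⁻¹ * ρ g = 1 := by
  rw [← map_mul, inv_mul_cancel, map_one]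

theorem conjRep_rho (ρ : Representation K G U) (g u : G) : conjRep ρ g (ρ u) = ρ (g * u * g⁻¹) := by
  rw [conjRep_apply, map_mul, map_mul, mul_assoc]

theorem conjRep_mul (ρ : Representation K G U) (g : G) (f f' : Module.End K U) :
    conjRep ρ g (f * f') = conjRep ρ g f * conjRep ρ g f' := by
  rw [conjRep_apply, conjRep_apply, conjRep_apply]
  calc ρ g * (f * f' * ρ g⁻¹) = ρ g * f * 1 * f' * ρ g⁻¹ := by simp only [mul_assoc, one_mul]
    _ = ρ g * f * (ρ g⁻¹ * ρ g) * f' * ρ g⁻¹ := by rw [rho_inv_mul]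
    _ = _ := by simp only [mul_assoc]

/-- a common eigenvector defines a character -/
theorem exists_char {W : Type*} [AddCommGroup W] [Module K W] {Q : Type*} [Group Q] (ρ' : Representation K Q W)
    (B : Subgroup Q) {f : W} (hf : f ≠ 0) (h : ∀ b ∈ B, ∃ c : K, ρ' b f = c • f) :
    ∃ χ : B →* Kˣ, ∀ b : B, ρ' (b : Q) f = (χ b : K) • f := by
  classical
  choose c hc using fun b : B => h b b.2
  have huniq : ∀ a b : K, a • f = b • f → a = b := by
    intro a b hab
    have h1 : (a - b) • f = 0 := by rw [sub_smul, hab, sub_self]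
    rcases smul_eq_zero.1 h1 with h2 | h2
    · exact sub_eq_zero.1 h2
    · exact absurd h2 hf
  have hone : c 1 = 1 := by
    apply huniq
    rw [← hc 1, one_smul, Subgroup.coe_one, map_one]; rfl
  have hmul : ∀ a b, c (a * b) = c a * c b := by
    intro a b
    apply huniq
    rw [← hc, Subgroup.coe_mul, map_mul, Module.End.mul_apply, hc b, map_smul, hc a, smul_smul, mul_comm]
  let c' : B →* K := ⟨⟨c, hone⟩, hmul⟩
  refine ⟨c'.toHomUnits, ?_⟩
  intro b
  rw [MonoidHom.coe_toHomUnits]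
  exact hc b

theorem card_dual [IsAlgClosed K] {B : Type*} [Group B] [Finite B] (hBc : ∀ a b : B, a * b = b * a)
    (hBK : (Nat.card B : K) ≠ 0) : Nat.card (B →* Kˣ) = Nat.card B := by
  let _ : CommGroup B := { (inferInstance : Group B) with
    mul_comm := hBc }
  have hexp : NeZero ((Monoid.exponent B : ℕ) : K) := by
    constructor
    intro h
    apply hBK
    obtain ⟨c, hc⟩ : Monoid.exponent B ∣ Nat.card B := Group.exponent_dvd_nat_card
    rw [hc, Nat.cast_mul, h, zero_mul]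
  have : HasEnoughRootsOfUnity K (Monoid.exponent B) := inferInstance
  exact CommGroup.card_monoidHom_of_hasEnoughRootsOfUnity B K

theorem num_ineq {p N b D : ℕ} (hp : 3 < p) (hN : 4 * (p - 1) ≤ (p - 4) * N) (hN0 : 0 < N)
    (h : p * N * (b * b + 1) ≤ (N + (p - 1)) * (D * D)) : 2 * b < D := by
  by_contra hcon
  push Not at hcon
  obtain ⟨q, rfl⟩ : ∃ q, p = q + 4 := ⟨p - 4, by omega⟩
  simp only [show q + 4 - 1 = q + 3 by omega, show q + 4 - 4 = q by omega] at hN h
  have h1 : D * D ≤ 2 * b * (2 * b) := Nat.mul_le_mul hcon hcon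
  have h2 : (q + 4) * N * (b * b + 1) ≤ (N + (q + 3)) * (2 * b * (2 * b)) := h.trans (Nat.mul_le_mul_left _ h1)
  have h3 : (N + (q + 3)) * (2 * b * (2 * b)) ≤ (q + 4) * N * (b * b) := by
    calc (N + (q + 3)) * (2 * b * (2 * b)) = (4 * N + 4 * (q + 3)) * (b * b) := by ring
      _ ≤ (4 * N + q * N) * (b * b) := Nat.mul_le_mul_right _ (by omega)
      _ = _ := by ring
  have h4 := h2.trans h3
  have h5 : 0 < (q + 4) * N := Nat.mul_pos (by omega) hN0
  nlinarith

variable [IsAlgClosed K] [FiniteDimensional K U] [Finite G] [Nontrivial U]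
variable {ρ : Representation K G U} {ζ : G → K}

theorem lemR (h : Sc ρ ζ) (E : Subgroup G) [hEn : E.Normal]
    (hEc : ∀ e ∈ E, ∀ f ∈ E, e * f * e⁻¹ * f⁻¹ ∈ Subgroup.center G) {p r : ℕ} (hp : p.Prime) (hp3 : 3 < p)
    (hr : r.Prime) (hrp : r ≠ p) (hEr : ∀ e ∈ E, e ^ r ∈ Subgroup.center G)
    (hZE : ∀ e ∈ E, (∀ f ∈ E, e * f = f * e) → e ∈ Subgroup.center G)
    {x : G} (hx : x ^ p = 1) (hEx : ∃ e ∈ E, x * e * x⁻¹ * e⁻¹ ∉ Subgroup.center G) :
    2 * finrank K (LinearMap.ker (ρ x - 1)) < finrank K U := by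
  classical
  have hpf : Fact p.Prime := ⟨hp⟩
  have hrf : Fact r.Prime := ⟨hr⟩
  obtain ⟨e₀, he₀, hxe₀⟩ := hEx
  have hy₀ : x * e₀ * x⁻¹ * e₀⁻¹ ∈ E := E.mul_mem (hEn.conj_mem e₀ he₀ x) (E.inv_mem he₀)
  obtain ⟨f₀, hf₀, hef₀⟩ : ∃ f ∈ E, f * (x * e₀ * x⁻¹ * e₀⁻¹) * f⁻¹ * (x * e₀ * x⁻¹ * e₀⁻¹)⁻¹ ≠ 1 := by
    by_contra hcon
    push Not at hcon
    apply hxe₀
    apply hZE _ hy₀
    intro f hf
    have h1 := hcon f hf
    rw [mul_inv_eq_one, mul_inv_eq_iff_eq_mul] at h1
    exact h1.symm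
  obtain ⟨hrK, -⟩ := h.prime_ne hr E hEc hEr hf₀ hy₀ hef₀
  set Z := Subgroup.center G with hZ
  let q : G →* G ⧸ Z := QuotientGroup.mk' Z
  have hq : ∀ g, q g = 1 ↔ g ∈ Z := fun g => QuotientGroup.eq_one_iff g
  let B : Subgroup (G ⧸ Z) := E.map q
  have hBn : B.Normal := hEn.map q (QuotientGroup.mk'_surjective Z)
  have hmemB : ∀ e ∈ E, q e ∈ B := fun e he => ⟨e, he, rfl⟩
  have hBc : ∀ a ∈ B, ∀ b ∈ B, a * b = b * a := by
    rintro _ ⟨e, he, rfl⟩ _ ⟨f, hf, rfl⟩
    have h1 := (hq _).2 (hEc e he f hf)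
    rw [map_mul, map_mul, map_mul, map_inv, map_inv, mul_inv_eq_one, mul_inv_eq_iff_eq_mul] at h1
    exact h1
  have hBr : ∀ b ∈ B, b ^ r = 1 := by
    rintro _ ⟨e, he, rfl⟩
    rw [← map_pow]
    exact (hq _).2 (hEr e he)
  have hBp : IsPGroup r B := by
    intro b
    exact ⟨1, Subtype.ext (by rw [pow_one, Subgroup.coe_pow, hBr b b.2, Subgroup.coe_one])⟩
  obtain ⟨k, hk⟩ := hBp.exists_card_eq
  have hBK : (Nat.card B : K) ≠ 0 := by
    rw [hk, Nat.cast_pow]
    exact pow_ne_zero _ hrK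
  -- the representation on endomorphisms
  have hker : ∀ z ∈ Z, conjRep ρ z = 1 := by
    intro z hz
    have h1 : ∀ z ∈ Z, ρ z = ζ z • (1 : Module.End K U) := by
      intro z hz
      ext u
      exact h.hζ z hz u
    ext f : 1
    rw [conjRep_apply, h1 z hz, h1 z⁻¹ (Z.inv_mem hz), mul_smul_comm, mul_one, smul_mul_assoc, one_mul, smul_smul,
      ← h.mul hz (Z.inv_mem hz), mul_inv_cancel, h.one, one_smul]
    rfl
  let ρW : Representation K (G ⧸ Z) (Module.End K U) := QuotientGroup.lift Z (conjRep ρ) hker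
  have hρW : ∀ g, ρW (q g) = conjRep ρ g := fun g => rfl
  obtain ⟨_, π, hF, hπ, hσ⟩ := exists_fam ρW B hBc hBK
  -- the automorphism induced by `x`
  let τ : MulAut B := MulAut.conjNormal (q x)
  have hτa : ∀ b : B, ((τ b : B) : G ⧸ Z) = q x * b * (q x)⁻¹ := fun b => MulAut.conjNormal_apply _ _
  have hτs : ∀ b : B, ((τ.symm b : B) : G ⧸ Z) = (q x)⁻¹ * b * q x := fun b => MulAut.conjNormal_symm_apply _ _
  have hτp : τ ^ p = 1 := by
    rw [← map_pow, ← map_pow, hx, map_one, map_one]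
  obtain ⟨σ, hσ1, hσ2, hσ3⟩ := hσ (q x) τ hτa
  -- the characters attached to elements of `E`
  have hρ0 : ∀ g : G, ρ g ≠ 0 := by
    intro g h0
    obtain ⟨u, hu⟩ := exists_ne (0 : U)
    apply hu
    apply rho_inj ρ g
    rw [h0]; simp
  have hconjE : ∀ e ∈ E, ∀ u ∈ E, conjRep ρ e (ρ u) = ζ (e * u * e⁻¹ * u⁻¹) • ρ u := by
    intro e he u hu
    have h1 := hEc e he u hu
    rw [conjRep_rho]
    ext v
    rw [LinearMap.smul_apply, ← h.hζ _ h1, ← Module.End.mul_apply, ← map_mul]
    congr 2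
    group
  have hex : ∀ u : E, ∃ χ : B →* Kˣ, ∀ b : B, ρW (b : G ⧸ Z) (ρ (u : G)) = (χ b : K) • ρ (u : G) := by
    intro u
    apply exists_char ρW B (hρ0 u)
    rintro _ ⟨e, he, rfl⟩
    exact ⟨_, hconjE e he u u.2⟩
  choose Ψ hΨ using hex
  have hΨζ : ∀ (u : E) (e : G) (he : e ∈ E), (Ψ u ⟨q e, hmemB e he⟩ : K) = ζ (e * u * e⁻¹ * (u : G)⁻¹) := by
    intro u e he
    have h1 := hΨ u ⟨q e, hmemB e he⟩
    have h2 := hconjE e he u u.2
    rw [← hρW] at h2
    have h3 : ((Ψ u ⟨q e, hmemB e he⟩ : K) - ζ (e * u * e⁻¹ * (u : G)⁻¹)) • ρ (u : G) = 0 := by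
      rw [sub_smul, ← h2, ← h1, sub_self]
    rcases smul_eq_zero.1 h3 with h4 | h4
    · exact sub_eq_zero.1 h4
    · exact absurd h4 (hρ0 u)
  have hζinj : ∀ a ∈ Z, ∀ b ∈ Z, ζ a = ζ b → a = b := by
    intro a ha b hb hab
    have h1 : ζ (a * b⁻¹) = 1 := by
      rw [h.mul ha (Z.inv_mem hb), hab, ← h.mul hb (Z.inv_mem hb), mul_inv_cancel, h.one]
    exact mul_inv_eq_one.1 (h.inj _ (Z.mul_mem ha (Z.inv_mem hb)) h1)
  have hΨinj : ∀ u u' : E, Ψ u = Ψ u' → (u' : G)⁻¹ * u ∈ Z := by
    intro u u' huu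
    apply hZE _ (E.mul_mem (E.inv_mem u'.2) u.2)
    intro f hf
    have h1 := hΨζ u f⁻¹ (E.inv_mem hf)
    have h2 := hΨζ u' f⁻¹ (E.inv_mem hf)
    rw [huu, h2] at h1
    have h3 := hζinj _ (hEc _ (E.inv_mem hf) _ u'.2) _ (hEc _ (E.inv_mem hf) _ u.2) h1
    rw [inv_inv] at h3
    -- f⁻¹ u' f u'⁻¹ = f⁻¹ u f u⁻¹
    have h4 : (u' : G) * f * (u' : G)⁻¹ = u * f * (u : G)⁻¹ := by
      have := congrArg (fun g => f * g) h3
      simpa [mul_assoc] using this
    calc (u' : G)⁻¹ * u * f = (u' : G)⁻¹ * (u * f * (u : G)⁻¹) * u := by group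
      _ = (u' : G)⁻¹ * (u' * f * (u' : G)⁻¹) * u := by rw [h4]
      _ = _ := by group
  -- lifts
  have hlift : ∀ b : B, ∃ u : E, q (u : G) = b := by
    rintro ⟨_, e, he, rfl⟩
    exact ⟨⟨e, he⟩, rfl⟩
  choose lf hlf using hlift
  have hθ : Function.Bijective (fun b : B => Ψ (lf b)) := by
    rw [Nat.bijective_iff_injective_and_card]
    refine ⟨?_, ?_⟩
    · intro b b' hbb
      have h1 := hΨinj _ _ hbb
      rw [← hq, map_mul, map_inv, hlf, hlf, inv_mul_eq_one] at h1
      exact Subtype.ext h1.symm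
    · exact (card_dual (fun a b : B => Subtype.ext (hBc a a.2 b b.2)) hBK).symm
  -- all multiplicities are equal
  have hdm : ∀ χ : B →* Kˣ, dm π χ = dm π 1 := by
    intro χ
    obtain ⟨b, hb⟩ := hθ.2 χ
    simp only at hb
    set u : G := (lf b : G) with hu
    have hconjρ : ∀ (c : B), ρW (c : G ⧸ Z) (ρ u) = (χ c : K) • ρ u := by
      intro c
      rw [← hb]
      exact hΨ (lf b) c
    have hconjρ' : ∀ (c : B), ρW (c : G ⧸ Z) (ρ u⁻¹) = ((χ c)⁻¹ : K) • ρ u⁻¹ := by
      intro c
      obtain ⟨e, he, hec⟩ := c.2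
      have h1 := hconjρ c
      rw [← hec, hρW] at h1 ⊢
      have h2 : conjRep ρ e (ρ u * ρ u⁻¹) = 1 := by
        rw [rho_mul_inv, conjRep_apply, one_mul, rho_mul_inv]
      rw [conjRep_mul, h1, smul_mul_assoc] at h2
      have h3 : (χ c : K) ≠ 0 := (χ c).ne_zero
      calc conjRep ρ e (ρ u⁻¹) = (ρ u⁻¹ * ρ u) * conjRep ρ e (ρ u⁻¹) := by rw [rho_inv_mul, one_mul]
        _ = ρ u⁻¹ * (ρ u * conjRep ρ e (ρ u⁻¹)) := mul_assoc _ _ _
        _ = ρ u⁻¹ * (((χ c)⁻¹ : K) • ((χ c : K) • (ρ u * conjRep ρ e (ρ u⁻¹)))) := by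
          rw [smul_smul, inv_mul_cancel₀ h3, one_smul]
        _ = _ := by rw [h2, mul_smul_comm, mul_one]
    have hmulB : ∀ (c : B) (f f' : Module.End K U), ρW (c : G ⧸ Z) (f * f') = ρW (c : G ⧸ Z) f * ρW (c : G ⧸ Z) f' := by
      intro c f f'
      obtain ⟨e, he, hec⟩ := c.2
      rw [← hec, hρW]
      exact conjRep_mul ρ e f f'
    apply le_antisymm
    · let F : LinearMap.range (π χ) →ₗ[K] LinearMap.range (π 1) :=
        ((LinearMap.mulRight K (ρ u⁻¹)).comp (LinearMap.range (π χ)).subtype).codRestrict _ (fun f => by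
          rw [LinearMap.comp_apply, Submodule.subtype_apply, LinearMap.mulRight_apply, hπ]
          intro c
          have h1 := (hπ χ _).1 f.2 c
          rw [hmulB, h1, hconjρ', smul_mul_smul_comm, mul_inv_cancel₀ (χ c).ne_zero]
          simp)
      apply LinearMap.finrank_le_finrank_of_injective (f := F)
      intro f g hfg
      apply Subtype.ext
      have h1 : (f : Module.End K U) * ρ u⁻¹ = g * ρ u⁻¹ := congrArg Subtype.val hfg
      have h2 := congrArg (fun y => y * ρ u) h1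
      simpa only [mul_assoc, rho_inv_mul, mul_one] using h2
    · let F : LinearMap.range (π 1) →ₗ[K] LinearMap.range (π χ) :=
        ((LinearMap.mulRight K (ρ u)).comp (LinearMap.range (π 1)).subtype).codRestrict _ (fun f => by
          rw [LinearMap.comp_apply, Submodule.subtype_apply, LinearMap.mulRight_apply, hπ]
          intro c
          have h1 := (hπ 1 _).1 f.2 c
          rw [hmulB, h1, hconjρ, smul_mul_smul_comm]
          simp)
      apply LinearMap.finrank_le_finrank_of_injective (f := F)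
      intro f g hfg
      apply Subtype.ext
      have h1 : (f : Module.End K U) * ρ u = g * ρ u := congrArg Subtype.val hfg
      have h2 := congrArg (fun y => y * ρ u⁻¹) h1
      simpa only [mul_assoc, rho_mul_inv, mul_one] using h2
  -- fixed characters
  let Cs : Subgroup B :=
    { carrier := {b | τ b = b}
      one_mem' := map_one τ
      mul_mem' := by
        intro a b ha hb
        change τ (a * b) = a * b
        rw [map_mul, ha, hb]
      inv_mem' := by
        intro a ha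
        change τ a⁻¹ = a⁻¹
        rw [map_inv, ha] }
  have hCs : ∀ b, b ∈ Cs ↔ τ b = b := fun _ => Iff.rfl
  have hfixed : ∀ b : B, σ (Ψ (lf b)) = Ψ (lf b) → b ∈ Cs := by
    intro b hb
    set u : E := lf b with hu
    have hxu : x * u * x⁻¹ ∈ E := hEn.conj_mem u u.2 x
    have h1 : Ψ ⟨x * u * x⁻¹, hxu⟩ = Ψ u := by
      have h2 : ∀ c : B, Ψ ⟨x * u * x⁻¹, hxu⟩ c = σ (Ψ u) c := by
        intro c
        obtain ⟨e, he, hec⟩ := c.2
        have hc : c = ⟨q e, hmemB e he⟩ := Subtype.ext hec.symm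
        have h3 := hσ2 1 (Ψ u) c
        rw [pow_one, pow_one] at h3
        rw [h3]
        have hxe : x⁻¹ * e * x ∈ E := by simpa using hEn.conj_mem e he x⁻¹
        have h4 : τ.symm c = ⟨q (x⁻¹ * e * x), hmemB _ hxe⟩ := by
          apply Subtype.ext
          rw [hτs, ← hec]
          change (q x)⁻¹ * q e * q x = q (x⁻¹ * e * x)
          rw [map_mul, map_mul, map_inv]
        rw [h4, hc]
        apply Units.ext
        rw [hΨζ _ _ he, hΨζ _ _ hxe]
        congr 1
        have h5 := hEc (x⁻¹ * e * x) hxe u u.2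
        calc e * (x * u * x⁻¹) * e⁻¹ * (x * u * x⁻¹)⁻¹ =
            x * ((x⁻¹ * e * x) * u * (x⁻¹ * e * x)⁻¹ * (u : G)⁻¹) * x⁻¹ := by group
          _ = ((x⁻¹ * e * x) * u * (x⁻¹ * e * x)⁻¹ * (u : G)⁻¹) * x * x⁻¹ := by
            rw [Subgroup.mem_center_iff.1 h5 x]
          _ = _ := by group
      ext c
      rw [h2 c, hb]
    have h2 := hΨinj _ _ h1
    rw [← hq, map_mul, map_inv, map_mul, map_mul, map_inv, inv_mul_eq_one, hlf] at h2
    rw [hCs]
    apply Subtype.ext
    rw [hτa]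
    exact h2.symm
  have hfixcard : (Finset.univ.filter (fun χ : B →* Kˣ => σ χ = χ)).card ≤ Nat.card Cs := by
    have h1 : (Finset.univ.filter (fun χ : B →* Kˣ => σ χ = χ)).card =
        Nat.card {χ : B →* Kˣ // σ χ = χ} := by
      rw [Nat.card_eq_fintype_card, Fintype.card_subtype]
    rw [h1]
    choose inv hinv using hθ.2
    apply Nat.card_le_card_of_injective (fun χ : {χ : B →* Kˣ // σ χ = χ} =>
      (⟨inv χ.1, hfixed _ (by
        have := hinv χ.1
        simp only at this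
        rw [this]; exact χ.2)⟩ : Cs))
    intro χ ψ hχψ
    apply Subtype.ext
    have h2 : inv χ.1 = inv ψ.1 := congrArg Subtype.val hχψ
    rw [← hinv χ.1, ← hinv ψ.1, h2]
  -- the star inequality
  have hstar := hF.star (rho_inj ρW (q x)) hσ1 hp (hσ3 p hτp)
  have hsum : ∑ χ with σ χ = χ, dm π χ ≤ Nat.card Cs * dm π 1 := by
    rw [Finset.sum_congr rfl (fun χ _ => hdm χ), Finset.sum_const, smul_eq_mul]
    exact Nat.mul_le_mul_right _ hfixcard
  have hfW : finrank K (Module.End K U) = finrank K U * finrank K U := Module.finrank_linearMap K K U U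
  have htot : Nat.card B * dm π 1 = finrank K U * finrank K U := by
    rw [← hfW, ← hF.sum_dm, Finset.sum_congr rfl (fun χ _ => hdm χ), Finset.sum_const, smul_eq_mul,
      Finset.card_univ, ← Nat.card_eq_fintype_card, card_dual (fun a b : B => Subtype.ext (hBc a a.2 b b.2)) hBK]
  -- `x` acts nontrivially
  have hρx : ρ x ≠ 1 := by
    intro h1
    have h2 : ρ (x * e₀ * x⁻¹ * e₀⁻¹) = 1 := by
      have h3 : ρ x⁻¹ = 1 := by
        have := rho_mul_inv ρ x
        rwa [h1, one_mul] at this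
      rw [map_mul, map_mul, map_mul, h1, h3, one_mul, mul_one, rho_mul_inv]
    apply hef₀
    have h4 := hEc f₀ hf₀ _ hy₀
    apply h.inj _ h4
    obtain ⟨u, hu⟩ := exists_ne (0 : U)
    refine (h.eq_of h4 hu ?_).symm
    have h5 : ρ (x * e₀ * x⁻¹ * e₀⁻¹)⁻¹ = 1 := by
      have := rho_mul_inv ρ (x * e₀ * x⁻¹ * e₀⁻¹)
      rwa [h2, one_mul] at this
    rw [map_mul, map_mul, map_mul, h2, h5, mul_one, mul_one, rho_mul_inv, one_smul]
    rfl
  have hsq := sq_lt (ρ x) hρx (LinearMap.ker (ρW (q x) - 1)) (by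
    intro f
    rw [mem_ker_iff, hρW, conjRep_apply]
    constructor
    · intro h1
      have h2 := congrArg (fun y => y * ρ x) h1
      simp only [mul_assoc, rho_inv_mul, mul_one] at h2
      exact h2
    · intro h1
      rw [← mul_assoc, h1, mul_assoc, rho_mul_inv, mul_one])
  -- the index
  set N := Cs.index with hN
  have hcN : Nat.card Cs * N = Nat.card B := Subgroup.card_mul_index Cs
  have hCspos : 0 < Nat.card Cs := Nat.card_pos
  have hNpos : 0 < N := Nat.pos_of_ne_zero (by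
    intro h0; rw [h0, mul_zero] at hcN; exact Nat.card_pos.ne hcN)
  have hNr : ∃ m, N = r ^ m := by
    have : N ∣ r ^ k := by rw [← hk, ← hcN]; exact Dvd.intro_left _ rfl
    obtain ⟨m, -, hm⟩ := (Nat.dvd_prime_pow hr).1 this
    exact ⟨m, hm⟩
  have hb₀ : (⟨q e₀, hmemB e₀ he₀⟩ : B) ∉ Cs := by
    intro h1
    rw [hCs] at h1
    have h2 := congrArg Subtype.val h1
    rw [hτa] at h2
    change q x * q e₀ * (q x)⁻¹ = q e₀ at h2
    apply hxe₀
    rw [← hq, map_mul, map_mul, map_mul, map_inv, map_inv, mul_inv_eq_one]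
    exact h2
  have hN1 : N ≠ 1 := by
    intro h1
    have h2 : Cs = ⊤ := Subgroup.index_eq_one.1 h1
    apply hb₀
    rw [h2]; trivial
  have hNmod : p ∣ N - 1 := by
    have _ : Fintype B := Fintype.ofFinite _
    let fE : Function.End B := fun b => τ b
    have h1 := Equiv.Perm.card_fixedPoints_modEq (α := B) (f := fE) (p := p) (n := 1) (by
      rw [pow_one]
      have h2 : ∀ (n : ℕ) (b : B), (fE ^ n) b = (τ ^ n) b := by
        intro n
        induction n with
        | zero => intro b; rfl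
        | succ n ih =>
          intro b
          rw [pow_succ', pow_succ', MulAut.mul_apply, ← ih]
          rfl
      funext b
      rw [h2, hτp]
      rfl)
    have h3 : Fintype.card (Function.fixedPoints fE) = Nat.card Cs := by
      rw [← Nat.card_eq_fintype_card]
      exact Nat.card_congr (Equiv.subtypeEquivRight (fun b => Iff.rfl))
    rw [h3, ← Nat.card_eq_fintype_card, ← hcN] at h1
    have h4 : Nat.Coprime p (Nat.card Cs) := by
      have h5 : Nat.card Cs ∣ r ^ k := by rw [← hk, ← hcN]; exact Dvd.intro _ rfl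
      exact Nat.Coprime.coprime_dvd_right h5 (Nat.Coprime.pow_right _ ((Nat.coprime_primes hp hr).2 hrp.symm))
    have h5 : Nat.card Cs * N ≡ Nat.card Cs * 1 [MOD p] := by rw [mul_one]; exact h1
    have h6 := Nat.ModEq.cancel_left_of_coprime h4 h5
    exact (Nat.modEq_iff_dvd' hNpos).1 h6.symm
  have hNr1 : N ≠ r := by
    intro hNr'
    -- `w = [x, e₀]`
    let w : E := ⟨x * e₀ * x⁻¹ * e₀⁻¹, hy₀⟩
    have hwB : (⟨q (w : G), hmemB _ w.2⟩ : B) ∉ Cs := by
      intro h1
      rw [hCs] at h1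
      have h2 := congrArg Subtype.val h1
      rw [hτa] at h2
      change q x * q (w : G) * (q x)⁻¹ = q (w : G) at h2
      have h3 : q x * q (w : G) = q (w : G) * q x := mul_inv_eq_iff_eq_mul.1 h2
      have hwe : q x * q e₀ * (q x)⁻¹ = q (w : G) * q e₀ := by
        rw [← map_mul, ← map_inv, ← map_mul, ← map_mul]
        congr 1
        change x * e₀ * x⁻¹ = x * e₀ * x⁻¹ * e₀⁻¹ * e₀
        group
      have h4 : ∀ n : ℕ, (q x) ^ n * q e₀ * ((q x) ^ n)⁻¹ = (q (w : G)) ^ n * q e₀ := by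
        intro n
        induction n with
        | zero => simp
        | succ n ih =>
          have h5 : q x * (q (w : G)) ^ n = (q (w : G)) ^ n * q x :=
            (Commute.pow_right (show Commute (q x) (q (w : G)) from h3) n)
          calc (q x) ^ (n + 1) * q e₀ * ((q x) ^ (n + 1))⁻¹ = q x * ((q x) ^ n * q e₀ * ((q x) ^ n)⁻¹) * (q x)⁻¹ := by
                rw [pow_succ']; group
            _ = q x * ((q (w : G)) ^ n * q e₀) * (q x)⁻¹ := by rw [ih]
            _ = (q x * (q (w : G)) ^ n) * q e₀ * (q x)⁻¹ := by group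
            _ = (q (w : G)) ^ n * (q x * q e₀ * (q x)⁻¹) := by rw [h5]; group
            _ = (q (w : G)) ^ n * (q (w : G) * q e₀) := by rw [hwe]
            _ = _ := by rw [pow_succ]; group
      have h5 := h4 p
      rw [← map_pow, hx, map_one] at h5
      simp only [one_mul, inv_one, mul_one] at h5
      have h6 : (q (w : G)) ^ p = 1 := mul_eq_right.1 h5.symm
      have h7 : (q (w : G)) ^ r = 1 := hBr _ (hmemB _ w.2)
      have h8 := pow_gcd_eq_one.2 ⟨h6, h7⟩
      rw [((Nat.coprime_primes hp hr).2 hrp.symm).gcd_eq_one, pow_one, hq] at h8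
      exact hxe₀ h8
    have hle : Cs ≤ (Ψ w).ker := by
      intro c hc
      obtain ⟨e, he, hec⟩ := c.2
      have hc' : c = ⟨q e, hmemB e he⟩ := Subtype.ext hec.symm
      rw [MonoidHom.mem_ker, hc']
      apply Units.ext
      rw [hΨζ _ _ he, Units.val_one]
      have hz : x * e * x⁻¹ * e⁻¹ ∈ Z := by
        rw [hCs] at hc
        have h2 := congrArg Subtype.val hc
        rw [hτa, ← hec] at h2
        rw [← hq, map_mul, map_mul, map_mul, map_inv, map_inv, mul_inv_eq_one]
        exact h2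
      have hz0 := hEc e he e₀ he₀
      have h9 : e * (w : G) * e⁻¹ * (w : G)⁻¹ = 1 := by
        set z' := x * e * x⁻¹ * e⁻¹ with hz'
        set z0 := e * e₀ * e⁻¹ * e₀⁻¹ with hz0'
        have h10 : x * e * x⁻¹ = z' * e := by rw [hz']; group
        have h11 : x * e₀ * x⁻¹ = (w : G) * e₀ := by
          change x * e₀ * x⁻¹ = x * e₀ * x⁻¹ * e₀⁻¹ * e₀
          group
        have h12 : x * z0 * x⁻¹ = z0 := by rw [Subgroup.mem_center_iff.1 hz0 x]; group
        have h13 : e₀ * e⁻¹ * e₀⁻¹ = e⁻¹ * z0 := by rw [hz0']; group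
        have h14 : x * z0 * x⁻¹ = (z' * e) * ((w : G) * e₀) * (z' * e)⁻¹ * ((w : G) * e₀)⁻¹ := by
          rw [← h10, ← h11, hz0']; group
        have h15 : (z' * e) * ((w : G) * e₀) * (z' * e)⁻¹ * ((w : G) * e₀)⁻¹ =
            e * ((w : G) * e₀) * e⁻¹ * ((w : G) * e₀)⁻¹ := by
          have h16 := Subgroup.mem_center_iff.1 hz (e * ((w : G) * e₀) * e⁻¹)
          calc (z' * e) * ((w : G) * e₀) * (z' * e)⁻¹ * ((w : G) * e₀)⁻¹ =
              z' * (e * ((w : G) * e₀) * e⁻¹) * z'⁻¹ * ((w : G) * e₀)⁻¹ := by group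
            _ = (e * ((w : G) * e₀) * e⁻¹) * z' * z'⁻¹ * ((w : G) * e₀)⁻¹ := by rw [h16]
            _ = _ := by group
        have h17 : e * ((w : G) * e₀) * e⁻¹ * ((w : G) * e₀)⁻¹ = (e * (w : G) * e⁻¹ * (w : G)⁻¹) * z0 := by
          calc e * ((w : G) * e₀) * e⁻¹ * ((w : G) * e₀)⁻¹ = e * (w : G) * (e₀ * e⁻¹ * e₀⁻¹) * (w : G)⁻¹ := by group
            _ = e * (w : G) * (e⁻¹ * z0) * (w : G)⁻¹ := by rw [h13]
            _ = e * (w : G) * e⁻¹ * (z0 * (w : G)⁻¹) := by group
            _ = e * (w : G) * e⁻¹ * ((w : G)⁻¹ * z0) := by rw [Subgroup.mem_center_iff.1 hz0 (w : G)⁻¹]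
            _ = _ := by group
        rw [h12, h15, h17] at h14
        exact mul_eq_right.1 h14.symm
      rw [h9, h.one]
    have hlt : Cs < (Ψ w).ker := by
      refine lt_of_le_of_ne hle ?_
      intro h1
      apply hwB
      rw [h1, MonoidHom.mem_ker]
      apply Units.ext
      rw [hΨζ _ _ w.2, Units.val_one]
      have : (w : G) * w * (w : G)⁻¹ * (w : G)⁻¹ = 1 := by group
      rw [this, h.one]
    have hidx : (Ψ w).ker.index ∣ r := by
      rw [← hNr', hN]
      exact Subgroup.index_dvd_of_le hle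
    rcases (Nat.dvd_prime hr).1 hidx with h1 | h1
    · -- `Ψ w = 1`
      have h2 : (Ψ w).ker = ⊤ := Subgroup.index_eq_one.1 h1
      apply hxe₀
      change (w : G) ∈ Z
      apply hZE _ w.2
      intro f hf
      have h3 : (⟨q f, hmemB f hf⟩ : B) ∈ (Ψ w).ker := by rw [h2]; trivial
      rw [MonoidHom.mem_ker] at h3
      have h4 := hΨζ w f hf
      rw [h3, Units.val_one] at h4
      have h5 := h.inj _ (hEc f hf _ w.2) h4.symm
      rw [mul_inv_eq_one, mul_inv_eq_iff_eq_mul] at h5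
      exact h5.symm
    · have h2 := Subgroup.index_strictAnti hlt
      rw [h1, ← hNr', hN] at h2
      exact lt_irrefl _ h2
  -- numerics
  have hNbig : 4 * (p - 1) ≤ (p - 4) * N := by
    obtain ⟨t, ht⟩ := hNmod
    have ht0 : t ≠ 0 := by
      rintro rfl
      rw [mul_zero] at ht
      exact hN1 (by omega)
    have hNt : N = p * t + 1 := by omega
    have hp5 : p = 5 ∨ 7 ≤ p := by
      by_contra hcon
      push Not at hcon
      have : p = 4 ∨ p = 6 := by omega
      rcases this with h1 | h1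
      · rw [h1] at hp; exact absurd hp (by norm_num)
      · rw [h1] at hp; exact absurd hp (by norm_num)
    rcases hp5 with h5 | h7
    · subst h5
      have h16 : 16 ≤ N := by
        by_contra hcon
        push Not at hcon
        obtain ⟨m, hm⟩ := hNr
        have ht3 : t = 1 ∨ t = 2 := by omega
        rcases ht3 with h1 | h1
        · -- N = 6
          have h6 : r ^ m = 6 := by rw [← hm, hNt, h1]
          have h2 : 2 ∣ r ^ m := by rw [h6]; norm_num
          have h3 : 3 ∣ r ^ m := by rw [h6]; norm_num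
          have h2' := (Nat.prime_dvd_prime_iff_eq Nat.prime_two hr).1 (Nat.prime_two.dvd_of_dvd_pow h2)
          have h3' := (Nat.prime_dvd_prime_iff_eq Nat.prime_three hr).1 (Nat.prime_three.dvd_of_dvd_pow h3)
          omega
        · have h11 : r ^ m = 11 := by rw [← hm, hNt, h1]
          have hp11 : Nat.Prime 11 := by norm_num
          have h2 : 11 ∣ r ^ m := by rw [h11]
          have h2' := (Nat.prime_dvd_prime_iff_eq hp11 hr).1 (hp11.dvd_of_dvd_pow h2)
          apply hNr1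
          rw [hm, h11, ← h2']
      omega
    · have hNle : p + 1 ≤ N := by
        rw [hNt]
        have : 1 ≤ t := Nat.one_le_iff_ne_zero.2 ht0
        nlinarith
      obtain ⟨s, rfl⟩ : ∃ s, p = s + 7 := ⟨p - 7, by omega⟩
      simp only [show s + 7 - 1 = s + 6 by omega, show s + 7 - 4 = s + 3 by omega]
      calc 4 * (s + 6) ≤ (s + 3) * (s + 7 + 1) := by nlinarith
        _ ≤ _ := Nat.mul_le_mul_left _ hNle
  apply num_ineq hp3 hNbig hNpos
  set b := finrank K (LinearMap.ker (ρ x - 1)) with hb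
  set D := finrank K U with hD
  have h1 : p * (b * b + 1) ≤ D * D + (p - 1) * (Nat.card Cs * dm π 1) := by
    calc p * (b * b + 1) ≤ p * finrank K (LinearMap.ker (ρW (q x) - 1)) := Nat.mul_le_mul_left _ hsq
      _ ≤ _ := hstar
      _ ≤ D * D + (p - 1) * (Nat.card Cs * dm π 1) := by
        rw [hfW]
        exact Nat.add_le_add_left (Nat.mul_le_mul_left _ hsum) _
  calc p * N * (b * b + 1) = N * (p * (b * b + 1)) := by ring
    _ ≤ N * (D * D + (p - 1) * (Nat.card Cs * dm π 1)) := Nat.mul_le_mul_left _ h1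
    _ = N * (D * D) + (p - 1) * ((Nat.card Cs * N) * dm π 1) := by ring
    _ = N * (D * D) + (p - 1) * (D * D) := by rw [hcN, htot]
    _ = _ := by ring

end main

end Cfsg.Agent.H53.Fl
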