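import Mathlib
import Cfsg.Agent.H53.FlP
import Cfsg.Agent.H53.FlR

/-!
The fixed space of an element of prime order `p > 3` whose conjugates generate a finite solvable group
has dimension less than half of the dimension of the module.
-/

set_option autoImplicit false
open Module

namespace Cfsg.Agent.H53.Fl

section main
variable {K : Type*} [Field K] {U : Type*} [AddCommGroup U] [Module K U] {G : Type*} [Group G]

/-- restriction of a representation to an invariant subspace -/
noncomputable def resRep (ρ : Representation K G U) (M : Submodule K U) (hM : ∀ g, ∀ v ∈ M, ρ g v ∈ M) :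
    Representation K G M where
  toFun g := (ρ g).restrict (hM g)
  map_one' := by
    ext v
    rw [LinearMap.coe_restrict_apply, map_one]; rfl
  map_mul' a b := by
    ext v
    rw [LinearMap.coe_restrict_apply, map_mul, Module.End.mul_apply, Module.End.mul_apply,
      LinearMap.coe_restrict_apply, LinearMap.coe_restrict_apply]

theorem resRep_coe (ρ : Representation K G U) (M : Submodule K U) (hM : ∀ g, ∀ v ∈ M, ρ g v ∈ M) (g : G) (v : M) :
    ((resRep ρ M hM g v : M) : U) = ρ g v := rfl

variable [IsAlgClosed K] [FiniteDimensional K U]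

theorem abel_card_ne [Finite G] [Nontrivial U] (ρ : Representation K G U)
    (hfix : ∀ N : Subgroup G, N.Normal → N ≠ ⊥ → ∀ v, (∀ n ∈ N, ρ n v = v) → v = 0)
    (A : Subgroup G) (hAn : A.Normal) (hAc : ∀ a ∈ A, ∀ b ∈ A, a * b = b * a) : (Nat.card A : K) ≠ 0 := by
  intro h0
  obtain ⟨q, hq⟩ := CharP.exists K
  have hdvd : q ∣ Nat.card A := (CharP.cast_eq_zero_iff K q _).1 h0
  have hq0 : q ≠ 0 := by
    rintro rfl
    rw [zero_dvd_iff] at hdvd
    exact Nat.card_pos.ne' hdvd
  have hqp : q.Prime := (CharP.char_is_prime_or_zero K q).resolve_right hq0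
  have hqf : Fact q.Prime := ⟨hqp⟩
  have : ExpChar K q := ExpChar.prime hqp
  let N : Subgroup G :=
    { carrier := {a | a ∈ A ∧ a ^ q = 1}
      one_mem' := ⟨A.one_mem, one_pow _⟩
      mul_mem' := by
        rintro a b ⟨ha, ha'⟩ ⟨hb, hb'⟩
        have hc : Commute a b := hAc a ha b hb
        exact ⟨A.mul_mem ha hb, by rw [hc.mul_pow, ha', hb', one_mul]⟩
      inv_mem' := by
        rintro a ⟨ha, ha'⟩
        exact ⟨A.inv_mem ha, by rw [inv_pow, ha', inv_one]⟩ }
  have hN : ∀ a, a ∈ N ↔ a ∈ A ∧ a ^ q = 1 := fun _ => Iff.rfl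
  have hNn : N.Normal := by
    constructor
    rintro a ⟨ha, ha'⟩ g
    exact ⟨hAn.conj_mem a ha g, by rw [conj_pow, ha']; group⟩
  have hN1 : N ≠ ⊥ := by
    obtain ⟨a, ha⟩ := exists_prime_orderOf_dvd_card' q hdvd
    intro h
    have h1 : (a : G) ∈ N := ⟨a.2, by rw [← Subgroup.coe_pow, ← ha, pow_orderOf_eq_one, Subgroup.coe_one]⟩
    rw [h, Subgroup.mem_bot] at h1
    have h2 : a = 1 := Subtype.ext h1
    rw [h2, orderOf_one] at ha
    exact hqp.one_lt.ne ha
  let s : Set (Submodule K U) := {M | M ≠ ⊥ ∧ ∀ a ∈ N, ∀ v ∈ M, ρ a v ∈ M}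
  have hwf : WellFounded (fun a b : Submodule K U => a < b) := wellFounded_lt
  have hs : s.Nonempty := ⟨⊤, top_ne_bot, fun _ _ _ _ => trivial⟩
  set M := hwf.min s hs with hM
  have hMs : M ∈ s := hwf.min_mem s hs
  have hmin : ∀ M' ∈ s, M' ≤ M → M' = M := by
    intro M' hM' hle
    by_contra hne
    exact hwf.not_lt_min s hM' (lt_of_le_of_ne hle hne)
  have hfixM : ∀ a ∈ N, ∀ v ∈ M, ρ a v = v := by
    intro a ha
    have h1 : M ⊓ LinearMap.ker (ρ a - 1) = M := by
      apply hmin _ _ inf_le_left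
      constructor
      · -- an eigenvector
        have : Nontrivial M := (Submodule.nontrivial_iff_ne_bot).2 hMs.1
        obtain ⟨c, hc⟩ := Module.End.exists_eigenvalue ((ρ a).restrict (hMs.2 a ha))
        obtain ⟨v, hv⟩ := hc.exists_hasEigenvector
        have hv1 : ρ a (v : U) = c • (v : U) := by
          have := congrArg Subtype.val (Module.End.mem_eigenspace_iff.1 hv.1)
          exact this
        have hv0 : (v : U) ≠ 0 := fun h => hv.2 (Subtype.ext h)
        have hpow : ∀ n : ℕ, ρ (a ^ n) (v : U) = c ^ n • (v : U) := by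
          intro n
          induction n with
          | zero => simp
          | succ n ih => rw [pow_succ, map_mul, Module.End.mul_apply, hv1, map_smul, ih, smul_smul, pow_succ, mul_comm]
        have hcq : c ^ q = 1 := by
          have h2 := hpow q
          rw [ha.2, map_one] at h2
          have h3 : (c ^ q - 1) • (v : U) = 0 := by
            rw [sub_smul, one_smul, ← h2]; exact sub_self _
          rcases smul_eq_zero.1 h3 with h4 | h4
          · exact sub_eq_zero.1 h4
          · exact absurd h4 hv0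
        have hc1 : c = 1 := by
          have h2 : (c - 1) ^ q = 0 := by rw [sub_pow_expChar, one_pow, hcq, sub_self]
          exact sub_eq_zero.1 (pow_eq_zero_iff hq0 |>.1 h2)
        intro hbot
        apply hv0
        rw [← Submodule.mem_bot K, ← hbot]
        refine ⟨v.2, ?_⟩
        rw [SetLike.mem_coe, mem_ker_iff, hv1, hc1, one_smul]
      · rintro b hb v ⟨hv1, hv2⟩
        refine ⟨hMs.2 b hb v hv1, ?_⟩
        rw [SetLike.mem_coe, mem_ker_iff] at hv2 ⊢
        rw [← Module.End.mul_apply, ← map_mul, hAc a ha.1 b hb.1, map_mul, Module.End.mul_apply, hv2]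
    intro v hv
    rw [← h1] at hv
    exact (mem_ker_iff _ _).1 hv.2
  obtain ⟨v, hv, hv0⟩ := Submodule.exists_mem_ne_zero_of_ne_bot hMs.1
  exact hv0 (hfix N hNn hN1 v (fun n hn => hfixM n hn v hv))

/-- structure of solvable groups all of whose abelian normal subgroups are central -/
theorem exists_E [Finite G] [Group.IsSolvable G] {x : G} (hgen : Subgroup.normalClosure ({x} : Set G) = ⊤)
    (hab : ∀ A : Subgroup G, A.Normal → (∀ a ∈ A, ∀ b ∈ A, a * b = b * a) → A ≤ Subgroup.center G)
    (hnc : Subgroup.center G ≠ ⊤) :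
    ∃ (E : Subgroup G) (r : ℕ), E.Normal ∧ r.Prime ∧ (∀ e ∈ E, ∀ f ∈ E, e * f * e⁻¹ * f⁻¹ ∈ Subgroup.center G) ∧
      (∀ e ∈ E, e ^ r ∈ Subgroup.center G) ∧ (∀ e ∈ E, (∀ f ∈ E, e * f = f * e) → e ∈ Subgroup.center G) ∧
      ∃ e ∈ E, x * e * x⁻¹ * e⁻¹ ∉ Subgroup.center G := by
  classical
  set Z := Subgroup.center G with hZ
  let q : G →* G ⧸ Z := QuotientGroup.mk' Z
  have hqs : Function.Surjective q := QuotientGroup.mk'_surjective Z
  have hq : ∀ g, q g = 1 ↔ g ∈ Z := fun g => QuotientGroup.eq_one_iff g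
  have hnt : Nontrivial (G ⧸ Z) := by
    obtain ⟨g, hg⟩ : ∃ g, g ∉ Z := by
      by_contra hcon
      push Not at hcon
      exact hnc (eq_top_iff.2 (fun g _ => hcon g))
    exact ⟨⟨q g, 1, fun h => hg ((hq g).1 h)⟩⟩
  obtain ⟨M, hMn, hMne, hMmin⟩ : ∃ M : Subgroup (G ⧸ Z), M.Normal ∧ M ≠ ⊥ ∧
      ∀ L : Subgroup (G ⧸ Z), L.Normal → L ≤ M → L = ⊥ ∨ L = M := by
    have hwf : WellFounded (fun a b : Subgroup (G ⧸ Z) => a < b) := wellFounded_lt
    let s : Set (Subgroup (G ⧸ Z)) := {L | L.Normal ∧ L ≠ ⊥}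
    have hs : s.Nonempty := ⟨⊤, inferInstance, top_ne_bot⟩
    refine ⟨hwf.min s hs, (hwf.min_mem s hs).1, (hwf.min_mem s hs).2, ?_⟩
    intro L hL hLM
    by_cases hLb : L = ⊥
    · exact Or.inl hLb
    · right
      by_contra hne
      exact hwf.not_lt_min s ⟨hL, hLb⟩ (lt_of_le_of_ne hLM hne)
  have := hMn
  obtain ⟨hMc, r, hr, hMr⟩ := Cfsg.Agent.Solv.minimal_normal_of_solvable M inferInstance hMne hMmin
  have hMc' : ∀ a ∈ M, ∀ b ∈ M, a * b = b * a := fun a ha b hb =>
    Cfsg.Agent.Solv.comm_of_isMulCommutative hMc ha hb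
  set E := M.comap q with hE
  have hEn : E.Normal := hMn.comap q
  have hEc : ∀ e ∈ E, ∀ f ∈ E, e * f * e⁻¹ * f⁻¹ ∈ Z := by
    intro e he f hf
    rw [← hq, map_mul, map_mul, map_mul, map_inv, map_inv, mul_inv_eq_one, mul_inv_eq_iff_eq_mul]
    exact hMc' _ he _ hf
  have hEr : ∀ e ∈ E, e ^ r ∈ Z := by
    intro e he
    rw [← hq, map_pow]
    exact hMr _ he
  refine ⟨E, r, hEn, hr, hEc, hEr, ?_, ?_⟩
  · intro e he hcomm
    let C : Subgroup G := E ⊓ Subgroup.centralizer (E : Set G)
    have hCn : C.Normal := by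
      have h1 : (Subgroup.centralizer (E : Set G)).Normal := inferInstance
      infer_instance
    have hCc : ∀ a ∈ C, ∀ b ∈ C, a * b = b * a := by
      rintro a ⟨-, ha⟩ b ⟨hb, -⟩
      exact (Subgroup.mem_centralizer_iff.1 ha b hb).symm
    apply hab C hCn hCc
    refine ⟨he, ?_⟩
    exact Subgroup.mem_centralizer_iff.2 (fun f hf => (hcomm f hf).symm)
  · by_contra hcon
    push Not at hcon
    -- `M` is central in `G / Z`
    have hcent : ∀ e ∈ E, ∀ g : G, g * e * g⁻¹ * e⁻¹ ∈ Z := by
      have h1 : Subgroup.normalClosure ({x} : Set G) ≤ (Subgroup.centralizer (M : Set (G ⧸ Z))).comap q := by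
        have h2 : (Subgroup.centralizer (M : Set (G ⧸ Z))).Normal := inferInstance
        have h3 : ((Subgroup.centralizer (M : Set (G ⧸ Z))).comap q).Normal := h2.comap q
        apply Subgroup.normalClosure_le_normal
        rintro _ rfl
        rw [SetLike.mem_coe, Subgroup.mem_comap, Subgroup.mem_centralizer_iff]
        intro m hm
        obtain ⟨e, rfl⟩ := hqs m
        have h4 := (hq _).2 (hcon e hm)
        rw [map_mul, map_mul, map_mul, map_inv, map_inv, mul_inv_eq_one, mul_inv_eq_iff_eq_mul] at h4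
        exact h4.symm
      rw [hgen] at h1
      intro e he g
      have h2 := h1 (Subgroup.mem_top g)
      rw [Subgroup.mem_comap, Subgroup.mem_centralizer_iff] at h2
      rw [← hq, map_mul, map_mul, map_mul, map_inv, map_inv, mul_inv_eq_one, mul_inv_eq_iff_eq_mul]
      exact (h2 _ he).symm
    obtain ⟨m, hm, hm1⟩ : ∃ m : G ⧸ Z, m ∈ M ∧ m ≠ 1 := by
      obtain ⟨a, ha⟩ := Subgroup.ne_bot_iff_exists_ne_one.1 hMne
      exact ⟨a.1, a.2, fun h => ha (Subtype.ext h)⟩
    obtain ⟨e, rfl⟩ := hqs m
    have heZ : e ∉ Z := fun h => hm1 ((hq e).2 h)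
    obtain ⟨A, hSA, hZA, hAc, -, hAg⟩ := mkA ({e} : Set G) (by
      intro a ha b hb
      rw [Set.mem_singleton_iff] at ha hb
      rw [ha, hb]) r (by
      intro a ha
      rw [Set.mem_singleton_iff] at ha
      rw [ha]; exact hEr e hm)
    have heA : e ∈ A := hSA (Set.mem_singleton e)
    have hAn : A.Normal := by
      constructor
      intro a ha g
      apply hAg g _ a ha
      intro t ht
      rw [Set.mem_singleton_iff.1 ht]
      have h5 := A.mul_mem (hZA (hcent e hm g)) heA
      rwa [inv_mul_cancel_right] at h5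
    exact heZ (hab A hAn hAc heA)

theorem caseB [Nontrivial U] [Finite G] [Group.IsSolvable G] {p : ℕ} (hp : p.Prime) (hp3 : 3 < p)
    {x : G} (hx : orderOf x = p) (hgen : Subgroup.normalClosure ({x} : Set G) = ⊤) (ρ : Representation K G U)
    (hfix : ∀ N : Subgroup G, N.Normal → N ≠ ⊥ → ∀ v, (∀ n ∈ N, ρ n v = v) → v = 0)
    (hab : ∀ A : Subgroup G, A.Normal → (∀ a ∈ A, ∀ b ∈ A, a * b = b * a) → A ≤ Subgroup.center G)
    (hnc : Subgroup.center G ≠ ⊤) : 2 * finrank K (LinearMap.ker (ρ x - 1)) < finrank K U := by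
  classical
  obtain ⟨E, r, hEn, hr, hEc, hEr, hZE, hEx⟩ := exists_E hgen hab hnc
  have hZc : ∀ a ∈ Subgroup.center G, ∀ b ∈ Subgroup.center G, a * b = b * a := fun a _ b hb =>
    Subgroup.mem_center_iff.1 hb a
  have hZK := abel_card_ne ρ hfix (Subgroup.center G) inferInstance hZc
  obtain ⟨_, π, hF, hπ, hσ⟩ := exists_fam ρ (Subgroup.center G) hZc hZK
  have hinv : ∀ (g : G) (χ : Subgroup.center G →* Kˣ), ρ g * π χ = π χ * ρ g := by
    intro g χ
    obtain ⟨σ, hσ1, hσ2, -⟩ := hσ g 1 (by
      intro a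
      change (a : G) = _
      rw [Subgroup.mem_center_iff.1 a.2 g]; group)
    have h5 : σ χ = χ := by
      ext a
      have := hσ2 1 χ a
      rw [pow_one, pow_one] at this
      rw [this]; rfl
    have := hσ1 χ
    rwa [h5] at this
  have hMinv : ∀ χ, ∀ g, ∀ v ∈ LinearMap.range (π χ), ρ g v ∈ LinearMap.range (π χ) := by
    rintro χ g _ ⟨v, rfl⟩
    exact ⟨ρ g v, by rw [← Module.End.mul_apply, ← hinv]; rfl⟩
  have hxp : x ^ p = 1 := by rw [← hx, pow_orderOf_eq_one]
  -- each component
  have hcomp : ∀ χ : Subgroup.center G →* Kˣ, dm π χ ≠ 0 →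
      2 * finrank K (LinearMap.ker (resRep ρ (LinearMap.range (π χ)) (hMinv χ) x - 1)) < dm π χ := by
    intro χ hχ
    have hnt : Nontrivial (LinearMap.range (π χ)) := by
      apply Module.nontrivial_of_finrank_pos (R := K)
      exact Nat.pos_of_ne_zero hχ
    have hSc : Sc (resRep ρ (LinearMap.range (π χ)) (hMinv χ))
        (fun g => if hg : g ∈ Subgroup.center G then (χ ⟨g, hg⟩ : K) else 0) := by
      constructor
      · intro z hz u
        rw [dif_pos hz]
        apply Subtype.ext
        rw [resRep_coe]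
        exact (hπ χ u).1 u.2 ⟨z, hz⟩
      · intro z hz h1
        rw [dif_pos hz] at h1
        by_contra hz1
        obtain ⟨v, hv⟩ := exists_ne (0 : LinearMap.range (π χ))
        apply hv
        apply Subtype.ext
        apply hfix (Subgroup.zpowers z)
        · exact Cfsg.Agent.Solv.normal_of_le_center (by
            rw [Subgroup.zpowers_le]; exact hz)
        · rw [Ne, Subgroup.zpowers_eq_bot]; exact hz1
        · intro n hn
          obtain ⟨k, rfl⟩ := Subgroup.mem_zpowers_iff.1 hn
          have h2 := (hπ χ v).1 v.2 (⟨z, hz⟩ ^ k)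
          have h3 : χ ⟨z, hz⟩ = 1 := Units.ext h1
          rw [map_zpow, h3, one_zpow, Units.val_one, one_smul] at h2
          exact h2
    by_cases hrp : r = p
    · subst hrp
      exact lemP hSc E hEc hp hp3 hEr hZE hxp hEx
    · exact lemR hSc E hEc hp hp3 hr hrp hEr hZE hxp hEx
  -- sum
  have hle : finrank K (LinearMap.ker (ρ x - 1)) ≤
      ∑ χ, finrank K (LinearMap.ker (resRep ρ (LinearMap.range (π χ)) (hMinv χ) x - 1)) := by
    let F : LinearMap.ker (ρ x - 1) →ₗ[K]
        (∀ χ, LinearMap.ker (resRep ρ (LinearMap.range (π χ)) (hMinv χ) x - 1)) :=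
      LinearMap.pi (fun χ => ((π χ).rangeRestrict.comp (LinearMap.ker (ρ x - 1)).subtype).codRestrict _ (fun v => by
        rw [mem_ker_iff]
        apply Subtype.ext
        rw [resRep_coe]
        change ρ x (π χ (v : U)) = π χ (v : U)
        rw [← Module.End.mul_apply, hinv, Module.End.mul_apply, (mem_ker_iff _ _).1 v.2]))
    have hF' : Function.Injective F := by
      rw [injective_iff_map_eq_zero]
      intro v hv
      apply Subtype.ext
      apply hF.eq_zero
      intro χ
      have h1 := congrFun hv χ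
      exact congrArg (fun w => ((w : LinearMap.range (π χ)) : U)) (congrArg Subtype.val h1)
    have h1 := LinearMap.finrank_le_finrank_of_injective hF'
    rw [Module.finrank_pi_fintype] at h1
    exact h1
  have hle2 : ∀ χ, 2 * finrank K (LinearMap.ker (resRep ρ (LinearMap.range (π χ)) (hMinv χ) x - 1)) ≤ dm π χ := by
    intro χ
    by_cases hχ : dm π χ = 0
    · have h1 : finrank K (LinearMap.ker (resRep ρ (LinearMap.range (π χ)) (hMinv χ) x - 1)) ≤
          finrank K (LinearMap.range (π χ)) := Submodule.finrank_le _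
      have h2 : finrank K (LinearMap.range (π χ)) = 0 := hχ
      omega
    · exact (hcomp χ hχ).le
  obtain ⟨χ₀, hχ₀⟩ : ∃ χ, dm π χ ≠ 0 := by
    by_contra hcon
    push Not at hcon
    have h1 := hF.sum_dm
    rw [Finset.sum_congr rfl (fun χ _ => hcon χ), Finset.sum_const_zero] at h1
    exact Module.finrank_pos.ne h1
  calc 2 * finrank K (LinearMap.ker (ρ x - 1)) ≤
      2 * ∑ χ, finrank K (LinearMap.ker (resRep ρ (LinearMap.range (π χ)) (hMinv χ) x - 1)) := Nat.mul_le_mul_left _ hle
    _ = ∑ χ, 2 * finrank K (LinearMap.ker (resRep ρ (LinearMap.range (π χ)) (hMinv χ) x - 1)) := Finset.mul_sum _ _ _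
    _ < ∑ χ, dm π χ := Finset.sum_lt_sum (fun χ _ => hle2 χ) ⟨χ₀, Finset.mem_univ _, hcomp χ₀ hχ₀⟩
    _ = finrank K U := hF.sum_dm

/-- core theorem over an algebraically closed field -/
theorem core [Nontrivial U] [Finite G] [Group.IsSolvable G] {p : ℕ} (hp : p.Prime) (hp3 : 3 < p)
    {x : G} (hx : orderOf x = p) (hgen : Subgroup.normalClosure ({x} : Set G) = ⊤) (ρ : Representation K G U)
    (hfix : ∀ N : Subgroup G, N.Normal → N ≠ ⊥ → ∀ v, (∀ n ∈ N, ρ n v = v) → v = 0) :
    2 * finrank K (LinearMap.ker (ρ x - 1)) < finrank K U := by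
  classical
  by_cases hab : ∀ A : Subgroup G, A.Normal → (∀ a ∈ A, ∀ b ∈ A, a * b = b * a) → A ≤ Subgroup.center G
  · by_cases hnc : Subgroup.center G = ⊤
    · -- abelian
      have h1 : LinearMap.ker (ρ x - 1) = ⊥ := by
        rw [Submodule.eq_bot_iff]
        intro v hv
        rw [mem_ker_iff] at hv
        apply hfix ⊤ inferInstance
        · intro h
          have h2 : x ∈ (⊤ : Subgroup G) := trivial
          rw [h, Subgroup.mem_bot] at h2
          rw [h2, orderOf_one] at hx
          exact hp.one_lt.ne hx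
        · intro n _
          have hn : (Subgroup.zpowers x).Normal := Cfsg.Agent.Solv.normal_of_le_center (by rw [hnc]; exact le_top)
          have h3 : Subgroup.normalClosure ({x} : Set G) ≤ Subgroup.zpowers x :=
            Subgroup.normalClosure_le_normal (by
              rintro _ rfl
              exact Subgroup.mem_zpowers _)
          rw [hgen] at h3
          have h4 : n ∈ Subgroup.zpowers x := h3 trivial
          rw [mem_zpowers_iff_mem_range_orderOf, Finset.mem_image] at h4
          obtain ⟨k, -, rfl⟩ := h4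
          have hpow : ∀ k : ℕ, ρ (x ^ k) v = v := by
            intro k
            induction k with
            | zero => simp
            | succ k ih => rw [pow_succ, map_mul, Module.End.mul_apply, hv, ih]
          exact hpow k
      rw [h1, finrank_bot, mul_zero]
      exact Module.finrank_pos
    · exact caseB hp hp3 hx hgen ρ hfix hab hnc
  · push Not at hab
    obtain ⟨A, hAn, hAc, hAZ⟩ := hab
    have := hAn
    exact caseA hp hp3 hx hgen ρ hfix A hAc (abel_card_ne ρ hfix A hAn hAc) hAZ

end main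

end Cfsg.Agent.H53.Fl
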