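import Mathlib
import Cfsg.Agent.H53.FlMain

/-!
Base change to the algebraic closure.
-/

set_option autoImplicit false
open Module TensorProduct

namespace Cfsg.Agent.H53.Fl

section base
variable {k : Type*} [Field k] (K : Type*) [Field K] [Algebra k K] {V : Type*} [AddCommGroup V] [Module k V]
  {G : Type*} [Group G]

/-- base change of a representation -/
noncomputable def bc (ρ : Representation k G V) : Representation K G (K ⊗[k] V) where
  toFun g := (ρ g).baseChange K
  map_one' := by
    rw [map_one]
    exact LinearMap.baseChange_id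
  map_mul' a b := by
    rw [map_mul]
    exact LinearMap.baseChange_comp _ _

theorem bc_apply (ρ : Representation k G V) (g : G) : bc K ρ g = (ρ g).baseChange K := rfl

theorem coord_baseChange {ι : Type*} (ℬ : Basis ι k K) (f : V →ₗ[k] V) (u : K ⊗[k] V) (i : ι) [DecidableEq ι] :
    TensorProduct.equivFinsuppOfBasisLeft ℬ (f.baseChange K u) i = f (TensorProduct.equivFinsuppOfBasisLeft ℬ u i) := by
  induction u with
  | zero => simp
  | tmul c v =>
    rw [LinearMap.baseChange_tmul, TensorProduct.equivFinsuppOfBasisLeft_apply_tmul_apply,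
      TensorProduct.equivFinsuppOfBasisLeft_apply_tmul_apply, map_smul]
  | add a b ha hb => rw [map_add, map_add, map_add, Finsupp.add_apply, Finsupp.add_apply, ha, hb, map_add]

theorem finrank_ker_le [FiniteDimensional k V] (ρ : Representation k G V) (x : G) :
    finrank k (LinearMap.ker (ρ x - 1)) ≤ finrank K (LinearMap.ker (bc K ρ x - 1)) := by
  let ι' : K ⊗[k] (LinearMap.ker (ρ x - 1)) →ₗ[K] K ⊗[k] V := (LinearMap.ker (ρ x - 1)).subtype.baseChange K
  have hinj : Function.Injective ι' := by
    change Function.Injective ((LinearMap.ker (ρ x - 1)).subtype.lTensor K)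
    exact Module.Flat.lTensor_preserves_injective_linearMap _ (Submodule.injective_subtype _)
  have hmem : ∀ u, ι' u ∈ LinearMap.ker (bc K ρ x - 1) := by
    intro u
    rw [mem_ker_iff, bc_apply]
    change ((ρ x).baseChange K) (((LinearMap.ker (ρ x - 1)).subtype.baseChange K) u) = _
    have h1 : (ρ x) ∘ₗ (LinearMap.ker (ρ x - 1)).subtype = (LinearMap.ker (ρ x - 1)).subtype := by
      ext v
      exact (mem_ker_iff _ _).1 v.2
    rw [← LinearMap.comp_apply, ← LinearMap.baseChange_comp, h1]
  let F : K ⊗[k] (LinearMap.ker (ρ x - 1)) →ₗ[K] LinearMap.ker (bc K ρ x - 1) := ι'.codRestrict _ hmem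
  have hF : Function.Injective F := by
    intro a b hab
    exact hinj (congrArg Subtype.val hab)
  have h1 := LinearMap.finrank_le_finrank_of_injective hF
  rw [Module.finrank_baseChange] at h1
  exact h1

end base

/-- over an arbitrary field -/
theorem core_field {k : Type*} [Field k] {V : Type*} [AddCommGroup V] [Module k V] [FiniteDimensional k V]
    [Nontrivial V] {G : Type*} [Group G] [Finite G] [Group.IsSolvable G] {p : ℕ} (hp : p.Prime) (hp3 : 3 < p)
    {x : G} (hx : orderOf x = p) (hgen : Subgroup.normalClosure ({x} : Set G) = ⊤) (ρ : Representation k G V)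
    (hfix : ∀ N : Subgroup G, N.Normal → N ≠ ⊥ → ∀ v, (∀ n ∈ N, ρ n v = v) → v = 0) :
    2 * finrank k (LinearMap.ker (ρ x - 1)) < finrank k V := by
  classical
  let K := AlgebraicClosure k
  have hnt : Nontrivial (K ⊗[k] V) := by
    apply Module.nontrivial_of_finrank_pos (R := K)
    rw [Module.finrank_baseChange]
    exact Module.finrank_pos
  have h1 := core (K := K) hp hp3 hx hgen (bc K ρ) (by
    intro N hN hN1 u hu
    let ℬ := Basis.ofVectorSpace k K
    have h2 : TensorProduct.equivFinsuppOfBasisLeft ℬ u = 0 := by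
      ext i
      apply hfix N hN hN1
      intro n hn
      rw [← coord_baseChange K ℬ (ρ n) u i, ← bc_apply, hu n hn]
    exact (LinearEquiv.map_eq_zero_iff _).1 h2)
  rw [Module.finrank_baseChange] at h1
  exact lt_of_le_of_lt (Nat.mul_le_mul_left _ (finrank_ker_le K ρ x)) h1

/-- for a faithful irreducible representation -/
theorem core_irr {k : Type*} [Field k] {V : Type*} [AddCommGroup V] [Module k V] [FiniteDimensional k V]
    {G : Type*} [Group G] [Finite G] [Group.IsSolvable G] {p : ℕ} (hp : p.Prime) (hp3 : 3 < p)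
    {x : G} (hx : orderOf x = p) (hgen : Subgroup.normalClosure ({x} : Set G) = ⊤) (ρ : Representation k G V)
    (hnt : Nontrivial V) (hirr : ∀ W : Submodule k V, (∀ g, ∀ v ∈ W, ρ g v ∈ W) → W = ⊥ ∨ W = ⊤)
    (hfaith : Function.Injective ρ) :
    2 * finrank k (LinearMap.ker (ρ x - 1)) < finrank k V := by
  apply core_field hp hp3 hx hgen ρ
  intro N hN hN1 v hv
  let W : Submodule k V :=
    { carrier := {v | ∀ n ∈ N, ρ n v = v}
      zero_mem' := fun n _ => map_zero _
      add_mem' := fun {a b} ha hb n hn => by rw [map_add, ha n hn, hb n hn]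
      smul_mem' := fun c a ha n hn => by rw [map_smul, ha n hn] }
  rcases hirr W (by
    intro g w hw n hn
    have h1 := hw (g⁻¹ * n * g) (by simpa using hN.conj_mem n hn g⁻¹)
    have h2 : ρ g (ρ (g⁻¹ * n * g) w) = ρ n (ρ g w) := by
      rw [← Module.End.mul_apply, ← Module.End.mul_apply, ← map_mul, ← map_mul]
      congr 2
      group
    rw [← h2, h1]) with h | h
  · have h1 : v ∈ W := hv
    rw [h, Submodule.mem_bot] at h1
    exact h1
  · exfalso
    apply hN1
    rw [eq_bot_iff]
    intro n hn
    rw [Subgroup.mem_bot]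
    apply hfaith
    rw [map_one]
    ext w
    have h1 : w ∈ W := by rw [h]; trivial
    exact h1 n hn

end Cfsg.Agent.H53.Fl
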