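import Mathlib
import Cfsg.Agent.Cop.Basic
import Cfsg.Agent.Solv.Core

/-!
Generation of a group `A M` by two conjugates of the generators of `A`.
-/

set_option autoImplicit false
open Subgroup

namespace Cfsg.Agent.H53.Fl

theorem normal_inf_of_sup {Γ : Type*} [Group Γ] (M B : Subgroup Γ) [hMn : M.Normal]
    (hMab : ∀ a ∈ M, ∀ b ∈ M, a * b = b * a) (hBM : B ⊔ M = ⊤) : (B ⊓ M).Normal := by
  constructor
  rintro n ⟨hn1, hn2⟩ g
  have hg : g ∈ B ⊔ M := by rw [hBM]; trivial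
  obtain ⟨b, hb, m, hm, rfl⟩ := Subgroup.mem_sup_of_normal_right.1 hg
  have h1 : m * n * m⁻¹ = n := by rw [hMab m hm n hn2]; group
  have h2 : b * m * n * (b * m)⁻¹ = b * n * b⁻¹ := by
    calc b * m * n * (b * m)⁻¹ = b * (m * n * m⁻¹) * b⁻¹ := by group
      _ = _ := by rw [h1]
  rw [h2]
  exact ⟨B.mul_mem (B.mul_mem hb hn1) (B.inv_mem hb), hMn.conj_mem n hn2 b⟩

theorem exists_gen {Γ : Type*} [Group Γ] [Finite Γ] (M A Q : Subgroup Γ) [hMn : M.Normal]
    (hAM : A ⊔ M = ⊤) (hQA : Q ≤ A) (hQn : ∀ a ∈ A, ∀ k ∈ Q, a * k * a⁻¹ ∈ Q)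
    (hcop : (Nat.card M).Coprime (Nat.card Q))
    (hCM : ∀ m ∈ M, (∀ k ∈ Q, k * m = m * k) → m = 1)
    (hmin : ∀ L : Subgroup Γ, L.Normal → L ≤ M → L = ⊥ ∨ L = M)
    (hMab : ∀ a ∈ M, ∀ b ∈ M, a * b = b * a) (x y : Γ) (hx : x ∈ A) (hy : y ∈ A)
    (hxy : A ≤ closure {x, y})
    (hcard : Nat.card {m : Γ // m ∈ M ∧ x * m = m * x} * Nat.card {m : Γ // m ∈ M ∧ y * m = m * y} < Nat.card M) :
    ∃ u ∈ M, ∃ w ∈ M, closure {u * x * u⁻¹, w * y * w⁻¹} = (⊤ : Subgroup Γ) := by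
  classical
  by_contra hcon
  push Not at hcon
  -- `A ∩ M = 1`
  have hinfA : A ⊓ M = ⊥ := by
    rcases hmin _ (normal_inf_of_sup M A hMab hAM) inf_le_right with h | h
    · exact h
    · exfalso
      have h1 : M ≤ A := by rw [← h]; exact inf_le_left
      have h2 : A = ⊤ := by rw [← hAM, sup_of_le_left h1]
      apply hcon 1 M.one_mem 1 M.one_mem
      simp only [one_mul, inv_one, mul_one]
      rw [eq_top_iff, ← h2]
      exact hxy
  have hMs : Group.IsSolvable M := by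
    let _ : CommGroup M := { (inferInstance : Group M) with
      mul_comm := fun a b => Subtype.ext (hMab a a.2 b b.2) }
    infer_instance
  -- the normalizer of `Q` is `A`
  have hNQ : ∀ g : Γ, (∀ k ∈ Q, g * k * g⁻¹ ∈ Q) → g ∈ A := by
    intro g hg
    have hg' : g ∈ A ⊔ M := by rw [hAM]; trivial
    obtain ⟨a, ha, m, hm, rfl⟩ := Subgroup.mem_sup_of_normal_right.1 hg'
    have h1 : ∀ k ∈ Q, m * k * m⁻¹ ∈ Q := by
      intro k hk
      have h2 := hQn a⁻¹ (A.inv_mem ha) _ (hg k hk)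
      rwa [show a⁻¹ * (a * m * k * (a * m)⁻¹) * a⁻¹⁻¹ = m * k * m⁻¹ by group] at h2
    have h3 : m = 1 := by
      apply hCM m hm
      intro k hk
      have h4 : m * k * m⁻¹ * k⁻¹ ∈ Q ⊓ M := by
        refine ⟨Q.mul_mem (h1 k hk) (Q.inv_mem hk), ?_⟩
        have := M.mul_mem hm (hMn.conj_mem _ (M.inv_mem hm) k)
        rwa [show m * (k * m⁻¹ * k⁻¹) = m * k * m⁻¹ * k⁻¹ by group] at this
      have h5 : Q ⊓ M ≤ A ⊓ M := inf_le_inf_right _ hQA
      have h6 := h5 h4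
      rw [hinfA, mem_bot, mul_inv_eq_one, mul_inv_eq_iff_eq_mul] at h6
      exact h6.symm
    rw [h3, mul_one]
    exact ha
  -- the normal subgroup `M Q`
  have hMQn : (M ⊔ Q).Normal := by
    constructor
    intro n hn g
    have hg' : g ∈ A ⊔ M := by rw [hAM]; trivial
    obtain ⟨a, ha, m, hm, rfl⟩ := Subgroup.mem_sup_of_normal_right.1 hg'
    obtain ⟨m', hm', k, hk, rfl⟩ := Subgroup.mem_sup_of_normal_left.1 hn
    have h1 : a * (m * m' * m⁻¹) * a⁻¹ ∈ M := hMn.conj_mem _ (M.mul_mem (M.mul_mem hm hm') (M.inv_mem hm)) a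
    have h2 : a * (m * (k * m⁻¹ * k⁻¹)) * a⁻¹ ∈ M :=
      hMn.conj_mem _ (M.mul_mem hm (hMn.conj_mem _ (M.inv_mem hm) k)) a
    have h3 := hQn a ha k hk
    have h4 : a * m * (m' * k) * (a * m)⁻¹ = (a * (m * m' * m⁻¹) * a⁻¹) * (a * (m * (k * m⁻¹ * k⁻¹)) * a⁻¹) * (a * k * a⁻¹) := by
      group
    rw [h4]
    exact mul_mem (mul_mem (mem_sup_left h1) (mem_sup_left h2)) (mem_sup_right h3)
  -- main claim
  have key : ∀ u ∈ M, ∀ w ∈ M, ∃ m ∈ M, (x * (m⁻¹ * u) = (m⁻¹ * u) * x) ∧ (y * (m⁻¹ * w) = (m⁻¹ * w) * y) := by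
    intro u hu w hw
    set B := closure {u * x * u⁻¹, w * y * w⁻¹} with hB
    have hxB : u * x * u⁻¹ ∈ B := subset_closure (Or.inl rfl)
    have hyB : w * y * w⁻¹ ∈ B := subset_closure (Or.inr rfl)
    have hBM : B ⊔ M = ⊤ := by
      rw [eq_top_iff, ← hAM]
      apply sup_le _ le_sup_right
      apply hxy.trans
      rw [closure_le]
      rintro z (rfl | hz)
      · have h1 := mul_mem (mul_mem (mem_sup_right (S := B) (inv_mem hu)) (mem_sup_left (T := M) hxB))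
          (mem_sup_right (S := B) hu)
        rwa [show u⁻¹ * (u * z * u⁻¹) * u = z by group] at h1
      · rw [Set.mem_singleton_iff.1 hz]
        have h1 := mul_mem (mul_mem (mem_sup_right (S := B) (inv_mem hw)) (mem_sup_left (T := M) hyB))
          (mem_sup_right (S := B) hw)
        rwa [show w⁻¹ * (w * y * w⁻¹) * w = y by group] at h1
    have hBinf : B ⊓ M = ⊥ := by
      rcases hmin _ (normal_inf_of_sup M B hMab hBM) inf_le_right with h | h
      · exact h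
      · exfalso
        have h1 : M ≤ B := by rw [← h]; exact inf_le_left
        apply hcon u hu w hw
        rw [← hB, ← hBM, sup_of_le_left h1]
    -- the subgroup `B ∩ M Q`
    set QB := B ⊓ (M ⊔ Q) with hQB
    have hQBM : QB ⊔ M = M ⊔ Q := by
      apply le_antisymm (sup_le inf_le_right le_sup_left)
      intro g hg
      have hg' : g ∈ B ⊔ M := by rw [hBM]; trivial
      obtain ⟨b, hb, m, hm, rfl⟩ := Subgroup.mem_sup_of_normal_right.1 hg'
      refine mul_mem (mem_sup_left ⟨hb, ?_⟩) (mem_sup_right hm)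
      have := mul_mem hg (mem_sup_left (T := Q) (inv_mem hm))
      rwa [mul_inv_cancel_right] at this
    have hcardQB : Nat.card QB = Nat.card Q := by
      have h1 := Cfsg.Agent.Solv.mul_card_sup_of_normal QB M
      have h2 := Cfsg.Agent.Solv.mul_card_sup_of_normal Q M
      have h3 : QB ⊓ M = ⊥ := by
        rw [eq_bot_iff, ← hBinf]
        exact inf_le_inf_right _ inf_le_left
      have h4 : Q ⊓ M = ⊥ := by
        rw [eq_bot_iff, ← hinfA]
        exact inf_le_inf_right _ hQA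
      rw [hQBM, h3, Subgroup.card_bot] at h1
      rw [sup_comm Q M, h4, Subgroup.card_bot, h1] at h2
      exact Nat.eq_of_mul_eq_mul_right (Nat.card_pos (α := M)) h2
    obtain ⟨m, hm, hmQ⟩ := Cfsg.Agent.Cop.sz_rel (N := M) (A := Q) (B := QB)
      (fun k _ => by rw [Subgroup.normalizer_eq_top]; trivial) inf_le_right hcardQB hcop (Or.inl hMs)
    have hconjB : ∀ b ∈ B, m⁻¹ * b * m ∈ A := by
      intro b hb
      apply hNQ
      intro k hk
      have h1 : m * k * m⁻¹ ∈ QB := by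
        rw [← hmQ, Subgroup.mem_smul_pointwise_iff_exists]
        exact ⟨k, hk, rfl⟩
      have h2 : b * (m * k * m⁻¹) * b⁻¹ ∈ QB :=
        ⟨B.mul_mem (B.mul_mem hb h1.1) (B.inv_mem hb), hMQn.conj_mem _ h1.2 b⟩
      rw [← hmQ, Subgroup.mem_smul_pointwise_iff_exists] at h2
      obtain ⟨k', hk', hkk⟩ := h2
      have h3 : m * k' * m⁻¹ = b * (m * k * m⁻¹) * b⁻¹ := hkk
      have h4 : m⁻¹ * b * m * k * (m⁻¹ * b * m)⁻¹ = k' := by
        calc m⁻¹ * b * m * k * (m⁻¹ * b * m)⁻¹ = m⁻¹ * (b * (m * k * m⁻¹) * b⁻¹) * m := by group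
          _ = m⁻¹ * (m * k' * m⁻¹) * m := by rw [h3]
          _ = k' := by group
      rw [h4]; exact hk'
    have hgen : ∀ (v z : Γ), v ∈ M → z ∈ A → v * z * v⁻¹ ∈ B → z * (m⁻¹ * v) = (m⁻¹ * v) * z := by
      intro v z hv hz hvz
      have h1 := hconjB _ hvz
      have h2 : (m⁻¹ * v) * z * (m⁻¹ * v)⁻¹ * z⁻¹ ∈ A ⊓ M := by
        constructor
        · have := A.mul_mem h1 (A.inv_mem hz)
          rwa [show m⁻¹ * (v * z * v⁻¹) * m * z⁻¹ = (m⁻¹ * v) * z * (m⁻¹ * v)⁻¹ * z⁻¹ by group] at this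
        · have hc : m⁻¹ * v ∈ M := M.mul_mem (M.inv_mem hm) hv
          have := M.mul_mem hc (hMn.conj_mem _ (M.inv_mem hc) z)
          rwa [show m⁻¹ * v * (z * (m⁻¹ * v)⁻¹ * z⁻¹) = (m⁻¹ * v) * z * (m⁻¹ * v)⁻¹ * z⁻¹ by group] at this
      rw [hinfA, mem_bot, mul_inv_eq_one, mul_inv_eq_iff_eq_mul] at h2
      exact h2.symm
    exact ⟨m, hm, hgen u x hu hx hxB, hgen w y hw hy hyB⟩
  -- counting
  have hsurj : Function.Surjective (fun t : M × {m : Γ // m ∈ M ∧ x * m = m * x} × {m : Γ // m ∈ M ∧ y * m = m * y} =>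
      ((t.1 * ⟨t.2.1.1, t.2.1.2.1⟩, t.1 * ⟨t.2.2.1, t.2.2.2.1⟩) : M × M)) := by
    rintro ⟨u, w⟩
    obtain ⟨m, hm, h1, h2⟩ := key u u.2 w w.2
    refine ⟨(⟨m, hm⟩, ⟨m⁻¹ * u, M.mul_mem (M.inv_mem hm) u.2, h1⟩, ⟨m⁻¹ * w, M.mul_mem (M.inv_mem hm) w.2, h2⟩), ?_⟩
    apply Prod.ext
    · apply Subtype.ext
      change m * (m⁻¹ * (u : Γ)) = u
      group
    · apply Subtype.ext
      change m * (m⁻¹ * (w : Γ)) = w
      group
  have h1 := Nat.card_le_card_of_surjective _ hsurj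
  rw [Nat.card_prod, Nat.card_prod, Nat.card_prod] at h1
  have h2 := Nat.le_of_mul_le_mul_left h1 Nat.card_pos
  exact absurd hcard (not_lt.2 h2)

end Cfsg.Agent.H53.Fl
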