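import Mathlib
import Cfsg.Agent.H53.FlBase

/-!
Centralizer bound for a minimal normal subgroup `M` of `A M`.
-/

set_option autoImplicit false
open Module

namespace Cfsg.Agent.H53.Fl

theorem card_ker_lt {k : Type*} [Field k] [Finite k] {V : Type*} [AddCommGroup V] [Module k V] [Finite V]
    {G : Type*} [Group G] [Finite G] [Group.IsSolvable G] {p : ℕ} (hp : p.Prime) (hp3 : 3 < p)
    {x : G} (hx : orderOf x = p) (hgen : Subgroup.normalClosure ({x} : Set G) = ⊤) (ρ : Representation k G V)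
    (hnt : Nontrivial V) (hirr : ∀ W : Submodule k V, (∀ g, ∀ v ∈ W, ρ g v ∈ W) → W = ⊥ ∨ W = ⊤)
    (hfaith : Function.Injective ρ) : (Nat.card {v : V // ρ x v = v}) ^ 2 < Nat.card V := by
  have hmain := core_irr hp hp3 hx hgen ρ hnt hirr hfaith
  have h1 := Module.natCard_eq_pow_finrank (K := k) (V := V)
  have h2 := Module.natCard_eq_pow_finrank (K := k) (V := LinearMap.ker (ρ x - 1))
  have h3 : Nat.card {v : V // ρ x v = v} = Nat.card (LinearMap.ker (ρ x - 1)) := by
    apply Nat.card_congr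
    exact Equiv.subtypeEquivRight (fun v => (mem_ker_iff _ _).symm)
  rw [h3, h1, h2, ← pow_mul, mul_comm]
  exact Nat.pow_lt_pow_right Finite.one_lt_card hmain

/-- a representation from an action by additive homomorphisms -/
noncomputable def repOf {V : Type*} [AddCommGroup V] (r : ℕ) [Fact r.Prime] [Module (ZMod r) V] {G : Type*} [Group G]
    (φ : G → V →+ V) (h1 : ∀ v, φ 1 v = v) (h2 : ∀ a b v, φ (a * b) v = φ a (φ b v)) : Representation (ZMod r) G V where
  toFun g := (φ g).toZModLinearMap r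
  map_one' := by ext v; exact h1 v
  map_mul' a b := by ext v; exact h2 a b v

theorem repOf_apply {V : Type*} [AddCommGroup V] (r : ℕ) [Fact r.Prime] [Module (ZMod r) V] {G : Type*} [Group G]
    (φ : G → V →+ V) (h1 : ∀ v, φ 1 v = v) (h2 : ∀ a b v, φ (a * b) v = φ a (φ b v)) (g : G) (v : V) :
    repOf r φ h1 h2 g v = φ g v := rfl

theorem add_cent_lt {V : Type*} [AddCommGroup V] [Finite V] [Nontrivial V] {r : ℕ} (hr : r.Prime)
    (hV : ∀ v : V, r • v = 0) {G : Type*} [Group G] [Finite G] [Group.IsSolvable G]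
    (φ : G → V →+ V) (h1 : ∀ v, φ 1 v = v) (h2 : ∀ a b v, φ (a * b) v = φ a (φ b v))
    (hφ : ∀ a b, (∀ v, φ a v = φ b v) → a = b)
    (hirr : ∀ L : AddSubgroup V, (∀ g, ∀ l ∈ L, φ g l ∈ L) → L = ⊥ ∨ L = ⊤) {p : ℕ} (hp : p.Prime) (hp3 : 3 < p)
    {x : G} (hx : orderOf x = p) (hgen : Subgroup.normalClosure ({x} : Set G) = ⊤) :
    (Nat.card {v : V // φ x v = v}) ^ 2 < Nat.card V := by
  have hrf : Fact r.Prime := ⟨hr⟩
  let _ : Module (ZMod r) V := AddCommGroup.zmodModule hV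
  refine card_ker_lt (k := ZMod r) hp hp3 hx hgen (repOf r φ h1 h2) inferInstance ?_ ?_
  · intro W hW
    rcases hirr W.toAddSubgroup (fun g l hl => hW g l hl) with h | h
    · left
      rw [Submodule.eq_bot_iff]
      intro v hv
      have h1 : v ∈ W.toAddSubgroup := hv
      rw [h, AddSubgroup.mem_bot] at h1
      exact h1
    · right
      refine Submodule.eq_top_iff'.2 (fun v => ?_)
      have h1 : v ∈ W.toAddSubgroup := by rw [h]; trivial
      exact h1
  · intro g h hgh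
    apply hφ
    intro v
    rw [← repOf_apply r φ h1 h2 g v, hgh, repOf_apply]

theorem aut_cent_lt {W : Type*} [CommGroup W] [Finite W] [Nontrivial W] {r : ℕ} (hr : r.Prime)
    (hW : ∀ w : W, w ^ r = 1) (H : Subgroup (MulAut W)) (hHs : Group.IsSolvable H)
    (hirr : ∀ L : Subgroup W, (∀ h ∈ H, ∀ l ∈ L, h l ∈ L) → L = ⊥ ∨ L = ⊤) {p : ℕ} (hp : p.Prime) (hp3 : 3 < p)
    {x : MulAut W} (hxH : x ∈ H) (hxp : orderOf x = p)
    (hgen : ∀ N : Subgroup (MulAut W), N ≤ H → x ∈ N → (∀ h ∈ H, ∀ n ∈ N, h * n * h⁻¹ ∈ N) → N = H) :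
    (Nat.card {w : W // x w = w}) ^ 2 < Nat.card W := by
  classical
  have hfin : Finite (Additive W) := inferInstanceAs (Finite W)
  have hx'p : orderOf (⟨x, hxH⟩ : H) = p := by rw [← hxp, ← Subgroup.orderOf_coe]
  have hgen' : Subgroup.normalClosure ({(⟨x, hxH⟩ : H)} : Set H) = ⊤ := by
    set N := Subgroup.normalClosure ({(⟨x, hxH⟩ : H)} : Set H) with hN
    have hxN : x ∈ N.map H.subtype :=
      Subgroup.mem_map_of_mem H.subtype (x := (⟨x, hxH⟩ : H)) (Subgroup.subset_normalClosure (Set.mem_singleton _))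
    have hNN : ∀ h ∈ H, ∀ n ∈ N.map H.subtype, h * n * h⁻¹ ∈ N.map H.subtype := by
      intro h hh n hn
      rw [Subgroup.mem_map] at hn
      obtain ⟨n', hn', hnn⟩ := hn
      have h1 : (⟨h, hh⟩ : H) * n' * (⟨h, hh⟩ : H)⁻¹ ∈ N := Subgroup.normalClosure_normal.conj_mem _ hn' _
      have h2 := Subgroup.mem_map_of_mem H.subtype h1
      rw [map_mul, map_mul, map_inv, hnn] at h2
      exact h2
    have hL := hgen (N.map H.subtype) (Subgroup.map_subtype_le _) hxN hNN
    rw [eq_top_iff]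
    intro h _
    have h1 : (h : MulAut W) ∈ N.map H.subtype := by rw [hL]; exact h.2
    rw [Subgroup.mem_map] at h1
    obtain ⟨b, hb, hba⟩ := h1
    have h2 : b = h := Subtype.ext hba
    rw [← h2]
    exact hb
  have h := add_cent_lt (V := Additive W) (G := H) hr (fun v => congrArg Additive.ofMul (hW (Additive.toMul v)))
    (fun h => MonoidHom.toAdditive ((h : MulAut W).toMonoidHom)) (fun v => rfl) (fun a b v => rfl)
    (by
      intro a b hab
      apply Subtype.ext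
      ext w
      exact hab (Additive.ofMul w))
    (by
      intro L hL
      rcases hirr (AddSubgroup.toSubgroup' L) (by
        intro h hh l hl
        exact hL ⟨h, hh⟩ (Additive.ofMul l) hl) with h | h
      · left
        rw [AddSubgroup.eq_bot_iff_forall]
        intro v hv
        have h1 : Additive.toMul v ∈ AddSubgroup.toSubgroup' L := hv
        rw [h, Subgroup.mem_bot] at h1
        exact h1
      · right
        rw [eq_top_iff]
        intro v _
        have h1 : Additive.toMul v ∈ AddSubgroup.toSubgroup' L := by rw [h]; trivial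
        exact h1) hp hp3 hx'p hgen'
  exact h

theorem card_cent_lt {Γ : Type*} [Group Γ] [Finite Γ] (M A : Subgroup Γ) [hMn : M.Normal] (hMne : M ≠ ⊥)
    (hAM : A ⊔ M = ⊤) (hAs : Group.IsSolvable A) {r : ℕ} (hr : r.Prime) (hMr : ∀ m ∈ M, m ^ r = 1)
    (hMab : ∀ a ∈ M, ∀ b ∈ M, a * b = b * a)
    (hmin : ∀ L : Subgroup Γ, L.Normal → L ≤ M → L = ⊥ ∨ L = M) {p : ℕ} (hp : p.Prime) (hp3 : 3 < p)
    {x : Γ} (hx : x ∈ A) (hxp : x ^ p = 1)
    (hgen : ∀ L : Subgroup Γ, L ≤ A → x ∈ L → (∀ a ∈ A, ∀ l ∈ L, a * l * a⁻¹ ∈ L) → L = A)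
    (hne : ∃ a ∈ A, ∃ m ∈ M, a * m ≠ m * a) :
    (Nat.card {m : Γ // m ∈ M ∧ x * m = m * x}) ^ 2 < Nat.card M := by
  classical
  let _ : CommGroup M := { (inferInstance : Group M) with
    mul_comm := fun a b => Subtype.ext (hMab a a.2 b b.2) }
  let φ : A →* MulAut M := (MulAut.conjNormal : Γ →* MulAut M).comp A.subtype
  have hφ : ∀ (a : A) (m : M), ((φ a m : M) : Γ) = a * m * (a : Γ)⁻¹ := fun a m => MulAut.conjNormal_apply _ _
  have hHs : Group.IsSolvable φ.range := Group.isSolvable_of_surjective φ.rangeRestrict_surjective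
  have hnt : Nontrivial M := (Subgroup.nontrivial_iff_ne_bot M).2 hMne
  have hx'1 : φ ⟨x, hx⟩ ≠ 1 := by
    intro h2
    have hcent : ∀ m ∈ M, x * m = m * x := by
      intro m hm
      have h3 := hφ ⟨x, hx⟩ ⟨m, hm⟩
      rw [h2] at h3
      exact (eq_mul_inv_iff_mul_eq.1 h3).symm
    have hL := hgen (A ⊓ Subgroup.centralizer (M : Set Γ)) inf_le_left
      ⟨hx, Subgroup.mem_centralizer_iff.2 (fun m hm => (hcent m hm).symm)⟩ (by
        rintro a ha l ⟨hl1, hl2⟩
        have : (Subgroup.centralizer (M : Set Γ)).Normal := inferInstance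
        exact ⟨A.mul_mem (A.mul_mem ha hl1) (A.inv_mem ha), this.conj_mem l hl2 a⟩)
    obtain ⟨a, ha, m, hm, ham⟩ := hne
    apply ham
    rw [← hL] at ha
    exact (Subgroup.mem_centralizer_iff.1 ha.2 m hm).symm
  have hx'p : orderOf (φ ⟨x, hx⟩) = p := by
    have : Fact p.Prime := ⟨hp⟩
    apply orderOf_eq_prime _ hx'1
    rw [← map_pow]
    have : (⟨x, hx⟩ : A) ^ p = 1 := Subtype.ext hxp
    rw [this, map_one]
  have h1 := aut_cent_lt (W := M) hr (fun w => Subtype.ext (hMr w w.2)) φ.range hHs (by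
    intro L hL
    have hLn : (L.map M.subtype).Normal := by
      constructor
      rintro _ ⟨n, hn, rfl⟩ g
      have hg : g ∈ A ⊔ M := by rw [hAM]; trivial
      obtain ⟨a, ha, m, hm, rfl⟩ := Subgroup.mem_sup_of_normal_right.1 hg
      have h1 : m * n * m⁻¹ = n := by rw [hMab m hm n n.2]; group
      have h2 : a * m * n * (a * m)⁻¹ = a * n * a⁻¹ := by
        calc a * m * n * (a * m)⁻¹ = a * (m * n * m⁻¹) * a⁻¹ := by group
          _ = _ := by rw [h1]
      change a * m * (n : Γ) * (a * m)⁻¹ ∈ _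
      rw [h2]
      exact ⟨φ ⟨a, ha⟩ n, hL _ ⟨⟨a, ha⟩, rfl⟩ n hn, hφ _ _⟩
    rcases hmin _ hLn (Subgroup.map_subtype_le L) with h | h
    · left
      exact (Subgroup.map_eq_bot_iff_of_injective _ M.subtype_injective).1 h
    · right
      rw [eq_top_iff]
      intro m _
      have h2 : (m : Γ) ∈ L.map M.subtype := by rw [h]; exact m.2
      obtain ⟨b, hb, hbm⟩ := h2
      have h3 : b = m := Subtype.ext hbm
      rw [← h3]; exact hb) hp hp3 (x := φ ⟨x, hx⟩) ⟨⟨x, hx⟩, rfl⟩ hx'p (by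
    intro N hN hxN hNn
    have hL := hgen ((N.comap φ).map A.subtype) (Subgroup.map_subtype_le _)
      ⟨⟨x, hx⟩, hxN, rfl⟩ (by
        rintro a ha _ ⟨l, hl, rfl⟩
        refine ⟨⟨a, ha⟩ * l * ⟨a, ha⟩⁻¹, ?_, rfl⟩
        rw [SetLike.mem_coe, Subgroup.mem_comap, map_mul, map_mul, map_inv]
        exact hNn _ ⟨_, rfl⟩ _ hl)
    apply le_antisymm hN
    rintro _ ⟨a, rfl⟩
    have h1 : (a : Γ) ∈ (N.comap φ).map A.subtype := by rw [hL]; exact a.2
    obtain ⟨b, hb, hba⟩ := h1
    have h2 : b = a := Subtype.ext hba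
    rw [← h2]
    exact hb)
  refine lt_of_le_of_lt (Nat.pow_le_pow_left (le_of_eq ?_) 2) h1
  apply Nat.card_congr
  exact ⟨fun m => ⟨⟨m.1, m.2.1⟩, Subtype.ext (by rw [hφ]; exact mul_inv_eq_iff_eq_mul.2 m.2.2)⟩,
    fun v => ⟨(v.1 : Γ), v.1.2, by
      have h2 := congrArg Subtype.val v.2
      rw [hφ] at h2
      exact mul_inv_eq_iff_eq_mul.1 h2⟩, fun m => rfl, fun v => rfl⟩

end Cfsg.Agent.H53.Fl
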