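import Mathlib
import Cfsg.Agent.Cop.Basic
import Cfsg.Agent.Solv.Core
import Cfsg.Agent.Solv.MinNormal
import Cfsg.Agent.H53.FlGen
import Cfsg.Agent.H53.FlRep

/-!
The main coprime step of Flavell's argument.
-/

set_option autoImplicit false
open Subgroup
open scoped commutatorElement

namespace Cfsg.Agent.H53.Fl

theorem mul_lt_of_sq_lt {a b n : ℕ} (h1 : a ^ 2 < n) (h2 : b ^ 2 < n) : a * b < n := by
  rcases le_total a b with h | h
  · nlinarith
  · nlinarith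

theorem fl_stepB {T : Type*} [Group T] [Finite T] (W X A Q : Subgroup T) [hWn : W.Normal] [hXn : X.Normal]
    (hXW : X ≤ W) (hWA : A ⊔ W = ⊤) (hWs : Group.IsSolvable W)
    (hQn : ∀ a ∈ A, ∀ k ∈ Q, a * k * a⁻¹ ∈ Q) (hcop : (Nat.card W).Coprime (Nat.card Q))
    {q : ℕ} (hq : q.Prime) (hQq : IsPGroup q Q)
    (hXQ : ∀ k ∈ Q, ∀ x ∈ X, k * x = x * k) (hWQ : W ≤ ⁅W, Q⁆) (B : Subgroup T)
    (hBX : ∀ g : T, ∃ b ∈ B, ∃ z ∈ X, g = b * z) : W ≤ B := by
  -- `W Q` is normal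
  have hWQn : (W ⊔ Q).Normal := by
    constructor
    intro n hn g
    have hg' : g ∈ A ⊔ W := by rw [hWA]; trivial
    obtain ⟨a, ha, m, hm, rfl⟩ := Subgroup.mem_sup_of_normal_right.1 hg'
    obtain ⟨m', hm', k, hk, rfl⟩ := Subgroup.mem_sup_of_normal_left.1 hn
    have h1 : a * (m * m' * m⁻¹) * a⁻¹ ∈ W := hWn.conj_mem _ (W.mul_mem (W.mul_mem hm hm') (W.inv_mem hm)) a
    have h2 : a * (m * (k * m⁻¹ * k⁻¹)) * a⁻¹ ∈ W :=
      hWn.conj_mem _ (W.mul_mem hm (hWn.conj_mem _ (W.inv_mem hm) k)) a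
    have h3 := hQn a ha k hk
    have h4 : a * m * (m' * k) * (a * m)⁻¹ = (a * (m * m' * m⁻¹) * a⁻¹) * (a * (m * (k * m⁻¹ * k⁻¹)) * a⁻¹) * (a * k * a⁻¹) := by
      group
    rw [h4]
    exact mul_mem (mul_mem (mem_sup_left h1) (mem_sup_left h2)) (mem_sup_right h3)
  set H1 := B ⊓ (W ⊔ Q) with hH1
  have hH1W : H1 ⊔ W = W ⊔ Q := by
    apply le_antisymm (sup_le inf_le_right le_sup_left)
    intro g hg
    obtain ⟨b, hb, z, hz, rfl⟩ := hBX g
    refine mul_mem (mem_sup_left ⟨hb, ?_⟩) (mem_sup_right (hXW hz))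
    have := mul_mem hg (mem_sup_left (T := Q) (inv_mem (hXW hz)))
    rwa [mul_inv_cancel_right] at this
  have hcardH1 : Nat.card Q ∣ Nat.card H1 := by
    have h1 := Cfsg.Agent.Solv.mul_card_sup_of_normal H1 W
    have h2 := Cfsg.Agent.Solv.mul_card_sup_of_normal Q W
    have h3 : Q ⊓ W = ⊥ := Cfsg.Agent.Cop.inf_eq_bot_of_coprime hcop.symm
    rw [h3, Subgroup.card_bot, sup_comm Q W] at h2
    rw [hH1W] at h1
    have h4 : Nat.card H1 * Nat.card W = Nat.card Q * Nat.card W * Nat.card (H1 ⊓ W : Subgroup T) := by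
      nlinarith
    have h5 : Nat.card H1 = Nat.card Q * Nat.card (H1 ⊓ W : Subgroup T) := by
      apply Nat.eq_of_mul_eq_mul_right (Nat.card_pos (α := W))
      rw [h4]; ring
    exact ⟨_, h5⟩
  have hqf : Fact q.Prime := ⟨hq⟩
  obtain ⟨e, he⟩ := IsPGroup.iff_card.1 hQq
  obtain ⟨K, hK⟩ := Sylow.exists_subgroup_card_pow_prime (G := H1) q (n := e) (by rw [← he]; exact hcardH1)
  have hK' : Nat.card (K.map H1.subtype) = Nat.card Q := by
    rw [Nat.card_congr (K.equivMapOfInjective _ H1.subtype_injective).toEquiv.symm, hK, he]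
  have hKH : K.map H1.subtype ≤ H1 := Subgroup.map_subtype_le K
  obtain ⟨m, hm, hmQ⟩ := Cfsg.Agent.Cop.sz_rel (N := W) (A := Q) (B := K.map H1.subtype)
    (fun k _ => by rw [Subgroup.normalizer_eq_top]; trivial) (hKH.trans inf_le_right) hK' hcop (Or.inl hWs)
  have hkB : ∀ k ∈ Q, m * k * m⁻¹ ∈ B := by
    intro k hk
    have h1 : m * k * m⁻¹ ∈ K.map H1.subtype := by
      rw [← hmQ, Subgroup.mem_smul_pointwise_iff_exists]
      exact ⟨k, hk, rfl⟩
    exact (hKH h1).1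
  have hWB' : W ≤ B.comap (MulAut.conj m).toMonoidHom := by
    refine hWQ.trans ?_
    rw [Subgroup.commutator_le]
    intro v hv k hk
    change m * ⁅v, k⁆ * m⁻¹ ∈ B
    obtain ⟨b, hb, z, hz, hbz⟩ := hBX (m * v * m⁻¹)
    have hzk : z * (m * k * m⁻¹) = (m * k * m⁻¹) * z := by
      have h1 := hXQ k hk (m⁻¹ * z * m⁻¹⁻¹) (hXn.conj_mem z hz m⁻¹)
      calc z * (m * k * m⁻¹) = m * ((m⁻¹ * z * m⁻¹⁻¹) * k) * m⁻¹ := by group
        _ = m * (k * (m⁻¹ * z * m⁻¹⁻¹)) * m⁻¹ := by rw [h1]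
        _ = _ := by group
    have h2 : m * ⁅v, k⁆ * m⁻¹ = b * (m * k * m⁻¹) * b⁻¹ * (m * k * m⁻¹)⁻¹ := by
      calc m * ⁅v, k⁆ * m⁻¹ = (m * v * m⁻¹) * (m * k * m⁻¹) * (m * v * m⁻¹)⁻¹ * (m * k * m⁻¹)⁻¹ := by
            rw [commutatorElement_def]; group
        _ = b * (z * (m * k * m⁻¹)) * z⁻¹ * b⁻¹ * (m * k * m⁻¹)⁻¹ := by rw [hbz]; group
        _ = _ := by rw [hzk]; group
    rw [h2]
    exact B.mul_mem (B.mul_mem (B.mul_mem hb (hkB k hk)) (B.inv_mem hb)) (B.inv_mem (hkB k hk))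
  intro v hv
  have h1 : m⁻¹ * v * m⁻¹⁻¹ ∈ W := hWn.conj_mem v hv m⁻¹
  have h2 : m * (m⁻¹ * v * m⁻¹⁻¹) * m⁻¹ ∈ B := hWB' h1
  rwa [show m * (m⁻¹ * v * m⁻¹⁻¹) * m⁻¹ = v by group] at h2

set_option maxHeartbeats 1000000 in
theorem fl_step {T : Type*} [Group T] [Finite T] (W X A Q : Subgroup T) [hWn : W.Normal] [hXn : X.Normal]
    (hXW : X ≤ W) (hXne : X ≠ W) (hWA : A ⊔ W = ⊤) (hAs : Group.IsSolvable A) (hWs : Group.IsSolvable W) (hQA : Q ≤ A)
    (hQn : ∀ a ∈ A, ∀ k ∈ Q, a * k * a⁻¹ ∈ Q) (hcop : (Nat.card W).Coprime (Nat.card Q))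
    {q : ℕ} (hq : q.Prime) (hQq : IsPGroup q Q)
    (hmin : ∀ L : Subgroup T, L.Normal → X ≤ L → L ≤ W → L = X ∨ L = W)
    (hXQ : ∀ k ∈ Q, ∀ x ∈ X, k * x = x * k) (hWQ : W ≤ ⁅W, Q⁆)
    {p : ℕ} (hp : p.Prime) (hp3 : 3 < p) {x a : T} (hx : x ∈ A) (hxp : x ^ p = 1) (ha : a ∈ A)
    (hgen : A ≤ closure {x, a * x * a⁻¹}) :
    ∃ u ∈ W, ∃ w ∈ W, closure {u * x * u⁻¹, w * (a * x * a⁻¹) * w⁻¹} = (⊤ : Subgroup T) := by
  classical
  set π : T →* T ⧸ X := QuotientGroup.mk' X with hπ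
  have hπs : Function.Surjective π := QuotientGroup.mk'_surjective X
  have hπX : ∀ g : T, π g = 1 ↔ g ∈ X := fun g => QuotientGroup.eq_one_iff g
  have hMn : (W.map π).Normal := hWn.map π hπs
  have hAM : A.map π ⊔ W.map π = ⊤ := by
    rw [← Subgroup.map_sup, hWA, ← MonoidHom.range_eq_map, MonoidHom.range_eq_top.2 hπs]
  have hminΓ : ∀ L : Subgroup (T ⧸ X), L.Normal → L ≤ W.map π → L = ⊥ ∨ L = W.map π := by
    intro L hLn hLM
    have h1 : X ≤ L.comap π := by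
      intro g hg
      rw [Subgroup.mem_comap, (hπX g).2 hg]
      exact L.one_mem
    have h2 : L.comap π ≤ W := by
      intro g hg
      rw [Subgroup.mem_comap] at hg
      obtain ⟨w, hw, hwg⟩ := hLM hg
      have h3 : w⁻¹ * g ∈ X := by rw [← hπX, map_mul, map_inv, hwg, inv_mul_cancel]
      have h4 := W.mul_mem hw (hXW h3)
      rwa [mul_inv_cancel_left] at h4
    rcases hmin _ (hLn.comap π) h1 h2 with h | h
    · left
      rw [eq_bot_iff]
      intro g hg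
      obtain ⟨t, rfl⟩ := hπs g
      have h3 : t ∈ L.comap π := hg
      rw [h] at h3
      rw [Subgroup.mem_bot]
      exact (hπX t).2 h3
    · right
      rw [← h, Subgroup.map_comap_eq_self_of_surjective hπs]
  have hMne : W.map π ≠ ⊥ := by
    intro h
    apply hXne
    apply le_antisymm hXW
    intro w hw
    rw [← hπX, ← Subgroup.mem_bot, ← h]
    exact Subgroup.mem_map_of_mem π hw
  have hMs : Group.IsSolvable (W.map π) :=
    Group.isSolvable_of_surjective (f := π.subgroupMap W) (π.subgroupMap_surjective W)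
  have hAbs : Group.IsSolvable (A.map π) :=
    Group.isSolvable_of_surjective (f := π.subgroupMap A) (π.subgroupMap_surjective A)
  obtain ⟨hMc, s, hs, hMs'⟩ := Cfsg.Agent.Solv.minimal_normal_of_solvable (W.map π) hMs hMne hminΓ
  have hMab : ∀ a ∈ W.map π, ∀ b ∈ W.map π, a * b = b * a :=
    fun a ha b hb => Cfsg.Agent.Solv.comm_of_isMulCommutative hMc ha hb
  have hQnΓ : ∀ a ∈ A.map π, ∀ k ∈ Q.map π, a * k * a⁻¹ ∈ Q.map π := by
    rintro _ ⟨a, ha, rfl⟩ _ ⟨k, hk, rfl⟩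
    exact ⟨a * k * a⁻¹, hQn a ha k hk, by rw [map_mul, map_mul, map_inv]⟩
  have hCn : (W.map π ⊓ centralizer (Q.map π : Set (T ⧸ X))).Normal := by
    constructor
    rintro n ⟨hn1, hn2⟩ g
    refine ⟨hMn.conj_mem n hn1 g, ?_⟩
    have hg : g ∈ A.map π ⊔ W.map π := by rw [hAM]; trivial
    obtain ⟨b, hb, m, hm, rfl⟩ := Subgroup.mem_sup_of_normal_right.1 hg
    have h1 : m * n * m⁻¹ = n := by rw [hMab m hm n hn1]; group
    have h2 : b * m * n * (b * m)⁻¹ = b * n * b⁻¹ := by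
      calc b * m * n * (b * m)⁻¹ = b * (m * n * m⁻¹) * b⁻¹ := by group
        _ = _ := by rw [h1]
    rw [h2]
    refine mem_centralizer_iff.2 (fun k hk => ?_)
    have h3 := mem_centralizer_iff.1 hn2 (b⁻¹ * k * b) (by
      have := hQnΓ b⁻¹ ((A.map π).inv_mem hb) k hk
      rwa [inv_inv] at this)
    calc k * (b * n * b⁻¹) = b * ((b⁻¹ * k * b) * n) * b⁻¹ := by group
      _ = b * (n * (b⁻¹ * k * b)) * b⁻¹ := by rw [h3]
      _ = _ := by group
  have hCM : ∀ m ∈ W.map π, (∀ k ∈ Q.map π, k * m = m * k) → m = 1 := by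
    rcases hminΓ _ hCn inf_le_left with h | h
    · intro m hm hmk
      rw [← Subgroup.mem_bot, ← h]
      exact ⟨hm, mem_centralizer_iff.2 hmk⟩
    · exfalso
      apply hXne
      apply le_antisymm hXW
      refine hWQ.trans ?_
      rw [Subgroup.commutator_le]
      intro w hw k hk
      rw [← hπX, map_commutatorElement, commutatorElement_eq_one_iff_mul_comm]
      have h1 : π w ∈ W.map π ⊓ centralizer (Q.map π : Set (T ⧸ X)) := by
        rw [h]; exact Subgroup.mem_map_of_mem π hw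
      exact (mem_centralizer_iff.1 h1.2 (π k) (Subgroup.mem_map_of_mem π hk)).symm
  have hcopΓ : (Nat.card (W.map π)).Coprime (Nat.card (Q.map π)) :=
    Nat.Coprime.coprime_dvd_left (Subgroup.card_dvd_of_surjective (π.subgroupMap W) (π.subgroupMap_surjective W))
      (Nat.Coprime.coprime_dvd_right (Subgroup.card_dvd_of_surjective (π.subgroupMap Q) (π.subgroupMap_surjective Q)) hcop)
  have hne : ∃ a ∈ A.map π, ∃ m ∈ W.map π, a * m ≠ m * a := by
    by_contra hcon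
    push Not at hcon
    apply hMne
    rw [eq_bot_iff]
    intro m hm
    rw [Subgroup.mem_bot]
    exact hCM m hm (fun k hk => hcon k (Subgroup.map_mono hQA hk) m hm)
  have hA1 : ∀ L : Subgroup (T ⧸ X), L ≤ A.map π → π x ∈ L → (∀ a ∈ A.map π, ∀ l ∈ L, a * l * a⁻¹ ∈ L) → L = A.map π := by
    intro L hL hxL hLn
    apply le_antisymm hL
    refine (Subgroup.map_mono hgen).trans ?_
    rw [Subgroup.map_le_iff_le_comap, closure_le]
    rintro z (rfl | hz)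
    · exact hxL
    · rw [Set.mem_singleton_iff.1 hz]
      change π (a * x * a⁻¹) ∈ L
      rw [map_mul, map_mul, map_inv]
      exact hLn _ (Subgroup.mem_map_of_mem π ha) _ hxL
  have hA2 : ∀ L : Subgroup (T ⧸ X), L ≤ A.map π → π (a * x * a⁻¹) ∈ L → (∀ a ∈ A.map π, ∀ l ∈ L, a * l * a⁻¹ ∈ L) → L = A.map π := by
    intro L hL hxL hLn
    apply hA1 L hL _ hLn
    have := hLn (π a)⁻¹ ((A.map π).inv_mem (Subgroup.mem_map_of_mem π ha)) _ hxL
    rw [← map_inv, ← map_mul, ← map_inv, ← map_mul] at this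
    rwa [show a⁻¹ * (a * x * a⁻¹) * a⁻¹⁻¹ = x by group] at this
  have hyA : a * x * a⁻¹ ∈ A := A.mul_mem (A.mul_mem ha hx) (A.inv_mem ha)
  have hc1 := card_cent_lt (W.map π) (A.map π) hMne hAM hAbs hs hMs' hMab hminΓ hp hp3
    (x := π x) (Subgroup.mem_map_of_mem π hx) (by rw [← map_pow, hxp, map_one]) hA1 hne
  have hc2 := card_cent_lt (W.map π) (A.map π) hMne hAM hAbs hs hMs' hMab hminΓ hp hp3
    (x := π (a * x * a⁻¹)) (Subgroup.mem_map_of_mem π hyA) (by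
      rw [← map_pow, conj_pow, hxp]; simp) hA2 hne
  have hcard : Nat.card {m : T ⧸ X // m ∈ W.map π ∧ π x * m = m * π x} *
      Nat.card {m : T ⧸ X // m ∈ W.map π ∧ π (a * x * a⁻¹) * m = m * π (a * x * a⁻¹)} < Nat.card (W.map π) := by
    exact mul_lt_of_sq_lt hc1 hc2
  obtain ⟨_, ⟨u, hu, rfl⟩, _, ⟨w, hw, rfl⟩, huw⟩ := exists_gen (W.map π) (A.map π) (Q.map π) hAM (Subgroup.map_mono hQA)
    hQnΓ hcopΓ hCM hminΓ hMab (π x) (π (a * x * a⁻¹)) (Subgroup.mem_map_of_mem π hx) (Subgroup.mem_map_of_mem π hyA)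
    (by
      have h1 := Subgroup.map_mono (f := π) hgen
      rwa [MonoidHom.map_closure, Set.image_pair] at h1) hcard
  refine ⟨u, hu, w, hw, ?_⟩
  set B := closure {u * x * u⁻¹, w * (a * x * a⁻¹) * w⁻¹} with hB
  have hBX : ∀ g : T, ∃ b ∈ B, ∃ z ∈ X, g = b * z := by
    intro g
    have h1 : B.map π = ⊤ := by
      rw [← huw, hB, MonoidHom.map_closure, Set.image_pair]
      simp only [map_mul, map_inv]
    have h2 : π g ∈ B.map π := by rw [h1]; trivial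
    obtain ⟨b, hb, hbg⟩ := h2
    refine ⟨b, hb, b⁻¹ * g, ?_, by group⟩
    rw [← hπX, map_mul, map_inv, hbg, inv_mul_cancel]
  have hWB : W ≤ B := fl_stepB W X A Q hXW hWA hWs hQn hcop hq hQq hXQ hWQ B hBX
  rw [eq_top_iff]
  intro g _
  obtain ⟨b, hb, z, hz, rfl⟩ := hBX g
  exact B.mul_mem hb (hWB (hXW hz))

theorem le_norm_of_conj {G : Type*} [Group G] {A W : Subgroup G} (h : ∀ a ∈ A, ∀ w ∈ W, a * w * a⁻¹ ∈ W) :
    A ≤ normalizer (W : Set G) := by
  intro a ha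
  rw [mem_normalizer_iff]
  intro w
  constructor
  · exact h a ha w
  · intro hw
    have := h a⁻¹ (A.inv_mem ha) _ hw
    rwa [show a⁻¹ * (a * w * a⁻¹) * a⁻¹⁻¹ = w by group] at this

theorem conj_mem_comm {G : Type*} [Group G] {A W Q : Subgroup G} (h : ∀ a ∈ A, ∀ w ∈ W, a * w * a⁻¹ ∈ W)
    (h' : ∀ a ∈ A, ∀ w ∈ Q, a * w * a⁻¹ ∈ Q) : ∀ a ∈ A, ∀ w ∈ ⁅W, Q⁆, a * w * a⁻¹ ∈ ⁅W, Q⁆ := by
  intro a ha
  have h1 : ⁅W, Q⁆ ≤ ⁅W, Q⁆.comap (MulAut.conj a).toMonoidHom := by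
    rw [Subgroup.commutator_le]
    intro w hw k hk
    change a * ⁅w, k⁆ * a⁻¹ ∈ ⁅W, Q⁆
    have h2 : a * ⁅w, k⁆ * a⁻¹ = ⁅a * w * a⁻¹, a * k * a⁻¹⁆ := by
      rw [commutatorElement_def, commutatorElement_def]; group
    rw [h2]
    exact Subgroup.commutator_mem_commutator (h a ha w hw) (h' a ha k hk)
  intro w hw
  exact h1 hw

theorem card_lt_of_le_ne {G : Type*} [Group G] [Finite G] {H K : Subgroup G} (h : H ≤ K) (hne : H ≠ K) :
    Nat.card H < Nat.card K := by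
  by_contra hcon
  exact hne (Subgroup.eq_of_le_of_card_ge h (not_lt.1 hcon))

theorem solv_sup {G : Type*} [Group G] {W A : Subgroup G} (hW : Group.IsSolvable W) (hA : Group.IsSolvable A)
    (h : A ≤ normalizer (W : Set G)) : Group.IsSolvable (A ⊔ W : Subgroup G) := by
  have hn : (W.subgroupOf (A ⊔ W)).Normal := Subgroup.normal_subgroupOf_of_le_normalizer (sup_le h le_normalizer)
  have e := Subgroup.subgroupOfEquivOfLe (le_sup_right : W ≤ A ⊔ W)
  have e' := Subgroup.subgroupOfEquivOfLe (le_sup_left : A ≤ A ⊔ W)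
  have h1 : Group.IsSolvable (W.subgroupOf (A ⊔ W)) :=
    Group.isSolvable_of_surjective (f := e.symm.toMonoidHom) e.symm.surjective
  have h2 : Group.IsSolvable (A.subgroupOf (A ⊔ W)) :=
    Group.isSolvable_of_surjective (f := e'.symm.toMonoidHom) e'.symm.surjective
  have h3 : A.subgroupOf (A ⊔ W) ⊔ W.subgroupOf (A ⊔ W) = ⊤ := by
    rw [← Subgroup.subgroupOf_sup le_sup_left le_sup_right, Subgroup.subgroupOf_self]
  have h4 : Group.IsSolvable (↥(A ⊔ W) ⧸ W.subgroupOf (A ⊔ W)) := by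
    refine Group.isSolvable_of_surjective (f := (QuotientGroup.mk' (W.subgroupOf (A ⊔ W))).comp
      (A.subgroupOf (A ⊔ W)).subtype) ?_
    intro y
    obtain ⟨g, rfl⟩ := QuotientGroup.mk'_surjective _ y
    have hg : g ∈ A.subgroupOf (A ⊔ W) ⊔ W.subgroupOf (A ⊔ W) := by rw [h3]; trivial
    obtain ⟨b, hb, w, hw, rfl⟩ := Subgroup.mem_sup_of_normal_right.1 hg
    refine ⟨⟨b, hb⟩, ?_⟩
    change QuotientGroup.mk' _ b = _
    rw [map_mul]
    have : QuotientGroup.mk' (W.subgroupOf (A ⊔ W)) w = 1 := (QuotientGroup.eq_one_iff w).2 hw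
    rw [this, mul_one]
  exact Group.isSolvable_of_ker_le_range (W.subgroupOf (A ⊔ W)).subtype (QuotientGroup.mk' (W.subgroupOf (A ⊔ W)))
    (by rw [QuotientGroup.ker_mk', Subgroup.range_subtype])

set_option maxHeartbeats 1000000 in
theorem fl_mc {G : Type*} [Group G] [Finite G] {p : ℕ} (hp : p.Prime) (hp3 : 3 < p) (P : Subgroup G) (hP : Nat.card P = p)
    (A : Subgroup G) (hAs : Group.IsSolvable A) {a : G} (haA : a ∈ A) (hA : A = P ⊔ P.map (MulAut.conj a).toMonoidHom)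
    (hmax : ∀ B : Subgroup G, A ≤ B → Group.IsSolvable B → (∃ b ∈ B, B = P ⊔ P.map (MulAut.conj b).toMonoidHom) → B = A)
    {q r : ℕ} (hq : q.Prime) (hr : r.Prime) (hqr : q ≠ r) (Q : Subgroup G) (hQA : Q ≤ A) (hQq : IsPGroup q Q)
    (hQn : ∀ a ∈ A, ∀ k ∈ Q, a * k * a⁻¹ ∈ Q) :
    ∀ n : ℕ, ∀ W : Subgroup G, Nat.card W = n → IsPGroup r W → (∀ a ∈ A, ∀ w ∈ W, a * w * a⁻¹ ∈ W) →
      ∀ k ∈ Q, ∀ w ∈ W, k * w = w * k := by
  classical
  intro n
  induction n using Nat.strong_induction_on with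
  | _ n ih =>
  intro W hWn hWr hWA
  by_contra hcon
  have hqf : Fact q.Prime := ⟨hq⟩
  have hrf : Fact r.Prime := ⟨hr⟩
  have hAW : A ≤ normalizer (W : Set G) := le_norm_of_conj hWA
  have hQW : Q ≤ normalizer (W : Set G) := hQA.trans hAW
  have hcop : (Nat.card Q).Coprime (Nat.card W) := IsPGroup.coprime_card_of_ne q r hqr Q W hQq hWr
  have hQs : Group.IsSolvable Q := Cfsg.Agent.Cop.isSolvable_of_le hQA hAs
  have hWnil : Group.IsNilpotent W := hWr.isNilpotent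
  have hWs : Group.IsSolvable W := inferInstance
  have hWQle : ⁅W, Q⁆ ≤ W := le_normalizer_iff_commutator_le_left.1 hQW
  have hWQ : ⁅W, Q⁆ = W := by
    by_contra hne
    have h1 := ih _ (by rw [← hWn]; exact card_lt_of_le_ne hWQle hne) ⁅W, Q⁆ rfl (hWr.to_le hWQle)
      (conj_mem_comm hWA hQn)
    have h2 : ⁅⁅W, Q⁆, Q⁆ = ⊥ := by
      rw [eq_bot_iff, Subgroup.commutator_le]
      intro w hw k hk
      rw [Subgroup.mem_bot, commutatorElement_eq_one_iff_mul_comm]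
      exact (h1 k hk w hw).symm
    rw [Cfsg.Agent.Cop.commutator_commutator_eq hQW hcop (Or.inl hQs)] at h2
    apply hcon
    intro k hk w hw
    have h3 : ⁅w, k⁆ ∈ ⁅W, Q⁆ := Subgroup.commutator_mem_commutator hw hk
    rw [h2, Subgroup.mem_bot, commutatorElement_eq_one_iff_mul_comm] at h3
    exact h3.symm
  have hWne : W ≠ ⊥ := by
    intro h
    apply hcon
    intro k _ w hw
    rw [h, Subgroup.mem_bot] at hw
    rw [hw, mul_one, one_mul]
  -- choose `X`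
  let S : Set (Subgroup G) := {X | X ≤ W ∧ X ≠ W ∧ (∀ a ∈ A, ∀ w ∈ X, a * w * a⁻¹ ∈ X) ∧ (∀ a ∈ W, ∀ w ∈ X, a * w * a⁻¹ ∈ X)}
  have hSne : S.Nonempty := ⟨⊥, bot_le, hWne.symm, by
    intro a _ w hw; rw [Subgroup.mem_bot] at hw ⊢; rw [hw]; group, by
    intro a _ w hw; rw [Subgroup.mem_bot] at hw ⊢; rw [hw]; group⟩
  obtain ⟨X, ⟨hXW, hXne, hXA, hXWn⟩, hXmax⟩ := (Set.toFinite S).exists_maximal hSne
  have hXQ : ∀ k ∈ Q, ∀ x ∈ X, k * x = x * k :=
    ih _ (by rw [← hWn]; exact card_lt_of_le_ne hXW hXne) X rfl (hWr.to_le hXW) hXA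
  -- the group `T`
  set T := A ⊔ W with hT
  have hAT : A ≤ T := le_sup_left
  have hWT : W ≤ T := le_sup_right
  have hXT : X ≤ T := hXW.trans hWT
  have hQT : Q ≤ T := hQA.trans hAT
  have hTs : Group.IsSolvable T := solv_sup hWs hAs hAW
  have hWn' : (W.subgroupOf T).Normal := Subgroup.normal_subgroupOf_of_le_normalizer (sup_le hAW le_normalizer)
  have hXn' : (X.subgroupOf T).Normal :=
    Subgroup.normal_subgroupOf_of_le_normalizer (sup_le (le_norm_of_conj hXA) (le_norm_of_conj hXWn))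
  have hPp : Fact p.Prime := ⟨hp⟩
  obtain ⟨x, hx⟩ := (isCyclic_of_prime_card hP).exists_generator
  have hPx : ∀ D : Subgroup G, (x : G) ∈ D → P ≤ D := by
    intro D hD g hg
    obtain ⟨i, hi⟩ := hx ⟨g, hg⟩
    have h1 : ((x ^ i : P) : G) = g := congrArg Subtype.val hi
    rw [← h1, Subgroup.coe_zpow]
    exact D.zpow_mem hD i
  have hPA : P ≤ A := by rw [hA]; exact le_sup_left
  have hxA : (x : G) ∈ A := hPA x.2
  have hxp : (x : G) ^ p = 1 := by
    have h1 : x ^ p = 1 := by rw [← hP]; exact pow_card_eq_one'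
    exact_mod_cast congrArg Subtype.val h1
  have hAgen : ∀ D : Subgroup G, (x : G) ∈ D → a * x * a⁻¹ ∈ D → A ≤ D := by
    intro D h1 h2
    rw [hA]
    refine sup_le (hPx D h1) ?_
    rw [Subgroup.map_le_iff_le_comap]
    exact hPx _ h2
  have hstep := fl_step (W.subgroupOf T) (X.subgroupOf T) (A.subgroupOf T) (Q.subgroupOf T)
    (fun g hg => hXW hg) (by
      intro h
      apply hXne
      rw [← Subgroup.map_subgroupOf_eq_of_le hXT, h, Subgroup.map_subgroupOf_eq_of_le hWT])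
    (by rw [← Subgroup.subgroupOf_sup hAT hWT, ← hT, Subgroup.subgroupOf_self])
    (Group.isSolvable_of_surjective (f := (Subgroup.subgroupOfEquivOfLe hAT).symm.toMonoidHom)
      (Subgroup.subgroupOfEquivOfLe hAT).symm.surjective)
    (Group.isSolvable_of_surjective (f := (Subgroup.subgroupOfEquivOfLe hWT).symm.toMonoidHom)
      (Subgroup.subgroupOfEquivOfLe hWT).symm.surjective)
    (fun g hg => hQA hg) (fun a ha k hk => hQn a ha k hk)
    (by
      rw [Nat.card_congr (Subgroup.subgroupOfEquivOfLe hWT).toEquiv, Nat.card_congr (Subgroup.subgroupOfEquivOfLe hQT).toEquiv]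
      exact hcop.symm) hq (hQq.of_equiv (Subgroup.subgroupOfEquivOfLe hQT).symm)
    (by
      intro L hLn hXL hLW
      by_cases hLW' : L = W.subgroupOf T
      · exact Or.inr hLW'
      left
      have h1 : L.map T.subtype ∈ S := by
        refine ⟨?_, ?_, ?_, ?_⟩
        · rintro _ ⟨g, hg, rfl⟩
          exact hLW hg
        · intro h
          apply hLW'
          apply Subgroup.map_injective T.subtype_injective
          rw [h, Subgroup.map_subgroupOf_eq_of_le hWT]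
        · rintro b hb _ ⟨g, hg, rfl⟩
          exact ⟨⟨b, hAT hb⟩ * g * ⟨b, hAT hb⟩⁻¹, hLn.conj_mem g hg _, rfl⟩
        · rintro b hb _ ⟨g, hg, rfl⟩
          exact ⟨⟨b, hWT hb⟩ * g * ⟨b, hWT hb⟩⁻¹, hLn.conj_mem g hg _, rfl⟩
      have h2 : X ≤ L.map T.subtype := by
        intro g hg
        exact ⟨⟨g, hXT hg⟩, hXL hg, rfl⟩
      apply le_antisymm _ hXL
      intro g hg
      exact hXmax h1 h2 ⟨g, hg, rfl⟩)
    (fun k hk z hz => Subtype.ext (hXQ k hk z hz))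
    (by
      intro g hg
      have h1 : (g : G) ∈ ⁅(W.subgroupOf T).map T.subtype, (Q.subgroupOf T).map T.subtype⁆ := by
        rw [Subgroup.map_subgroupOf_eq_of_le hWT, Subgroup.map_subgroupOf_eq_of_le hQT, hWQ]
        exact hg
      rw [← Subgroup.map_commutator] at h1
      obtain ⟨g', hg', hgg⟩ := h1
      have h2 : g' = g := Subtype.ext hgg
      rw [← h2]; exact hg') hp hp3
    (x := ⟨x, hAT hxA⟩) (a := ⟨a, hAT haA⟩) hxA (Subtype.ext hxp) haA
    (by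
      intro g hg
      have h1 := hAgen ((closure {(⟨x, hAT hxA⟩ : T), ⟨a, hAT haA⟩ * ⟨x, hAT hxA⟩ * ⟨a, hAT haA⟩⁻¹}).map T.subtype)
        ⟨_, subset_closure (Or.inl rfl), rfl⟩ ⟨_, subset_closure (Or.inr rfl), rfl⟩ hg
      obtain ⟨g', hg', hgg⟩ := h1
      have h2 : g' = g := Subtype.ext hgg
      rw [← h2]; exact hg')
  obtain ⟨u, hu, w, hw, huw⟩ := hstep
  have hTA : T = A := by
    apply hmax T hAT hTs
    have hbT : (u : G)⁻¹ * w * a ∈ T := T.mul_mem (T.mul_mem (T.inv_mem u.2) w.2) (hAT haA)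
    refine ⟨(u : G)⁻¹ * w * a, hbT, ?_⟩
    apply le_antisymm
    · set D := P ⊔ P.map (MulAut.conj ((u : G)⁻¹ * w * a)).toMonoidHom with hD
      have hxD : (x : G) ∈ D := mem_sup_left x.2
      have hyD : ((u : G)⁻¹ * w * a) * x * ((u : G)⁻¹ * w * a)⁻¹ ∈ D := mem_sup_right ⟨x, x.2, rfl⟩
      have h1 : (⊤ : Subgroup T) ≤ D.comap ((MulAut.conj (u : G)⁻¹).toMonoidHom.comp T.subtype) := by
        rw [← huw, closure_le]
        rintro z (rfl | hz)
        · change (u : G)⁻¹ * ((u : G) * x * (u : G)⁻¹) * (u : G)⁻¹⁻¹ ∈ D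
          rwa [show (u : G)⁻¹ * ((u : G) * x * (u : G)⁻¹) * (u : G)⁻¹⁻¹ = x by group]
        · rw [Set.mem_singleton_iff.1 hz]
          change (u : G)⁻¹ * ((w : G) * (a * x * a⁻¹) * (w : G)⁻¹) * (u : G)⁻¹⁻¹ ∈ D
          rwa [show (u : G)⁻¹ * ((w : G) * (a * x * a⁻¹) * (w : G)⁻¹) * (u : G)⁻¹⁻¹ =
            ((u : G)⁻¹ * w * a) * x * ((u : G)⁻¹ * w * a)⁻¹ by group]
      intro t ht
      have h2 := h1 (Subgroup.mem_top (u * ⟨t, ht⟩ * u⁻¹))
      change (u : G)⁻¹ * ((u : G) * t * (u : G)⁻¹) * (u : G)⁻¹⁻¹ ∈ D at h2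
      rwa [show (u : G)⁻¹ * ((u : G) * t * (u : G)⁻¹) * (u : G)⁻¹⁻¹ = t by group] at h2
    · refine sup_le (hPA.trans hAT) ?_
      rintro _ ⟨g, hg, rfl⟩
      exact T.mul_mem (T.mul_mem hbT (hAT (hPA hg))) (T.inv_mem hbT)
  have hWA' : W ≤ A := by rw [← hTA]; exact hWT
  apply hcon
  intro k hk w hw
  have h1 : k * w * k⁻¹ * w⁻¹ ∈ Q := by
    have := Q.mul_mem hk (hQn w (hWA' hw) _ (Q.inv_mem hk))
    rwa [show k * (w * k⁻¹ * w⁻¹) = k * w * k⁻¹ * w⁻¹ by group] at this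
  have h2 : k * w * k⁻¹ * w⁻¹ ∈ W := W.mul_mem (hWA k (hQA hk) w hw) (W.inv_mem hw)
  have h3 := Cfsg.Agent.Cop.eq_one_of_mem_of_mem hcop h1 h2
  rwa [mul_inv_eq_one, mul_inv_eq_iff_eq_mul] at h3

end Cfsg.Agent.H53.Fl
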