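import Cfsg.Agent.MaxClass.UniqueOrderP
import Cfsg.Agent.H53.Basic

/-! Non-abelian 2-groups with a unique involution. -/

set_option autoImplicit false

namespace Cfsg.Agent.H53

/-- A finite non-abelian 2-group with a unique involution is generalized quaternion. -/
theorem exists_quaternion_equiv {H : Type*} [Group H] [Finite H] (hH : IsPGroup 2 H)
    (hna : ¬ IsMulCommutative H) (hu : ∃! x : H, orderOf x = 2) :
    ∃ m : ℕ, 1 ≤ m ∧ Nonempty (H ≃* QuaternionGroup (2 ^ m)) := by
  have : Fact (Nat.Prime 2) := ⟨Nat.prime_two⟩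
  obtain ⟨t, ht, htu⟩ := hu
  have huniq : ∀ A B : Subgroup H, Nat.card A = 2 → Nat.card B = 2 → A = B := by
    have key : ∀ A : Subgroup H, Nat.card A = 2 → A = Subgroup.zpowers t := by
      intro A hA
      obtain ⟨x, hx⟩ := exists_prime_orderOf_dvd_card' (G := A) 2 (by rw [hA])
      have h1 : (x : H) = t := htu x (show orderOf (x : H) = 2 by rw [Subgroup.orderOf_coe]; exact hx)
      have h2 : Subgroup.zpowers t ≤ A := by rw [Subgroup.zpowers_le, ← h1]; exact x.2
      refine (Subgroup.eq_of_le_of_card_ge h2 ?_).symm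
      rw [hA, Nat.card_zpowers, ht]
    intro A B hA hB
    rw [key A hA, key B hB]
  rcases MaxClass.cyclic_or_quaternion hH huniq with h | ⟨-, n, ⟨e⟩⟩
  · exfalso
    apply hna
    exact IsCyclic.isMulCommutative
  · refine ⟨n, ?_, ⟨e⟩⟩
    by_contra hn
    have hn0 : n = 0 := by omega
    subst hn0
    apply hna
    have hc : IsCyclic (QuaternionGroup (2 ^ 0)) := QuaternionGroup.quaternionGroup_one_isCyclic
    have hc' : IsCyclic H := (MulEquiv.isCyclic e).mpr hc
    exact IsCyclic.isMulCommutative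

open QuaternionGroup in
theorem quaternion_center_sq {m : ℕ} (hm : 1 ≤ m) (w : QuaternionGroup (2 ^ m))
    (hw : ∀ g, g * w = w * g) : w ^ 2 = 1 := by
  rcases w with i | i
  · have h := hw (xa 0)
    rw [a_mul_xa, xa_mul_a] at h
    have h1 : (0 : ZMod (2 * 2 ^ m)) + i = 0 - i := by injection h
    rw [pow_two, a_mul_a, ← a_zero]
    congr 1
    linear_combination h1
  · exfalso
    have h := hw (a 1)
    rw [a_mul_xa, xa_mul_a] at h
    have h1 : i - 1 = i + (1 : ZMod (2 * 2 ^ m)) := by injection h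
    have h2 : ((2 : ℕ) : ZMod (2 * 2 ^ m)) = 0 := by
      push_cast
      linear_combination -h1
    rw [ZMod.natCast_eq_zero_iff] at h2
    have := Nat.le_of_dvd (by norm_num) h2
    have h3 : 2 ^ 1 ≤ 2 ^ m := Nat.pow_le_pow_right (by norm_num) hm
    omega

/-- Central elements of such a group have order at most 2. -/
theorem center_sq_of_unique_involution {H : Type*} [Group H] [Finite H] (hH : IsPGroup 2 H)
    (hna : ¬ IsMulCommutative H) (hu : ∃! x : H, orderOf x = 2) {w : H} (hw : ∀ g, g * w = w * g) :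
    w ^ 2 = 1 := by
  obtain ⟨m, hm, ⟨e⟩⟩ := exists_quaternion_equiv hH hna hu
  apply e.injective
  rw [map_pow, map_one]
  apply quaternion_center_sq hm
  intro g
  obtain ⟨h, rfl⟩ := e.surjective g
  rw [← map_mul, hw, map_mul]

/-- Generators `x, y` with the quaternion relations. -/
theorem exists_gens {H : Type*} [Group H] [Finite H] (hH : IsPGroup 2 H)
    (hna : ¬ IsMulCommutative H) (hu : ∃! x : H, orderOf x = 2) :
    ∃ (m : ℕ) (x y : H), 1 ≤ m ∧ (∀ k : ℤ, x ^ k = 1 ↔ (2 : ℤ) ^ (m + 1) ∣ k) ∧ y ^ 2 = x ^ (2 ^ m) ∧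
      y * x * y⁻¹ = x⁻¹ ∧ (∀ g : H, ∃ k : ℤ, g = x ^ k ∨ g = y * x ^ k) ∧ (∀ k : ℤ, y * x ^ k ≠ 1) := by
  obtain ⟨m, hm, ⟨e⟩⟩ := exists_quaternion_equiv hH hna hu
  have hx : ∀ k : ℤ, (QuaternionGroup.a 1 : QuaternionGroup (2 ^ m)) ^ k = QuaternionGroup.a (k : ZMod (2 * 2 ^ m)) := by
    have hnat : ∀ k : ℕ, (QuaternionGroup.a 1 : QuaternionGroup (2 ^ m)) ^ k = QuaternionGroup.a (k : ZMod (2 * 2 ^ m)) :=
      fun k => QuaternionGroup.a_one_pow k
    intro k
    cases k with
    | ofNat k => simp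
    | negSucc k =>
      rw [zpow_negSucc, hnat, inv_eq_iff_mul_eq_one, QuaternionGroup.a_mul_a, ← QuaternionGroup.a_zero]
      congr 1
      push_cast
      ring
  refine ⟨m, e.symm (QuaternionGroup.a 1), e.symm (QuaternionGroup.xa 0), hm, ?_, ?_, ?_, ?_, ?_⟩
  · intro k
    rw [← map_zpow, hx, map_eq_one_iff _ e.symm.injective, ← QuaternionGroup.a_zero]
    constructor
    · intro h
      have h1 : (k : ZMod (2 * 2 ^ m)) = 0 := by injection h
      have h2 := (ZMod.intCast_zmod_eq_zero_iff_dvd k (2 * 2 ^ m)).mp h1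
      push_cast at h2
      rwa [pow_succ, mul_comm]
    · intro h
      congr 1
      rw [ZMod.intCast_zmod_eq_zero_iff_dvd]
      push_cast
      rwa [pow_succ, mul_comm] at h
  · rw [← map_pow, ← map_pow, QuaternionGroup.xa_sq, QuaternionGroup.a_one_pow]
  · rw [← map_mul, ← map_inv, ← map_mul, ← map_inv]
    congr 1
    rw [mul_inv_eq_iff_eq_mul, QuaternionGroup.xa_mul_a, eq_inv_mul_iff_mul_eq, QuaternionGroup.a_mul_xa]
    congr 1
    ring
  · intro g
    rcases hg : e g with i | i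
    · refine ⟨(i.val : ℤ), Or.inl ?_⟩
      apply e.injective
      rw [hg, ← map_zpow, MulEquiv.apply_symm_apply, hx]
      simp
    · refine ⟨(i.val : ℤ), Or.inr ?_⟩
      apply e.injective
      rw [hg, ← map_zpow, map_mul, MulEquiv.apply_symm_apply, MulEquiv.apply_symm_apply, hx,
        QuaternionGroup.xa_mul_a]
      simp
  · intro k h
    have h1 := congrArg e h
    rw [← map_zpow, map_mul, MulEquiv.apply_symm_apply, MulEquiv.apply_symm_apply, hx,
      QuaternionGroup.xa_mul_a, map_one, ← QuaternionGroup.a_zero] at h1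
    cases h1

end Cfsg.Agent.H53
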