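import Mathlib
import Cfsg.Agent.H53.SEAGL

set_option autoImplicit false
set_option linter.dupNamespace false
set_option linter.unusedSectionVars false

/-!
# Sylow 2-subgroups of special linear groups over fields of order 3 mod 4 (helper53)
-/

namespace Cfsg.Agent.H53.SEA

open Matrix
open scoped commutatorElement

theorem ea_iff {G : Type*} [Group G] (E : Subgroup G) : EA E ↔ ∀ x ∈ E, x ^ 2 ∈ ⁅E, E⁆ := by
  rw [← Subgroup.map_subtype_commutator]
  constructor
  · intro h x hx
    exact ⟨⟨x, hx⟩ ^ 2, h ⟨x, hx⟩, rfl⟩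
  · rintro h x
    obtain ⟨y, hy, hy'⟩ := h x x.2
    have : y = x ^ 2 := Subtype.ext hy'
    rw [← this]
    exact hy

theorem ea_of_closure' {G : Type*} [Group G] (E : Subgroup G) (X : Set G) (hX : Subgroup.closure X = E)
    (h : ∀ x ∈ X, x ^ 2 ∈ ⁅E, E⁆) : EA E := by
  subst hX
  refine EA.of_closure _ Subgroup.closure_closure_coe_preimage ?_
  intro x hx
  obtain ⟨y, hy, hy'⟩ := (Subgroup.map_subtype_commutator (Subgroup.closure X) ▸ h x hx :
    (x : G) ^ 2 ∈ (commutator (Subgroup.closure X)).map (Subgroup.closure X).subtype)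
  have : y = x ^ 2 := Subtype.ext hy'
  rw [← this]
  exact hy

theorem card_half {H A : Type*} [Group H] [Finite H] [Group A] (χ : H →* A) (c : A) (hc : c ≠ 1)
    (h : ∀ x, χ x = 1 ∨ χ x = c) (hx : ∃ x, χ x = c) : Nat.card χ.ker * 2 = Nat.card H := by
  obtain ⟨a, ha⟩ := hx
  have hcc : c * c = 1 := by
    rcases h (a * a) with h1 | h1
    · rwa [map_mul, ha] at h1
    · rw [map_mul, ha] at h1
      exact absurd (mul_eq_left.1 h1) hc
  have h1 : χ.ker.index = 2 := by
    rw [Subgroup.index_eq_two_iff]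
    refine ⟨a, fun b => ?_⟩
    rw [MonoidHom.mem_ker, MonoidHom.mem_ker, map_mul, ha]
    rcases h b with hb | hb
    · refine Or.inr ⟨hb, ?_⟩
      rw [hb, one_mul]; exact hc
    · refine Or.inl ⟨by rw [hb, hcc], ?_⟩
      rw [hb]; exact hc
  have := χ.ker.card_mul_index
  rwa [h1] at this

theorem toGL_range_eq {ι : Type*} [Fintype ι] [DecidableEq ι] (F : Type*) [Field F] :
    (Matrix.SpecialLinearGroup.toGL : SpecialLinearGroup ι F →* GL ι F).range =
      (GeneralLinearGroup.det : GL ι F →* Fˣ).ker := by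
  ext g
  rw [MonoidHom.mem_ker]
  constructor
  · rintro ⟨x, rfl⟩
    apply Units.ext
    rw [GeneralLinearGroup.val_det_apply]
    exact x.2
  · intro h
    refine ⟨⟨g, ?_⟩, ?_⟩
    · have := congrArg Units.val h
      rwa [GeneralLinearGroup.val_det_apply] at this
    · apply Units.ext
      rfl

theorem toGL_range_normal {ι : Type*} [Fintype ι] [DecidableEq ι] (F : Type*) [Field F] :
    (Matrix.SpecialLinearGroup.toGL : SpecialLinearGroup ι F →* GL ι F).range.Normal := by
  rw [toGL_range_eq]; infer_instance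

section GL2

variable {F : Type*} [Field F] [Fintype F] (hF : Odd (Fintype.card F))

include hF in
/-- the part of determinant one of a Sylow subgroup of `GL₂` -/
theorem ea_comap_SL2 (M : Sylow 2 (GL (Fin 2) F)) :
    EA ((M : Subgroup (GL (Fin 2) F)).comap (Matrix.SpecialLinearGroup.toGL : SpecialLinearGroup (Fin 2) F →* GL (Fin 2) F)) := by
  have h1 := card_comap_normal (Matrix.SpecialLinearGroup.toGL : SpecialLinearGroup (Fin 2) F →* GL (Fin 2) F)
    Matrix.SpecialLinearGroup.toGL_injective (toGL_range_normal F) (M : Subgroup (GL (Fin 2) F)) (card_sylow M)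
  exact sea_SL2 hF (Sylow.ofCard _ h1)

include hF in
theorem sq_mem_of_det_one (M : Sylow 2 (GL (Fin 2) F)) (x : GL (Fin 2) F) (hx : x ∈ (M : Subgroup (GL (Fin 2) F)))
    (hd : (x : Matrix (Fin 2) (Fin 2) F).det = 1) :
    x ^ 2 ∈ ⁅(M : Subgroup (GL (Fin 2) F)) ⊓ (GeneralLinearGroup.det : GL (Fin 2) F →* Fˣ).ker,
      (M : Subgroup (GL (Fin 2) F)) ⊓ (GeneralLinearGroup.det : GL (Fin 2) F →* Fˣ).ker⁆ := by
  set f := (Matrix.SpecialLinearGroup.toGL : SpecialLinearGroup (Fin 2) F →* GL (Fin 2) F) with hf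
  have h1 := (ea_iff _).1 (ea_comap_SL2 hF M)
  have h2 : (M : Subgroup (GL (Fin 2) F)) ⊓ (GeneralLinearGroup.det : GL (Fin 2) F →* Fˣ).ker =
      ((M : Subgroup (GL (Fin 2) F)).comap f).map f := by
    rw [Subgroup.map_comap_eq, toGL_range_eq, inf_comm]
  rw [h2, ← Subgroup.map_commutator]
  obtain ⟨y, hy⟩ : ∃ y, f y = x := ⟨⟨x, hd⟩, Units.ext rfl⟩
  refine ⟨y ^ 2, h1 y ?_, ?_⟩
  · rw [Subgroup.mem_comap, hy]; exact hx
  · rw [map_pow, hy]

theorem units_neg_one_ne_one (h2 : (2 : F) ≠ 0) : (-1 : Fˣ) ≠ 1 := by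
  intro h
  have h1 := congrArg Units.val h
  rw [Units.val_neg, Units.val_one] at h1
  apply h2
  linear_combination -h1

theorem det_rfl2' : GeneralLinearGroup.det (rfl2 F) = -1 := by
  apply Units.ext
  rw [GeneralLinearGroup.val_det_apply, rfl2_det, Units.val_neg, Units.val_one]

variable (hq : 4 ∣ Fintype.card F + 1)

include hq in
theorem det_sylow' (M : Subgroup (GL (Fin 2) F)) (hM : IsPGroup 2 M) (x : GL (Fin 2) F)
    (hx : x ∈ M) : GeneralLinearGroup.det x = 1 ∨ GeneralLinearGroup.det x = -1 := by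
  rcases det_sylow hq M hM x hx with h | h
  · left
    apply Units.ext
    rw [GeneralLinearGroup.val_det_apply, h, Units.val_one]
  · right
    apply Units.ext
    rw [GeneralLinearGroup.val_det_apply, h, Units.val_neg, Units.val_one]

include hF hq in
theorem sea_GL2 : SEA (GL (Fin 2) F) := by
  obtain ⟨M, hM⟩ := exists_sylow_rfl2 (F := F)
  refine SEA.of_sylow M (ea_of_closure' _ ({x | x ∈ (M : Subgroup (GL (Fin 2) F)) ∧ GeneralLinearGroup.det x = 1} ∪ {rfl2 F}) ?_ ?_)
  · apply le_antisymm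
    · rw [Subgroup.closure_le]
      rintro x (hx | hx)
      · exact hx.1
      · rw [Set.mem_singleton_iff.1 hx]; exact hM
    · intro x hx
      rcases det_sylow' hq M M.isPGroup' x hx with h | h
      · exact Subgroup.subset_closure (Or.inl ⟨hx, h⟩)
      · have h1 : x = (x * rfl2 F) * rfl2 F := by
          rw [mul_assoc, ← sq, rfl2_sq, mul_one]
        rw [h1]
        refine mul_mem (Subgroup.subset_closure (Or.inl ⟨mul_mem hx hM, ?_⟩)) (Subgroup.subset_closure (Or.inr rfl))
        rw [map_mul, h, det_rfl2', neg_mul_neg, one_mul]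
  · rintro x (⟨hx, hd⟩ | hx)
    · have hd' : (x : Matrix (Fin 2) (Fin 2) F).det = 1 := by
        rw [← GeneralLinearGroup.val_det_apply, hd, Units.val_one]
      exact Subgroup.commutator_mono inf_le_left inf_le_left (sq_mem_of_det_one hF M x hx hd')
    · rw [Set.mem_singleton_iff.1 hx, rfl2_sq]; exact one_mem _

include hF hq in
theorem sea_GL_blocks (m : ℕ) : SEA (GL (Fin 2 × Fin m) F) :=
  SEA.of_wreath m (bd m) (bd_injective m) (bpm m) (bpm_injective m) (bpm_conj m) (bpm_eq m) (sea_GL2 hF hq)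
    (fac_card_GL_blocks m hF)

/-- the embedding `GL_n → SL_{n+1}` -/
def glToSL (ι : Type*) [Fintype ι] [DecidableEq ι] (F : Type*) [Field F] : GL ι F →* SpecialLinearGroup (ι ⊕ Unit) F where
  toFun g := ⟨fromBlocks (g : Matrix ι ι F) 0 0 (diagonal fun _ => ((GeneralLinearGroup.det g)⁻¹ : Fˣ)), by
    rw [det_fromBlocks_zero₁₂, det_diagonal]
    simp only [Finset.univ_unique, Finset.prod_singleton]
    rw [← GeneralLinearGroup.val_det_apply, ← Units.val_mul, mul_inv_cancel, Units.val_one]⟩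
  map_one' := by
    apply Subtype.ext
    change fromBlocks _ _ _ _ = 1
    rw [map_one, inv_one, Units.val_one, Units.val_one, diagonal_one, fromBlocks_one]
  map_mul' g h := by
    apply Subtype.ext
    change fromBlocks _ _ _ _ = fromBlocks _ _ _ _ * fromBlocks _ _ _ _
    rw [fromBlocks_multiply, map_mul]
    simp only [Matrix.mul_zero, Matrix.zero_mul, add_zero, zero_add, diagonal_mul_diagonal, ← Units.val_mul, mul_inv]

theorem glToSL_injective {ι : Type*} [Fintype ι] [DecidableEq ι] : Function.Injective (glToSL ι F) := by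
  intro g h hgh
  have h1 := congrArg Subtype.val hgh
  change fromBlocks _ _ _ _ = fromBlocks _ _ _ _ at h1
  rw [fromBlocks_inj] at h1
  exact Units.ext h1.1

/-- congruence of SL -/
def slCongr {ι κ : Type*} [Fintype ι] [DecidableEq ι] [Fintype κ] [DecidableEq κ] (e : ι ≃ κ)
    (F : Type*) [Field F] : SpecialLinearGroup ι F ≃* SpecialLinearGroup κ F where
  toFun g := ⟨Matrix.reindex e e g.1, by rw [Matrix.det_reindex_self]; exact g.2⟩
  invFun g := ⟨Matrix.reindex e.symm e.symm g.1, by rw [Matrix.det_reindex_self]; exact g.2⟩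
  left_inv g := by
    apply Subtype.ext; ext i j; simp
  right_inv g := by
    apply Subtype.ext; ext i j; simp
  map_mul' g h := by
    apply Subtype.ext
    change Matrix.reindex e e (g.1 * h.1) = Matrix.reindex e e g.1 * Matrix.reindex e e h.1
    simp [Matrix.submatrix_mul_equiv]

include hF hq in
/-- S4628 -/
theorem sea_SL_odd (m : ℕ) : SEA (SpecialLinearGroup (Fin (2 * m + 1)) F) := by
  have hq1 : 1 < Fintype.card F := Fintype.one_lt_card
  have e : (Fin 2 × Fin m) ⊕ Unit ≃ Fin (2 * m + 1) := Fintype.equivFinOfCardEq (by simp)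
  refine (SEA.of_injective (glToSL (Fin 2 × Fin m) F) glToSL_injective ?_ (sea_GL_blocks hF hq m)).congr (slCongr e F)
  rw [Nat.card_congr (slCongr e F).toEquiv, card_GL_congr (finProdFinEquiv (m := 2) (n := m))]
  have h1 := fac_card_SL hF (2 * m + 1) (by omega)
  have h2 := fac_card_GL_succ hF (2 * m)
  rw [fac_pow_odd hF hq1] at h2
  omega

end GL2

end Cfsg.Agent.H53.SEA
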