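import Mathlib
import Cfsg.Agent.H53.SEASL

set_option autoImplicit false
set_option linter.dupNamespace false
set_option linter.unusedSectionVars false

/-!
# Sylow 2-subgroups of special linear groups of degree a power of 2, order 1 mod 4 (helper53)
-/

namespace Cfsg.Agent.H53.SEA

open Matrix
open scoped commutatorElement

/-- elements of `E ⊔ T` -/
theorem mem_sup_EK {G : Type*} [Group G] (E T : Subgroup G) (hn : ∀ t ∈ T, ∀ e ∈ E, t * e * t⁻¹ ∈ E) (x : G) :
    x ∈ E ⊔ T ↔ ∃ a ∈ E, ∃ b ∈ T, a * b = x := by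
  constructor
  · intro hx
    have hx' : x ∈ Subgroup.closure ((E : Set G) ∪ T) := by rw [← Subgroup.sup_eq_closure]; exact hx
    induction hx' using Subgroup.closure_induction_left with
    | one => exact ⟨1, one_mem _, 1, one_mem _, one_mul 1⟩
    | mul_left y hy z hz ih =>
      obtain ⟨a, ha, b, hb, rfl⟩ := ih (by rw [Subgroup.sup_eq_closure]; exact hz)
      rcases hy with hy | hy
      · exact ⟨y * a, mul_mem hy ha, b, hb, mul_assoc _ _ _⟩
      · exact ⟨y * a * y⁻¹, hn y hy a ha, y * b, mul_mem hy hb, by group⟩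
    | inv_mul_cancel y hy z hz ih =>
      obtain ⟨a, ha, b, hb, rfl⟩ := ih (by rw [Subgroup.sup_eq_closure]; exact hz)
      rcases hy with hy | hy
      · exact ⟨y⁻¹ * a, mul_mem (inv_mem hy) ha, b, hb, mul_assoc _ _ _⟩
      · have h1 := hn y⁻¹ (inv_mem hy) a ha
        rw [inv_inv] at h1
        exact ⟨y⁻¹ * a * y, h1, y⁻¹ * b, mul_mem (inv_mem hy) hb, by group⟩
  · rintro ⟨a, ha, b, hb, rfl⟩
    exact mul_mem (Subgroup.mem_sup_left ha) (Subgroup.mem_sup_right hb)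

theorem card_sup_EK {G : Type*} [Group G] (E T : Subgroup G) (hn : ∀ t ∈ T, ∀ e ∈ E, t * e * t⁻¹ ∈ E)
    (hint : ∀ t ∈ T, t ∈ E → t = 1) : Nat.card (E ⊔ T : Subgroup G) = Nat.card E * Nat.card T := by
  rw [← Nat.card_prod]
  refine (Nat.card_congr (Equiv.ofBijective (fun p : E × T => (⟨(p.1 : G) * p.2,
    mul_mem (Subgroup.mem_sup_left p.1.2) (Subgroup.mem_sup_right p.2.2)⟩ : (E ⊔ T : Subgroup G))) ⟨?_, ?_⟩)).symm
  · rintro ⟨⟨a, ha⟩, ⟨t, ht⟩⟩ ⟨⟨a', ha'⟩, ⟨t', ht'⟩⟩ h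
    have h1 : a * t = a' * t' := congrArg Subtype.val h
    have h2 : t' * t⁻¹ = a'⁻¹ * a := by
      rw [mul_inv_eq_iff_eq_mul, mul_assoc, h1]; group
    have h3 : t' * t⁻¹ = 1 := hint _ (mul_mem ht' (inv_mem ht)) (by rw [h2]; exact mul_mem (inv_mem ha') ha)
    have h4 : t' = t := mul_inv_eq_one.1 h3
    subst h4
    have h5 : a = a' := mul_right_cancel h1
    subst h5
    rfl
  · rintro ⟨x, hx⟩
    obtain ⟨a, ha, t, ht, rfl⟩ := (mem_sup_EK E T hn x).1 hx
    exact ⟨(⟨a, ha⟩, ⟨t, ht⟩), rfl⟩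

section

variable {V : Type*} [Fintype V] [DecidableEq V] {F : Type*} [Field F]

/-- diagonal matrices in `GL` -/
def dg : (V → Fˣ) →* GL V F :=
  (Units.map (Matrix.diagonalRingHom V F).toMonoidHom).comp (MulEquiv.piUnits (M := fun _ : V => F)).symm.toMonoidHom

theorem dg_val (d : V → Fˣ) : ((dg d : GL V F) : Matrix V V F) = diagonal (fun i => (d i : F)) := rfl

theorem dg_injective : Function.Injective (dg : (V → Fˣ) →* GL V F) := by
  intro v w h
  have h1 := congrArg Units.val h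
  rw [dg_val, dg_val, diagonal_injective.eq_iff] at h1
  funext i
  exact Units.ext (congrFun h1 i)

theorem det_dg (d : V → Fˣ) : GeneralLinearGroup.det (dg d : GL V F) = ∏ i, d i := by
  apply Units.ext
  rw [GeneralLinearGroup.val_det_apply, dg_val, det_diagonal, Units.coe_prod]

theorem det_pmU_one {s : Equiv.Perm V} (h : Equiv.Perm.sign s = 1) : GeneralLinearGroup.det (pmU F s : GL V F) = 1 := by
  apply Units.ext
  rw [GeneralLinearGroup.val_det_apply, pmU_val, det_pm, h]; simp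

theorem det_pmU_neg {s : Equiv.Perm V} (h : Equiv.Perm.sign s = -1) : GeneralLinearGroup.det (pmU F s : GL V F) = -1 := by
  apply Units.ext
  rw [GeneralLinearGroup.val_det_apply, pmU_val, det_pm, h]; simp

theorem pmU_dg (s : Equiv.Perm V) (d : V → Fˣ) :
    (pmU F s : GL V F) * dg d * (pmU F s)⁻¹ = dg (fun i => d (s⁻¹ i)) := by
  rw [mul_inv_eq_iff_eq_mul]
  apply Units.ext
  change pm F s * diagonal _ = diagonal _ * pm F s
  ext i j
  rw [pm_mul_apply, mul_pm_apply, diagonal_apply, diagonal_apply]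
  by_cases h : i = s j
  · rw [if_pos h, if_pos (by rw [h]; simp)]
    rfl
  · rw [if_neg h, if_neg (by rintro h'; exact h (by rw [← h']; simp))]

theorem pmU_eq_dg (s : Equiv.Perm V) (d : V → Fˣ) (h : (pmU F s : GL V F) = dg d) : s = 1 := by
  have h1 : pm F s = diagonal (fun i => (d i : F)) := congrArg Units.val h
  ext j
  rw [Equiv.Perm.one_apply]
  by_contra hne
  have h6 := congrFun (congrFun h1 (s j)) j
  rw [pm_apply, if_pos rfl, diagonal_apply_ne _ hne] at h6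
  exact one_ne_zero h6

/-- the diagonal subgroup -/
def dgS (μ : Subgroup Fˣ) : Subgroup (GL V F) := (Subgroup.pi Set.univ (fun _ : V => μ)).map dg

theorem mem_dgS {μ : Subgroup Fˣ} {d : V → Fˣ} (h : ∀ i, d i ∈ μ) : (dg d : GL V F) ∈ dgS μ := ⟨d, fun i _ => h i, rfl⟩

/-- the monomial group -/
def mono (μ : Subgroup Fˣ) (T : Subgroup (Equiv.Perm V)) : Subgroup (GL V F) := dgS μ ⊔ T.map (pmU F)

theorem mono_norm (μ : Subgroup Fˣ) (T : Subgroup (Equiv.Perm V)) :
    ∀ t ∈ T.map (pmU F), ∀ e ∈ (dgS μ : Subgroup (GL V F)), t * e * t⁻¹ ∈ (dgS μ : Subgroup (GL V F)) := by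
  rintro _ ⟨s, hs, rfl⟩ _ ⟨d, hd, rfl⟩
  rw [pmU_dg]
  exact mem_dgS fun i => hd _ trivial

theorem mem_mono {μ : Subgroup Fˣ} {T : Subgroup (Equiv.Perm V)} {x : GL V F} :
    x ∈ mono μ T ↔ ∃ d : V → Fˣ, (∀ i, d i ∈ μ) ∧ ∃ s ∈ T, dg d * pmU F s = x := by
  rw [mono, mem_sup_EK _ _ (mono_norm μ T)]
  constructor
  · rintro ⟨_, ⟨d, hd, rfl⟩, _, ⟨s, hs, rfl⟩, rfl⟩
    exact ⟨d, fun i => hd i trivial, s, hs, rfl⟩
  · rintro ⟨d, hd, s, hs, rfl⟩
    exact ⟨_, mem_dgS hd, _, ⟨s, hs, rfl⟩, rfl⟩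

theorem card_mono (μ : Subgroup Fˣ) (T : Subgroup (Equiv.Perm V)) :
    Nat.card (mono μ T : Subgroup (GL V F)) = Nat.card μ ^ Fintype.card V * Nat.card T := by
  rw [mono, card_sup_EK _ _ (mono_norm μ T), dgS, card_piMap dg dg_injective μ]
  · congr 1
    exact (Nat.card_congr (T.equivMapOfInjective (pmU F) pmU_injective).toEquiv).symm
  · rintro _ ⟨s, hs, rfl⟩ ⟨d, hd, h⟩
    rw [pmU_eq_dg s d h.symm, map_one]

end

section arith1

variable {F : Type*} [Field F] [Fintype F] (hF : Odd (Fintype.card F)) (hq : 4 ∣ Fintype.card F - 1)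

include hF hq in
theorem fac_pow_one_mod (n : ℕ) (hn : 1 ≤ n) :
    (Fintype.card F ^ n - 1).factorization 2 = (Fintype.card F - 1).factorization 2 + n.factorization 2 := by
  have hq1 : 1 < Fintype.card F := Fintype.one_lt_card
  rcases Nat.even_or_odd' n with ⟨k, rfl | rfl⟩
  · have hk : 1 ≤ k := by omega
    rw [fac_pow_sub_one hF hq1 k hk, Nat.factorization_mul (by omega) (Nat.mul_ne_zero (by omega) (by omega)),
      Nat.factorization_mul (by omega) (by omega), Nat.factorization_mul (by omega) (by omega)]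
    simp only [Finsupp.add_apply]
    have h1 : (Fintype.card F).factorization 2 = 0 := Nat.factorization_eq_zero_of_not_dvd (by
      rw [Nat.odd_iff] at hF; omega)
    have h2 : (Fintype.card F + 1).factorization 2 = 1 := by
      obtain ⟨k, hk⟩ : ∃ k, Fintype.card F + 1 = 2 * (2 * k + 1) := by
        obtain ⟨c, hc⟩ := hq
        exact ⟨c, by omega⟩
      rw [hk, Nat.factorization_mul (by omega) (by omega)]
      simp only [Finsupp.add_apply]
      rw [Nat.factorization_eq_zero_of_not_dvd (by omega : ¬ 2 ∣ 2 * k + 1), Nat.prime_two.factorization]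
      simp
    have h3 : Nat.factorization 2 2 = 1 := by rw [Nat.prime_two.factorization]; simp
    rw [h1, h2, h3]
    ring
  · rw [fac_pow_odd hF hq1, Nat.factorization_eq_zero_of_not_dvd (by omega : ¬ 2 ∣ 2 * k + 1), add_zero]

include hF hq in
theorem fac_card_GL_one_mod (n : ℕ) : (Nat.card (GL (Fin n) F)).factorization 2 =
    n * (Fintype.card F - 1).factorization 2 + (Nat.factorial n).factorization 2 := by
  induction n with
  | zero => rw [fac_card_GL_zero hF]; simp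
  | succ n ih =>
    rw [fac_card_GL_succ hF n, ih, fac_pow_one_mod hF hq (n + 1) (by omega), Nat.factorial_succ,
      Nat.factorization_mul (by omega) (Nat.factorial_ne_zero n)]
    simp only [Finsupp.add_apply]
    ring

end arith1

/-- the data: a Sylow subgroup `T` of `Perm V` containing a transposition, in which any two points can be exchanged -/
structure TD {V : Type*} [Fintype V] [DecidableEq V] (T : Subgroup (Equiv.Perm V)) (a b : V) : Prop where
  card : Nat.card T = 2 ^ (Nat.card (Equiv.Perm V)).factorization 2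
  ne : a ≠ b
  mem : Equiv.swap a b ∈ T
  exch : ∀ i j : V, i ≠ j → ∃ s ∈ T, s i = j ∧ s j = i

theorem exists_TD (k : ℕ) (hk : 1 ≤ k) : ∃ (T : Subgroup (Equiv.Perm (Fin k → ZMod 2))) (a b : Fin k → ZMod 2), TD T a b := by
  classical
  have : Nonempty (Fin k) := ⟨⟨0, hk⟩⟩
  let τ : Multiplicative (Fin k → ZMod 2) →* Equiv.Perm (Fin k → ZMod 2) :=
    { toFun := fun v => Equiv.addRight v.toAdd
      map_one' := by ext x; simp
      map_mul' := fun v w => by
        apply Equiv.ext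
        intro x
        change x + (v.toAdd + w.toAdd) = (x + w.toAdd) + v.toAdd
        rw [add_assoc, add_comm v.toAdd] }
  have h1 : IsPGroup 2 τ.range := by
    rintro ⟨_, v, rfl⟩
    refine ⟨1, ?_⟩
    apply Subtype.ext
    change (τ v) ^ (2 ^ 1) = 1
    rw [← map_pow, pow_one]
    have : v ^ 2 = 1 := by
      apply Multiplicative.toAdd.injective
      rw [toAdd_pow, toAdd_one]
      funext i
      rw [Pi.smul_apply, Pi.zero_apply]
      have : ∀ x : ZMod 2, 2 • x = 0 := by decide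
      exact this _
    rw [this, map_one]
  obtain ⟨T, hT⟩ := h1.exists_le_sylow
  let a₀ : Fin k → ZMod 2 := 0
  let b₀ : Fin k → ZMod 2 := 1
  have hab : a₀ ≠ b₀ := fun h => by
    have := congrFun h ⟨0, hk⟩
    exact zero_ne_one this
  have h2 : IsPGroup 2 (Subgroup.zpowers (Equiv.swap a₀ b₀)) := by
    rintro ⟨_, n, rfl⟩
    refine ⟨1, ?_⟩
    apply Subtype.ext
    change ((Equiv.swap a₀ b₀) ^ n) ^ (2 ^ 1) = 1
    rw [← zpow_natCast, ← _root_.zpow_mul, mul_comm, _root_.zpow_mul, zpow_natCast, pow_one, sq, Equiv.swap_mul_self, _root_.one_zpow]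
  obtain ⟨T', hT'⟩ := h2.exists_le_sylow
  obtain ⟨g, hg⟩ := MulAction.exists_smul_eq (Equiv.Perm (Fin k → ZMod 2)) T' T
  refine ⟨T, g a₀, g b₀, card_sylow T, fun h => hab (g.injective h), ?_, ?_⟩
  · rw [← hg, Sylow.coe_subgroup_smul]
    have h3 : Equiv.swap (g a₀) (g b₀) = g * Equiv.swap a₀ b₀ * g⁻¹ := by
      rw [Equiv.swap_apply_apply]
    rw [h3]
    exact ⟨Equiv.swap a₀ b₀, hT' (Subgroup.mem_zpowers _), rfl⟩
  · intro i j _
    refine ⟨τ (Multiplicative.ofAdd (j - i)), hT ⟨_, rfl⟩, ?_, ?_⟩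
    · change i + (j - i) = j
      abel
    · change j + (j - i) = i
      have h4 : ∀ x : ZMod 2, x + x = 0 := by decide
      have h5 : j + (j - i) = i + ((j + j) - (i + i)) := by abel
      rw [h5]
      have h6 : (j + j) - (i + i) = 0 := by
        funext c
        simp only [Pi.sub_apply, Pi.add_apply, Pi.zero_apply, h4, sub_zero]
      rw [h6, add_zero]

section main

variable {V : Type*} [Fintype V] [DecidableEq V] {F : Type*} [Field F] [Fintype F]

/-- the determinant one part -/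
def monoS (μ : Subgroup Fˣ) (T : Subgroup (Equiv.Perm V)) : Subgroup (GL V F) :=
  mono μ T ⊓ (GeneralLinearGroup.det : GL V F →* Fˣ).ker

theorem mem_monoS {μ : Subgroup Fˣ} {T : Subgroup (Equiv.Perm V)} {x : GL V F} :
    x ∈ monoS μ T ↔ x ∈ mono μ T ∧ GeneralLinearGroup.det x = 1 := Subgroup.mem_inf

theorem dg_pmU_mem {μ : Subgroup Fˣ} {T : Subgroup (Equiv.Perm V)} {d : V → Fˣ} (hd : ∀ i, d i ∈ μ)
    {s : Equiv.Perm V} (hs : s ∈ T) : dg d * pmU F s ∈ mono μ T := mem_mono.2 ⟨d, hd, s, hs, rfl⟩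

theorem mulSingle_mem' {μ : Subgroup Fˣ} {c : Fˣ} (hc : c ∈ μ) (i j : V) : (Pi.mulSingle i c : V → Fˣ) j ∈ μ := by
  by_cases h : j = i
  · rw [h, Pi.mulSingle_eq_same]; exact hc
  · rw [Pi.mulSingle_eq_of_ne h]; exact one_mem _

theorem prod_mulSingle_eq (i : V) (c : Fˣ) : ∏ j, (Pi.mulSingle i c : V → Fˣ) j = c := by
  rw [Finset.prod_eq_single i]
  · rw [Pi.mulSingle_eq_same]
  · intro j _ hj; rw [Pi.mulSingle_eq_of_ne hj]
  · intro h; exact absurd (Finset.mem_univ _) h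

/-- every permutation in `T` lifts -/
theorem exists_lift {μ : Subgroup Fˣ} (hμ : -1 ∈ μ) {T : Subgroup (Equiv.Perm V)} {s : Equiv.Perm V} (hs : s ∈ T) (i : V) :
    ∃ d : V → Fˣ, dg d * pmU F s ∈ monoS μ T := by
  rcases Int.units_eq_one_or (Equiv.Perm.sign s) with h | h
  · refine ⟨1, mem_monoS.2 ⟨dg_pmU_mem (fun _ => one_mem _) hs, ?_⟩⟩
    rw [map_mul, map_one, map_one, one_mul, det_pmU_one h]
  · refine ⟨Pi.mulSingle i (-1), mem_monoS.2 ⟨dg_pmU_mem (mulSingle_mem' hμ i) hs, ?_⟩⟩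
    rw [map_mul, det_dg, prod_mulSingle_eq, det_pmU_neg h, neg_mul_neg, one_mul]

/-- the elements `a` at `i`, `a⁻¹` at `j` -/
def ee (i j : V) (c : Fˣ) : V → Fˣ := Pi.mulSingle i c * Pi.mulSingle j c⁻¹

theorem ee_mem {μ : Subgroup Fˣ} {T : Subgroup (Equiv.Perm V)} {c : Fˣ} (hc : c ∈ μ) (i j : V) :
    dg (ee i j c) ∈ monoS μ T := by
  refine mem_monoS.2 ⟨?_, ?_⟩
  · have := dg_pmU_mem (T := T) (d := ee i j c) (μ := μ) (fun a => mul_mem (mulSingle_mem' hc i a) (mulSingle_mem' (inv_mem hc) j a))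
      (one_mem T)
    rwa [map_one, mul_one] at this
  · rw [det_dg]
    change ∏ a, ((Pi.mulSingle i c : V → Fˣ) a * (Pi.mulSingle j c⁻¹ : V → Fˣ) a) = 1
    rw [Finset.prod_mul_distrib, prod_mulSingle_eq, prod_mulSingle_eq, mul_inv_cancel]

theorem ee_sq_mem {μ : Subgroup Fˣ} (hμ : -1 ∈ μ) {T : Subgroup (Equiv.Perm V)} {a b : V} (hT : TD T a b) {c : Fˣ} (hc : c ∈ μ) (i j : V) :
    (dg (ee i j c)) ^ 2 ∈ ⁅monoS μ T, monoS μ T⁆ := by
  by_cases hij : i = j
  · have : ee i j c = 1 := by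
      rw [ee, hij, ← Pi.mulSingle_mul, mul_inv_cancel, Pi.mulSingle_one]
    rw [this, map_one, one_pow]; exact one_mem _
  obtain ⟨s, hs, hsi, hsj⟩ := hT.exch i j hij
  obtain ⟨d, hd⟩ := exists_lift hμ hs i
  have h1 : (dg d * pmU F s) * (dg (ee i j c))⁻¹ * (dg d * pmU F s)⁻¹ = dg (ee i j c) := by
    have h2 : (dg d * pmU F s) * (dg (ee i j c))⁻¹ * (dg d * pmU F s)⁻¹ =
        dg d * (pmU F s * dg ((ee i j c)⁻¹) * (pmU F s)⁻¹) * (dg d)⁻¹ := by
      rw [map_inv]; group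
    rw [h2, pmU_dg, ← map_inv, ← map_mul, ← map_mul]
    congr 1
    rw [mul_comm d, mul_assoc, mul_inv_cancel, mul_one]
    funext x
    change ((Pi.mulSingle i c : V → Fˣ) (s⁻¹ x) * (Pi.mulSingle j c⁻¹ : V → Fˣ) (s⁻¹ x))⁻¹ =
      (Pi.mulSingle i c : V → Fˣ) x * (Pi.mulSingle j c⁻¹ : V → Fˣ) x
    have h3 : s⁻¹ i = j := by rw [← hsj]; simp
    have h4 : s⁻¹ j = i := by rw [← hsi]; simp
    by_cases hxi : x = i
    · rw [hxi, h3, Pi.mulSingle_eq_same, Pi.mulSingle_eq_same, Pi.mulSingle_eq_of_ne (Ne.symm hij),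
        Pi.mulSingle_eq_of_ne hij, one_mul, mul_one, inv_inv]
    · by_cases hxj : x = j
      · rw [hxj, h4, Pi.mulSingle_eq_same, Pi.mulSingle_eq_same, Pi.mulSingle_eq_of_ne (Ne.symm hij),
          Pi.mulSingle_eq_of_ne hij, one_mul, mul_one]
      · have h5 : s⁻¹ x ≠ i := fun h => hxj (by rw [← hsi, ← h]; simp)
        have h6 : s⁻¹ x ≠ j := fun h => hxi (by rw [← hsj, ← h]; simp)
        rw [Pi.mulSingle_eq_of_ne h5, Pi.mulSingle_eq_of_ne h6, Pi.mulSingle_eq_of_ne hxi, Pi.mulSingle_eq_of_ne hxj,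
          one_mul, inv_one]
  have h7 : (dg (ee i j c)) ^ 2 = ⁅dg (ee i j c), dg d * pmU F s⁆ := by
    rw [commutatorElement_def]
    have h8 : dg (ee i j c) * (dg d * pmU F s) * (dg (ee i j c))⁻¹ * (dg d * pmU F s)⁻¹ =
      dg (ee i j c) * ((dg d * pmU F s) * (dg (ee i j c))⁻¹ * (dg d * pmU F s)⁻¹) := by group
    rw [h8, h1, sq]
  rw [h7]
  exact Subgroup.commutator_mem_commutator (ee_mem hc i j) hd

/-- the exceptional generator -/
def ww (a b : V) : GL V F := dg (Pi.mulSingle a (-1)) * pmU F (Equiv.swap a b)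

theorem ww_mem {μ : Subgroup Fˣ} (hμ : -1 ∈ μ) {T : Subgroup (Equiv.Perm V)} {a b : V} (hT : TD T a b) :
    (ww a b : GL V F) ∈ monoS μ T := by
  refine mem_monoS.2 ⟨dg_pmU_mem (mulSingle_mem' hμ a) hT.mem, ?_⟩
  rw [ww, map_mul, det_dg, prod_mulSingle_eq, det_pmU_neg (Equiv.Perm.sign_swap hT.ne), neg_mul_neg, one_mul]

theorem ww_sq (a b : V) (hab : a ≠ b) : (ww a b : GL V F) ^ 2 = dg (ee a b (-1)) := by
  have h1 : (pmU F (Equiv.swap a b) : GL V F) * pmU F (Equiv.swap a b) = 1 := by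
    rw [← map_mul, Equiv.swap_mul_self, map_one]
  have h2 : (pmU F (Equiv.swap a b) : GL V F)⁻¹ = pmU F (Equiv.swap a b) := by
    rw [inv_eq_iff_mul_eq_one, h1]
  have h3 := pmU_dg (F := F) (Equiv.swap a b) (Pi.mulSingle a (-1))
  rw [h2] at h3
  rw [ww, sq]
  have h4 : dg (Pi.mulSingle a (-1)) * pmU F (Equiv.swap a b) * (dg (Pi.mulSingle a (-1)) * pmU F (Equiv.swap a b)) =
    dg (Pi.mulSingle a (-1)) * ((pmU F (Equiv.swap a b) : GL V F) * dg (Pi.mulSingle a (-1)) * pmU F (Equiv.swap a b)) := by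
    group
  rw [h4, h3, ← map_mul]
  congr 1
  rw [ee]
  congr 1
  funext x
  rw [Equiv.swap_inv, inv_neg, inv_one]
  by_cases hx : x = b
  · rw [hx, Equiv.swap_apply_right, Pi.mulSingle_eq_same, Pi.mulSingle_eq_same]
  · have : Equiv.swap a b x ≠ a := fun h => hx (by
      simpa using congrArg (Equiv.swap a b) h)
    rw [Pi.mulSingle_eq_of_ne this, Pi.mulSingle_eq_of_ne hx]

theorem ea_monoS (hF : Odd (Fintype.card F)) (hq : 4 ∣ Fintype.card F - 1) (μ : Sylow 2 Fˣ) {T : Subgroup (Equiv.Perm V)}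
    {a b : V} (hT : TD T a b) (hA : SEA (alternatingGroup V)) : EA (monoS (μ : Subgroup Fˣ) T) := by
  have hμ1 : ∀ c : Fˣ, c ^ 4 = 1 → c ∈ (μ : Subgroup Fˣ) := by
    intro c hc
    have h1 : IsPGroup 2 (Subgroup.zpowers c) := by
      rintro ⟨_, n, rfl⟩
      refine ⟨2, ?_⟩
      apply Subtype.ext
      change (c ^ n) ^ (2 ^ 2) = 1
      rw [← zpow_natCast, ← _root_.zpow_mul, mul_comm, _root_.zpow_mul, zpow_natCast]
      norm_num
      rw [hc, _root_.one_zpow]
    exact h1.le_sylow_of_normal μ (Subgroup.mem_zpowers c)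
  have hneg : (-1 : Fˣ) ∈ (μ : Subgroup Fˣ) := hμ1 _ (by norm_num)
  obtain ⟨ι, hι⟩ : ∃ ι : Fˣ, ι ^ 2 = -1 := by
    have h1 : IsSquare (-1 : F) := isSquare_neg_one_iff'.2 (by
      have : 1 < Fintype.card F := Fintype.one_lt_card
      omega)
    obtain ⟨r, hr⟩ := h1
    have hr0 : r ≠ 0 := by
      rintro rfl
      rw [mul_zero] at hr
      exact one_ne_zero (neg_eq_zero.1 hr)
    refine ⟨Units.mk0 r hr0, Units.ext ?_⟩
    rw [Units.val_pow_eq_pow_val, Units.val_mk0, Units.val_neg, Units.val_one, sq, ← hr]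
  have hιμ : ι ∈ (μ : Subgroup Fˣ) := hμ1 _ (by
    have : ι ^ 4 = (ι ^ 2) ^ 2 := by rw [← pow_mul]
    rw [this, hι]; norm_num)
  have hTA : EA (alternatingGroup V ⊓ T : Subgroup (Equiv.Perm V)) := by
    have h1 := card_inf_normal (alternatingGroup V) T hT.card
    have h2 : Nat.card ((alternatingGroup V ⊓ T).subgroupOf (alternatingGroup V)) =
        2 ^ (Nat.card (alternatingGroup V)).factorization 2 := by
      rw [← h1]
      exact Nat.card_congr (Subgroup.subgroupOfEquivOfLe inf_le_left).toEquiv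
    exact (hA (Sylow.ofCard _ h2)).congr (Subgroup.subgroupOfEquivOfLe inf_le_left)
  have hTm : (alternatingGroup V ⊓ T : Subgroup (Equiv.Perm V)).map (pmU F) ≤ monoS (μ : Subgroup Fˣ) T := by
    rintro _ ⟨s, ⟨hs1, hs2⟩, rfl⟩
    refine mem_monoS.2 ⟨?_, det_pmU_one hs1⟩
    have := dg_pmU_mem (F := F) (μ := (μ : Subgroup Fˣ)) (d := 1) (fun _ => one_mem _) hs2
    rwa [map_one, one_mul] at this
  refine ea_of_closure' _ ({x | ∃ d : V → Fˣ, (∀ i, d i ∈ (μ : Subgroup Fˣ)) ∧ ∏ i, d i = 1 ∧ x = dg d} ∪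
    (((alternatingGroup V ⊓ T : Subgroup (Equiv.Perm V)).map (pmU F) : Set (GL V F)) ∪ {ww a b})) ?_ ?_
  · set X : Set (GL V F) := ({x | ∃ d : V → Fˣ, (∀ i, d i ∈ (μ : Subgroup Fˣ)) ∧ ∏ i, d i = 1 ∧ x = dg d} ∪
    (((alternatingGroup V ⊓ T : Subgroup (Equiv.Perm V)).map (pmU F) : Set (GL V F)) ∪ {ww a b})) with hX
    apply le_antisymm
    · rw [Subgroup.closure_le]
      rintro x (⟨d, hd, hd1, rfl⟩ | hx | hx)
      · refine mem_monoS.2 ⟨?_, by rw [det_dg, hd1]⟩
        have := dg_pmU_mem (F := F) hd (one_mem T)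
        rwa [map_one, mul_one] at this
      · exact hTm hx
      · rw [Set.mem_singleton_iff.1 hx]; exact ww_mem hneg hT
    · have key : ∀ x ∈ monoS (μ : Subgroup Fˣ) T, (∃ d : V → Fˣ, (∀ i, d i ∈ (μ : Subgroup Fˣ)) ∧
          ∃ s ∈ T, Equiv.Perm.sign s = 1 ∧ dg d * pmU F s = x) → x ∈ Subgroup.closure X := by
        rintro x hx ⟨d, hd, s, hs, hs1, rfl⟩
        have h1 := (mem_monoS.1 hx).2
        rw [map_mul, det_dg, det_pmU_one hs1, mul_one] at h1
        exact mul_mem (Subgroup.subset_closure (Or.inl ⟨d, hd, h1, rfl⟩))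
          (Subgroup.subset_closure (Or.inr (Or.inl ⟨s, ⟨hs1, hs⟩, rfl⟩)))
      intro x hx
      obtain ⟨d, hd, s, hs, rfl⟩ := mem_mono.1 (mem_monoS.1 hx).1
      rcases Int.units_eq_one_or (Equiv.Perm.sign s) with h | h
      · exact key _ hx ⟨d, hd, s, hs, h, rfl⟩
      · have h1 : dg d * pmU F s = (dg d * pmU F s * (ww a b)) * (ww a b)⁻¹ := by group
        rw [h1]
        refine mul_mem (key _ (mul_mem hx (ww_mem hneg hT)) ?_)
          (inv_mem (Subgroup.subset_closure (Or.inr (Or.inr rfl))))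
        refine ⟨d * (fun i => (Pi.mulSingle a (-1) : V → Fˣ) (s⁻¹ i)),
          fun i => mul_mem (hd i) (mulSingle_mem' hneg a _), s * Equiv.swap a b, mul_mem hs hT.mem, ?_, ?_⟩
        · rw [map_mul, h, Equiv.Perm.sign_swap hT.ne, neg_mul_neg, one_mul]
        · rw [map_mul, map_mul, ← pmU_dg, ww]
          group
  · rintro x (⟨d, hd, hd1, rfl⟩ | hx | hx)
    · have h1 : d = ∏ i, ee i a (d i) := by
        have h2 : ∏ i, ee i a (d i) = (∏ i, Pi.mulSingle i (d i)) * ∏ i, Pi.mulSingle a (d i)⁻¹ := by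
          rw [← Finset.prod_mul_distrib]; rfl
        rw [h2, Finset.univ_prod_mulSingle]
        have h3 : ∏ i, (Pi.mulSingle a (d i)⁻¹ : V → Fˣ) = 1 := by
          have h4 : ∀ c : Fˣ, (Pi.mulSingle a c : V → Fˣ) = MonoidHom.mulSingle (fun _ : V => Fˣ) a c := fun _ => rfl
          simp only [h4]
          rw [← map_prod, Finset.prod_inv_distrib, hd1, inv_one, map_one]
        rw [h3, mul_one]
      have h2 : (dg d : GL V F) ^ 2 = (dg.comp (powMonoidHom 2)) d := by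
        change _ = dg (d ^ 2)
        rw [map_pow]
      rw [h2, ← Subgroup.mem_comap, h1]
      refine Subgroup.prod_mem _ fun i _ => ?_
      rw [Subgroup.mem_comap]
      change dg ((ee i a (d i)) ^ 2) ∈ _
      rw [map_pow]
      exact ee_sq_mem hneg hT (hd i) i a
    · obtain ⟨s, hs, rfl⟩ := hx
      have h1 := (ea_iff _).1 hTA s hs
      rw [← map_pow]
      have h2 : pmU F (s ^ 2) ∈ (⁅(alternatingGroup V ⊓ T : Subgroup (Equiv.Perm V)), alternatingGroup V ⊓ T⁆).map (pmU F) := ⟨_, h1, rfl⟩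
      rw [Subgroup.map_commutator] at h2
      exact Subgroup.commutator_mono hTm hTm h2
    · rw [Set.mem_singleton_iff.1 hx, ww_sq a b hT.ne]
      have h1 : ee a b (-1 : Fˣ) = (ee a b ι) ^ 2 := by
        rw [← hι, ee, ee, mul_pow, ← Pi.mulSingle_pow, ← Pi.mulSingle_pow, inv_pow]
      rw [h1, map_pow]
      exact ee_sq_mem hneg hT hιμ a b

/-- S4627 for `q ≡ 1 mod 4` -/
theorem sea_SL_pow (hF : Odd (Fintype.card F)) (hq : 4 ∣ Fintype.card F - 1) (k : ℕ) (hk : 1 ≤ k) :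
    SEA (SpecialLinearGroup (Fin (2 ^ k)) F) := by
  obtain ⟨T, a, b, hT⟩ := exists_TD k hk
  obtain ⟨μ⟩ := (inferInstance : Nonempty (Sylow 2 Fˣ))
  have hVc : Fintype.card (Fin k → ZMod 2) = 2 ^ k := by simp
  have hA : SEA (alternatingGroup (Fin k → ZMod 2)) := by
    have e : Fin (2 ^ (k - 1)) × Fin 2 ≃ (Fin k → ZMod 2) := Fintype.equivOfCardEq (by
      rw [Fintype.card_prod, Fintype.card_fin, Fintype.card_fin, hVc, ← pow_succ]
      congr 1
      omega)
    exact (sea_alt_two_mul (2 ^ (k - 1))).congr (Equiv.altCongrHom e)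
  have hEA := ea_monoS hF hq μ hT hA
  have e' : (Fin k → ZMod 2) ≃ Fin (2 ^ k) := Fintype.equivFinOfCardEq hVc
  set f := (Matrix.SpecialLinearGroup.toGL : SpecialLinearGroup (Fin k → ZMod 2) F →* GL (Fin k → ZMod 2) F) with hf
  have hfi : Function.Injective f := Matrix.SpecialLinearGroup.toGL_injective
  have hcard : Nat.card (mono (μ : Subgroup Fˣ) T : Subgroup (GL (Fin k → ZMod 2) F)) =
      2 ^ (Nat.card (GL (Fin k → ZMod 2) F)).factorization 2 := by
    rw [card_mono, hT.card, card_sylow μ, hVc, ← pow_mul, ← pow_add, card_GL_congr e', fac_card_GL_one_mod hF hq,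
      Nat.card_units, Nat.card_eq_fintype_card (α := F), Nat.card_perm, Nat.card_eq_fintype_card, hVc]
    congr 1
    ring
  have h1 := card_comap_normal f hfi (toGL_range_normal F) _ hcard
  have hEm : ((mono (μ : Subgroup Fˣ) T).comap f).map f = monoS (μ : Subgroup Fˣ) T := by
    rw [Subgroup.map_comap_eq, hf, toGL_range_eq, inf_comm]
    rfl
  have e : (mono (μ : Subgroup Fˣ) T).comap f ≃* monoS (μ : Subgroup Fˣ) T :=
    (((mono (μ : Subgroup Fˣ) T).comap f).equivMapOfInjective f hfi).trans (MulEquiv.subgroupCongr hEm)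
  exact (SEA.of_subgroup _ h1 (hEA.congr e.symm)).congr (slCongr e' F)

end main

end Cfsg.Agent.H53.SEA
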