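import Mathlib
import Cfsg.Prelude.Def_G2
import Cfsg.Agent.H53.SEASL1
import Cfsg.Agent.Orth.Bridge

set_option autoImplicit false
set_option linter.dupNamespace false
set_option linter.unusedSectionVars false

/-!
# The automorphism group of the split octonions as a Cayley-Dickson double of `M₂` (helper53)
-/

namespace Cfsg.Agent.H53.SEA

open Matrix

/-- the double of `M₂(F)` -/
abbrev OO (F : Type*) := Matrix (Fin 2) (Fin 2) F × Matrix (Fin 2) (Fin 2) F

section

variable {F : Type*} [Field F]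

/-- the multiplication of the double -/
def om (u v : OO F) : OO F := (u.1 * v.1 + adjugate v.2 * u.2, v.2 * u.1 + u.2 * adjugate v.1)

/-- the automorphism group of the double -/
def AutO (F : Type*) [Field F] : Subgroup (OO F ≃ₗ[F] OO F) where
  carrier := {g | ∀ u v, g (om u v) = om (g u) (g v)}
  one_mem' := fun u v => rfl
  mul_mem' := by
    intro g h hg hh u v
    change g (h (om u v)) = om (g (h u)) (g (h v))
    rw [hh, hg]
  inv_mem' := by
    intro g hg u v
    apply g.injective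
    change g (g.symm (om u v)) = g (om (g.symm u) (g.symm v))
    rw [hg, g.apply_symm_apply, g.apply_symm_apply, g.apply_symm_apply]

theorem mem_AutO {g : OO F ≃ₗ[F] OO F} : g ∈ AutO F ↔ ∀ u v, g (om u v) = om (g u) (g v) := Iff.rfl

/-- the coordinates -/
def EE (F : Type*) [Field F] : OO F ≃ₗ[F] (Fin 8 → F) where
  toFun u := ![u.1 0 0, u.1 0 1, u.2 0 0, - u.2 1 0, u.1 1 0, u.2 1 1, u.2 0 1, u.1 1 1]
  invFun x := (!![x 0, x 1; x 4, x 7], !![x 2, x 6; - x 3, x 5])
  left_inv u := by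
    apply Prod.ext
    · ext i j
      fin_cases i <;> fin_cases j <;> rfl
    · ext i j
      fin_cases i <;> fin_cases j
      · rfl
      · rfl
      · exact neg_neg _
      · rfl
  right_inv x := by
    funext i
    fin_cases i
    · rfl
    · rfl
    · rfl
    · exact neg_neg _
    · rfl
    · rfl
    · rfl
    · rfl
  map_add' u v := by
    funext i
    fin_cases i
    · rfl
    · rfl
    · rfl
    · exact neg_add _ _
    · rfl
    · rfl
    · rfl
    · rfl
  map_smul' c u := by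
    funext i
    fin_cases i
    · rfl
    · rfl
    · rfl
    · exact (mul_neg _ _).symm
    · rfl
    · rfl
    · rfl
    · rfl

theorem EE_om (u v : OO F) : EE F (om u v) = Cfsg.Lie.zornMul (EE F u) (EE F v) := by
  have key : ∀ a b c d e f g h a' b' c' d' e' f' g' h' : F,
      EE F (om (!![a, b; c, d], !![e, f; g, h]) (!![a', b'; c', d'], !![e', f'; g', h'])) =
      Cfsg.Lie.zornMul (EE F (!![a, b; c, d], !![e, f; g, h])) (EE F (!![a', b'; c', d'], !![e', f'; g', h'])) := by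
    intro a b c d e f g h a' b' c' d' e' f' g' h'
    simp only [om, adjugate_fin_two_of, Matrix.mul_fin_two, Matrix.of_add_of]
    funext i
    fin_cases i <;>
    simp [EE, Cfsg.Lie.zornMul, Cfsg.Lie.dot3, Cfsg.Lie.cross3, Cfsg.Lie.zA, Cfsg.Lie.zB] <;> ring
  obtain ⟨X, W⟩ := u
  obtain ⟨X', W'⟩ := v
  rw [Matrix.eta_fin_two X, Matrix.eta_fin_two W, Matrix.eta_fin_two X', Matrix.eta_fin_two W']
  exact key _ _ _ _ _ _ _ _ _ _ _ _ _ _ _ _

/-- transport of linear automorphisms -/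
def autCongr {V W : Type*} [AddCommGroup V] [Module F V] [AddCommGroup W] [Module F W] (e : V ≃ₗ[F] W) :
    (W ≃ₗ[F] W) ≃* (V ≃ₗ[F] V) where
  toFun g := (e.trans g).trans e.symm
  invFun g := (e.symm.trans g).trans e
  left_inv g := by ext x; simp
  right_inv g := by ext x; simp
  map_mul' g h := by
    apply LinearEquiv.ext
    intro x
    change e.symm (g (h (e x))) = e.symm (g (e (e.symm (h (e x)))))
    rw [e.apply_symm_apply]

theorem autCongr_apply {V W : Type*} [AddCommGroup V] [Module F V] [AddCommGroup W] [Module F W] (e : V ≃ₗ[F] W)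
    (g : W ≃ₗ[F] W) (x : V) : autCongr e g x = e.symm (g (e x)) := rfl

/-- `G₂(F)` as the automorphism group of the double -/
noncomputable def g2Equiv (F : Type*) [Field F] : Cfsg.Lie.G2 F ≃* AutO F :=
  (((Orth.glE (Fin 8) F).trans (autCongr (EE F))).subgroupMap (Cfsg.Lie.G2 F)).trans (MulEquiv.subgroupCongr (by
    ext g
    constructor
    · rintro ⟨h, hh, rfl⟩
      intro u v
      change (EE F).symm (Orth.glE (Fin 8) F h (EE F (om u v))) =
        om ((EE F).symm (Orth.glE (Fin 8) F h (EE F u))) ((EE F).symm (Orth.glE (Fin 8) F h (EE F v)))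
      apply (EE F).injective
      rw [LinearEquiv.apply_symm_apply, EE_om, EE_om, LinearEquiv.apply_symm_apply, LinearEquiv.apply_symm_apply]
      exact hh _ _
    · intro hg
      refine ⟨((Orth.glE (Fin 8) F).trans (autCongr (EE F))).symm g, ?_, MulEquiv.apply_symm_apply _ _⟩
      intro x y
      have h1 : ∀ x, (Units.coeHom (Matrix (Fin 8) (Fin 8) F) (((Orth.glE (Fin 8) F).trans (autCongr (EE F))).symm g)) *ᵥ x =
          EE F (g ((EE F).symm x)) := by
        intro x
        have h2 : Orth.glE (Fin 8) F (((Orth.glE (Fin 8) F).trans (autCongr (EE F))).symm g) = (autCongr (EE F)).symm g :=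
          MulEquiv.apply_symm_apply (Orth.glE (Fin 8) F) _
        have h3 := congrArg (fun f : (Fin 8 → F) ≃ₗ[F] (Fin 8 → F) => f x) h2
        exact h3
      rw [h1, h1, h1]
      have h4 : (EE F).symm (Cfsg.Lie.zornMul x y) = om ((EE F).symm x) ((EE F).symm y) := by
        apply (EE F).injective
        rw [EE_om, LinearEquiv.apply_symm_apply, LinearEquiv.apply_symm_apply, LinearEquiv.apply_symm_apply]
      rw [h4, hg, EE_om]))

/-- pairs with equal determinant -/
def HH (F : Type*) [Field F] : Subgroup (GL (Fin 2) F × GL (Fin 2) F) :=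
  ((GeneralLinearGroup.det.comp (MonoidHom.fst _ _)) * (GeneralLinearGroup.det.comp (MonoidHom.snd _ _))⁻¹ :
    GL (Fin 2) F × GL (Fin 2) F →* Fˣ).ker

theorem mem_HH {p : GL (Fin 2) F × GL (Fin 2) F} : p ∈ HH F ↔ GeneralLinearGroup.det p.1 = GeneralLinearGroup.det p.2 := by
  rw [HH, MonoidHom.mem_ker]
  change GeneralLinearGroup.det p.1 * (GeneralLinearGroup.det p.2)⁻¹ = 1 ↔ _
  rw [mul_inv_eq_one]

theorem gl_mul_inv (a : GL (Fin 2) F) : (a : Matrix (Fin 2) (Fin 2) F) * ((a⁻¹ : GL (Fin 2) F) : Matrix (Fin 2) (Fin 2) F) = 1 := by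
  rw [← Units.val_mul, mul_inv_cancel, Units.val_one]

theorem gl_inv_mul (a : GL (Fin 2) F) : ((a⁻¹ : GL (Fin 2) F) : Matrix (Fin 2) (Fin 2) F) * (a : Matrix (Fin 2) (Fin 2) F) = 1 := by
  rw [← Units.val_mul, inv_mul_cancel, Units.val_one]

theorem gl_mul_inv_assoc (a : GL (Fin 2) F) (X : Matrix (Fin 2) (Fin 2) F) :
    (a : Matrix (Fin 2) (Fin 2) F) * (((a⁻¹ : GL (Fin 2) F) : Matrix (Fin 2) (Fin 2) F) * X) = X := by
  rw [← Matrix.mul_assoc, gl_mul_inv, Matrix.one_mul]

theorem gl_inv_mul_assoc (a : GL (Fin 2) F) (X : Matrix (Fin 2) (Fin 2) F) :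
    ((a⁻¹ : GL (Fin 2) F) : Matrix (Fin 2) (Fin 2) F) * ((a : Matrix (Fin 2) (Fin 2) F) * X) = X := by
  rw [← Matrix.mul_assoc, gl_inv_mul, Matrix.one_mul]

theorem adj_gl (a : GL (Fin 2) F) : adjugate (a : Matrix (Fin 2) (Fin 2) F) =
    (GeneralLinearGroup.det a : F) • ((a⁻¹ : GL (Fin 2) F) : Matrix (Fin 2) (Fin 2) F) := by
  have h1 : adjugate (a : Matrix (Fin 2) (Fin 2) F) * (a : Matrix (Fin 2) (Fin 2) F) * ((a⁻¹ : GL (Fin 2) F) : Matrix (Fin 2) (Fin 2) F) =
    adjugate (a : Matrix (Fin 2) (Fin 2) F) := by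
    rw [Matrix.mul_assoc, gl_mul_inv, Matrix.mul_one]
  rw [← h1, adjugate_mul, Matrix.smul_mul, Matrix.one_mul, GeneralLinearGroup.val_det_apply]

theorem adj_gl_inv (a : GL (Fin 2) F) : adjugate ((a⁻¹ : GL (Fin 2) F) : Matrix (Fin 2) (Fin 2) F) =
    (((GeneralLinearGroup.det a)⁻¹ : Fˣ) : F) • (a : Matrix (Fin 2) (Fin 2) F) := by
  rw [adj_gl, inv_inv, map_inv]

/-- the underlying map -/
def phiL (a b : GL (Fin 2) F) : OO F ≃ₗ[F] OO F where
  toFun u := ((a : Matrix (Fin 2) (Fin 2) F) * u.1 * ((a⁻¹ : GL (Fin 2) F) : Matrix (Fin 2) (Fin 2) F),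
    (b : Matrix (Fin 2) (Fin 2) F) * u.2 * ((a⁻¹ : GL (Fin 2) F) : Matrix (Fin 2) (Fin 2) F))
  invFun u := (((a⁻¹ : GL (Fin 2) F) : Matrix (Fin 2) (Fin 2) F) * u.1 * (a : Matrix (Fin 2) (Fin 2) F),
    ((b⁻¹ : GL (Fin 2) F) : Matrix (Fin 2) (Fin 2) F) * u.2 * (a : Matrix (Fin 2) (Fin 2) F))
  left_inv u := by
    apply Prod.ext
    · simp only [Matrix.mul_assoc, gl_inv_mul, gl_inv_mul_assoc, Matrix.mul_one]
    · simp only [Matrix.mul_assoc, gl_inv_mul, gl_inv_mul_assoc, Matrix.mul_one]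
  right_inv u := by
    apply Prod.ext
    · simp only [Matrix.mul_assoc, gl_mul_inv, gl_mul_inv_assoc, Matrix.mul_one]
    · simp only [Matrix.mul_assoc, gl_mul_inv, gl_mul_inv_assoc, Matrix.mul_one]
  map_add' u v := by
    apply Prod.ext
    · simp only [Prod.fst_add, Matrix.mul_add, Matrix.add_mul]
    · simp only [Prod.snd_add, Matrix.mul_add, Matrix.add_mul]
  map_smul' c u := by
    apply Prod.ext
    · simp only [Prod.smul_fst, Matrix.mul_smul, Matrix.smul_mul, RingHom.id_apply]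
    · simp only [Prod.smul_snd, Matrix.mul_smul, Matrix.smul_mul, RingHom.id_apply]

theorem phiL_apply (a b : GL (Fin 2) F) (u : OO F) : phiL a b u =
    ((a : Matrix (Fin 2) (Fin 2) F) * u.1 * ((a⁻¹ : GL (Fin 2) F) : Matrix (Fin 2) (Fin 2) F),
    (b : Matrix (Fin 2) (Fin 2) F) * u.2 * ((a⁻¹ : GL (Fin 2) F) : Matrix (Fin 2) (Fin 2) F)) := rfl

theorem phiL_mem (a b : GL (Fin 2) F) (h : GeneralLinearGroup.det a = GeneralLinearGroup.det b) : phiL a b ∈ AutO F := by
  have h1 : ((GeneralLinearGroup.det b : Fˣ) : F) * ((GeneralLinearGroup.det a⁻¹ : Fˣ) : F) = 1 := by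
    rw [← h, map_inv, ← Units.val_mul, mul_inv_cancel, Units.val_one]
  have h2 : ((GeneralLinearGroup.det a : Fˣ) : F) * ((GeneralLinearGroup.det a⁻¹ : Fˣ) : F) = 1 := by
    rw [map_inv, ← Units.val_mul, mul_inv_cancel, Units.val_one]
  intro u v
  rw [phiL_apply, phiL_apply, phiL_apply, om, om]
  apply Prod.ext
  · simp only [Matrix.mul_add, Matrix.add_mul, adjugate_mul_distrib, adj_gl, Matrix.smul_mul, Matrix.mul_smul,
      smul_smul, Matrix.mul_assoc, gl_inv_mul_assoc, inv_inv]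
    rw [h1, one_smul]
  · simp only [Matrix.mul_add, Matrix.add_mul, adjugate_mul_distrib, adj_gl, Matrix.smul_mul, Matrix.mul_smul,
      smul_smul, Matrix.mul_assoc, gl_inv_mul_assoc, inv_inv]
    rw [h2, one_smul]

/-- the homomorphism from pairs of matrices -/
def Phi (F : Type*) [Field F] : HH F →* AutO F where
  toFun p := ⟨phiL p.1.1 p.1.2, phiL_mem _ _ (mem_HH.1 p.2)⟩
  map_one' := by
    apply Subtype.ext
    apply LinearEquiv.ext
    intro u
    change phiL 1 1 u = u
    rw [phiL_apply, inv_one, Units.val_one]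
    simp only [Matrix.one_mul, Matrix.mul_one]
  map_mul' p q := by
    apply Subtype.ext
    apply LinearEquiv.ext
    intro u
    change phiL (p.1.1 * q.1.1) (p.1.2 * q.1.2) u = phiL p.1.1 p.1.2 (phiL q.1.1 q.1.2 u)
    simp only [phiL_apply, _root_.mul_inv_rev, Units.val_mul, Matrix.mul_assoc]

theorem Phi_apply (p : HH F) (u : OO F) : (Phi F p : OO F ≃ₗ[F] OO F) u = phiL p.1.1 p.1.2 u := rfl

/-- `-1` -/
def ng (F : Type*) [Field F] : GL (Fin 2) F := ⟨-1, -1, by rw [neg_mul_neg, one_mul], by rw [neg_mul_neg, one_mul]⟩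

theorem ng_val : ((ng F : GL (Fin 2) F) : Matrix (Fin 2) (Fin 2) F) = -1 := rfl

theorem det_ng : GeneralLinearGroup.det (ng F) = 1 := by
  apply Units.ext
  rw [GeneralLinearGroup.val_det_apply, ng_val, Matrix.det_neg]
  simp

/-- the standard involution -/
def zz (F : Type*) [Field F] : AutO F := Phi F ⟨(1, ng F), mem_HH.2 (by rw [det_ng, map_one])⟩

theorem zz_apply (u : OO F) : (zz F : OO F ≃ₗ[F] OO F) u = (u.1, - u.2) := by
  change phiL 1 (ng F) u = _
  rw [phiL_apply, inv_one, Units.val_one, ng_val]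
  simp only [Matrix.one_mul, Matrix.mul_one, Matrix.neg_mul]

theorem zz_sq : zz F * zz F = 1 := by
  apply Subtype.ext
  apply LinearEquiv.ext
  intro u
  change (zz F : OO F ≃ₗ[F] OO F) ((zz F : OO F ≃ₗ[F] OO F) u) = u
  rw [zz_apply, zz_apply, neg_neg]

theorem zz_comm (p : HH F) : Phi F p * zz F = zz F * Phi F p := by
  apply Subtype.ext
  apply LinearEquiv.ext
  intro u
  change (Phi F p : OO F ≃ₗ[F] OO F) ((zz F : OO F ≃ₗ[F] OO F) u) = (zz F : OO F ≃ₗ[F] OO F) ((Phi F p : OO F ≃ₗ[F] OO F) u)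
  rw [zz_apply, zz_apply, Phi_apply, Phi_apply, phiL_apply, phiL_apply]
  simp only [Matrix.mul_neg, Matrix.neg_mul]

end

end Cfsg.Agent.H53.SEA
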