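import Mathlib
import Cfsg.Agent.H53.SEAG2

set_option autoImplicit false
set_option linter.dupNamespace false
set_option linter.unusedSectionVars false

/-!
# The centraliser of the standard involution (helper53)
-/

namespace Cfsg.Agent.H53.SEA

open Matrix

variable {F : Type*} [Field F]

/-- automorphisms of the matrix algebra are inner -/
theorem matrix_inner {n : Type*} [Fintype n] [DecidableEq n] (σ : Matrix n n F ≃ₐ[F] Matrix n n F) :
    ∃ a : GL n F, ∀ X, σ X = (a : Matrix n n F) * X * ((a⁻¹ : GL n F) : Matrix n n F) := by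
  let f : Module.End F (n → F) ≃ₐ[F] Module.End F (n → F) :=
    ((Matrix.toLinAlgEquiv' (R := F) (n := n)).symm.trans σ).trans (Matrix.toLinAlgEquiv' (R := F) (n := n))
  obtain ⟨T, hT⟩ := f.eq_linearEquivConjAlgEquiv
  have h1 : LinearMap.toMatrix' (T : (n → F) →ₗ[F] (n → F)) * LinearMap.toMatrix' (T.symm : (n → F) →ₗ[F] (n → F)) = 1 := by
    rw [← LinearMap.toMatrix'_comp, LinearEquiv.comp_symm, LinearMap.toMatrix'_id]
  have h2 : LinearMap.toMatrix' (T.symm : (n → F) →ₗ[F] (n → F)) * LinearMap.toMatrix' (T : (n → F) →ₗ[F] (n → F)) = 1 := by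
    rw [← LinearMap.toMatrix'_comp, LinearEquiv.symm_comp, LinearMap.toMatrix'_id]
  refine ⟨⟨_, _, h1, h2⟩, fun X => ?_⟩
  change σ X = LinearMap.toMatrix' (T : (n → F) →ₗ[F] (n → F)) * X * LinearMap.toMatrix' (T.symm : (n → F) →ₗ[F] (n → F))
  have h3 : f (Matrix.toLin' X) = Matrix.toLin' (σ X) := by
    change Matrix.toLinAlgEquiv' (σ ((Matrix.toLinAlgEquiv').symm (Matrix.toLinAlgEquiv' X))) = _
    rw [AlgEquiv.symm_apply_apply]
    rfl
  have h4 : Matrix.toLin' (σ X) = (T : (n → F) →ₗ[F] (n → F)) ∘ₗ (Matrix.toLin' X) ∘ₗ (T.symm : (n → F) →ₗ[F] (n → F)) := by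
    rw [← h3, hT]
    rfl
  have h5 := congrArg LinearMap.toMatrix' h4
  rw [LinearMap.toMatrix'_toLin', LinearMap.toMatrix'_comp, LinearMap.toMatrix'_comp, LinearMap.toMatrix'_toLin'] at h5
  rw [h5, Matrix.mul_assoc]

theorem om_left (X Y : Matrix (Fin 2) (Fin 2) F) : om (X, 0) (Y, 0) = (X * Y, 0) := by
  rw [om]; simp

theorem om_right (X W : Matrix (Fin 2) (Fin 2) F) : om (X, 0) (0, W) = (0, W * X) := by
  rw [om]; simp

theorem om_rr (W W' : Matrix (Fin 2) (Fin 2) F) : om (0, W) (0, W') = (adjugate W' * W, 0) := by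
  rw [om]; simp

section cent

variable (h2 : (2 : F) ≠ 0) (g : AutO F) (hg : g * zz F = zz F * g)

include h2 hg

theorem cent_fst (X : Matrix (Fin 2) (Fin 2) F) : ((g : OO F ≃ₗ[F] OO F) (X, 0)).2 = 0 := by
  have h1 : (g : OO F ≃ₗ[F] OO F) ((zz F : OO F ≃ₗ[F] OO F) (X, 0)) = (zz F : OO F ≃ₗ[F] OO F) ((g : OO F ≃ₗ[F] OO F) (X, 0)) :=
    congrArg (fun a : AutO F => (a : OO F ≃ₗ[F] OO F) (X, 0)) hg
  rw [zz_apply, zz_apply, neg_zero] at h1
  have h3 := congrArg Prod.snd h1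
  simp only at h3
  have h4 : (2 : F) • ((g : OO F ≃ₗ[F] OO F) (X, 0)).2 = 0 := by
    rw [two_smul]
    nth_rewrite 1 [h3]
    exact neg_add_cancel _
  exact (smul_eq_zero.1 h4).resolve_left h2

theorem cent_snd (W : Matrix (Fin 2) (Fin 2) F) : ((g : OO F ≃ₗ[F] OO F) (0, W)).1 = 0 := by
  have h1 : (g : OO F ≃ₗ[F] OO F) ((zz F : OO F ≃ₗ[F] OO F) (0, W)) = (zz F : OO F ≃ₗ[F] OO F) ((g : OO F ≃ₗ[F] OO F) (0, W)) :=
    congrArg (fun a : AutO F => (a : OO F ≃ₗ[F] OO F) (0, W)) hg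
  have e : ((0, -W) : OO F) = -(0, W) := by rw [Prod.neg_mk, neg_zero]
  rw [zz_apply, zz_apply] at h1
  simp only [e, map_neg] at h1
  have h3 := congrArg Prod.fst h1
  simp only [Prod.fst_neg] at h3
  have h4 : (2 : F) • ((g : OO F ≃ₗ[F] OO F) (0, W)).1 = 0 := by
    rw [two_smul]
    nth_rewrite 1 [← h3]
    exact neg_add_cancel _
  exact (smul_eq_zero.1 h4).resolve_left h2

theorem cent_left (X : Matrix (Fin 2) (Fin 2) F) :
    (g : OO F ≃ₗ[F] OO F) (X, 0) = (((g : OO F ≃ₗ[F] OO F) (X, 0)).1, 0) :=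
  Prod.ext rfl (cent_fst h2 g hg X)

theorem cent_right (W : Matrix (Fin 2) (Fin 2) F) :
    (g : OO F ≃ₗ[F] OO F) (0, W) = (0, ((g : OO F ≃ₗ[F] OO F) (0, W)).2) :=
  Prod.ext (cent_snd h2 g hg W) rfl

/-- the induced automorphism of `M₂` is inner -/
theorem exists_inner : ∃ a : GL (Fin 2) F, ∀ X, (g : OO F ≃ₗ[F] OO F) (X, 0) =
    ((a : Matrix (Fin 2) (Fin 2) F) * X * ((a⁻¹ : GL (Fin 2) F) : Matrix (Fin 2) (Fin 2) F), 0) := by
  let σ : Matrix (Fin 2) (Fin 2) F →ₗ[F] Matrix (Fin 2) (Fin 2) F :=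
    (LinearMap.fst F _ _) ∘ₗ (g : OO F ≃ₗ[F] OO F).toLinearMap ∘ₗ (LinearMap.inl F _ _)
  have hσ : ∀ X, (g : OO F ≃ₗ[F] OO F) (X, 0) = (σ X, 0) := fun X => cent_left h2 g hg X
  have hmul : ∀ X Y, σ (X * Y) = σ X * σ Y := by
    intro X Y
    have h1 := g.2 (X, 0) (Y, 0)
    rw [om_left] at h1
    have h3 : (g : OO F ≃ₗ[F] OO F) (X * Y, 0) = om ((g : OO F ≃ₗ[F] OO F) (X, 0)) ((g : OO F ≃ₗ[F] OO F) (Y, 0)) := h1
    rw [hσ, hσ, hσ, om_left] at h3
    exact congrArg Prod.fst h3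
  have hinj : Function.Injective σ := by
    intro X Y hXY
    have h1 : (g : OO F ≃ₗ[F] OO F) (X, 0) = (g : OO F ≃ₗ[F] OO F) (Y, 0) := by rw [hσ, hσ, hXY]
    exact congrArg Prod.fst ((g : OO F ≃ₗ[F] OO F).injective h1)
  have hsurj : Function.Surjective σ := LinearMap.injective_iff_surjective.1 hinj
  have hone : σ 1 = 1 := by
    obtain ⟨Y, hY⟩ := hsurj 1
    have h1 := hmul 1 Y
    rw [one_mul, hY, mul_one] at h1
    exact h1.symm
  obtain ⟨a, ha⟩ := matrix_inner (AlgEquiv.ofBijective (AlgHom.ofLinearMap σ hone hmul) ⟨hinj, hsurj⟩)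
  refine ⟨a, fun X => ?_⟩
  rw [hσ]
  have h1 : σ X = (a : Matrix (Fin 2) (Fin 2) F) * X * ((a⁻¹ : GL (Fin 2) F) : Matrix (Fin 2) (Fin 2) F) := ha X
  rw [h1]

theorem eq_Phi_of_id (hid : ∀ X, (g : OO F ≃ₗ[F] OO F) (X, 0) = (X, 0)) : ∃ p, Phi F p = g := by
  set B : Matrix (Fin 2) (Fin 2) F := ((g : OO F ≃ₗ[F] OO F) (0, 1)).2 with hB
  have h1 : ∀ W, (g : OO F ≃ₗ[F] OO F) (0, W) = (0, B * W) := by
    intro W
    have h3 : (g : OO F ≃ₗ[F] OO F) (om (W, 0) (0, 1)) = om ((g : OO F ≃ₗ[F] OO F) (W, 0)) ((g : OO F ≃ₗ[F] OO F) (0, 1)) := g.2 _ _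
    rw [om_right, one_mul, hid, cent_right h2 g hg 1, om_right] at h3
    exact h3
  have h4 : adjugate B * B = 1 := by
    have h3 : (g : OO F ≃ₗ[F] OO F) (om (0, 1) (0, 1)) = om ((g : OO F ≃ₗ[F] OO F) (0, 1)) ((g : OO F ≃ₗ[F] OO F) (0, 1)) := g.2 _ _
    rw [om_rr, adjugate_one, one_mul, hid, h1, mul_one, om_rr] at h3
    exact (congrArg Prod.fst h3).symm
  have hdet : B.det = 1 := by
    rw [adjugate_mul] at h4
    have h5 := congrFun (congrFun h4 0) 0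
    rw [Matrix.smul_apply, Matrix.one_apply_eq, smul_eq_mul, mul_one] at h5
    exact h5
  let b : GL (Fin 2) F := ⟨B, adjugate B, by rw [mul_adjugate, hdet, one_smul], h4⟩
  have hb : GeneralLinearGroup.det b = 1 := by
    apply Units.ext
    rw [GeneralLinearGroup.val_det_apply]
    exact hdet
  refine ⟨⟨(1, b), mem_HH.2 (by rw [map_one, hb])⟩, ?_⟩
  apply Subtype.ext
  apply LinearEquiv.ext
  intro u
  rw [Phi_apply, phiL_apply]
  have h6 : u = (u.1, 0) + (0, u.2) := by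
    apply Prod.ext
    · simp
    · simp
  have h7 : (g : OO F ≃ₗ[F] OO F) u = (u.1, B * u.2) := by
    conv_lhs => rw [h6]
    rw [map_add, hid, h1]
    apply Prod.ext
    · simp
    · simp
  rw [h7, inv_one, Units.val_one]
  simp only [Matrix.one_mul, Matrix.mul_one]
  rfl

/-- the centraliser of the standard involution -/
theorem mem_range_Phi : g ∈ (Phi F).range := by
  obtain ⟨a, ha⟩ := exists_inner h2 g hg
  set p : HH F := ⟨(a, a), mem_HH.2 rfl⟩ with hp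
  have h1 : ∀ X, (Phi F p : OO F ≃ₗ[F] OO F) (X, 0) = (g : OO F ≃ₗ[F] OO F) (X, 0) := by
    intro X
    rw [ha, Phi_apply, phiL_apply]
    simp only [Matrix.mul_zero, Matrix.zero_mul]
    rfl
  have h3 : ((Phi F p)⁻¹ * g) * zz F = zz F * ((Phi F p)⁻¹ * g) := by
    have h4 := zz_comm p
    rw [mul_assoc, hg, ← mul_assoc, ← mul_assoc]
    congr 1
    rw [inv_mul_eq_iff_eq_mul, ← mul_assoc, h4, mul_inv_cancel_right]
  have h5 : ∀ X, (((Phi F p)⁻¹ * g : AutO F) : OO F ≃ₗ[F] OO F) (X, 0) = (X, 0) := by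
    intro X
    change (Phi F p : OO F ≃ₗ[F] OO F).symm ((g : OO F ≃ₗ[F] OO F) (X, 0)) = (X, 0)
    rw [← h1, LinearEquiv.symm_apply_apply]
  obtain ⟨q, hq⟩ := eq_Phi_of_id h2 _ h3 h5
  refine ⟨p * q, ?_⟩
  rw [map_mul, hq, mul_inv_cancel_left]

end cent

end Cfsg.Agent.H53.SEA
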