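import Mathlib
import Cfsg.Agent.H53.SEAG2C

set_option autoImplicit false
set_option linter.dupNamespace false
set_option linter.unusedSectionVars false

/-!
# Sylow 2-subgroups of G₂(q) (helper53)
-/

namespace Cfsg.Agent.H53.SEA

open Matrix
open scoped commutatorElement

/-- a subgroup that is Sylow in the centraliser of its unique central involution is Sylow -/
theorem sylow_of_center {G : Type*} [Group G] [Finite G] (P : Subgroup G) (hP : IsPGroup 2 P) (z : G)
    (hnorm : ∀ x ∈ Subgroup.normalizer (P : Set G), x * z = z * x)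
    (hmax : ∀ K : Subgroup G, IsPGroup 2 K → P ≤ K → (∀ x ∈ K, x * z = z * x) → K ≤ P) :
    ∃ R : Sylow 2 G, (R : Subgroup G) = P := by
  obtain ⟨R, hR⟩ := hP.exists_le_sylow
  refine ⟨R, ?_⟩
  by_contra hne
  have hlt : P < (R : Subgroup G) := lt_of_le_of_ne hR (Ne.symm hne)
  have hfin : Finite (R : Subgroup G) := inferInstance
  have hnil : Group.IsNilpotent (R : Subgroup G) := R.isPGroup'.isNilpotent
  have hNC : NormalizerCondition (R : Subgroup G) := Group.normalizerCondition_of_isNilpotent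
  have h1 : P.subgroupOf (R : Subgroup G) < ⊤ := by
    rw [lt_top_iff_ne_top]
    intro h
    rw [Subgroup.subgroupOf_eq_top] at h
    exact hne (le_antisymm h hR)
  have h2 := hNC _ h1
  obtain ⟨x, hx, hxP⟩ := SetLike.exists_of_lt h2
  have hxn : (x : G) ∈ Subgroup.normalizer (P : Set G) := by
    rw [Subgroup.mem_normalizer_iff] at hx ⊢
    intro y
    constructor
    · intro hy
      have := (hx ⟨y, hR hy⟩).1 hy
      exact this
    · intro hy
      have hyR : (x : G) * y * (x : G)⁻¹ ∈ (R : Subgroup G) := hR hy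
      have hyR' : y ∈ (R : Subgroup G) := by
        have := mul_mem (mul_mem (inv_mem x.2) hyR) x.2
        have e : (x : G)⁻¹ * ((x : G) * y * (x : G)⁻¹) * (x : G) = y := by group
        rwa [e] at this
      exact (hx ⟨y, hyR'⟩).2 hy
  have hK := hmax ((R : Subgroup G) ⊓ Subgroup.normalizer (P : Set G)) (R.isPGroup'.to_le inf_le_left)
    (le_inf hR Subgroup.le_normalizer) (fun y hy => hnorm y hy.2)
  exact hxP (hK ⟨x.2, hxn⟩)

variable {F : Type*} [Field F]

/-- the 2-subgroup -/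
def PT (M : Subgroup (GL (Fin 2) F)) : Subgroup (HH F) := (M.prod M).subgroupOf (HH F)

/-- its image -/
def P0 (M : Subgroup (GL (Fin 2) F)) : Subgroup (AutO F) := (PT M).map (Phi F)

theorem mem_P0 {M : Subgroup (GL (Fin 2) F)} {a b : GL (Fin 2) F} (ha : a ∈ M) (hb : b ∈ M)
    (h : GeneralLinearGroup.det a = GeneralLinearGroup.det b) : Phi F ⟨(a, b), mem_HH.2 h⟩ ∈ P0 M :=
  ⟨⟨(a, b), mem_HH.2 h⟩, Subgroup.mem_subgroupOf.2 (Subgroup.mem_prod.2 ⟨ha, hb⟩), rfl⟩

theorem exists_of_mem_P0 {M : Subgroup (GL (Fin 2) F)} {x : AutO F} (hx : x ∈ P0 M) :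
    ∃ a ∈ M, ∃ b ∈ M, ∃ h : GeneralLinearGroup.det a = GeneralLinearGroup.det b, x = Phi F ⟨(a, b), mem_HH.2 h⟩ := by
  obtain ⟨⟨⟨a, b⟩, h⟩, ⟨ha, hb⟩, rfl⟩ := hx
  exact ⟨a, ha, b, hb, mem_HH.1 h, rfl⟩

theorem Phi_eq_one {a b : GL (Fin 2) F} {h : (a, b) ∈ HH F} (h1 : Phi F ⟨(a, b), h⟩ = 1) : a = b ∧
    ∀ X : Matrix (Fin 2) (Fin 2) F, (a : Matrix (Fin 2) (Fin 2) F) * X = X * a := by
  have h2 : ∀ u : OO F, phiL a b u = u := fun u => congrArg (fun g : AutO F => (g : OO F ≃ₗ[F] OO F) u) h1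
  constructor
  · have h3 := congrArg Prod.snd (h2 (0, 1))
    rw [phiL_apply] at h3
    simp only [Matrix.mul_one] at h3
    apply Units.ext
    have h4 := congrArg (fun X : Matrix (Fin 2) (Fin 2) F => X * (a : Matrix (Fin 2) (Fin 2) F)) h3
    simp only [Matrix.mul_assoc, gl_inv_mul, Matrix.mul_one, Matrix.one_mul] at h4
    exact h4.symm
  · intro X
    have h3 := congrArg Prod.fst (h2 (X, 0))
    rw [phiL_apply] at h3
    simp only at h3
    have h4 := congrArg (fun X : Matrix (Fin 2) (Fin 2) F => X * (a : Matrix (Fin 2) (Fin 2) F)) h3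
    simp only [Matrix.mul_assoc, gl_inv_mul, Matrix.mul_one] at h4
    exact h4

theorem zz_ne_one (h2 : (2 : F) ≠ 0) : zz F ≠ 1 := by
  intro h
  have h1 : (zz F : OO F ≃ₗ[F] OO F) (0, 1) = (0, 1) := by rw [h]; rfl
  rw [zz_apply] at h1
  have h3 := congrFun (congrFun (congrArg Prod.snd h1) 0) 0
  simp only [Matrix.neg_apply, Matrix.one_apply_eq] at h3
  apply h2
  linear_combination -h3

theorem finite_AutO [Finite F] : Finite (AutO F) := by
  have : Finite (OO F ≃ₗ[F] OO F) := Finite.of_injective (fun g => (g : OO F → OO F)) (fun a b h => LinearEquiv.ext (congrFun h))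
  infer_instance

section fin

variable [Fintype F] (hF : Odd (Fintype.card F))

theorem card_PT (M : Sylow 2 (GL (Fin 2) F)) : Nat.card (PT (M : Subgroup (GL (Fin 2) F))) = 2 ^ (Nat.card (HH F)).factorization 2 := by
  have h1 : (HH F).subtype.range.Normal := by
    rw [Subgroup.range_subtype, HH]; infer_instance
  have h2 : Nat.card ((M : Subgroup (GL (Fin 2) F)).prod (M : Subgroup (GL (Fin 2) F))) =
      2 ^ (Nat.card (GL (Fin 2) F × GL (Fin 2) F)).factorization 2 := by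
    rw [Nat.card_congr (Subgroup.prodEquiv _ _).toEquiv, Nat.card_prod, card_sylow M, ← pow_add, Nat.card_prod,
      Nat.factorization_mul Nat.card_pos.ne' Nat.card_pos.ne']
    rfl
  exact card_comap_normal (HH F).subtype (HH F).subtype_injective h1 _ h2

theorem isPGroup_P0 (M : Sylow 2 (GL (Fin 2) F)) : IsPGroup 2 (P0 (M : Subgroup (GL (Fin 2) F))) := by
  have h1 : IsPGroup 2 (PT (M : Subgroup (GL (Fin 2) F))) := IsPGroup.of_card (card_PT M)
  exact h1.map _

/-- maximality in the centraliser of the involution -/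
theorem P0_max (h2 : (2 : F) ≠ 0) (M : Sylow 2 (GL (Fin 2) F)) (K : Subgroup (AutO F)) (hK : IsPGroup 2 K)
    (hPK : P0 (M : Subgroup (GL (Fin 2) F)) ≤ K) (hz : ∀ x ∈ K, x * zz F = zz F * x) : K ≤ P0 (M : Subgroup (GL (Fin 2) F)) := by
  have hfin := finite_AutO (F := F)
  have hKr : K ≤ (Phi F).range := fun x hx => mem_range_Phi h2 x (hz x hx)
  have hPr : P0 (M : Subgroup (GL (Fin 2) F)) ≤ (Phi F).range := hPK.trans hKr
  have h1 : (PT (M : Subgroup (GL (Fin 2) F))).index % 2 = 1 := by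
    have h3 := (PT (M : Subgroup (GL (Fin 2) F))).card_mul_index
    have hi0 : (PT (M : Subgroup (GL (Fin 2) F))).index ≠ 0 := Subgroup.index_ne_zero_of_finite
    have h4 : (Nat.card (HH F)).factorization 2 = (Nat.card (HH F)).factorization 2 + (PT (M : Subgroup (GL (Fin 2) F))).index.factorization 2 := by
      conv_lhs => rw [← h3, card_PT M, Nat.factorization_mul (by positivity) hi0, Nat.Prime.factorization_pow Nat.prime_two]
      simp
    by_contra hne
    have h5 : 2 ∣ (PT (M : Subgroup (GL (Fin 2) F))).index := by omega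
    have h6 := (Nat.prime_two.dvd_iff_one_le_factorization hi0).1 h5
    omega
  have h3 : ((PT (M : Subgroup (GL (Fin 2) F))).map (Phi F).rangeRestrict).index ∣ (PT (M : Subgroup (GL (Fin 2) F))).index :=
    Subgroup.index_map_dvd _ (Phi F).rangeRestrict_surjective
  have h4 : ((PT (M : Subgroup (GL (Fin 2) F))).map (Phi F).rangeRestrict) = (P0 (M : Subgroup (GL (Fin 2) F))).subgroupOf (Phi F).range := by
    ext ⟨x, hx⟩
    rw [Subgroup.mem_subgroupOf]
    constructor
    · rintro ⟨y, hy, h⟩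
      exact ⟨y, hy, congrArg Subtype.val h⟩
    · rintro ⟨y, hy, h⟩
      exact ⟨y, hy, Subtype.ext h⟩
  rw [h4] at h3
  have h5 : (P0 (M : Subgroup (GL (Fin 2) F))).relIndex K ∣ (PT (M : Subgroup (GL (Fin 2) F))).index := by
    refine dvd_trans ?_ h3
    exact Dvd.intro _ (Subgroup.relIndex_mul_relIndex _ _ _ hPK hKr)
  have h6 : ∃ n, (P0 (M : Subgroup (GL (Fin 2) F))).relIndex K = 2 ^ n := by
    have h7 : (P0 (M : Subgroup (GL (Fin 2) F))).relIndex K ∣ Nat.card K := Subgroup.relIndex_dvd_card _ _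
    obtain ⟨k, hk⟩ := IsPGroup.iff_card.1 hK
    rw [hk] at h7
    obtain ⟨n, _, hn⟩ := (Nat.dvd_prime_pow Nat.prime_two).1 h7
    exact ⟨n, hn⟩
  obtain ⟨n, hn⟩ := h6
  rw [← Subgroup.relIndex_eq_one, hn]
  rcases n with _ | n
  · rfl
  · exfalso
    rw [hn] at h5
    have h8 : 2 ∣ (PT (M : Subgroup (GL (Fin 2) F))).index := (Dvd.intro_left (2 ^ n) (by rw [pow_succ])).trans h5
    omega

/-- the standard elements of order 4 -/
def uu (F : Type*) [Field F] : SpecialLinearGroup (Fin 2) F := ⟨!![0, -1; 1, 0], by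
    rw [Matrix.det_fin_two_of]; ring⟩

/-- the second element of order 4 -/
def wv {c d : F} (hcd : c ^ 2 + d ^ 2 = -1) : SpecialLinearGroup (Fin 2) F := ⟨!![c, d; d, -c], by
    rw [Matrix.det_fin_two_of]; linear_combination -hcd⟩

theorem uu_sq : uu F ^ 2 = -1 := by
  apply Subtype.ext
  rw [sq]
  change !![(0 : F), -1; 1, 0] * !![(0 : F), -1; 1, 0] = ((-1 : SpecialLinearGroup (Fin 2) F) : Matrix (Fin 2) (Fin 2) F)
  rw [Matrix.SpecialLinearGroup.coe_neg, Matrix.SpecialLinearGroup.coe_one, Matrix.mul_fin_two, Matrix.one_fin_two]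
  ext i j
  fin_cases i <;> fin_cases j <;> simp

theorem wv_sq {c d : F} (hcd : c ^ 2 + d ^ 2 = -1) : (wv hcd) ^ 2 = -1 := by
  apply Subtype.ext
  rw [sq]
  change !![c, d; d, -c] * !![c, d; d, -c] = ((-1 : SpecialLinearGroup (Fin 2) F) : Matrix (Fin 2) (Fin 2) F)
  rw [Matrix.SpecialLinearGroup.coe_neg, Matrix.SpecialLinearGroup.coe_one, Matrix.mul_fin_two, Matrix.one_fin_two]
  ext i j
  fin_cases i <;> fin_cases j <;> simp <;> first | linear_combination hcd | ring

theorem wv_inv {c d : F} (hcd : c ^ 2 + d ^ 2 = -1) : wv hcd * uu F * (wv hcd)⁻¹ = (uu F)⁻¹ := by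
  rw [mul_inv_eq_iff_eq_mul]
  apply Subtype.ext
  rw [Matrix.SpecialLinearGroup.coe_mul, Matrix.SpecialLinearGroup.coe_mul, Matrix.SpecialLinearGroup.coe_inv]
  change !![c, d; d, -c] * !![(0 : F), -1; 1, 0] = adjugate !![(0 : F), -1; 1, 0] * !![c, d; d, -c]
  rw [adjugate_fin_two_of, Matrix.mul_fin_two, Matrix.mul_fin_two]
  ext i j
  fin_cases i <;> fin_cases j <;> simp

theorem uu_mem_tor : uu F ∈ tor F := by
  rw [mem_tor]
  exact ⟨rfl, by change (-1 : F) = -1; rfl⟩

theorem wv_not_mem_tor (h2 : (2 : F) ≠ 0) {c d : F} (hcd : c ^ 2 + d ^ 2 = -1) : wv hcd ∉ tor F := by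
  rintro ⟨h3, h4⟩
  have h3' : c = -c := h3
  have h4' : d = -d := h4
  have h5 : c = 0 := by
    have : (2 : F) * c = 0 := by linear_combination h3'
    exact (mul_eq_zero.1 this).resolve_left h2
  have h6 : d = 0 := by
    have : (2 : F) * d = 0 := by linear_combination h4'
    exact (mul_eq_zero.1 this).resolve_left h2
  rw [h5, h6] at hcd
  have : (1 : F) = 0 := by linear_combination hcd
  exact one_ne_zero this

theorem exists_sylow_uw (h2 : (2 : F) ≠ 0) {c d : F} (hcd : c ^ 2 + d ^ 2 = -1) :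
    ∃ Q : Sylow 2 (SpecialLinearGroup (Fin 2) F), uu F ∈ (Q : Subgroup (SpecialLinearGroup (Fin 2) F)) ∧
      wv hcd ∈ (Q : Subgroup (SpecialLinearGroup (Fin 2) F)) := by
  have hinv : ∀ t ∈ Subgroup.zpowers (uu F), wv hcd * t * (wv hcd)⁻¹ = t⁻¹ := by
    rintro _ ⟨n, rfl⟩
    have h1 : wv hcd * (uu F) ^ n * (wv hcd)⁻¹ = (wv hcd * uu F * (wv hcd)⁻¹) ^ n := by
      rw [conj_zpow]
    change wv hcd * (uu F) ^ n * (wv hcd)⁻¹ = ((uu F) ^ n)⁻¹
    rw [h1, wv_inv, _root_.inv_zpow]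
  have hsq : (wv hcd) ^ 2 ∈ Subgroup.zpowers (uu F) := by
    rw [wv_sq, ← uu_sq]; exact Subgroup.npow_mem_zpowers _ _
  have hnot : wv hcd ∉ Subgroup.zpowers (uu F) := fun h =>
    wv_not_mem_tor h2 hcd (Subgroup.zpowers_le.2 uu_mem_tor h)
  have hc := card_dsub (Subgroup.zpowers (uu F)) (wv hcd) hinv hsq hnot
  have h4 : orderOf (uu F) ∣ 2 ^ 2 := by
    rw [orderOf_dvd_iff_pow_eq_one]
    have : (uu F) ^ (2 ^ 2) = ((uu F) ^ 2) ^ 2 := by rw [← pow_mul]; norm_num
    rw [this, uu_sq, sq, neg_mul_neg, one_mul]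
  obtain ⟨k, _, hk⟩ := (Nat.dvd_prime_pow Nat.prime_two).1 h4
  have hP : IsPGroup 2 (dsub (Subgroup.zpowers (uu F)) (wv hcd) hinv hsq) := by
    refine IsPGroup.of_card (n := k + 1) ?_
    rw [hc, Nat.card_zpowers, hk, pow_succ, mul_comm]
  obtain ⟨Q, hQ⟩ := hP.exists_le_sylow
  refine ⟨Q, hQ (Or.inl (Subgroup.mem_zpowers _)), hQ (Or.inr ?_)⟩
  rw [← sq]; exact hsq

theorem scalar_of_comm (h2 : (2 : F) ≠ 0) {c d : F} (hcd : c ^ 2 + d ^ 2 = -1) (A : Matrix (Fin 2) (Fin 2) F)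
    (hu : A * (uu F : Matrix (Fin 2) (Fin 2) F) = (uu F : Matrix (Fin 2) (Fin 2) F) * A)
    (hw : A * (wv hcd : Matrix (Fin 2) (Fin 2) F) = (wv hcd : Matrix (Fin 2) (Fin 2) F) * A) :
    A = A 0 0 • (1 : Matrix (Fin 2) (Fin 2) F) := by
  have eu : (uu F : Matrix (Fin 2) (Fin 2) F) = !![0, -1; 1, 0] := rfl
  have ew : (wv hcd : Matrix (Fin 2) (Fin 2) F) = !![c, d; d, -c] := rfl
  rw [eu, Matrix.eta_fin_two A, Matrix.mul_fin_two, Matrix.mul_fin_two] at hu
  rw [ew, Matrix.eta_fin_two A, Matrix.mul_fin_two, Matrix.mul_fin_two] at hw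
  have u00 := congrFun (congrFun hu 0) 0
  have u01 := congrFun (congrFun hu 0) 1
  have w00 := congrFun (congrFun hw 0) 0
  have w01 := congrFun (congrFun hw 0) 1
  simp at u00 u01 w00 w01
  have h11 : A 1 1 = A 0 0 := by linear_combination -u01
  have h01 : A 0 1 = - A 1 0 := by linear_combination u00
  have h10 : A 1 0 = 0 := by
    have e1 : (2 : F) * (A 1 0 * d) = 0 := by
      linear_combination -w00 + d * h01
    have e2 : (2 : F) * (A 1 0 * c) = 0 := by
      linear_combination w01 + d * h11 + 2 * c * h01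
    have e1' := (mul_eq_zero.1 e1).resolve_left h2
    have e2' := (mul_eq_zero.1 e2).resolve_left h2
    have : A 1 0 * (c ^ 2 + d ^ 2) = 0 := by linear_combination c * e2' + d * e1'
    rw [hcd] at this
    linear_combination -this
  ext i j
  fin_cases i <;> fin_cases j
  · simp
  · simp [h01, h10]
  · simp [h10]
  · simp [h11]

end fin

end Cfsg.Agent.H53.SEA
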