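import Mathlib
import Cfsg.Agent.H53.SEAG2S

set_option autoImplicit false
set_option linter.dupNamespace false
set_option linter.unusedSectionVars false

/-!
# Sylow 2-subgroups of G₂(q): conclusion (helper53)
-/

namespace Cfsg.Agent.H53.SEA

open Matrix
open scoped commutatorElement

variable {F : Type*} [Field F] [Fintype F] (hF : Odd (Fintype.card F))

include hF in
/-- an element commuting with the determinant one part of a Sylow subgroup is scalar -/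
theorem scalar_of_comm_sylow (M : Sylow 2 (GL (Fin 2) F)) (a : GL (Fin 2) F)
    (h : ∀ c ∈ (M : Subgroup (GL (Fin 2) F)), GeneralLinearGroup.det c = 1 → a * c = c * a) :
    ∃ t : F, (a : Matrix (Fin 2) (Fin 2) F) = t • 1 := by
  have h2 := two_ne_zero_of_odd hF
  obtain ⟨c, d, hcd⟩ := exists_sq_add_sq_neg_one F
  obtain ⟨Q₀, hu, hw⟩ := exists_sylow_uw h2 hcd
  set f := (Matrix.SpecialLinearGroup.toGL : SpecialLinearGroup (Fin 2) F →* GL (Fin 2) F) with hf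
  have h1 := card_comap_normal f Matrix.SpecialLinearGroup.toGL_injective (toGL_range_normal F) (M : Subgroup (GL (Fin 2) F)) (card_sylow M)
  let Q : Sylow 2 (SpecialLinearGroup (Fin 2) F) := Sylow.ofCard _ h1
  have hQ : (Q : Subgroup (SpecialLinearGroup (Fin 2) F)) = (M : Subgroup (GL (Fin 2) F)).comap f := Sylow.coe_ofCard _ h1
  obtain ⟨g, hg⟩ := MulAction.exists_smul_eq (SpecialLinearGroup (Fin 2) F) Q₀ Q
  have key : ∀ x ∈ (Q₀ : Subgroup (SpecialLinearGroup (Fin 2) F)), (f g)⁻¹ * a * f g * f x = f x * ((f g)⁻¹ * a * f g) := by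
    intro x hx
    have h3 : g * x * g⁻¹ ∈ (Q : Subgroup (SpecialLinearGroup (Fin 2) F)) := by
      rw [← hg, Sylow.coe_subgroup_smul]
      exact ⟨x, hx, rfl⟩
    rw [hQ] at h3
    have h4 := h (f (g * x * g⁻¹)) h3 (by
      apply Units.ext
      rw [GeneralLinearGroup.val_det_apply]
      exact (g * x * g⁻¹).2)
    rw [map_mul, map_mul, map_inv] at h4
    have h5 : (f g)⁻¹ * (a * (f g * f x * (f g)⁻¹)) * f g = (f g)⁻¹ * (f g * f x * (f g)⁻¹ * a) * f g := by rw [h4]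
    calc (f g)⁻¹ * a * f g * f x = (f g)⁻¹ * (a * (f g * f x * (f g)⁻¹)) * f g := by group
      _ = (f g)⁻¹ * (f g * f x * (f g)⁻¹ * a) * f g := h5
      _ = f x * ((f g)⁻¹ * a * f g) := by group
  have h6 := scalar_of_comm h2 hcd (((f g)⁻¹ * a * f g : GL (Fin 2) F) : Matrix (Fin 2) (Fin 2) F)
    (congrArg Units.val (key _ hu)) (congrArg Units.val (key _ hw))
  set t := (((f g)⁻¹ * a * f g : GL (Fin 2) F) : Matrix (Fin 2) (Fin 2) F) 0 0 with ht
  refine ⟨t, ?_⟩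
  have h7 : (a : Matrix (Fin 2) (Fin 2) F) = (f g : Matrix (Fin 2) (Fin 2) F) *
      (((f g)⁻¹ * a * f g : GL (Fin 2) F) : Matrix (Fin 2) (Fin 2) F) * (((f g)⁻¹ : GL (Fin 2) F) : Matrix (Fin 2) (Fin 2) F) := by
    rw [← Units.val_mul, ← Units.val_mul]
    congr 1
    group
  rw [h7, h6, Matrix.mul_smul, Matrix.smul_mul, Matrix.mul_one, gl_mul_inv]

theorem Phi_mul (p q : HH F) : Phi F p * Phi F q = Phi F (p * q) := (map_mul _ _ _).symm

theorem sc_aux1 {a : GL (Fin 2) F} {t : F} (hai : t • ((a⁻¹ : GL (Fin 2) F) : Matrix (Fin 2) (Fin 2) F) = 1)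
    (x : Matrix (Fin 2) (Fin 2) F) :
    (t • (1 : Matrix (Fin 2) (Fin 2) F)) * x * ((a⁻¹ : GL (Fin 2) F) : Matrix (Fin 2) (Fin 2) F) = x := by
  rw [Matrix.smul_mul, Matrix.one_mul, Matrix.smul_mul, ← Matrix.mul_smul, hai, Matrix.mul_one]

theorem sc_aux2 {a : GL (Fin 2) F} {t : F} (hai : t • ((a⁻¹ : GL (Fin 2) F) : Matrix (Fin 2) (Fin 2) F) = 1)
    (x : Matrix (Fin 2) (Fin 2) F) :
    ((-t) • (1 : Matrix (Fin 2) (Fin 2) F)) * x * ((a⁻¹ : GL (Fin 2) F) : Matrix (Fin 2) (Fin 2) F) = -x := by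
  rw [neg_smul, Matrix.neg_mul, Matrix.neg_mul, sc_aux1 hai]

include hF in
/-- the centre of `P₀` -/
theorem center_P0 (M : Sylow 2 (GL (Fin 2) F)) (y : AutO F) (hy : y ∈ P0 (M : Subgroup (GL (Fin 2) F)))
    (hc : ∀ x ∈ P0 (M : Subgroup (GL (Fin 2) F)), y * x = x * y) : y = 1 ∨ y = zz F := by
  obtain ⟨a, ha, b, hb, hab, rfl⟩ := exists_of_mem_P0 hy
  have h1 : ∀ c ∈ (M : Subgroup (GL (Fin 2) F)), GeneralLinearGroup.det c = 1 → a * c = c * a := by
    intro c hcM hcd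
    have h3 := hc _ (mem_P0 hcM (one_mem (M : Subgroup (GL (Fin 2) F))) (by rw [hcd, map_one]))
    have h4 : Phi F ⟨(a * c * a⁻¹ * c⁻¹, 1), mem_HH.2 (by simp [hcd])⟩ = 1 := by
      have h5 : (⟨(a * c * a⁻¹ * c⁻¹, 1), mem_HH.2 (by simp [hcd])⟩ : HH F) =
          ⟨(a, b), mem_HH.2 hab⟩ * ⟨(c, 1), mem_HH.2 (by rw [hcd, map_one])⟩ * (⟨(c, 1), mem_HH.2 (by rw [hcd, map_one])⟩ * ⟨(a, b), mem_HH.2 hab⟩)⁻¹ := by
        apply Subtype.ext
        change (a * c * a⁻¹ * c⁻¹, 1) = (a * c * (c * a)⁻¹, b * 1 * (1 * b)⁻¹)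
        rw [_root_.mul_inv_rev, one_mul, mul_one, mul_inv_cancel, mul_assoc (a * c)]
      rw [h5, map_mul, map_inv, map_mul, map_mul, h3, mul_inv_cancel]
    have h6 := (Phi_eq_one h4).1
    rw [mul_inv_eq_one, mul_inv_eq_iff_eq_mul] at h6
    exact h6
  have h1' : ∀ c ∈ (M : Subgroup (GL (Fin 2) F)), GeneralLinearGroup.det c = 1 → b * c = c * b := by
    intro c hcM hcd
    have h3 := hc _ (mem_P0 (one_mem (M : Subgroup (GL (Fin 2) F))) hcM (by rw [hcd, map_one]))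
    have h4 : Phi F ⟨(1, b * c * b⁻¹ * c⁻¹), mem_HH.2 (by simp [hcd])⟩ = 1 := by
      have h5 : (⟨(1, b * c * b⁻¹ * c⁻¹), mem_HH.2 (by simp [hcd])⟩ : HH F) =
          ⟨(a, b), mem_HH.2 hab⟩ * ⟨(1, c), mem_HH.2 (by rw [hcd, map_one])⟩ * (⟨(1, c), mem_HH.2 (by rw [hcd, map_one])⟩ * ⟨(a, b), mem_HH.2 hab⟩)⁻¹ := by
        apply Subtype.ext
        change (1, b * c * b⁻¹ * c⁻¹) = (a * 1 * (1 * a)⁻¹, b * c * (c * b)⁻¹)
        rw [one_mul, mul_one, mul_inv_cancel, _root_.mul_inv_rev, mul_assoc (b * c)]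
      rw [h5, map_mul, map_inv, map_mul, map_mul, h3, mul_inv_cancel]
    have h6 := (Phi_eq_one h4).1.symm
    rw [mul_inv_eq_one, mul_inv_eq_iff_eq_mul] at h6
    exact h6
  obtain ⟨s, hs⟩ := scalar_of_comm_sylow hF M a h1
  obtain ⟨t, ht⟩ := scalar_of_comm_sylow hF M b h1'
  have hdet : s * s = t * t := by
    have h3 := congrArg Units.val hab
    rw [GeneralLinearGroup.val_det_apply, GeneralLinearGroup.val_det_apply, hs, ht, det_smul, det_smul, det_one] at h3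
    simpa [sq] using h3
  have hai : (a : Matrix (Fin 2) (Fin 2) F) * ((a⁻¹ : GL (Fin 2) F) : Matrix (Fin 2) (Fin 2) F) = 1 := gl_mul_inv a
  rw [hs, Matrix.smul_mul, Matrix.one_mul] at hai
  rcases mul_self_eq_mul_self_iff.1 hdet.symm with h | h
  · left
    apply Subtype.ext
    apply LinearEquiv.ext
    intro u
    change phiL a b u = u
    rw [phiL_apply, ht, hs, h, sc_aux1 hai, sc_aux1 hai]
  · right
    apply Subtype.ext
    apply LinearEquiv.ext
    intro u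
    change phiL a b u = (zz F : OO F ≃ₗ[F] OO F) u
    rw [zz_apply, phiL_apply, ht, hs, h, sc_aux1 hai, sc_aux2 hai]

theorem ng_comm (a : GL (Fin 2) F) : ng F * a = a * ng F := by
  apply Units.ext
  rw [Units.val_mul, Units.val_mul, ng_val, neg_mul, mul_neg, one_mul, mul_one]

theorem ng_sq : ng F ^ 2 = 1 := by
  apply Units.ext
  rw [Units.val_pow_eq_pow_val, ng_val, Units.val_one, sq, neg_mul_neg, one_mul]

theorem ng_mem (M : Sylow 2 (GL (Fin 2) F)) : ng F ∈ (M : Subgroup (GL (Fin 2) F)) := by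
  have hn : (Subgroup.zpowers (ng F)).Normal := by
    refine ⟨?_⟩
    rintro _ ⟨n, rfl⟩ g
    have hc : Commute (ng F) g := ng_comm g
    have : g * (ng F) ^ n * g⁻¹ = (ng F) ^ n := by
      rw [← (hc.zpow_left n).eq, mul_inv_cancel_right]
    change g * (ng F) ^ n * g⁻¹ ∈ _
    rw [this]
    exact ⟨n, rfl⟩
  have hp : IsPGroup 2 (Subgroup.zpowers (ng F)) := by
    rintro ⟨_, n, rfl⟩
    refine ⟨1, ?_⟩
    apply Subtype.ext
    change ((ng F) ^ n) ^ (2 ^ 1) = 1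
    rw [← zpow_natCast, ← _root_.zpow_mul, mul_comm, _root_.zpow_mul, zpow_natCast, pow_one, ng_sq, _root_.one_zpow]
  exact hp.le_sylow_of_normal M (Subgroup.mem_zpowers _)

theorem zz_mem_P0 (M : Sylow 2 (GL (Fin 2) F)) : zz F ∈ P0 (M : Subgroup (GL (Fin 2) F)) :=
  mem_P0 (one_mem _) (ng_mem M) (by rw [det_ng, map_one])

theorem zz_comm_P0 (M : Sylow 2 (GL (Fin 2) F)) (x : AutO F) (hx : x ∈ P0 (M : Subgroup (GL (Fin 2) F))) :
    x * zz F = zz F * x := by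
  obtain ⟨p, _, rfl⟩ := hx
  exact zz_comm p

include hF in
theorem exists_sylow_eq_P0 (M : Sylow 2 (GL (Fin 2) F)) : ∃ R : Sylow 2 (AutO F), (R : Subgroup (AutO F)) = P0 (M : Subgroup (GL (Fin 2) F)) := by
  have hfin := finite_AutO (F := F)
  have h2 := two_ne_zero_of_odd hF
  refine sylow_of_center _ (isPGroup_P0 M) (zz F) ?_ (fun K hK hPK hz => P0_max h2 M K hK hPK hz)
  intro x hx
  rw [Subgroup.mem_normalizer_iff] at hx
  have h1 : x * zz F * x⁻¹ ∈ P0 (M : Subgroup (GL (Fin 2) F)) := (hx _).1 (zz_mem_P0 M)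
  have h3 : ∀ y ∈ P0 (M : Subgroup (GL (Fin 2) F)), x * zz F * x⁻¹ * y = y * (x * zz F * x⁻¹) := by
    intro y hy
    have h4 : x⁻¹ * y * x ∈ P0 (M : Subgroup (GL (Fin 2) F)) := by
      rw [hx]
      have : x * (x⁻¹ * y * x) * x⁻¹ = y := by group
      rwa [this]
    have h5 := zz_comm_P0 M _ h4
    calc x * zz F * x⁻¹ * y = x * (zz F * (x⁻¹ * y * x)) * x⁻¹ := by group
      _ = x * ((x⁻¹ * y * x) * zz F) * x⁻¹ := by rw [h5]
      _ = y * (x * zz F * x⁻¹) := by group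
  rcases center_P0 hF M _ h1 h3 with h | h
  · exfalso
    rw [mul_inv_eq_one, mul_eq_left] at h
    exact zz_ne_one h2 h
  · rwa [mul_inv_eq_iff_eq_mul] at h

/-- the embedding of the determinant one part in the first factor -/
theorem first_sq_mem (M : Sylow 2 (GL (Fin 2) F)) {c : GL (Fin 2) F} (hc : c ∈ (M : Subgroup (GL (Fin 2) F)))
    (hF : Odd (Fintype.card F)) (hd : GeneralLinearGroup.det c = 1) :
    (Phi F ⟨(c, 1), mem_HH.2 (by rw [hd, map_one])⟩) ^ 2 ∈ ⁅P0 (M : Subgroup (GL (Fin 2) F)), P0 (M : Subgroup (GL (Fin 2) F))⁆ ∧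
    (Phi F ⟨(1, c), mem_HH.2 (by rw [hd, map_one])⟩) ^ 2 ∈ ⁅P0 (M : Subgroup (GL (Fin 2) F)), P0 (M : Subgroup (GL (Fin 2) F))⁆ := by
  set Q : Subgroup (GL (Fin 2) F) := (M : Subgroup (GL (Fin 2) F)) ⊓ (GeneralLinearGroup.det : GL (Fin 2) F →* Fˣ).ker with hQ
  have h1 := sq_mem_of_det_one hF M c hc (by rw [← GeneralLinearGroup.val_det_apply, hd, Units.val_one])
  rw [← hQ, ← Subgroup.map_subtype_commutator] at h1
  obtain ⟨y, hy, hyc⟩ := h1
  let φ₁ : Q →* AutO F := (Phi F).comp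
    { toFun := fun x => ⟨(x.1, 1), mem_HH.2 (by rw [map_one]; exact x.2.2)⟩
      map_one' := rfl
      map_mul' := fun x y => Subtype.ext (Prod.ext rfl (mul_one 1).symm) }
  let φ₂ : Q →* AutO F := (Phi F).comp
    { toFun := fun x => ⟨(1, x.1), mem_HH.2 (by rw [map_one]; exact x.2.2.symm)⟩
      map_one' := rfl
      map_mul' := fun x y => Subtype.ext (Prod.ext (mul_one 1).symm rfl) }
  have hr1 : φ₁.range ≤ P0 (M : Subgroup (GL (Fin 2) F)) := by
    rintro _ ⟨x, rfl⟩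
    exact mem_P0 x.2.1 (one_mem _) (by rw [map_one]; exact x.2.2)
  have hr2 : φ₂.range ≤ P0 (M : Subgroup (GL (Fin 2) F)) := by
    rintro _ ⟨x, rfl⟩
    exact mem_P0 (one_mem _) x.2.1 (by rw [map_one]; exact x.2.2.symm)
  have hyc' : y = (⟨c, hc, hd⟩ : Q) ^ 2 := Subtype.ext hyc
  have m1 : φ₁ y ∈ (commutator Q).map φ₁ := ⟨y, hy, rfl⟩
  have m2 : φ₂ y ∈ (commutator Q).map φ₂ := ⟨y, hy, rfl⟩
  rw [commutator, Subgroup.map_commutator, ← MonoidHom.range_eq_map] at m1 m2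
  rw [hyc', map_pow] at m1 m2
  exact ⟨Subgroup.commutator_mono hr1 hr1 m1, Subgroup.commutator_mono hr2 hr2 m2⟩

/-- the criterion for `P₀` -/
theorem ea_P0 (hF : Odd (Fintype.card F)) (M : Sylow 2 (GL (Fin 2) F)) (d : GL (Fin 2) F) (hd : d ∈ (M : Subgroup (GL (Fin 2) F)))
    (hgen : ∀ a ∈ (M : Subgroup (GL (Fin 2) F)), ∃ k : ℤ, GeneralLinearGroup.det a = GeneralLinearGroup.det d ^ k)
    (hsq : (Phi F ⟨(d, d), mem_HH.2 rfl⟩) ^ 2 ∈ ⁅P0 (M : Subgroup (GL (Fin 2) F)), P0 (M : Subgroup (GL (Fin 2) F))⁆) :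
    EA (P0 (M : Subgroup (GL (Fin 2) F))) := by
  refine ea_of_closure' _ ({x | ∃ c ∈ (M : Subgroup (GL (Fin 2) F)), ∃ h : GeneralLinearGroup.det c = 1,
      x = Phi F ⟨(c, 1), mem_HH.2 (by rw [h, map_one])⟩ ∨ x = Phi F ⟨(1, c), mem_HH.2 (by rw [h, map_one])⟩} ∪
      {Phi F ⟨(d, d), mem_HH.2 rfl⟩}) ?_ ?_
  · set X : Set (AutO F) := ({x | ∃ c ∈ (M : Subgroup (GL (Fin 2) F)), ∃ h : GeneralLinearGroup.det c = 1,
      x = Phi F ⟨(c, 1), mem_HH.2 (by rw [h, map_one])⟩ ∨ x = Phi F ⟨(1, c), mem_HH.2 (by rw [h, map_one])⟩} ∪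
      {Phi F ⟨(d, d), mem_HH.2 rfl⟩}) with hX
    apply le_antisymm
    · rw [Subgroup.closure_le]
      rintro x (⟨c, hc, h, rfl | rfl⟩ | hx)
      · exact mem_P0 hc (one_mem (M : Subgroup (GL (Fin 2) F))) (by rw [h, map_one])
      · exact mem_P0 (one_mem (M : Subgroup (GL (Fin 2) F))) hc (by rw [h, map_one])
      · rw [Set.mem_singleton_iff.1 hx]; exact mem_P0 hd hd rfl
    · intro x hx
      obtain ⟨a, ha, b, hb, hab, rfl⟩ := exists_of_mem_P0 hx
      obtain ⟨k, hk⟩ := hgen a ha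
      have h1 : GeneralLinearGroup.det (a * (d ^ k)⁻¹) = 1 := by
        rw [map_mul, map_inv, map_zpow, hk, mul_inv_cancel]
      have h2 : GeneralLinearGroup.det (b * (d ^ k)⁻¹) = 1 := by
        rw [map_mul, map_inv, map_zpow, ← hab, hk, mul_inv_cancel]
      have e : (⟨(a, b), mem_HH.2 hab⟩ : HH F) = ⟨(a * (d ^ k)⁻¹, 1), mem_HH.2 (by rw [h1, map_one])⟩ *
          ⟨(1, b * (d ^ k)⁻¹), mem_HH.2 (by rw [h2, map_one])⟩ * (⟨(d, d), mem_HH.2 rfl⟩ : HH F) ^ k := by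
        apply Subtype.ext
        change (a, b) = (a * (d ^ k)⁻¹ * 1 * d ^ k, 1 * (b * (d ^ k)⁻¹) * d ^ k)
        rw [mul_one, one_mul, inv_mul_cancel_right, inv_mul_cancel_right]
      rw [e, map_mul, map_mul, map_zpow]
      have hdd : Phi F ⟨(d, d), mem_HH.2 rfl⟩ ∈ Subgroup.closure X := Subgroup.subset_closure (Or.inr rfl)
      refine mul_mem (mul_mem (Subgroup.subset_closure ?_) (Subgroup.subset_closure ?_)) (zpow_mem hdd k)
      · exact Or.inl ⟨_, mul_mem ha (inv_mem (zpow_mem hd k)), h1, Or.inl rfl⟩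
      · exact Or.inl ⟨_, mul_mem hb (inv_mem (zpow_mem hd k)), h2, Or.inr rfl⟩
  · rintro x (⟨c, hc, h, rfl | rfl⟩ | hx)
    · exact (first_sq_mem M hc hF h).1
    · exact (first_sq_mem M hc hF h).2
    · rw [Set.mem_singleton_iff.1 hx]; exact hsq

theorem Phi_scalar {a : GL (Fin 2) F} {t : F} (ha : (a : Matrix (Fin 2) (Fin 2) F) = t • 1) :
    Phi F ⟨(a, a), mem_HH.2 rfl⟩ = 1 := by
  have hai : (a : Matrix (Fin 2) (Fin 2) F) * ((a⁻¹ : GL (Fin 2) F) : Matrix (Fin 2) (Fin 2) F) = 1 := gl_mul_inv a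
  rw [ha, Matrix.smul_mul, Matrix.one_mul] at hai
  apply Subtype.ext
  apply LinearEquiv.ext
  intro u
  change phiL a a u = u
  rw [phiL_apply, ha, sc_aux1 hai, sc_aux1 hai]

include hF in
theorem sea_AutO : SEA (AutO F) := by
  have hfin := finite_AutO (F := F)
  have hq1 : 1 < Fintype.card F := Fintype.one_lt_card
  have hF' := hF
  rw [Nat.odd_iff] at hF'
  by_cases hq : 4 ∣ Fintype.card F + 1
  · obtain ⟨M, hM⟩ := exists_sylow_rfl2 (F := F)
    obtain ⟨R, hR⟩ := exists_sylow_eq_P0 hF M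
    refine SEA.of_sylow R ?_
    rw [hR]
    refine ea_P0 hF M (rfl2 F) hM ?_ ?_
    · intro a ha
      rcases det_sylow' hq M M.isPGroup' a ha with h | h
      · exact ⟨0, by rw [h, zpow_zero]⟩
      · exact ⟨1, by rw [h, zpow_one, det_rfl2']⟩
    · have : (⟨(rfl2 F, rfl2 F), mem_HH.2 rfl⟩ : HH F) ^ 2 = 1 := by
        apply Subtype.ext
        change (rfl2 F ^ 2, rfl2 F ^ 2) = 1
        rw [rfl2_sq]; rfl
      rw [← map_pow, this, map_one]
      exact one_mem _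
  · have hq' : 4 ∣ Fintype.card F - 1 := by omega
    obtain ⟨μ⟩ := (inferInstance : Nonempty (Sylow 2 Fˣ))
    have hcyc : IsCyclic (μ : Subgroup Fˣ) := inferInstance
    obtain ⟨ζ, hζ⟩ := hcyc.exists_generator
    have hcard : Nat.card (mono (μ : Subgroup Fˣ) (⊤ : Subgroup (Equiv.Perm (Fin 2))) : Subgroup (GL (Fin 2) F)) =
        2 ^ (Nat.card (GL (Fin 2) F)).factorization 2 := by
      rw [card_mono, card_sylow μ, fac_card_GL_one_mod hF hq', Nat.card_units, Nat.card_eq_fintype_card (α := F),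
        Nat.card_congr (Subgroup.topEquiv (G := Equiv.Perm (Fin 2))).toEquiv, Nat.card_perm]
      simp only [Nat.card_eq_fintype_card, Fintype.card_fin, Nat.factorial_two]
      rw [Nat.prime_two.factorization, Finsupp.single_eq_same, pow_add, ← pow_mul, pow_one, mul_comm 2 ((Fintype.card F - 1).factorization 2)]
    let M : Sylow 2 (GL (Fin 2) F) := Sylow.ofCard _ hcard
    have hM : (M : Subgroup (GL (Fin 2) F)) = mono (μ : Subgroup Fˣ) (⊤ : Subgroup (Equiv.Perm (Fin 2))) := Sylow.coe_ofCard _ hcard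
    obtain ⟨R, hR⟩ := exists_sylow_eq_P0 hF M
    refine SEA.of_sylow R ?_
    rw [hR]
    have hneg : (-1 : Fˣ) ∈ (μ : Subgroup Fˣ) := by
      have h1 : IsPGroup 2 (Subgroup.zpowers (-1 : Fˣ)) := by
        rintro ⟨_, n, rfl⟩
        refine ⟨1, ?_⟩
        apply Subtype.ext
        change ((-1 : Fˣ) ^ n) ^ (2 ^ 1) = 1
        rw [← zpow_natCast, ← _root_.zpow_mul, mul_comm, _root_.zpow_mul, zpow_natCast, pow_one, neg_one_sq, _root_.one_zpow]
      exact h1.le_sylow_of_normal μ (Subgroup.mem_zpowers _)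
    set D : GL (Fin 2) F := dg (Pi.mulSingle 0 (ζ : Fˣ)) with hD
    have hDM : D ∈ (M : Subgroup (GL (Fin 2) F)) := by
      rw [hM]
      have := dg_pmU_mem (F := F) (μ := (μ : Subgroup Fˣ)) (d := Pi.mulSingle 0 (ζ : Fˣ)) (mulSingle_mem' ζ.2 0)
        (Subgroup.mem_top (1 : Equiv.Perm (Fin 2)))
      rwa [map_one, mul_one] at this
    have hUM : pmU F (Equiv.swap 0 1) ∈ (M : Subgroup (GL (Fin 2) F)) := by
      rw [hM]
      have := dg_pmU_mem (F := F) (μ := (μ : Subgroup Fˣ)) (d := 1) (fun _ => one_mem _)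
        (Subgroup.mem_top (Equiv.swap (0 : Fin 2) 1))
      rwa [map_one, one_mul] at this
    have hdetD : GeneralLinearGroup.det D = (ζ : Fˣ) := by
      rw [hD, det_dg, prod_mulSingle_eq]
    refine ea_P0 hF M D hDM ?_ ?_
    · intro a ha
      rw [hM] at ha
      obtain ⟨e, he, s, -, rfl⟩ := mem_mono.1 ha
      have h1 : GeneralLinearGroup.det (dg e * pmU F s : GL (Fin 2) F) ∈ (μ : Subgroup Fˣ) := by
        rw [map_mul, det_dg]
        refine mul_mem (Subgroup.prod_mem _ fun i _ => he i) ?_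
        rcases Int.units_eq_one_or (Equiv.Perm.sign s) with h | h
        · rw [det_pmU_one h]; exact one_mem _
        · rw [det_pmU_neg h]; exact hneg
      obtain ⟨k, hk⟩ := hζ ⟨_, h1⟩
      refine ⟨k, ?_⟩
      rw [hdetD]
      exact (congrArg Subtype.val hk).symm
    · -- `(D,D)² = scalar · [ (D,D), (U,U) ]`
      set U : GL (Fin 2) F := pmU F (Equiv.swap 0 1) with hU
      have hUD : U * D * U⁻¹ = dg (Pi.mulSingle 1 (ζ : Fˣ)) := by
        rw [hU, hD, pmU_dg]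
        congr 1
        funext i
        rw [Equiv.swap_inv]
        fin_cases i
        · simp [Pi.mulSingle_apply]
        · simp [Pi.mulSingle_apply]
      set S : GL (Fin 2) F := D * (U * D * U⁻¹) with hS
      have hSs : (S : Matrix (Fin 2) (Fin 2) F) = ((ζ : Fˣ) : F) • 1 := by
        rw [hS, hUD, hD, ← map_mul, dg_val]
        ext i j
        fin_cases i <;> fin_cases j <;> simp [Pi.mulSingle_apply]
      have hsc := Phi_scalar hSs
      have e : (⟨(D, D), mem_HH.2 rfl⟩ : HH F) ^ 2 = ⟨(S, S), mem_HH.2 rfl⟩ *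
          ((⟨(U, U), mem_HH.2 rfl⟩ : HH F) * (⟨(D, D), mem_HH.2 rfl⟩ : HH F)⁻¹ * (⟨(U, U), mem_HH.2 rfl⟩ : HH F)⁻¹ * ⟨(D, D), mem_HH.2 rfl⟩) := by
        have h5 : D ^ 2 = S * (U * D⁻¹ * U⁻¹ * D) := by rw [hS, sq]; group
        apply Subtype.ext
        change (D ^ 2, D ^ 2) = (S * (U * D⁻¹ * U⁻¹ * D), S * (U * D⁻¹ * U⁻¹ * D))
        rw [← h5]
      rw [← map_pow, e, map_mul, hsc, one_mul, map_mul, map_mul, map_mul, map_inv, map_inv]
      have h6 := Subgroup.commutator_mem_commutator (mem_P0 hUM hUM rfl) (inv_mem (mem_P0 hDM hDM rfl))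
      rw [commutatorElement_def, inv_inv] at h6
      exact h6

/-- S4632 -/
theorem sea_G2 (hF : Odd (Fintype.card F)) : SEA (Cfsg.Lie.G2 F) := by
  have hfin := finite_AutO (F := F)
  have : Finite (Cfsg.Lie.G2 F) := Finite.of_equiv _ (g2Equiv F).symm.toEquiv
  exact (sea_AutO hF).congr (g2Equiv F).symm

end Cfsg.Agent.H53.SEA
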