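import Mathlib
import Cfsg.Agent.H53.SEASL
import Cfsg.Agent.Orth.Homs

set_option autoImplicit false
set_option linter.dupNamespace false
set_option linter.unusedSectionVars false

/-!
# The orthogonal group of the plane `x² + y²` (helper53)
-/

namespace Cfsg.Agent.H53.SEA

open QuadraticMap Cfsg.Agent.Orth

variable {F : Type*} [Field F]

/-- the form `x² + y²` -/
abbrev BF (F : Type*) [Field F] : QuadraticForm F (F × F) := OrthCount.bin (0 : F) 1

theorem BF_apply (z : F × F) : BF F z = z.1 ^ 2 + z.2 ^ 2 := by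
  rw [OrthCount.bin_apply]; ring

theorem polar_BF (z w : F × F) : polar (BF F) z w = 2 * (z.1 * w.1 + z.2 * w.2) := by
  rw [polar, BF_apply, BF_apply, BF_apply, Prod.fst_add, Prod.snd_add]; ring

theorem BF_nondeg (h2 : (2 : F) ≠ 0) : (polarBilin (BF F)).Nondegenerate := by
  have key : ∀ u : F × F, (∀ v, polar (BF F) u v = 0) → u = 0 := by
    intro u hu
    have h1 := hu (1, 0)
    have h3 := hu (0, 1)
    rw [polar_BF] at h1 h3
    simp only [mul_one, mul_zero, add_zero, zero_add] at h1 h3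
    exact Prod.ext ((mul_eq_zero.1 h1).resolve_left h2) ((mul_eq_zero.1 h3).resolve_left h2)
  refine ⟨fun u hu => key u hu, fun u hu => key u fun v => ?_⟩
  rw [pc]; exact hu v

theorem BF_e1 : BF F (1, 0) = 1 := by rw [BF_apply]; simp
theorem BF_e2 : BF F (0, 1) = 1 := by rw [BF_apply]; simp
theorem BF_e2_ne : BF F (0, 1) ≠ 0 := by rw [BF_e2]; exact one_ne_zero
theorem BF_e1_ne : BF F (1, 0) ≠ 0 := by rw [BF_e1]; exact one_ne_zero

/-- the reflection in the second basis vector -/
def cj (F : Type*) [Field F] : OGrp (BF F) := refl (BF F) (0, 1) BF_e2_ne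

theorem lin_ext {g h : (F × F) ≃ₗ[F] (F × F)} (h1 : g (1, 0) = h (1, 0)) (h2 : g (0, 1) = h (0, 1)) : g = h := by
  apply LinearEquiv.ext
  intro z
  have hz : z = z.1 • (1, 0) + z.2 • ((0, 1) : F × F) := by
    ext <;> simp
  rw [hz, map_add, map_add, map_smul, map_smul, map_smul, map_smul, h1, h2]

theorem cj_e1 : (cj F : (F × F) ≃ₗ[F] (F × F)) (1, 0) = (1, 0) := by
  rw [cj]
  exact refl_apply_of_ortho BF_e2_ne (by rw [polar_BF]; simp)

theorem cj_e2 : (cj F : (F × F) ≃ₗ[F] (F × F)) (0, 1) = (0, -1) := by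
  rw [cj, refl_apply_self]; simp

/-- the stabiliser of the first basis vector -/
theorem stab_e1 (h2 : (2 : F) ≠ 0) (g : OGrp (BF F)) (hg : (g : (F × F) ≃ₗ[F] (F × F)) (1, 0) = (1, 0)) :
    g = 1 ∨ g = cj F := by
  have h3 := OGrp_polar g (1, 0) (0, 1)
  have h4 := OGrp_q g (0, 1)
  rw [hg, polar_BF, polar_BF] at h3
  simp only [one_mul, zero_mul, add_zero, mul_one, mul_zero] at h3
  rw [BF_apply, BF_apply] at h4
  have h5 : ((g : (F × F) ≃ₗ[F] (F × F)) (0, 1)).1 = 0 := (mul_eq_zero.1 h3).resolve_left h2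
  rw [h5] at h4
  have h6 : ((g : (F × F) ≃ₗ[F] (F × F)) (0, 1)).2 = 1 ∨ ((g : (F × F) ≃ₗ[F] (F × F)) (0, 1)).2 = -1 := by
    rw [← mul_self_eq_one_iff]
    linear_combination h4
  rcases h6 with h6 | h6
  · left
    apply Subtype.ext
    exact lin_ext hg (Prod.ext h5 h6)
  · right
    apply Subtype.ext
    exact lin_ext (by rw [hg, cj_e1]) (by rw [cj_e2]; exact Prod.ext h5 h6)

/-- every vector of norm one is the image of the first basis vector under `1` or a reflection -/
theorem exists_refl_e1 (h2 : (2 : F) ≠ 0) {z : F × F} (hz : BF F z = 1) :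
    z = (1, 0) ∨ ∃ u, ∃ hu : BF F u ≠ 0, (refl (BF F) u hu : (F × F) ≃ₗ[F] (F × F)) (1, 0) = z := by
  by_cases h : BF F (z - (1, 0)) = 0
  · left
    rw [BF_apply] at hz h
    simp only [Prod.fst_sub, Prod.snd_sub, sub_zero] at h
    have h1 : z.1 = 1 := by
      have : (2 : F) * (1 - z.1) = 0 := by linear_combination h - hz
      have := (mul_eq_zero.1 this).resolve_left h2
      linear_combination -this
    have h3 : z.2 = 0 := by
      rw [h1] at hz
      have : z.2 ^ 2 = 0 := by linear_combination hz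
      exact pow_eq_zero_iff (two_ne_zero) |>.1 this
    exact Prod.ext h1 h3
  · right
    exact ⟨z - (1, 0), h, refl_sub_apply (by rw [hz, BF_e1]) h⟩

/-- every isometry is a reflection times a power of `cj` or such -/
theorem plane_cases (h2 : (2 : F) ≠ 0) (g : OGrp (BF F)) :
    g = 1 ∨ (∃ u, ∃ hu : BF F u ≠ 0, g = refl (BF F) u hu) ∨
      (∃ u, ∃ hu : BF F u ≠ 0, g = refl (BF F) u hu * cj F) := by
  have h1 : BF F ((g : (F × F) ≃ₗ[F] (F × F)) (1, 0)) = 1 := by rw [OGrp_q, BF_e1]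
  rcases exists_refl_e1 h2 h1 with h | ⟨u, hu, h⟩
  · rcases stab_e1 h2 g h with h | h
    · exact Or.inl h
    · exact Or.inr (Or.inl ⟨_, BF_e2_ne, h⟩)
  · have h3 : ((refl (BF F) u hu * g : OGrp (BF F)) : (F × F) ≃ₗ[F] (F × F)) (1, 0) = (1, 0) := by
      rw [coe_mul_apply, ← h, ← coe_mul_apply, refl_mul_self, coe_one_apply]
    rcases stab_e1 h2 _ h3 with h4 | h4
    · refine Or.inr (Or.inl ⟨u, hu, ?_⟩)
      have := congrArg (fun x => refl (BF F) u hu * x) h4
      simpa only [← mul_assoc, refl_mul_self, one_mul, mul_one] using this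
    · refine Or.inr (Or.inr ⟨u, hu, ?_⟩)
      have := congrArg (fun x => refl (BF F) u hu * x) h4
      simpa only [← mul_assoc, refl_mul_self, one_mul] using this

section fin

variable [Finite F] (h2 : (2 : F) ≠ 0)

/-- parity on the plane -/
noncomputable def pB (h2 : (2 : F) ≠ 0) : OGrp (BF F) →* ℤˣ := parityHom (BF_nondeg h2) (RGrp_top_of_two (BF_nondeg h2) h2)

/-- spinor norm on the plane -/
noncomputable def sB (h2 : (2 : F) ≠ 0) : OGrp (BF F) →* ℤˣ := spinHom (BF_nondeg h2) (RGrp_top_of_two (BF_nondeg h2) h2)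

theorem pB_refl {u : F × F} (hu : BF F u ≠ 0) : pB h2 (refl (BF F) u hu) = -1 := parityHom_refl _ _ hu

theorem sB_refl {u : F × F} (hu : BF F u ≠ 0) : sB h2 (refl (BF F) u hu) = sqc (BF F u) := spinHom_refl _ _ hu

theorem pB_cj : pB h2 (cj F) = -1 := pB_refl h2 _

/-- improper isometries are reflections -/
theorem eq_refl_of_pB {g : OGrp (BF F)} (hg : pB h2 g = -1) : ∃ u, ∃ hu : BF F u ≠ 0, g = refl (BF F) u hu := by
  rcases plane_cases h2 g with rfl | h | ⟨u, hu, rfl⟩
  · rw [map_one] at hg; exact absurd hg (by decide)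
  · exact h
  · rw [map_mul, pB_refl, pB_cj] at hg; exact absurd hg (by decide)

theorem mul_self_of_pB {g : OGrp (BF F)} (hg : pB h2 g = -1) : g * g = 1 := by
  obtain ⟨u, hu, rfl⟩ := eq_refl_of_pB h2 hg
  exact refl_mul_self hu

theorem finite_OGrp : Finite (OGrp (BF F)) := by
  have : Finite ((F × F) ≃ₗ[F] (F × F)) := Finite.of_injective (fun g => (g : (F × F) → (F × F))) (fun a b h => LinearEquiv.ext (congrFun h))
  infer_instance

include h2 in
theorem card_OGrp_BF : Nat.card (OGrp (BF F)) = 2 * Nat.card {z : F × F // BF F z = 1} := by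
  have := finite_OGrp (F := F)
  have h1 := card_half (pB h2) (-1) (by decide) (fun x => Int.units_eq_one_or _) ⟨cj F, pB_cj h2⟩
  rw [← h1, mul_comm]
  congr 1
  refine Nat.card_congr (Equiv.ofBijective (fun g => ⟨(g.1 : (F × F) ≃ₗ[F] (F × F)) (1, 0), by rw [OGrp_q, BF_e1]⟩) ⟨?_, ?_⟩)
  · rintro ⟨g, hg⟩ ⟨h, hh⟩ hgh
    have h3 : (g : (F × F) ≃ₗ[F] (F × F)) (1, 0) = (h : (F × F) ≃ₗ[F] (F × F)) (1, 0) := congrArg Subtype.val hgh
    apply Subtype.ext
    change g = h
    have h4 : ((h⁻¹ * g : OGrp (BF F)) : (F × F) ≃ₗ[F] (F × F)) (1, 0) = (1, 0) := by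
      rw [coe_mul_apply, h3, coe_inv_apply_self]
    rcases stab_e1 h2 _ h4 with h5 | h5
    · rw [inv_mul_eq_one] at h5; exact h5.symm
    · exfalso
      have h6 := congrArg (pB h2) h5
      rw [map_mul, map_inv, (hg : pB h2 g = 1), (hh : pB h2 h = 1), pB_cj] at h6
      exact absurd h6 (by decide)
  · rintro ⟨z, hz⟩
    rcases exists_refl_e1 h2 hz with rfl | ⟨u, hu, h⟩
    · exact ⟨⟨1, one_mem _⟩, rfl⟩
    · refine ⟨⟨refl (BF F) u hu * cj F, ?_⟩, ?_⟩
      · rw [MonoidHom.mem_ker, map_mul, pB_refl, pB_cj]; rfl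
      · apply Subtype.ext
        change ((refl (BF F) u hu * cj F : OGrp (BF F)) : (F × F) ≃ₗ[F] (F × F)) (1, 0) = z
        rw [coe_mul_apply, cj_e1, h]

end fin

section sylow

variable [Fintype F] (hF : Odd (Fintype.card F))

include hF in
/-- the order of a Sylow 2-subgroup of the plane group -/
theorem fac_OGrp_BF : (Nat.card (OGrp (BF F))).factorization 2 =
    (Fintype.card F * ((Fintype.card F - 1) * (Fintype.card F + 1))).factorization 2 := by
  rw [card_OGrp_BF (two_ne_zero_of_odd hF), fac_tor hF, Nat.card_congr (torEquiv F),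
    Nat.factorization_mul (by norm_num) ?_]
  · simp only [Finsupp.add_apply]
    rw [Nat.prime_two.factorization, Finsupp.single_eq_same]
  · have : Nonempty {z : F × F // BF F z = 1} := ⟨⟨(1, 0), BF_e1⟩⟩
    exact Nat.card_pos.ne'

/-- a Sylow 2-subgroup maps onto the commutator factor group -/
theorem exists_in_sylow (h2 : (2 : F) ≠ 0) (D : Sylow 2 (OGrp (BF F))) (a b : ℤˣ) :
    ∃ g ∈ (D : Subgroup (OGrp (BF F))), pB h2 g = a ∧ sB h2 g = b := by
  have hfin := finite_OGrp (F := F)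
  set χ : OGrp (BF F) →* ℤˣ × ℤˣ := (pB h2).prod (sB h2) with hχ
  have hfr : Module.finrank F (F × F) = 2 := by simp
  have hidx : χ.ker.index = 4 := by
    have h1 := index_commutator_odd (BF_nondeg (F := F) h2) h2 (by rw [hfr])
    rw [commutator_eq_ker (BF_nondeg h2) (RGrp_top_of_two (BF_nondeg h2) h2)] at h1
    exact h1
  have h3 := card_inf_normal χ.ker (D : Subgroup (OGrp (BF F))) (card_sylow D)
  have h4 : χ.ker.relIndex (D : Subgroup (OGrp (BF F))) = 4 := by
    have h5 : Nat.card (χ.ker ⊓ (D : Subgroup (OGrp (BF F))) : Subgroup (OGrp (BF F))) * χ.ker.relIndex (D : Subgroup (OGrp (BF F))) =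
        Nat.card (D : Subgroup (OGrp (BF F))) := by
      have := (χ.ker.subgroupOf (D : Subgroup (OGrp (BF F)))).card_mul_index
      rw [← this]
      congr 1
      have h3 : χ.ker ⊓ (D : Subgroup (OGrp (BF F))) = (χ.ker.subgroupOf (D : Subgroup (OGrp (BF F)))).map (D : Subgroup (OGrp (BF F))).subtype := by
        rw [Subgroup.subgroupOf_map_subtype]
      rw [h3]
      exact (Nat.card_congr ((χ.ker.subgroupOf (D : Subgroup (OGrp (BF F)))).equivMapOfInjective _ (D : Subgroup (OGrp (BF F))).subtype_injective).toEquiv).symm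
    have h6 := χ.ker.card_mul_index
    rw [hidx] at h6
    have h7 : (Nat.card (OGrp (BF F))).factorization 2 = (Nat.card χ.ker).factorization 2 + 2 := by
      rw [← h6, Nat.factorization_mul Nat.card_pos.ne' (by norm_num)]
      simp only [Finsupp.add_apply]
      congr 1
      have : (4 : ℕ) = 2 ^ 2 := by norm_num
      rw [this, Nat.Prime.factorization_pow Nat.prime_two]; simp
    rw [h3, card_sylow D, h7, pow_add] at h5
    exact Nat.eq_of_mul_eq_mul_left (by positivity) h5
  have h8 : Nat.card ((D : Subgroup (OGrp (BF F))).map χ) = 4 := by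
    rw [← h4, Subgroup.relIndex_ker]
  have h9 : (D : Subgroup (OGrp (BF F))).map χ = ⊤ := by
    apply Subgroup.eq_top_of_card_eq
    rw [h8]; simp
  have h10 : ((a, b) : ℤˣ × ℤˣ) ∈ (D : Subgroup (OGrp (BF F))).map χ := by rw [h9]; trivial
  obtain ⟨g, hg, hg'⟩ := h10
  exact ⟨g, hg, congrArg Prod.fst hg', congrArg Prod.snd hg'⟩

end sylow

end Cfsg.Agent.H53.SEA
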