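import Mathlib
import Cfsg.Agent.H53.SEASL

set_option autoImplicit false
set_option linter.dupNamespace false
set_option linter.unusedSectionVars false

/-!
# Groups generated by commuting blocks of involutions with two characters (helper53)
-/

namespace Cfsg.Agent.H53.SEA

open scoped commutatorElement

/-- data: blocks of reflections -/
structure RData {G I : Type*} [Group G] (X : I → Set G) (p s : G →* ℤˣ) (α β : G) : Prop where
  sq : ∀ i, ∀ x ∈ X i, x * x = 1
  comm : ∀ i j, i ≠ j → ∀ x ∈ X i, ∀ y ∈ X j, x * y = y * x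
  conj : ∀ i, ∀ x ∈ X i, ∀ y ∈ X i, x * y * x⁻¹ ∈ X i
  par : ∀ i, ∀ x ∈ X i, p x = -1
  two : ∀ i, ∀ x ∈ X i, (∀ y ∈ X i, s y = s x → x * y = y * x) ∨ ∃ j, j ≠ i ∧ ∃ w ∈ X j, s w = s x
  hα : ∃ i, α ∈ X i
  hβ : ∃ i, β ∈ X i
  sα : s α = 1
  sβ : s β = -1
  αβ : α * β = β * α

namespace RData

variable {G I : Type*} [Group G] {X : I → Set G} {p s : G →* ℤˣ} {α β : G} (h : RData X p s α β)

/-- the generators of the kernel -/
def X2 (X : I → Set G) (s : G →* ℤˣ) : Set G :=
  {z | ∃ i, ∃ x ∈ X i, ∃ j, ∃ y ∈ X j, s x = s y ∧ z = x * y}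

include h in
theorem conj_mem {i : I} {x : G} (hx : x ∈ X i) {j : I} {y : G} (hy : y ∈ X j) : x * y * x⁻¹ ∈ X j := by
  by_cases hij : i = j
  · subst hij
    exact h.conj i x hx y hy
  · rw [h.comm i j hij x hx y hy, mul_inv_cancel_right]; exact hy

include h in
theorem conj_X2 {i : I} {x : G} (hx : x ∈ X i) {z : G} (hz : z ∈ X2 X s) : x * z * x⁻¹ ∈ X2 X s := by
  obtain ⟨j, y, hy, k, w, hw, hyw, rfl⟩ := hz
  refine ⟨j, _, h.conj_mem hx hy, k, _, h.conj_mem hx hw, ?_, by group⟩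
  simp only [map_mul, map_inv, hyw]

include h in
theorem conj_closure {i : I} {x : G} (hx : x ∈ X i) {z : G} (hz : z ∈ Subgroup.closure (X2 X s)) :
    x * z * x⁻¹ ∈ Subgroup.closure (X2 X s) := by
  induction hz using Subgroup.closure_induction with
  | mem y hy => exact Subgroup.subset_closure (h.conj_X2 hx hy)
  | one => rw [mul_one, mul_inv_cancel]; exact one_mem _
  | mul a b _ _ ha hb =>
    have : x * (a * b) * x⁻¹ = (x * a * x⁻¹) * (x * b * x⁻¹) := by group
    rw [this]; exact mul_mem ha hb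
  | inv a _ ha =>
    have : x * a⁻¹ * x⁻¹ = (x * a * x⁻¹)⁻¹ := by group
    rw [this]; exact inv_mem ha

include h in
theorem inv_eq {i : I} {x : G} (hx : x ∈ X i) : x⁻¹ = x := inv_eq_of_mul_eq_one_left (h.sq i x hx)

include h in
theorem α_pow_even {i : ℕ} (hi : Even i) : α ^ i = 1 := by
  obtain ⟨a, ha⟩ := h.hα
  obtain ⟨c, rfl⟩ := hi
  rw [← two_mul, pow_mul, _root_.sq, h.sq a α ha, one_pow]

include h in
theorem β_pow_even {i : ℕ} (hi : Even i) : β ^ i = 1 := by
  obtain ⟨a, ha⟩ := h.hβ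
  obtain ⟨c, rfl⟩ := hi
  rw [← two_mul, pow_mul, _root_.sq, h.sq a β ha, one_pow]

include h in
theorem aux {g : G} (hg : g ∈ Subgroup.closure (⋃ i, X i)) :
    ∃ i j : ℕ, p g = (-1) ^ (i + j) ∧ s g = (-1) ^ j ∧ g * (α ^ i * β ^ j) ∈ Subgroup.closure (X2 X s) := by
  obtain ⟨ia, ha⟩ := h.hα
  obtain ⟨ib, hb⟩ := h.hβ
  have hc : Commute α β := h.αβ
  have step : ∀ x ∈ ⋃ i, X i, ∀ y : G, (∃ i j : ℕ, p y = (-1) ^ (i + j) ∧ s y = (-1) ^ j ∧
      y * (α ^ i * β ^ j) ∈ Subgroup.closure (X2 X s)) →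
      (∃ i j : ℕ, p (x * y) = (-1) ^ (i + j) ∧ s (x * y) = (-1) ^ j ∧
      (x * y) * (α ^ i * β ^ j) ∈ Subgroup.closure (X2 X s)) := by
    rintro x hx y ⟨i, j, hpy, hsy, hn⟩
    rw [Set.mem_iUnion] at hx
    obtain ⟨k, hx⟩ := hx
    rcases Int.units_eq_one_or (s x) with h1 | h1
    · refine ⟨i + 1, j, ?_, ?_, ?_⟩
      · rw [map_mul, h.par k x hx, hpy, ← pow_succ']; congr 1; ring
      · rw [map_mul, h1, hsy, one_mul]
      · have e : (x * y) * (α ^ (i + 1) * β ^ j) = (x * (y * (α ^ i * β ^ j)) * x⁻¹) * (x * α) := by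
          have e1 : α ^ (i + 1) * β ^ j = α ^ i * β ^ j * α := by
            rw [pow_succ, mul_assoc, mul_assoc, ((hc.pow_right j).eq : α * β ^ j = β ^ j * α)]
          rw [e1]; group
        rw [e]
        exact mul_mem (h.conj_closure hx hn) (Subgroup.subset_closure ⟨k, x, hx, ia, α, ha, by rw [h1, h.sα], rfl⟩)
    · refine ⟨i, j + 1, ?_, ?_, ?_⟩
      · rw [map_mul, h.par k x hx, hpy, ← pow_succ']; congr 1
      · rw [map_mul, h1, hsy, ← pow_succ']
      · have e : (x * y) * (α ^ i * β ^ (j + 1)) = (x * (y * (α ^ i * β ^ j)) * x⁻¹) * (x * β) := by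
          rw [pow_succ]; group
        rw [e]
        exact mul_mem (h.conj_closure hx hn) (Subgroup.subset_closure ⟨k, x, hx, ib, β, hb, by rw [h1, h.sβ], rfl⟩)
  induction hg using Subgroup.closure_induction_left with
  | one => exact ⟨0, 0, by simp, by simp, by simp⟩
  | mul_left x hx y _ ih => exact step x hx y ih
  | inv_mul_cancel x hx y _ ih =>
    have hx' := hx
    rw [Set.mem_iUnion] at hx'
    obtain ⟨k, hx'⟩ := hx'
    rw [h.inv_eq hx']
    exact step x hx y ih

/-- the kernel -/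
def E (X : I → Set G) (p s : G →* ℤˣ) : Subgroup G := Subgroup.closure (⋃ i, X i) ⊓ (p.ker ⊓ s.ker)

theorem mem_E {g : G} : g ∈ E X p s ↔ g ∈ Subgroup.closure (⋃ i, X i) ∧ p g = 1 ∧ s g = 1 := Iff.rfl

include h in
theorem mul_mem_E {i : I} {x : G} (hx : x ∈ X i) {j : I} {y : G} (hy : y ∈ X j) (hxy : s x = s y) :
    x * y ∈ E X p s := by
  refine mem_E.2 ⟨mul_mem (Subgroup.subset_closure (Set.mem_iUnion.2 ⟨i, hx⟩))
    (Subgroup.subset_closure (Set.mem_iUnion.2 ⟨j, hy⟩)), ?_, ?_⟩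
  · rw [map_mul, h.par i x hx, h.par j y hy, neg_mul_neg, one_mul]
  · rw [map_mul, hxy]
    rcases Int.units_eq_one_or (s y) with h1 | h1 <;> rw [h1]
    · rw [one_mul]
    · rw [neg_mul_neg, one_mul]

include h in
theorem closure_X2 : Subgroup.closure (X2 X s) = E X p s := by
  apply le_antisymm
  · rw [Subgroup.closure_le]
    rintro _ ⟨i, x, hx, j, y, hy, hxy, rfl⟩
    exact h.mul_mem_E hx hy hxy
  · intro g hg
    obtain ⟨h1, h2, h3⟩ := mem_E.1 hg
    obtain ⟨i, j, hp, hs, hn⟩ := h.aux h1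
    have hj : Even j := by
      rw [h3] at hs
      by_contra hne
      rw [Nat.not_even_iff_odd] at hne
      rw [hne.neg_one_pow] at hs
      exact absurd hs (by decide)
    have hij : Even (i + j) := by
      rw [h2] at hp
      by_contra hne
      rw [Nat.not_even_iff_odd] at hne
      rw [hne.neg_one_pow] at hp
      exact absurd hp (by decide)
    have hi : Even i := by
      rw [Nat.even_add] at hij
      exact hij.2 hj
    rwa [h.α_pow_even hi, h.β_pow_even hj, mul_one, mul_one] at hn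

include h in
/-- the kernel has elementary abelian commutator factor group -/
theorem ea_E : EA (E X p s) := by
  refine ea_of_closure' _ (X2 X s) h.closure_X2 ?_
  rintro _ ⟨i, x, hx, j, y, hy, hxy, rfl⟩
  have hcase : x * y = y * x → (x * y) ^ 2 ∈ ⁅E X p s, E X p s⁆ := by
    intro hc
    have : (x * y) ^ 2 = 1 := by
      rw [(show Commute x y from hc).mul_pow, _root_.sq, _root_.sq, h.sq i x hx, h.sq j y hy, one_mul]
    rw [this]; exact one_mem _
  by_cases hij : i = j
  · subst hij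
    rcases h.two i x hx with h1 | ⟨k, hk, w, hw, hwx⟩
    · exact hcase (h1 y hy hxy.symm)
    · have e : (x * y) ^ 2 = ⁅x * w, y * w⁆ := by
        rw [commutatorElement_def]
        have c1 : x * w = w * x := h.comm i k (Ne.symm hk) x hx w hw
        have c2 : y * w = w * y := h.comm i k (Ne.symm hk) y hy w hw
        have cw : w * w = 1 := h.sq k w hw
        have cx : x * x = 1 := h.sq i x hx
        have cy : y * y = 1 := h.sq i y hy
        rw [mul_inv_rev, mul_inv_rev, h.inv_eq hx, h.inv_eq hy, h.inv_eq hw]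
        calc (x * y) ^ 2 = x * y * (x * y) := _root_.sq _
          _ = x * (w * w) * y * x * (w * w) * y := by rw [cw]; group
          _ = x * w * (w * y) * x * w * w * y := by group
          _ = x * w * (y * w) * x * w * w * y := by rw [c2]
          _ = x * w * (y * w) * (x * w) * (w * y) := by group
          _ = x * w * (y * w) * (w * x) * (w * y) := by rw [c1]
      rw [e]
      exact Subgroup.commutator_mem_commutator (h.mul_mem_E hx hw hwx.symm) (h.mul_mem_E hy hw (by rw [← hxy, hwx]))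
  · exact hcase (h.comm i j hij x hx y hy)

include h in
/-- the index of the kernel -/
theorem card_E [Finite G] : Nat.card (E X p s) * 4 = Nat.card (Subgroup.closure (⋃ i, X i)) := by
  set C := Subgroup.closure (⋃ i, X i) with hC
  obtain ⟨ia, ha⟩ := h.hα
  obtain ⟨ib, hb⟩ := h.hβ
  have haC : α ∈ C := Subgroup.subset_closure (Set.mem_iUnion.2 ⟨ia, ha⟩)
  have hbC : β ∈ C := Subgroup.subset_closure (Set.mem_iUnion.2 ⟨ib, hb⟩)
  have h1 := card_half (p.comp C.subtype) (-1) (by decide) (fun x => Int.units_eq_one_or _) ⟨⟨α, haC⟩, h.par ia α ha⟩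
  have h2 := card_half ((s.comp C.subtype).comp (p.comp C.subtype).ker.subtype) (-1) (by decide) (fun x => Int.units_eq_one_or _)
    ⟨⟨⟨α * β, mul_mem haC hbC⟩, by
      rw [MonoidHom.mem_ker]
      change p (α * β) = 1
      rw [map_mul, h.par ia α ha, h.par ib β hb, neg_mul_neg, one_mul]⟩, by
      change s (α * β) = -1
      rw [map_mul, h.sα, h.sβ, one_mul]⟩
  rw [← h1, ← h2]
  have e : E X p s ≃ ((s.comp C.subtype).comp (p.comp C.subtype).ker.subtype).ker :=
    { toFun := fun g => ⟨⟨⟨g.1, (mem_E.1 g.2).1⟩, (mem_E.1 g.2).2.1⟩, (mem_E.1 g.2).2.2⟩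
      invFun := fun g => ⟨g.1.1.1, mem_E.2 ⟨g.1.1.2, g.1.2, g.2⟩⟩
      left_inv := fun g => rfl
      right_inv := fun g => rfl }
  rw [Nat.card_congr e]
  ring

end RData

end Cfsg.Agent.H53.SEA
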