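import Mathlib
import Cfsg.Agent.H53.SEAPlane
import Cfsg.Agent.H53.SEARefl

set_option autoImplicit false
set_option linter.dupNamespace false
set_option linter.unusedSectionVars false

/-!
# Model: orthogonal sums of planes `x² + y²` and lines (helper53)
-/

namespace Cfsg.Agent.H53.SEA

open QuadraticMap Cfsg.Agent.Orth

variable {F : Type*} [Field F]

/-- the model space -/
abbrev MV (m κ : ℕ) (F : Type*) := (Fin m → F × F) × (Fin κ → F)

/-- the model form -/
noncomputable def MQ (m κ : ℕ) (c : Fin κ → F) : QuadraticForm F (MV m κ F) :=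
  (QuadraticMap.pi (fun _ : Fin m => BF F)).prod (QuadraticMap.pi (fun j : Fin κ => c j • QuadraticMap.sq))

section

variable {m κ : ℕ} (c : Fin κ → F)

theorem MQ_apply (v : MV m κ F) : MQ m κ c v = ∑ i, BF F (v.1 i) + ∑ j, c j * (v.2 j * v.2 j) := by
  rw [MQ, QuadraticMap.prod_apply, QuadraticMap.pi_apply, QuadraticMap.pi_apply]
  rfl

theorem polar_MQ (v w : MV m κ F) :
    polar (MQ m κ c) v w = ∑ i, polar (BF F) (v.1 i) (w.1 i) + ∑ j, 2 * c j * (v.2 j * w.2 j) := by
  rw [polar, MQ_apply, MQ_apply, MQ_apply]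
  have h1 : ∑ i, polar (BF F) (v.1 i) (w.1 i) = ∑ i, BF F ((v + w).1 i) - ∑ i, BF F (v.1 i) - ∑ i, BF F (w.1 i) := by
    rw [← Finset.sum_sub_distrib, ← Finset.sum_sub_distrib]
    rfl
  have h2 : ∑ j, 2 * c j * (v.2 j * w.2 j) = ∑ j, c j * ((v + w).2 j * (v + w).2 j) - ∑ j, c j * (v.2 j * v.2 j) -
      ∑ j, c j * (w.2 j * w.2 j) := by
    rw [← Finset.sum_sub_distrib, ← Finset.sum_sub_distrib]
    refine Finset.sum_congr rfl fun j _ => ?_
    rw [Prod.snd_add, Pi.add_apply]; ring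
  rw [h1, h2]; ring

theorem MQ_single (i : Fin m) (u : F × F) : MQ m κ c (Pi.single i u, 0) = BF F u := by
  rw [MQ_apply]
  have h1 : ∑ k, BF F ((Pi.single i u : Fin m → F × F) k) = BF F u := by
    rw [Finset.sum_eq_single i]
    · rw [Pi.single_eq_same]
    · intro k _ hk; rw [Pi.single_eq_of_ne hk, QuadraticMap.map_zero]
    · intro h; exact absurd (Finset.mem_univ _) h
  simp only [h1, Pi.zero_apply, mul_zero, Finset.sum_const_zero, add_zero]

theorem MQ_single' (j : Fin κ) (t : F) : MQ m κ c (0, Pi.single j t) = c j * (t * t) := by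
  rw [MQ_apply]
  have h1 : ∑ k, c k * ((Pi.single j t : Fin κ → F) k * (Pi.single j t : Fin κ → F) k) = c j * (t * t) := by
    rw [Finset.sum_eq_single j]
    · rw [Pi.single_eq_same]
    · intro k _ hk; rw [Pi.single_eq_of_ne hk, mul_zero, mul_zero]
    · intro h; exact absurd (Finset.mem_univ _) h
  simp only [h1, Pi.zero_apply, QuadraticMap.map_zero, Finset.sum_const_zero, zero_add]

theorem polar_single (v : MV m κ F) (i : Fin m) (u : F × F) :
    polar (MQ m κ c) v (Pi.single i u, 0) = polar (BF F) (v.1 i) u := by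
  rw [polar_MQ]
  have h1 : ∑ k, polar (BF F) (v.1 k) ((Pi.single i u : Fin m → F × F) k) = polar (BF F) (v.1 i) u := by
    rw [Finset.sum_eq_single i]
    · rw [Pi.single_eq_same]
    · intro k _ hk; rw [Pi.single_eq_of_ne hk, polar_zero_right]
    · intro h; exact absurd (Finset.mem_univ _) h
  simp only [h1, Pi.zero_apply, mul_zero, Finset.sum_const_zero, add_zero]

theorem polar_single' (v : MV m κ F) (j : Fin κ) (t : F) :
    polar (MQ m κ c) v (0, Pi.single j t) = 2 * c j * (v.2 j * t) := by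
  rw [polar_MQ]
  have h1 : ∑ k, 2 * c k * (v.2 k * (Pi.single j t : Fin κ → F) k) = 2 * c j * (v.2 j * t) := by
    rw [Finset.sum_eq_single j]
    · rw [Pi.single_eq_same]
    · intro k _ hk; rw [Pi.single_eq_of_ne hk, mul_zero, mul_zero]
    · intro h; exact absurd (Finset.mem_univ _) h
  simp only [h1, Pi.zero_apply, polar_zero_right, Finset.sum_const_zero, zero_add]

theorem MQ_nondeg (h2 : (2 : F) ≠ 0) (hc : ∀ j, c j ≠ 0) : (polarBilin (MQ m κ c)).Nondegenerate := by
  have key : ∀ u : MV m κ F, (∀ v, polar (MQ m κ c) u v = 0) → u = 0 := by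
    intro u hu
    apply Prod.ext
    · funext i
      have h1 := hu (Pi.single i (1, 0), 0)
      have h3 := hu (Pi.single i (0, 1), 0)
      rw [polar_single, polar_BF] at h1 h3
      simp only [mul_one, mul_zero, add_zero, zero_add] at h1 h3
      exact Prod.ext ((mul_eq_zero.1 h1).resolve_left h2) ((mul_eq_zero.1 h3).resolve_left h2)
    · funext j
      have h1 := hu (0, Pi.single j 1)
      rw [polar_single', mul_one] at h1
      exact (mul_eq_zero.1 h1).resolve_left (mul_ne_zero h2 (hc j))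
  refine ⟨fun u hu => key u hu, fun u hu => key u fun v => ?_⟩
  rw [pc]; exact hu v

/-- the big homomorphism -/
noncomputable def PH : (Fin m → OGrp (BF F)) × (Fin κ → ℤˣ) →* OGrp (MQ m κ c) where
  toFun g := ⟨LinearEquiv.prodCongr (LinearEquiv.piCongrRight fun i => (g.1 i : (F × F) ≃ₗ[F] (F × F)))
    (LinearEquiv.piCongrRight fun j => DistribMulAction.toLinearEquiv F F (g.2 j)), by
    intro v
    rw [MQ_apply, MQ_apply]
    congr 1
    · refine Finset.sum_congr rfl fun i _ => ?_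
      exact OGrp_q (g.1 i) (v.1 i)
    · refine Finset.sum_congr rfl fun j _ => ?_
      change c j * ((g.2 j • v.2 j) * (g.2 j • v.2 j)) = _
      rcases Int.units_eq_one_or (g.2 j) with h | h <;> rw [h]
      · rw [one_smul]
      · rw [Units.neg_smul, one_smul, neg_mul_neg]⟩
  map_one' := by
    apply OGrp_ext
    intro v
    change ((fun i => (v.1 i)), (fun j => (1 : ℤˣ) • v.2 j)) = v
    simp only [one_smul]
  map_mul' g h := by
    apply OGrp_ext
    intro v
    apply Prod.ext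
    · rfl
    · funext j
      change (g.2 j * h.2 j) • v.2 j = g.2 j • (h.2 j • v.2 j)
      rw [mul_smul]

theorem PH_apply (g : (Fin m → OGrp (BF F)) × (Fin κ → ℤˣ)) (v : MV m κ F) :
    (PH c g : MV m κ F ≃ₗ[F] MV m κ F) v = (fun i => (g.1 i : (F × F) ≃ₗ[F] (F × F)) (v.1 i), fun j => g.2 j • v.2 j) := rfl

theorem PH_injective (h2 : (2 : F) ≠ 0) : Function.Injective (PH (m := m) c) := by
  intro g h hgh
  have key : ∀ v, (PH c g : MV m κ F ≃ₗ[F] MV m κ F) v = (PH c h : MV m κ F ≃ₗ[F] MV m κ F) v := by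
    intro v; rw [hgh]
  apply Prod.ext
  · funext i
    apply OGrp_ext
    intro x
    have h1 := key (Pi.single i x, 0)
    rw [PH_apply, PH_apply] at h1
    have h3 := congrFun (congrArg Prod.fst h1) i
    simpa using h3
  · funext j
    have h1 := key (0, Pi.single j 1)
    rw [PH_apply, PH_apply] at h1
    have h3 := congrFun (congrArg Prod.snd h1) j
    simp only [Pi.single_eq_same] at h3
    have hne : (1 : F) ≠ -1 := fun h => h2 (by linear_combination h)
    rcases Int.units_eq_one_or (g.2 j) with h4 | h4 <;> rcases Int.units_eq_one_or (h.2 j) with h5 | h5 <;>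
      rw [h4, h5] <;> rw [h4, h5] at h3
    · rw [Units.neg_smul, one_smul] at h3; exact absurd h3 hne
    · rw [Units.neg_smul, one_smul] at h3; exact absurd h3.symm hne

/-- one block -/
noncomputable def ps (i : Fin m) : OGrp (BF F) →* OGrp (MQ m κ c) :=
  (PH c).comp ((MonoidHom.inl _ _).comp (MonoidHom.mulSingle (fun _ : Fin m => OGrp (BF F)) i))

theorem ps_eq (i : Fin m) (g : OGrp (BF F)) : ps c i g = PH c (Pi.mulSingle i g, 1) := rfl

theorem ps_refl (i : Fin m) {u : F × F} (hu : BF F u ≠ 0) :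
    ps c i (refl (BF F) u hu) = refl (MQ m κ c) (Pi.single i u, 0) (by rwa [MQ_single]) := by
  apply OGrp_ext
  intro v
  rw [ps_eq, PH_apply, refl_apply, MQ_single, polar_single]
  apply Prod.ext
  · funext k
    by_cases hk : k = i
    · subst hk
      simp only [Pi.mulSingle_eq_same, refl_apply, Prod.fst_sub, Prod.smul_fst, Pi.sub_apply, Pi.smul_apply, Pi.single_eq_same]
    · simp only [Pi.mulSingle_eq_of_ne hk, coe_one_apply, Prod.fst_sub, Prod.smul_fst, Pi.sub_apply, Pi.smul_apply,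
        Pi.single_eq_of_ne hk, smul_zero, sub_zero]
  · funext j
    simp

theorem PH_sign (h2 : (2 : F) ≠ 0) (hc : ∀ j, c j ≠ 0) (j : Fin κ) :
    PH c (1, Pi.mulSingle j (-1)) = refl (MQ m κ c) (0, Pi.single j 1) (by
      rw [MQ_single', mul_one, mul_one]; exact hc j) := by
  apply OGrp_ext
  intro v
  rw [PH_apply, refl_apply, MQ_single', polar_single']
  apply Prod.ext
  · funext k
    simp [coe_one_apply]
  · funext k
    by_cases hk : k = j
    · subst hk
      simp only [Pi.mulSingle_eq_same, Prod.snd_sub, Prod.smul_snd, Pi.sub_apply, Pi.smul_apply, Pi.single_eq_same,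
        Units.neg_smul, one_smul, smul_eq_mul, mul_one]
      have := hc k
      field_simp
      ring
    · simp only [Pi.mulSingle_eq_of_ne hk, Prod.snd_sub, Prod.smul_snd, Pi.sub_apply, Pi.smul_apply,
        Pi.single_eq_of_ne hk, smul_zero, sub_zero, one_smul]

/-- block permutations -/
noncomputable def pp : Equiv.Perm (Fin m) →* OGrp (MQ m κ c) where
  toFun s := ⟨LinearEquiv.prodCongr (LinearEquiv.funCongrLeft F (F × F) s⁻¹) (LinearEquiv.refl F (Fin κ → F)), by
    intro v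
    rw [MQ_apply, MQ_apply]
    congr 1
    change ∑ i, BF F (v.1 (s⁻¹ i)) = _
    exact Equiv.sum_comp s⁻¹ (fun i => BF F (v.1 i))⟩
  map_one' := by
    apply OGrp_ext
    intro v
    rfl
  map_mul' s t := by
    apply OGrp_ext
    intro v
    apply Prod.ext
    · funext i
      change v.1 ((s * t)⁻¹ i) = v.1 (t⁻¹ (s⁻¹ i))
      rw [mul_inv_rev]; rfl
    · rfl

theorem pp_apply (s : Equiv.Perm (Fin m)) (v : MV m κ F) :
    (pp c s : MV m κ F ≃ₗ[F] MV m κ F) v = (fun i => v.1 (s⁻¹ i), v.2) := rfl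

theorem pp_conj (s : Equiv.Perm (Fin m)) (g : (Fin m → OGrp (BF F)) × (Fin κ → ℤˣ)) :
    pp c s * PH c g * (pp c s)⁻¹ = PH c (fun i => g.1 (s⁻¹ i), g.2) := by
  rw [mul_inv_eq_iff_eq_mul]
  apply OGrp_ext
  intro v
  rw [coe_mul_apply, coe_mul_apply, pp_apply, PH_apply, PH_apply, pp_apply]

theorem pp_eq (s : Equiv.Perm (Fin m)) (g : (Fin m → OGrp (BF F)) × (Fin κ → ℤˣ)) (h : pp c s = PH c g) : s = 1 := by
  ext j
  rw [Equiv.Perm.one_apply]
  by_contra hne
  have hne' : s j ≠ j := fun h => hne (congrArg Fin.val h)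
  have h1 : (pp c s : MV m κ F ≃ₗ[F] MV m κ F) (Pi.single j (1, 0), 0) = (PH c g : MV m κ F ≃ₗ[F] MV m κ F) (Pi.single j (1, 0), 0) := by
    rw [h]
  rw [pp_apply, PH_apply] at h1
  have h3 := congrFun (congrArg Prod.fst h1) (s j)
  have hs : s⁻¹ (s j) = j := by simp
  simp only [hs, Pi.single_eq_same, Pi.single_eq_of_ne hne', map_zero] at h3
  exact one_ne_zero (congrArg Prod.fst h3)

theorem pp_swap (h2 : (2 : F) ≠ 0) {i j : Fin m} (hij : i ≠ j) : ∃ (u v : MV m κ F) (hu : MQ m κ c u ≠ 0) (hv : MQ m κ c v ≠ 0),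
    MQ m κ c u = 2 ∧ MQ m κ c v = 2 ∧ pp c (Equiv.swap i j) = refl (MQ m κ c) u hu * refl (MQ m κ c) v hv := by
  have hq : ∀ u : F × F, MQ m κ c (Pi.single i u - Pi.single j u, 0) = 2 * BF F u := by
    intro u
    have e : ((Pi.single i u - Pi.single j u, 0) : MV m κ F) = (Pi.single i u, 0) - (Pi.single j u, 0) := by
      rw [Prod.mk_sub_mk, sub_zero]
    rw [e, qsub, MQ_single, MQ_single, polar_single]
    simp only [Pi.single_eq_of_ne hij.symm, polar_zero_left]
    ring
  have hp : ∀ (v : MV m κ F) (u : F × F), polar (MQ m κ c) v (Pi.single i u - Pi.single j u, 0) =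
      polar (BF F) (v.1 i) u - polar (BF F) (v.1 j) u := by
    intro v u
    have e : ((Pi.single i u - Pi.single j u, 0) : MV m κ F) = (Pi.single i u, 0) - (Pi.single j u, 0) := by
      rw [Prod.mk_sub_mk, sub_zero]
    rw [e, pdr, polar_single, polar_single]
  refine ⟨(Pi.single i (1, 0) - Pi.single j (1, 0), 0), (Pi.single i (0, 1) - Pi.single j (0, 1), 0), ?_, ?_, ?_, ?_, ?_⟩
  · rw [hq, BF_e1, mul_one]; exact h2
  · rw [hq, BF_e2, mul_one]; exact h2
  · rw [hq, BF_e1, mul_one]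
  · rw [hq, BF_e2, mul_one]
  · apply OGrp_ext
    intro v
    rw [coe_mul_apply, pp_apply, refl_apply, refl_apply, hq, hq, hp, hp, BF_e1, BF_e2]
    simp only [polar_BF, mul_one, mul_zero, add_zero, zero_add, Equiv.swap_inv]
    apply Prod.ext
    · funext k
      simp only [Prod.fst_sub, Prod.smul_fst, Pi.sub_apply, Pi.smul_apply]
      by_cases hki : k = i
      · subst hki
        rw [Equiv.swap_apply_left]
        simp only [Pi.single_eq_same, Pi.single_eq_of_ne hij, Pi.single_eq_of_ne hij.symm, sub_zero, zero_sub]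
        ext
        · simp; field_simp; ring
        · simp; field_simp; ring
      · by_cases hkj : k = j
        · subst hkj
          rw [Equiv.swap_apply_right]
          simp only [Pi.single_eq_same, Pi.single_eq_of_ne hij, Pi.single_eq_of_ne hij.symm, sub_zero, zero_sub]
          ext
          · simp; field_simp; ring
          · simp; field_simp; ring
        · rw [Equiv.swap_apply_of_ne_of_ne hki hkj]
          simp [Pi.single_eq_of_ne hki, Pi.single_eq_of_ne hkj]
    · funext k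
      simp

end

section main

variable {m κ : ℕ} (c : Fin κ → F) [Fintype F] (h2 : (2 : F) ≠ 0) (hc : ∀ j, c j ≠ 0)

/-- parity on the model -/
noncomputable def pM (h2 : (2 : F) ≠ 0) (hc : ∀ j, c j ≠ 0) : OGrp (MQ m κ c) →* ℤˣ :=
  parityHom (MQ_nondeg c h2 hc) (RGrp_top_of_two (MQ_nondeg c h2 hc) h2)

/-- spinor norm on the model -/
noncomputable def sM (h2 : (2 : F) ≠ 0) (hc : ∀ j, c j ≠ 0) : OGrp (MQ m κ c) →* ℤˣ :=
  spinHom (MQ_nondeg c h2 hc) (RGrp_top_of_two (MQ_nondeg c h2 hc) h2)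

theorem pM_refl {u : MV m κ F} (hu : MQ m κ c u ≠ 0) : pM c h2 hc (refl (MQ m κ c) u hu) = -1 := parityHom_refl _ _ hu

theorem sM_refl {u : MV m κ F} (hu : MQ m κ c u ≠ 0) : sM c h2 hc (refl (MQ m κ c) u hu) = sqc (MQ m κ c u) :=
  spinHom_refl _ _ hu

theorem pM_ps (i : Fin m) (g : OGrp (BF F)) : pM c h2 hc (ps c i g) = pB h2 g := by
  have h1 : (pM c h2 hc).comp (ps c i) = pB h2 := by
    refine MonoidHom.eq_of_eqOn_dense (s := {g | ∃ (v : F × F) (hv : BF F v ≠ 0), g = refl (BF F) v hv})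
      (RGrp_top_of_two (BF_nondeg h2) h2) ?_
    rintro _ ⟨v, hv, rfl⟩
    rw [MonoidHom.comp_apply, ps_refl, pM_refl, pB_refl]
  rw [← h1]; rfl

theorem sM_ps (i : Fin m) (g : OGrp (BF F)) : sM c h2 hc (ps c i g) = sB h2 g := by
  have h1 : (sM c h2 hc).comp (ps c i) = sB h2 := by
    refine MonoidHom.eq_of_eqOn_dense (s := {g | ∃ (v : F × F) (hv : BF F v ≠ 0), g = refl (BF F) v hv})
      (RGrp_top_of_two (BF_nondeg h2) h2) ?_
    rintro _ ⟨v, hv, rfl⟩
    rw [MonoidHom.comp_apply, ps_refl, sM_refl, sB_refl, MQ_single]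
  rw [← h1]; rfl

theorem pM_pp (s : Equiv.Perm (Fin m)) : pM c h2 hc (pp c s) = 1 := by
  have h1 : (pM c h2 hc).comp (pp (m := m) c) = 1 := by
    refine MonoidHom.eq_of_eqOn_dense Equiv.Perm.closure_isSwap ?_
    rintro _ ⟨i, j, hij, rfl⟩
    obtain ⟨u, v, hu, hv, hu2, hv2, h⟩ := pp_swap c h2 hij
    rw [MonoidHom.comp_apply, h, map_mul, pM_refl, pM_refl]; rfl
  exact DFunLike.congr_fun h1 s

theorem sM_pp (s : Equiv.Perm (Fin m)) : sM c h2 hc (pp c s) = 1 := by
  have h1 : (sM c h2 hc).comp (pp (m := m) c) = 1 := by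
    refine MonoidHom.eq_of_eqOn_dense Equiv.Perm.closure_isSwap ?_
    rintro _ ⟨i, j, hij, rfl⟩
    obtain ⟨u, v, hu, hv, hu2, hv2, h⟩ := pp_swap c h2 hij
    rw [MonoidHom.comp_apply, h, map_mul, sM_refl, sM_refl, hu2, hv2, ← sqc_mul h2 h2, sqc, if_pos ⟨2, rfl⟩]; rfl
  exact DFunLike.congr_fun h1 s

/-- the blocks of reflections -/
def XX (D : Subgroup (OGrp (BF F))) : Option (Fin m) → Set (OGrp (MQ m κ c))
  | none => {x | ∃ j : Fin κ, x = PH c (1, Pi.mulSingle j (-1))}
  | some i => {x | ∃ g ∈ D, pB h2 g = -1 ∧ x = ps c i g}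

include hc in
theorem rdata (hm : 2 ≤ m) (D : Sylow 2 (OGrp (BF F))) :
    ∃ α β, RData (XX (m := m) c h2 (D : Subgroup (OGrp (BF F)))) (pM c h2 hc) (sM c h2 hc) α β := by
  obtain ⟨a, ha, hpa, hsa⟩ := exists_in_sylow h2 D (-1) 1
  obtain ⟨b, hb, hpb, hsb⟩ := exists_in_sylow h2 D (-1) (-1)
  have hcomm : ∀ i j : Fin m, i ≠ j → ∀ g h : OGrp (BF F), ps c i g * ps c j h = ps c j h * ps c i g := by
    intro i j hij g h
    have hcc : (Pi.mulSingle i g : Fin m → OGrp (BF F)) * Pi.mulSingle j h = Pi.mulSingle j h * Pi.mulSingle i g :=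
      (Pi.mulSingle_commute (f := fun _ : Fin m => OGrp (BF F)) hij g h).eq
    rw [ps_eq, ps_eq, ← map_mul, ← map_mul, Prod.mk_mul_mk, Prod.mk_mul_mk, hcc]
  refine ⟨ps c ⟨0, by omega⟩ a, ps c ⟨1, by omega⟩ b, ?_⟩
  refine
    { sq := ?_
      comm := ?_
      conj := ?_
      par := ?_
      two := ?_
      hα := ⟨some _, a, ha, hpa, rfl⟩
      hβ := ⟨some _, b, hb, hpb, rfl⟩
      sα := by rw [sM_ps, hsa]
      sβ := by rw [sM_ps, hsb]
      αβ := hcomm _ _ (by simp) _ _ }
  · rintro (_ | i) x hx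
    · obtain ⟨j, rfl⟩ := hx
      rw [← map_mul, Prod.mk_mul_mk, one_mul, ← Pi.mulSingle_mul, neg_mul_neg, one_mul, Pi.mulSingle_one, ← Prod.one_eq_mk, map_one]
    · obtain ⟨g, hg, hpg, rfl⟩ := hx
      rw [← map_mul, mul_self_of_pB h2 hpg, map_one]
  · rintro (_ | i) (_ | j) hij x hx y hy
    · exact absurd rfl hij
    · obtain ⟨k, rfl⟩ := hx
      obtain ⟨g, hg, hpg, rfl⟩ := hy
      rw [ps_eq, ← map_mul, ← map_mul, Prod.mk_mul_mk, Prod.mk_mul_mk, one_mul, one_mul, mul_one, mul_one]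
    · obtain ⟨k, rfl⟩ := hy
      obtain ⟨g, hg, hpg, rfl⟩ := hx
      rw [ps_eq, ← map_mul, ← map_mul, Prod.mk_mul_mk, Prod.mk_mul_mk, one_mul, one_mul, mul_one, mul_one]
    · obtain ⟨g, hg, hpg, rfl⟩ := hx
      obtain ⟨h, hh, hph, rfl⟩ := hy
      exact hcomm i j (fun h => hij (by rw [h])) g h
  · rintro (_ | i) x hx y hy
    · obtain ⟨k, rfl⟩ := hx
      obtain ⟨l, rfl⟩ := hy
      refine ⟨l, ?_⟩
      rw [← map_inv, ← map_mul, ← map_mul]
      congr 1
      apply Prod.ext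
      · simp
      · change Pi.mulSingle k (-1) * Pi.mulSingle l (-1) * (Pi.mulSingle k (-1))⁻¹ = _
        rw [mul_comm (Pi.mulSingle k (-1)), mul_inv_cancel_right]
    · obtain ⟨g, hg, hpg, rfl⟩ := hx
      obtain ⟨h, hh, hph, rfl⟩ := hy
      refine ⟨g * h * g⁻¹, mul_mem (mul_mem hg hh) (inv_mem hg), ?_, ?_⟩
      · rw [map_mul, map_mul, map_inv, hpg, hph]; rfl
      · rw [map_mul, map_mul, map_inv]
  · rintro (_ | i) x hx
    · obtain ⟨j, rfl⟩ := hx
      rw [PH_sign c h2 hc, pM_refl]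
    · obtain ⟨g, hg, hpg, rfl⟩ := hx
      rw [pM_ps, hpg]
  · rintro (_ | i) x hx
    · left
      intro y hy _
      obtain ⟨k, rfl⟩ := hx
      obtain ⟨l, rfl⟩ := hy
      rw [← map_mul, ← map_mul, Prod.mk_mul_mk, Prod.mk_mul_mk, mul_comm (Pi.mulSingle k (-1))]
    · right
      obtain ⟨g, hg, hpg, rfl⟩ := hx
      obtain ⟨j, hj⟩ : ∃ j : Fin m, j ≠ i := by
        by_cases h : i = ⟨0, by omega⟩
        · exact ⟨⟨1, by omega⟩, fun h' => by rw [h] at h'; simp at h'⟩
        · exact ⟨⟨0, by omega⟩, fun h' => h h'.symm⟩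
      obtain ⟨g', hg', hpg', hsg'⟩ := exists_in_sylow h2 D (-1) (sB h2 g)
      exact ⟨some j, fun h => hj (Option.some.inj h), ps c j g', ⟨g', hg', hpg', rfl⟩, by rw [sM_ps, sM_ps, hsg']⟩

theorem closure_XX (D : Sylow 2 (OGrp (BF F))) :
    Subgroup.closure (⋃ i, XX (m := m) c h2 (D : Subgroup (OGrp (BF F))) i) =
      ((Subgroup.pi Set.univ (fun _ : Fin m => (D : Subgroup (OGrp (BF F))))).prod ⊤).map (PH c) := by
  apply le_antisymm
  · rw [Subgroup.closure_le]
    intro x hx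
    rw [Set.mem_iUnion] at hx
    obtain ⟨_ | i, hx⟩ := hx
    · obtain ⟨j, rfl⟩ := hx
      exact ⟨_, ⟨one_mem _, trivial⟩, rfl⟩
    · obtain ⟨g, hg, hpg, rfl⟩ := hx
      refine ⟨_, ⟨?_, trivial⟩, rfl⟩
      intro k _
      change (Pi.mulSingle i g : Fin m → OGrp (BF F)) k ∈ (D : Subgroup (OGrp (BF F)))
      by_cases hk : k = i
      · subst hk; rw [Pi.mulSingle_eq_same]; exact hg
      · rw [Pi.mulSingle_eq_of_ne hk]; exact one_mem _
  · set C := Subgroup.closure (⋃ i, XX (m := m) c h2 (D : Subgroup (OGrp (BF F))) i) with hC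
    obtain ⟨r, hr, hpr, -⟩ := exists_in_sylow h2 D (-1) 1
    have h1 : ∀ i, ∀ g ∈ (D : Subgroup (OGrp (BF F))), ps c i g ∈ C := by
      intro i g hg
      rcases Int.units_eq_one_or (pB h2 g) with h | h
      · have e : ps c i g = ps c i (g * r) * ps c i r := by
          rw [← map_mul, mul_assoc, mul_self_of_pB h2 hpr, mul_one]
        rw [e]
        refine mul_mem (Subgroup.subset_closure (Set.mem_iUnion.2 ⟨some i, g * r, mul_mem hg hr, ?_, rfl⟩))
          (Subgroup.subset_closure (Set.mem_iUnion.2 ⟨some i, r, hr, hpr, rfl⟩))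
        rw [map_mul, h, hpr, one_mul]
      · exact Subgroup.subset_closure (Set.mem_iUnion.2 ⟨some i, g, hg, h, rfl⟩)
    have h3 : Subgroup.pi Set.univ (fun _ : Fin m => (D : Subgroup (OGrp (BF F)))) ≤ C.comap ((PH c).comp (MonoidHom.inl _ _)) := by
      rw [Subgroup.pi_le_iff]
      rintro i _ ⟨g, hg, rfl⟩
      exact h1 i g hg
    have h4 : (⊤ : Subgroup (Fin κ → ℤˣ)) ≤ C.comap ((PH (m := m) c).comp (MonoidHom.inr _ _)) := by
      have h5 : Subgroup.pi Set.univ (fun _ : Fin κ => (⊤ : Subgroup ℤˣ)) ≤ C.comap ((PH (m := m) c).comp (MonoidHom.inr _ _)) := by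
        rw [Subgroup.pi_le_iff]
        rintro j _ ⟨g, hg, rfl⟩
        rcases Int.units_eq_one_or g with rfl | rfl
        · rw [map_one]; exact one_mem _
        · exact Subgroup.subset_closure (Set.mem_iUnion.2 ⟨none, j, rfl⟩)
      refine le_trans ?_ h5
      intro g _ i _
      trivial
    rintro _ ⟨⟨g, ε⟩, ⟨hg, -⟩, rfl⟩
    have e : ((g, ε) : (Fin m → OGrp (BF F)) × (Fin κ → ℤˣ)) = (g, 1) * (1, ε) := by
      rw [Prod.mk_mul_mk, mul_one, one_mul]
    rw [e, map_mul]
    exact mul_mem (h3 hg) (h4 (Subgroup.mem_top ε))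

theorem card_closure_XX (D : Sylow 2 (OGrp (BF F))) :
    Nat.card (Subgroup.closure (⋃ i, XX (m := m) c h2 (D : Subgroup (OGrp (BF F))) i)) =
      2 ^ ((Nat.card (OGrp (BF F))).factorization 2 * m + κ) := by
  have hfin := finite_OGrp (F := F)
  rw [closure_XX, ← Nat.card_congr ((((Subgroup.pi Set.univ (fun _ : Fin m => (D : Subgroup (OGrp (BF F))))).prod
    (⊤ : Subgroup (Fin κ → ℤˣ))).equivMapOfInjective (PH c) (PH_injective c h2)).toEquiv),
    Nat.card_congr (Subgroup.prodEquiv _ _).toEquiv, Nat.card_prod, pow_add, pow_mul, ← card_sylow D]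
  congr 1
  · have e : (Subgroup.pi Set.univ (fun _ : Fin m => (D : Subgroup (OGrp (BF F))))) ≃ (Fin m → (D : Subgroup (OGrp (BF F)))) :=
      { toFun := fun v i => ⟨v.1 i, v.2 i trivial⟩
        invFun := fun v => ⟨fun i => (v i : OGrp (BF F)), fun i _ => (v i).2⟩
        left_inv := fun v => rfl
        right_inv := fun v => rfl }
    rw [Nat.card_congr e, Nat.card_pi, Finset.prod_const, Finset.card_univ, Fintype.card_fin]
  · rw [Nat.card_congr (Subgroup.topEquiv (G := Fin κ → ℤˣ)).toEquiv, Nat.card_pi]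
    simp

theorem finite_MO : Finite (OGrp (MQ m κ c)) := by
  have : Finite (MV m κ F ≃ₗ[F] MV m κ F) := Finite.of_injective (fun g => (g : MV m κ F → MV m κ F))
    (fun a b h => LinearEquiv.ext (congrFun h))
  infer_instance

include h2 hc in
/-- the main theorem on orthogonal groups -/
theorem sea_model (hm : 2 ≤ m)
    (hv : (Nat.card (OGrp (MQ m κ c))).factorization 2 =
      (Nat.card (OGrp (BF F))).factorization 2 * m + κ + (Nat.factorial m).factorization 2) :
    SEA (commutator (OGrp (MQ m κ c))) := by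
  have hfin := finite_OGrp (F := F)
  have hfinM := finite_MO (m := m) c
  obtain ⟨D⟩ := (inferInstance : Nonempty (Sylow 2 (OGrp (BF F))))
  obtain ⟨α, β, hR⟩ := rdata c h2 hc hm D
  set p := pM (m := m) c h2 hc with hp
  set s := sM (m := m) c h2 hc with hs
  set X := XX (m := m) c h2 (D : Subgroup (OGrp (BF F))) with hX
  have hmem : ∀ g : OGrp (MQ m κ c), g ∈ commutator (OGrp (MQ m κ c)) ↔ p g = 1 ∧ s g = 1 :=
    fun g => mem_commutator_iff_homs (MQ_nondeg c h2 hc) (RGrp_top_of_two (MQ_nondeg c h2 hc) h2) g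
  have hE : RData.E X p s ≤ commutator (OGrp (MQ m κ c)) := fun g hg => (hmem g).2 (RData.mem_E.1 hg).2
  let σ : Equiv.Perm (Fin m) →* commutator (OGrp (MQ m κ c)) :=
    { toFun := fun t => ⟨pp c t, (hmem _).2 ⟨pM_pp c h2 hc t, sM_pp c h2 hc t⟩⟩
      map_one' := Subtype.ext (map_one _)
      map_mul' := fun a b => Subtype.ext (map_mul _ _ _) }
  have hEc : Nat.card (RData.E X p s) * 4 = 2 ^ ((Nat.card (OGrp (BF F))).factorization 2 * m + κ) := by
    rw [hR.card_E, hX, card_closure_XX]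
  have hE2 : ∃ t, Nat.card (RData.E X p s) = 2 ^ t := by
    obtain ⟨t, _, ht⟩ := (Nat.dvd_prime_pow Nat.prime_two).1 (⟨4, hEc.symm⟩ : Nat.card (RData.E X p s) ∣ _)
    exact ⟨t, ht⟩
  obtain ⟨t, ht⟩ := hE2
  have hEcc : Nat.card ((RData.E X p s).subgroupOf (commutator (OGrp (MQ m κ c)))) = 2 ^ t := by
    rw [Nat.card_congr (Subgroup.subgroupOfEquivOfLe hE).toEquiv, ht]
  have htt : t + 2 = (Nat.card (OGrp (BF F))).factorization 2 * m + κ := by
    rw [ht, (by norm_num : (4 : ℕ) = 2 ^ 2), ← pow_add] at hEc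
    exact Nat.pow_right_injective le_rfl hEc
  refine SEA.of_EK ((RData.E X p s).subgroupOf (commutator (OGrp (MQ m κ c)))) σ ?_ ?_ ?_ ⟨t, hEcc⟩
    (hR.ea_E.congr (Subgroup.subgroupOfEquivOfLe hE).symm) (sea_perm m) ?_
  · intro a b hab
    have h1 : pp c a = pp c b := congrArg Subtype.val hab
    have h3 : pp c (a * b⁻¹) = PH c 1 := by rw [map_mul, h1, ← map_mul, mul_inv_cancel, map_one, map_one]
    exact mul_inv_eq_one.1 (pp_eq c _ _ h3)
  · rintro k ⟨e, he⟩ hek
    rw [Subgroup.mem_subgroupOf] at hek ⊢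
    have hek' := RData.mem_E.1 hek
    change pp c k * e * (pp c k)⁻¹ ∈ _
    refine RData.mem_E.2 ⟨?_, ?_, ?_⟩
    · have h1 := hek'.1
      rw [hX, closure_XX] at h1 ⊢
      obtain ⟨⟨g, ε⟩, ⟨hg, -⟩, h⟩ := h1
      have h' : PH c (g, ε) = e := h
      rw [← h', pp_conj]
      exact ⟨(fun i => g (k⁻¹ i), ε), ⟨fun i _ => hg (k⁻¹ i) trivial, trivial⟩, rfl⟩
    · rw [map_mul, map_mul, map_inv, (hek'.2.1 : p e = 1), mul_one, mul_inv_cancel]
    · rw [map_mul, map_mul, map_inv, (hek'.2.2 : s e = 1), mul_one, mul_inv_cancel]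
  · intro k hk
    rw [Subgroup.mem_subgroupOf] at hk
    have hk' := (RData.mem_E.1 hk).1
    rw [hX, closure_XX] at hk'
    obtain ⟨g, -, h⟩ := hk'
    exact pp_eq c k g h.symm
  · have h4 := index_commutator_odd (MQ_nondeg (m := m) c h2 hc) h2 (by
      rw [Module.finrank_prod, Module.finrank_pi_fintype]
      simp
      omega)
    have h5 := (commutator (OGrp (MQ m κ c))).card_mul_index
    rw [h4] at h5
    rw [← h5, Nat.factorization_mul Nat.card_pos.ne' (by norm_num)] at hv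
    simp only [Finsupp.add_apply] at hv
    rw [(by norm_num : (4 : ℕ) = 2 ^ 2), Nat.Prime.factorization_pow Nat.prime_two, Finsupp.single_eq_same, ← htt] at hv
    rw [hEcc, Nat.Prime.factorization_pow Nat.prime_two, Finsupp.single_eq_same, Nat.card_perm, Nat.card_fin]
    omega

end main

end Cfsg.Agent.H53.SEA
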