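import Mathlib
import Cfsg.Agent.H53.SEAModel
import Cfsg.Agent.H53.SEASL1
import Cfsg.Agent.Orth.HermQuad
import Cfsg.Agent.OrthCount.Orders

set_option autoImplicit false
set_option linter.dupNamespace false
set_option linter.unusedSectionVars false

/-!
# Sylow 2-subgroups of the groups Ω (helper53)
-/

namespace Cfsg.Agent.H53.SEA

open QuadraticMap Cfsg.Agent.Orth

/-- isomorphic groups have isomorphic commutator subgroups -/
noncomputable def commCongr {G H : Type*} [Group G] [Group H] (e : G ≃* H) : commutator G ≃* commutator H :=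
  (e.subgroupMap (commutator G)).trans (MulEquiv.subgroupCongr (by
    rw [commutator, commutator, Subgroup.map_commutator, Subgroup.map_top_of_surjective _ e.surjective]))

section model

variable {F : Type*} [Field F] {m κ : ℕ} (c : Fin κ → F)

/-- the standard basis of the model -/
noncomputable def mb (m κ : ℕ) (F : Type*) [Field F] : Module.Basis ((Σ _ : Fin m, Fin 2) ⊕ Fin κ) F (MV m κ F) :=
  (Pi.basis fun _ : Fin m => Module.Basis.finTwoProd F).prod (Pi.basisFun F (Fin κ))

theorem mb_inl (i : Σ _ : Fin m, Fin 2) : mb m κ F (Sum.inl i) = (Pi.single i.1 (Module.Basis.finTwoProd F i.2), 0) := by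
  rw [mb, Module.Basis.prod_apply]
  simp only [Sum.elim_inl, Function.comp_apply, LinearMap.inl_apply, Pi.basis_apply]

theorem mb_inr (j : Fin κ) : mb m κ F (Sum.inr j) = (0, Pi.single j 1) := by
  rw [mb, Module.Basis.prod_apply]
  simp only [Sum.elim_inr, Function.comp_apply, LinearMap.inr_apply, Pi.basisFun_apply]

theorem gram_model : (gram (MQ m κ c) (mb m κ F)).det = 2 ^ (2 * m + κ) * ∏ j, c j := by
  rw [gram_diag]
  · have h1 : ∀ i : Σ _ : Fin m, Fin 2, MQ m κ c (mb m κ F (Sum.inl i)) = 1 := by
      rintro ⟨i, a⟩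
      rw [mb_inl, MQ_single]
      change BF F (Module.Basis.finTwoProd F a) = 1
      have : a = 0 ∨ a = 1 := by
        revert a; decide
      rcases this with rfl | rfl
      · rw [Module.Basis.finTwoProd_zero]; exact BF_e1
      · rw [Module.Basis.finTwoProd_one]; exact BF_e2
    have h2 : ∀ j : Fin κ, MQ m κ c (mb m κ F (Sum.inr j)) = c j := by
      intro j
      rw [mb_inr, MQ_single', mul_one, mul_one]
    rw [Fintype.prod_sum_type]
    simp only [h1, h2, mul_one, Finset.prod_const, Finset.card_univ, Finset.prod_mul_distrib, Fintype.card_sigma,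
      Fintype.card_fin, Finset.sum_const, smul_eq_mul]
    ring
  · rintro (⟨i, a⟩ | i) (⟨j, b⟩ | j) hij
    · rw [mb_inl, mb_inl, polar_single]
      by_cases h : i = j
      · subst h
        change polar (BF F) ((Pi.single i (Module.Basis.finTwoProd F a) : Fin m → F × F) i) (Module.Basis.finTwoProd F b) = 0
        rw [Pi.single_eq_same]
        have hab : a ≠ b := fun h => hij (by rw [h])
        have : ∀ a b : Fin 2, a ≠ b → (a = 0 ∧ b = 1) ∨ (a = 1 ∧ b = 0) := by
          decide
        rcases this a b hab with ⟨rfl, rfl⟩ | ⟨rfl, rfl⟩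
        · rw [Module.Basis.finTwoProd_zero, Module.Basis.finTwoProd_one, polar_BF]; simp
        · rw [Module.Basis.finTwoProd_zero, Module.Basis.finTwoProd_one, polar_BF]; simp
      · simp only [Pi.single_eq_of_ne (Ne.symm h), polar_zero_left]
    · rw [mb_inl, mb_inr, polar_single']
      simp
    · rw [mb_inl, mb_inr, polar_single]
      simp
    · rw [mb_inr, mb_inr, polar_single']
      have h : i ≠ j := fun h => hij (by rw [h])
      simp only [Pi.single_eq_of_ne (Ne.symm h), zero_mul, mul_zero]

end model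

section rows

variable {F : Type*} [Field F] [Fintype F] (hF : Odd (Fintype.card F))

/-- the 2-part of `q² - 1` -/
def tau (F : Type*) [Fintype F] : ℕ := (Fintype.card F * ((Fintype.card F - 1) * (Fintype.card F + 1))).factorization 2

include hF in
theorem sea_omega_of {ι : Type} [Fintype ι] [DecidableEq ι] (Q : QuadraticForm F (ι → F)) (hQ : (polarBilin Q).Nondegenerate)
    {m κ : ℕ} (c : Fin κ → F) (hc : ∀ j, c j ≠ 0) (hm : 2 ≤ m) (hdim : Fintype.card ι = 2 * m + κ)
    (hsq : IsSquare (2 ^ (2 * m + κ) * (∏ j, c j) * (gram Q (Pi.basisFun F ι)).det))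
    (hv : (Nat.card (Cfsg.isometryGroup F ⇑Q)).factorization 2 = tau F * m + κ + (Nat.factorial m).factorization 2) :
    SEA (Cfsg.Omega F ⇑Q) := by
  have h2 := two_ne_zero_of_odd hF
  obtain ⟨L, hL⟩ := exists_isom_of_disc h2 (MQ_nondeg c h2 hc) hQ (by
    rw [Module.finrank_prod, Module.finrank_pi_fintype, Module.finrank_fintype_fun_eq_card, Module.finrank_fintype_fun_eq_card, hdim]
    simp
    ring) (mb m κ F) (Pi.basisFun F ι) (by rw [gram_model]; exact hsq)
  have e1 : OGrp (MQ m κ c) ≃* OGrp Q := OGrpCongr L hL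
  have hfinM := finite_MO (m := m) c
  have hfinO : Finite (OGrp Q) := Finite.of_equiv _ e1.toEquiv
  have hfinI : Finite (Cfsg.isometryGroup F ⇑Q) := Finite.of_equiv _ (bridge Q).symm.toEquiv
  have e2 : commutator (OGrp (MQ m κ c)) ≃* Cfsg.Omega F ⇑Q :=
    (commCongr e1).trans (commCongr (bridge Q).symm)
  refine (sea_model c h2 hc hm ?_).congr e2
  rw [Nat.card_congr (e1.trans (bridge Q).symm).toEquiv, hv, fac_OGrp_BF hF]
  rfl

theorem natCast_card : Nat.card F = Fintype.card F := Nat.card_eq_fintype_card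

include hF in
/-- S4629 -/
theorem sea_odd (m : ℕ) (hm : 2 ≤ m) : SEA (Cfsg.Omega F (Cfsg.quadFormOdd m F)) := by
  have h2 := two_ne_zero_of_odd hF
  have hq1 : 1 < Fintype.card F := Fintype.one_lt_card
  have hQ := qfOdd_nondegenerate m F h2
  set δ := (gram (qfOdd m F) (Pi.basisFun F (Unit ⊕ (Fin m ⊕ Fin m)))).det with hδ
  have hδ0 : δ ≠ 0 := gram_det_ne_zero hQ _
  rw [← coe_qfOdd]
  refine sea_omega_of hF (qfOdd m F) hQ (m := m) (κ := 1) (fun _ => 2 * δ) (fun _ => mul_ne_zero h2 hδ0) hm ?_ ?_ ?_
  · simp; ring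
  · rw [← hδ]
    refine ⟨2 ^ (m + 1) * δ, ?_⟩
    simp only [Finset.univ_unique, Finset.prod_const, Finset.card_singleton, pow_one]
    ring
  · rw [coe_qfOdd, OrthCount.order_odd h2, natCast_card, Nat.factorization_mul (by positivity) (prod_ne_zero hq1 m),
      Nat.factorization_mul (by norm_num) (by positivity)]
    simp only [Finsupp.add_apply]
    rw [fac_prod hF hq1, fac_odd_pow hF, Nat.prime_two.factorization, Finsupp.single_eq_same, tau]
    ring

include hF in
theorem fac_one_mod (h1 : Fintype.card F % 4 = 1) : tau F = 1 + (Fintype.card F - 1).factorization 2 := by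
  rcases card_tor hF with ⟨_, h⟩ | ⟨h, _⟩
  · rw [tau, fac_tor hF, h]
  · omega

include hF in
theorem fac_three_mod (h1 : Fintype.card F % 4 = 3) : tau F = 1 + (Fintype.card F + 1).factorization 2 := by
  rcases card_tor hF with ⟨h, _⟩ | ⟨_, h⟩
  · omega
  · rw [tau, fac_tor hF, h]

theorem fac_two_mod_four (n : ℕ) (h : n % 4 = 2) : n.factorization 2 = 1 := by
  obtain ⟨k, rfl⟩ : ∃ k, n = 2 * (2 * k + 1) := ⟨n / 4, by omega⟩
  rw [Nat.factorization_mul (by omega) (by omega)]
  simp only [Finsupp.add_apply]
  rw [Nat.factorization_eq_zero_of_not_dvd (by omega : ¬ 2 ∣ 2 * k + 1), Nat.prime_two.factorization]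
  simp

theorem fac_succ_fac (m : ℕ) (hm : 1 ≤ m) :
    (Nat.factorial m).factorization 2 = m.factorization 2 + (Nat.factorial (m - 1)).factorization 2 := by
  obtain ⟨k, rfl⟩ : ∃ k, m = k + 1 := ⟨m - 1, by omega⟩
  rw [Nat.factorial_succ, Nat.factorization_mul (by omega) (Nat.factorial_ne_zero k)]
  simp

include hF in
/-- S4630 -/
theorem sea_plus (m : ℕ) (hm : 1 ≤ m) (hm' : Even m ∨ 4 ≤ m) : SEA (Cfsg.Omega F (Cfsg.quadFormPlus m F)) := by
  have h2 := two_ne_zero_of_odd hF
  have hq1 : 1 < Fintype.card F := Fintype.one_lt_card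
  have hQ := qfPlus_nondegenerate m F
  have hm2 : 2 ≤ m := by
    rcases hm' with ⟨k, hk⟩ | h <;> omega
  have hqm : Fintype.card F ^ m - 1 ≠ 0 := by
    have := Nat.one_lt_pow (n := m) (by omega) hq1
    omega
  have horder : (Nat.card (Cfsg.isometryGroup F ⇑(qfPlus m F))).factorization 2 =
      1 + (Fintype.card F ^ m - 1).factorization 2 + ((m - 1) * tau F + (Nat.factorial (m - 1)).factorization 2) := by
    rw [coe_qfPlus, OrthCount.order_plus m hm, natCast_card,
      Nat.factorization_mul (by positivity) (prod_ne_zero hq1 (m - 1)),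
      Nat.factorization_mul (by positivity) hqm, Nat.factorization_mul (by norm_num) (by positivity)]
    simp only [Finsupp.add_apply]
    rw [fac_prod hF hq1, fac_odd_pow hF, Nat.prime_two.factorization, Finsupp.single_eq_same, tau]
  have hmf := fac_succ_fac m hm
  rw [← coe_qfPlus]
  have hFm := hF
  rw [Nat.odd_iff] at hFm
  by_cases hsqr : IsSquare ((-1 : F) ^ m)
  · refine sea_omega_of hF (qfPlus m F) hQ (m := m) (κ := 0) (fun _ => 1) (fun _ => one_ne_zero) hm2 ?_ ?_ ?_
    · rw [Fintype.card_sum, Fintype.card_fin]; omega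
    · rw [det_gram_qfPlus]
      obtain ⟨s, hs⟩ := hsqr
      refine ⟨2 ^ m * s, ?_⟩
      rw [hs]
      simp only [Finset.univ_eq_empty, Finset.prod_empty]
      ring
    · rw [horder, hmf]
      -- `1 + v(q^m - 1) = τ + v(m)`
      have key : 1 + (Fintype.card F ^ m - 1).factorization 2 = tau F + m.factorization 2 := by
        rcases Nat.even_or_odd' m with ⟨k, hk | hk⟩
        · have h6 : (2 * k).factorization 2 = 1 + k.factorization 2 := by
            rw [Nat.factorization_mul (by norm_num) (by omega)]
            simp only [Finsupp.add_apply]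
            rw [Nat.prime_two.factorization, Finsupp.single_eq_same]
          rw [hk, fac_pow_sub_one hF hq1 k (by rcases Nat.eq_zero_or_pos k with h | h; (· rw [h] at hk; omega); exact h), h6, tau]
          ring
        · have h1 : Fintype.card F % 4 = 1 := by
            have h3 : IsSquare (-1 : F) := by
              rwa [hk, pow_succ, pow_mul, neg_one_sq, one_pow, one_mul] at hsqr
            have := isSquare_neg_one_iff'.1 h3
            omega
          rw [fac_one_mod hF h1, fac_pow_one_mod hF (by omega) m hm]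
          ring
      have h5 : (m - 1) * tau F + tau F = m * tau F := by
        obtain ⟨k, rfl⟩ : ∃ k, m = k + 1 := ⟨m - 1, by omega⟩
        simp; ring
      nlinarith [key, h5, mul_comm m (tau F)]
  · have hodd : m % 2 = 1 := by
      rcases Nat.even_or_odd' m with ⟨k, hk | hk⟩
      · exfalso
        apply hsqr
        rw [hk, pow_mul, neg_one_sq, one_pow]
        exact ⟨1, by ring⟩
      · omega
    have h4 : 4 ≤ m := by
      rcases hm' with h | h
      · rw [Nat.even_iff] at h; omega
      · exact h
    obtain ⟨k, hk⟩ : ∃ k, m = 2 * k + 1 := ⟨m / 2, by omega⟩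
    have h3 : ¬ IsSquare (-1 : F) := by
      rwa [hk, pow_succ, pow_mul, neg_one_sq, one_pow, one_mul] at hsqr
    have h1 : Fintype.card F % 4 = 3 := by
      rw [isSquare_neg_one_iff'] at h3
      omega
    refine sea_omega_of hF (qfPlus m F) hQ (m := m - 1) (κ := 2) ![1, (-1) ^ m] ?_ (by omega) ?_ ?_ ?_
    · intro j
      fin_cases j
      · exact one_ne_zero
      · exact pow_ne_zero _ (neg_ne_zero.2 one_ne_zero)
    · rw [Fintype.card_sum, Fintype.card_fin]; omega
    · rw [det_gram_qfPlus, Fin.prod_univ_two]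
      refine ⟨2 ^ m * (-1) ^ m, ?_⟩
      have e : 2 * (m - 1) + 2 = m + m := by omega
      rw [e]
      simp
      ring
    · rw [horder, hk, fac_pow_odd hF hq1 k, fac_two_mod_four _ (by omega : (Fintype.card F - 1) % 4 = 2)]
      ring

include hF in
/-- S4631 -/
theorem sea_minus (m : ℕ) (hm : 3 ≤ m) (a b : F) (hab : ∀ z₁ z₂ : F, z₁ ^ 2 + a * z₁ * z₂ + b * z₂ ^ 2 = 0 → z₁ = 0 ∧ z₂ = 0) :
    SEA (Cfsg.Omega F (Cfsg.quadFormMinus m F a b)) := by
  have h2 := two_ne_zero_of_odd hF
  have hq1 : 1 < Fintype.card F := Fintype.one_lt_card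
  have hd := not_isSquare_disc h2 hab
  have hd0 : a ^ 2 - 4 * b ≠ 0 := fun h => hd (by rw [h]; exact ⟨0, by ring⟩)
  have hQ := qfMinus_nondegenerate m F hd0
  have horder : (Nat.card (Cfsg.isometryGroup F ⇑(qfMinus m F a b))).factorization 2 =
      1 + (Fintype.card F ^ (m + 1) + 1).factorization 2 + (m * tau F + (Nat.factorial m).factorization 2) := by
    rw [coe_qfMinus, OrthCount.order_minus m (OrthCount.aniso_of hab), natCast_card,
      Nat.factorization_mul (by positivity) (prod_ne_zero hq1 m),
      Nat.factorization_mul (by positivity) (by positivity), Nat.factorization_mul (by norm_num) (by positivity)]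
    simp only [Finsupp.add_apply]
    rw [fac_prod hF hq1, fac_odd_pow hF, Nat.prime_two.factorization, Finsupp.single_eq_same, tau]
  rw [← coe_qfMinus]
  have hFm := hF
  rw [Nat.odd_iff] at hFm
  set δ := (gram (qfMinus m F a b) (Pi.basisFun F ((Fin m ⊕ Fin m) ⊕ Fin 2))).det with hδ
  have hδe : δ = (-1) ^ m * (4 * b - a ^ 2) := by rw [hδ, det_gram_qfMinus]
  have hδ0 : δ ≠ 0 := gram_det_ne_zero hQ _
  by_cases hsqr : IsSquare δ
  · -- then `m` is even and `q ≡ 3 mod 4`
    have hmev : m % 2 = 0 := by
      by_contra hne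
      obtain ⟨k, hk⟩ : ∃ k, m = 2 * k + 1 := ⟨m / 2, by omega⟩
      apply hd
      rw [hδe, hk, pow_succ, pow_mul, neg_one_sq, one_pow, one_mul] at hsqr
      have e : -1 * (4 * b - a ^ 2) = a ^ 2 - 4 * b := by ring
      rwa [e] at hsqr
    obtain ⟨k, hk⟩ : ∃ k, m = 2 * k := ⟨m / 2, by omega⟩
    have h3 : ¬ IsSquare (-1 : F) := by
      intro h
      apply hd
      rw [hδe, hk, pow_mul, neg_one_sq, one_pow, one_mul] at hsqr
      have e : a ^ 2 - 4 * b = -1 * (4 * b - a ^ 2) := by ring
      rw [e]
      exact h.mul hsqr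
    have h1 : Fintype.card F % 4 = 3 := by
      rw [isSquare_neg_one_iff'] at h3
      omega
    refine sea_omega_of hF (qfMinus m F a b) hQ (m := m + 1) (κ := 0) (fun _ => 1) (fun _ => one_ne_zero) (by omega) ?_ ?_ ?_
    · rw [Fintype.card_sum, Fintype.card_sum, Fintype.card_fin, Fintype.card_fin]; omega
    · rw [← hδ]
      obtain ⟨s, hs⟩ := hsqr
      refine ⟨2 ^ (m + 1) * s, ?_⟩
      rw [hs]
      simp only [Finset.univ_eq_empty, Finset.prod_empty]
      ring
    · rw [horder]
      have h5 : (Fintype.card F ^ (m + 1) + 1).factorization 2 + (Fintype.card F ^ (m + 1) - 1).factorization 2 = tau F := by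
        have e : Fintype.card F ^ (2 * (m + 1)) - 1 = (Fintype.card F ^ (m + 1) + 1) * (Fintype.card F ^ (m + 1) - 1) := by
          rw [mul_comm 2, pow_mul, ← one_pow 2, Nat.sq_sub_sq, one_pow]
        have h6 := fac_pow_sub_one hF hq1 (m + 1) (by omega)
        have h7 := Nat.one_lt_pow (n := m + 1) (by omega) hq1
        rw [e, Nat.factorization_mul (by omega) (by omega)] at h6
        simp only [Finsupp.add_apply] at h6
        rw [h6, Nat.factorization_eq_zero_of_not_dvd (by omega : ¬ 2 ∣ m + 1), tau, add_zero]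
      have h8 : (Fintype.card F ^ (m + 1) - 1).factorization 2 = 1 := by
        rw [hk, fac_pow_odd hF hq1 k, fac_two_mod_four _ (by omega)]
      have h9 := fac_succ_fac (m + 1) (by omega)
      rw [Nat.factorization_eq_zero_of_not_dvd (by omega : ¬ 2 ∣ m + 1), Nat.add_sub_cancel] at h9
      rw [h9]
      have h10 : tau F * (m + 1) = m * tau F + tau F := by ring
      rw [h10]
      omega
  · refine sea_omega_of hF (qfMinus m F a b) hQ (m := m) (κ := 2) ![1, δ] ?_ (by omega) ?_ ?_ ?_
    · intro j
      fin_cases j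
      · exact one_ne_zero
      · exact hδ0
    · rw [Fintype.card_sum, Fintype.card_sum, Fintype.card_fin, Fintype.card_fin]; omega
    · rw [← hδ, Fin.prod_univ_two]
      refine ⟨2 ^ (m + 1) * δ, ?_⟩
      simp
      ring
    · rw [horder]
      have h5 : (Fintype.card F ^ (m + 1) + 1).factorization 2 = 1 := by
        apply fac_two_mod_four
        have h6 : (Fintype.card F ^ (m + 1)) % 4 = 1 := by
          rcases Nat.even_or_odd' (m + 1) with ⟨k, hk | hk⟩
          · rw [hk, pow_mul, Nat.pow_mod]
            have : Fintype.card F ^ 2 % 4 = 1 := by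
              rw [Nat.pow_mod]
              have : Fintype.card F % 4 = 1 ∨ Fintype.card F % 4 = 3 := by omega
              rcases this with h | h <;> rw [h]
            rw [this]; simp
          · have h1 : Fintype.card F % 4 = 1 := by
              by_contra hne
              have h3 : ¬ IsSquare (-1 : F) := by
                rw [isSquare_neg_one_iff']; omega
              apply hsqr
              obtain ⟨l, hl⟩ : ∃ l, m = 2 * l := ⟨m / 2, by omega⟩
              rw [hδe, hl, pow_mul, neg_one_sq, one_pow, one_mul]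
              have e : 4 * b - a ^ 2 = -1 * (a ^ 2 - 4 * b) := by ring
              rw [e]
              exact isSquare_mul_of_not h3 hd
            rw [Nat.pow_mod, h1]; simp
        omega
      rw [h5]
      ring

end rows

end Cfsg.Agent.H53.SEA
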