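import Mathlib
import Cfsg.Agent.H53.SEASL

set_option autoImplicit false
set_option linter.dupNamespace false
set_option linter.unusedSectionVars false

/-!
# Sylow 2-subgroups of special linear groups of even degree, order 3 mod 4 (helper53)
-/

namespace Cfsg.Agent.H53.SEA

open Matrix
open scoped commutatorElement

section bpsec

variable {F : Type*} [Field F]

/-- block permutations as elements of `SL` -/
def bps (m : ℕ) : Equiv.Perm (Fin m) →* SpecialLinearGroup (Fin 2 × Fin m) F where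
  toFun s := ⟨pm F (bp m s), by rw [det_pm, sign_bp]; simp⟩
  map_one' := by
    apply Subtype.ext
    change pm F (bp m 1) = 1
    rw [map_one, pm_one]
  map_mul' s t := by
    apply Subtype.ext
    change pm F (bp m (s * t)) = pm F (bp m s) * pm F (bp m t)
    rw [map_mul, pm_mul]

theorem toGL_bps (m : ℕ) (s : Equiv.Perm (Fin m)) :
    Matrix.SpecialLinearGroup.toGL (bps (F := F) m s) = bpm m s := Units.ext rfl

end bpsec

variable {F : Type*} [Field F] [Fintype F]

/-- the base group -/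
def baseG (M : Subgroup (GL (Fin 2) F)) (m : ℕ) : Subgroup (GL (Fin 2 × Fin m) F) :=
  (Subgroup.pi Set.univ (fun _ : Fin m => M)).map (bd m)

/-- the base group, determinant one -/
def baseS (M : Subgroup (GL (Fin 2) F)) (m : ℕ) : Subgroup (GL (Fin 2 × Fin m) F) :=
  baseG M m ⊓ (GeneralLinearGroup.det : GL (Fin 2 × Fin m) F →* Fˣ).ker

theorem det_bd (m : ℕ) (v : Fin m → GL (Fin 2) F) :
    GeneralLinearGroup.det (bd m v) = ∏ i, GeneralLinearGroup.det (v i) := by
  apply Units.ext
  rw [GeneralLinearGroup.val_det_apply, bd_val, det_blockDiagonal, Units.coe_prod]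
  rfl

/-- generators -/
def baseX (M : Subgroup (GL (Fin 2) F)) (m : ℕ) : Set (GL (Fin 2 × Fin m) F) :=
  (baseG (M ⊓ (GeneralLinearGroup.det : GL (Fin 2) F →* Fˣ).ker) m : Set (GL (Fin 2 × Fin m) F)) ∪
    {x | ∃ i j, i ≠ j ∧ x = bd m (Pi.mulSingle i (rfl2 F) * Pi.mulSingle j (rfl2 F))}

theorem mem_baseG {M : Subgroup (GL (Fin 2) F)} {m : ℕ} {v : Fin m → GL (Fin 2) F} (hv : ∀ i, v i ∈ M) :
    bd m v ∈ baseG M m := ⟨v, fun i _ => hv i, rfl⟩

theorem mulSingle_mem {M : Subgroup (GL (Fin 2) F)} {m : ℕ} (hr : rfl2 F ∈ M) (i j : Fin m) (a : Fin m) :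
    (Pi.mulSingle i (rfl2 F) * Pi.mulSingle j (rfl2 F) : Fin m → GL (Fin 2) F) a ∈ M := by
  rw [Pi.mul_apply]
  refine mul_mem ?_ ?_
  · by_cases h : a = i
    · rw [h, Pi.mulSingle_eq_same]; exact hr
    · rw [Pi.mulSingle_eq_of_ne h]; exact one_mem _
  · by_cases h : a = j
    · rw [h, Pi.mulSingle_eq_same]; exact hr
    · rw [Pi.mulSingle_eq_of_ne h]; exact one_mem _

theorem det_single (m : ℕ) (i : Fin m) :
    GeneralLinearGroup.det (bd m (Pi.mulSingle i (rfl2 F))) = -1 := by
  rw [det_bd, Finset.prod_eq_single i]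
  · rw [Pi.mulSingle_eq_same, det_rfl2']
  · intro j _ hj; rw [Pi.mulSingle_eq_of_ne hj, map_one]
  · intro h; exact absurd (Finset.mem_univ _) h

theorem baseX_subset (M : Subgroup (GL (Fin 2) F)) (m : ℕ) (hr : rfl2 F ∈ M) :
    baseX M m ⊆ (baseS M m : Set (GL (Fin 2 × Fin m) F)) := by
  rintro x (hx | ⟨i, j, hij, rfl⟩)
  · obtain ⟨v, hv, rfl⟩ := hx
    refine Subgroup.mem_inf.2 ⟨mem_baseG fun i => (hv i trivial).1, MonoidHom.mem_ker.2 ?_⟩
    rw [det_bd]
    exact Finset.prod_eq_one fun i _ => (hv i trivial).2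
  · refine Subgroup.mem_inf.2 ⟨mem_baseG (mulSingle_mem hr i j), MonoidHom.mem_ker.2 ?_⟩
    rw [map_mul, map_mul, det_single, det_single, neg_mul_neg, one_mul]

theorem gen_aux (h2 : (2 : F) ≠ 0) (hq : 4 ∣ Fintype.card F + 1) (M : Subgroup (GL (Fin 2) F)) (hM : IsPGroup 2 M)
    (hr : rfl2 F ∈ M) (m : ℕ) (k : ℕ) :
    ∀ v : Fin m → GL (Fin 2) F, (∀ i, v i ∈ M) → (∏ i, GeneralLinearGroup.det (v i) = 1) →
      Nat.card {i // GeneralLinearGroup.det (v i) = -1} = k → bd m v ∈ Subgroup.closure (baseX M m) := by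
  classical
  induction k using Nat.strong_induction_on with
  | _ k ih =>
    intro v hv hd hk
    have hcases : ∀ i, GeneralLinearGroup.det (v i) = 1 ∨ GeneralLinearGroup.det (v i) = -1 :=
      fun i => det_sylow' hq M hM (v i) (hv i)
    by_cases hall : ∀ i, GeneralLinearGroup.det (v i) = 1
    · exact Subgroup.subset_closure (Or.inl (mem_baseG fun i => ⟨hv i, hall i⟩))
    push Not at hall
    obtain ⟨i, hi⟩ := hall
    have hi' := (hcases i).resolve_left hi
    have hj : ∃ j, j ≠ i ∧ GeneralLinearGroup.det (v j) = -1 := by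
      by_contra hcon
      push Not at hcon
      have h1 : ∏ a, GeneralLinearGroup.det (v a) = -1 := by
        rw [Finset.prod_eq_single i, hi']
        · intro j _ hj
          exact (hcases j).resolve_right (hcon j hj)
        · intro h; exact absurd (Finset.mem_univ _) h
      rw [hd] at h1
      exact units_neg_one_ne_one h2 h1.symm
    obtain ⟨j, hji, hj'⟩ := hj
    set w : Fin m → GL (Fin 2) F := Pi.mulSingle i (rfl2 F) * Pi.mulSingle j (rfl2 F) with hw
    have hwi : w i = rfl2 F := by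
      rw [hw, Pi.mul_apply, Pi.mulSingle_eq_same, Pi.mulSingle_eq_of_ne hji.symm, mul_one]
    have hwj : w j = rfl2 F := by
      rw [hw, Pi.mul_apply, Pi.mulSingle_eq_same, Pi.mulSingle_eq_of_ne hji, one_mul]
    have hwo : ∀ a, a ≠ i → a ≠ j → w a = 1 := by
      intro a ha hb
      rw [hw, Pi.mul_apply, Pi.mulSingle_eq_of_ne ha, Pi.mulSingle_eq_of_ne hb, one_mul]
    have hww : w * w = 1 := by
      funext a
      rw [Pi.mul_apply, Pi.one_apply]
      by_cases ha : a = i
      · rw [ha, hwi, ← sq, rfl2_sq]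
      · by_cases hb : a = j
        · rw [hb, hwj, ← sq, rfl2_sq]
        · rw [hwo a ha hb, one_mul]
    have hmem : bd m w ∈ Subgroup.closure (baseX M m) :=
      Subgroup.subset_closure (Or.inr ⟨i, j, hji.symm, rfl⟩)
    have hv' : bd m v = bd m (v * w) * bd m w := by
      rw [← map_mul, mul_assoc, hww, mul_one]
    rw [hv']
    refine mul_mem ?_ hmem
    have hdet1 : ∏ a, GeneralLinearGroup.det ((v * w) a) = 1 := by
      have h1 : GeneralLinearGroup.det (bd m w) = 1 := (baseX_subset M m hr (Or.inr ⟨i, j, hji.symm, rfl⟩)).2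
      rw [← det_bd, map_mul, map_mul, h1, det_bd, hd, one_mul]
    refine ih _ ?_ (v * w) ?_ hdet1 rfl
    · rw [← hk]
      have hsub : ∀ a, GeneralLinearGroup.det ((v * w) a) = -1 → GeneralLinearGroup.det (v a) = -1 ∧ a ≠ i := by
        intro a ha
        rw [Pi.mul_apply, map_mul] at ha
        by_cases hai : a = i
        · rw [hai, hi', hwi, det_rfl2', neg_mul_neg, one_mul] at ha
          exact absurd ha.symm (units_neg_one_ne_one h2)
        · refine ⟨?_, hai⟩
          by_cases haj : a = j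
          · rw [haj, hj']
          · rw [hwo a hai haj, map_one, mul_one] at ha
            exact ha
      let f : {a // GeneralLinearGroup.det ((v * w) a) = -1} → {a // GeneralLinearGroup.det (v a) = -1} :=
        fun a => ⟨a.1, (hsub a.1 a.2).1⟩
      have hf : Function.Injective f := by
        rintro ⟨a, ha⟩ ⟨b, hb⟩ h
        have : a = b := congrArg Subtype.val h
        exact Subtype.ext this
      rw [Nat.card_eq_fintype_card, Nat.card_eq_fintype_card]
      refine Fintype.card_lt_of_injective_of_notMem f hf (b := ⟨i, hi'⟩) ?_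
      rintro ⟨⟨a, ha⟩, h⟩
      exact (hsub a ha).2 (congrArg Subtype.val h)
    · intro a
      exact mul_mem (hv a) (mulSingle_mem hr i j a)

theorem closure_baseX (h2 : (2 : F) ≠ 0) (hq : 4 ∣ Fintype.card F + 1) (M : Subgroup (GL (Fin 2) F)) (hM : IsPGroup 2 M)
    (hr : rfl2 F ∈ M) (m : ℕ) : Subgroup.closure (baseX M m) = baseS M m := by
  apply le_antisymm
  · rw [Subgroup.closure_le]
    exact baseX_subset M m hr
  · rintro _ ⟨⟨v, hv, rfl⟩, hd⟩
    have hd' : GeneralLinearGroup.det (bd m v) = 1 := hd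
    rw [det_bd] at hd'
    exact gen_aux h2 hq M hM hr m _ v (fun i => hv i trivial) hd' rfl

theorem ea_baseS (hF : Odd (Fintype.card F)) (hq : 4 ∣ Fintype.card F + 1) (M : Sylow 2 (GL (Fin 2) F))
    (hr : rfl2 F ∈ (M : Subgroup (GL (Fin 2) F))) (m : ℕ) : EA (baseS (M : Subgroup (GL (Fin 2) F)) m) := by
  refine ea_of_closure' _ (baseX (M : Subgroup (GL (Fin 2) F)) m)
    (closure_baseX (two_ne_zero_of_odd hF) hq M M.isPGroup' hr m) ?_
  rintro x (hx | ⟨i, j, hij, rfl⟩)
  · have hQ : EA ((M : Subgroup (GL (Fin 2) F)) ⊓ (GeneralLinearGroup.det : GL (Fin 2) F →* Fˣ).ker : Subgroup (GL (Fin 2) F)) := by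
      rw [ea_iff]
      rintro y ⟨hy, hd⟩
      refine sq_mem_of_det_one hF M y hy ?_
      rw [← GeneralLinearGroup.val_det_apply, (hd : GeneralLinearGroup.det y = 1), Units.val_one]
    have h1 := (ea_iff _).1 (ea_piMap (bd m) (bd_injective m) _ hQ) x hx
    have h2 : (Subgroup.pi Set.univ (fun _ : Fin m => (M : Subgroup (GL (Fin 2) F)) ⊓
        (GeneralLinearGroup.det : GL (Fin 2) F →* Fˣ).ker)).map (bd m) ≤ baseS (M : Subgroup (GL (Fin 2) F)) m := by
      intro y hy
      exact baseX_subset _ m hr (Or.inl hy)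
    exact Subgroup.commutator_mono h2 h2 h1
  · have hc : Commute (Pi.mulSingle i (rfl2 F) : Fin m → GL (Fin 2) F) (Pi.mulSingle j (rfl2 F)) :=
      Pi.mulSingle_commute hij _ _
    rw [← map_pow, hc.mul_pow, ← Pi.mulSingle_pow, ← Pi.mulSingle_pow, rfl2_sq, Pi.mulSingle_one, Pi.mulSingle_one, one_mul, map_one]
    exact one_mem _

theorem card_baseS (h2 : (2 : F) ≠ 0) (hq : 4 ∣ Fintype.card F + 1) (M : Subgroup (GL (Fin 2) F)) (hM : IsPGroup 2 M)
    (hr : rfl2 F ∈ M) (m : ℕ) (hm : 1 ≤ m) : Nat.card (baseS M m) * 2 = Nat.card M ^ m := by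
  have h1 := card_half ((GeneralLinearGroup.det : GL (Fin 2 × Fin m) F →* Fˣ).comp (baseG M m).subtype) (-1)
    (units_neg_one_ne_one h2) ?_ ?_
  · have h3 : baseS M m = (((GeneralLinearGroup.det : GL (Fin 2 × Fin m) F →* Fˣ).comp (baseG M m).subtype).ker).map
        (baseG M m).subtype := by
      ext x
      constructor
      · rintro ⟨hx, hd⟩
        exact ⟨⟨x, hx⟩, hd, rfl⟩
      · rintro ⟨⟨x, hx⟩, hd, rfl⟩
        exact ⟨hx, hd⟩
    rw [h3, ← Nat.card_congr ((((GeneralLinearGroup.det : GL (Fin 2 × Fin m) F →* Fˣ).comp (baseG M m).subtype).ker).equivMapOfInjective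
        (baseG M m).subtype (Subgroup.subtype_injective _)).toEquiv, h1]
    have := card_piMap (bd m) (bd_injective m) M
    rw [Fintype.card_fin] at this
    exact this
  · rintro ⟨_, v, hv, rfl⟩
    change GeneralLinearGroup.det (bd m v) = 1 ∨ GeneralLinearGroup.det (bd m v) = -1
    rw [det_bd]
    refine Finset.prod_induction (fun i => GeneralLinearGroup.det (v i)) (fun x => x = 1 ∨ x = -1) ?_ (Or.inl rfl) ?_
    · rintro a b (rfl | rfl) (rfl | rfl)
      · left; exact one_mul 1
      · right; exact one_mul _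
      · right; exact mul_one _
      · left; rw [neg_mul_neg, one_mul]
    · intro i _
      exact det_sylow' hq M hM (v i) (hv i trivial)
  · refine ⟨⟨bd m (Pi.mulSingle ⟨0, hm⟩ (rfl2 F)), mem_baseG fun a => ?_⟩, det_single m _⟩
    by_cases h : a = ⟨0, hm⟩
    · rw [h, Pi.mulSingle_eq_same]; exact hr
    · rw [Pi.mulSingle_eq_of_ne h]; exact one_mem _

/-- S4627 for `q ≡ 3 mod 4` -/
theorem sea_SL_even (hF : Odd (Fintype.card F)) (hq : 4 ∣ Fintype.card F + 1) (m : ℕ) (hm : 1 ≤ m) :
    SEA (SpecialLinearGroup (Fin (2 * m)) F) := by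
  have hq1 : 1 < Fintype.card F := Fintype.one_lt_card
  obtain ⟨M, hr⟩ := exists_sylow_rfl2 (F := F)
  set f := (Matrix.SpecialLinearGroup.toGL : SpecialLinearGroup (Fin 2 × Fin m) F →* GL (Fin 2 × Fin m) F) with hf
  have hfi : Function.Injective f := Matrix.SpecialLinearGroup.toGL_injective
  set E := (baseS (M : Subgroup (GL (Fin 2) F)) m).comap f with hE
  have hEm : E.map f = baseS (M : Subgroup (GL (Fin 2) F)) m := by
    rw [hE, Subgroup.map_comap_eq, hf, toGL_range_eq]
    exact inf_eq_right.2 inf_le_right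
  have e : E ≃* baseS (M : Subgroup (GL (Fin 2) F)) m := (E.equivMapOfInjective f hfi).trans (MulEquiv.subgroupCongr hEm)
  have hEA : EA E := (ea_baseS hF hq M hr m).congr e.symm
  have hcard : Nat.card E * 2 = Nat.card (M : Subgroup (GL (Fin 2) F)) ^ m := by
    rw [Nat.card_congr e.toEquiv]
    exact card_baseS (two_ne_zero_of_odd hF) hq M M.isPGroup' hr m hm
  rw [card_sylow M, ← pow_mul] at hcard
  have hE2 : ∃ s, Nat.card E = 2 ^ s := by
    have hd : Nat.card E ∣ 2 ^ ((Nat.card (GL (Fin 2) F)).factorization 2 * m) := ⟨2, hcard.symm⟩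
    obtain ⟨s, _, hs⟩ := (Nat.dvd_prime_pow Nat.prime_two).1 hd
    exact ⟨s, hs⟩
  have hEf : (Nat.card E).factorization 2 + 1 = (Nat.card (GL (Fin 2) F)).factorization 2 * m := by
    have h1 := congrArg (fun n => n.factorization 2) hcard
    rw [Nat.factorization_mul Nat.card_pos.ne' (by norm_num), Nat.Prime.factorization_pow Nat.prime_two] at h1
    simp only [Finsupp.add_apply, Finsupp.single_eq_same] at h1
    rw [Nat.prime_two.factorization, Finsupp.single_eq_same] at h1
    exact h1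
  have e' : (Fin 2 × Fin m) ≃ Fin (2 * m) := finProdFinEquiv
  have hS : SEA (SpecialLinearGroup (Fin 2 × Fin m) F) := by
    refine SEA.of_EK E (bps m) ?_ ?_ ?_ hE2 hEA (sea_perm m) ?_
    · intro s t h
      exact bpm_injective (F := F) m (by rw [← toGL_bps, ← toGL_bps, h])
    · intro s x hx
      obtain ⟨⟨v, hv, hv'⟩, hd⟩ : f x ∈ baseS (M : Subgroup (GL (Fin 2) F)) m := hx
      change f _ ∈ baseS (M : Subgroup (GL (Fin 2) F)) m
      rw [map_mul, map_mul, map_inv]
      refine Subgroup.mem_inf.2 ⟨?_, MonoidHom.mem_ker.2 ?_⟩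
      · rw [hf, toGL_bps, ← hf, ← hv', bpm_conj]
        exact mem_baseG fun i => hv _ trivial
      · rw [map_mul, map_mul, map_inv, (hd : GeneralLinearGroup.det (f x) = 1),
          mul_one, mul_inv_cancel]
    · intro s hs
      obtain ⟨⟨v, hv, hv'⟩, hd⟩ : f (bps m s) ∈ baseS (M : Subgroup (GL (Fin 2) F)) m := hs
      exact bpm_eq m s v (by rw [← toGL_bps]; exact hv'.symm)
    · rw [Nat.card_perm, Nat.card_fin, Nat.card_congr (slCongr e' F).toEquiv]
      have h1 := fac_card_SL hF (2 * m) (by omega)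
      have h2 := fac_card_GL_even hF m
      have h3 : (Fintype.card F - 1).factorization 2 = 1 := by
        obtain ⟨k, hk⟩ : ∃ k, Fintype.card F - 1 = 2 * (2 * k + 1) := by
          obtain ⟨c, hc⟩ := hq
          exact ⟨c - 1, by omega⟩
        rw [hk, Nat.factorization_mul (by omega) (by omega)]
        simp only [Finsupp.add_apply]
        rw [Nat.factorization_eq_zero_of_not_dvd (by omega : ¬ 2 ∣ 2 * k + 1), Nat.prime_two.factorization]
        simp
      rw [mul_comm m] at h2
      omega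
  exact hS.congr (slCongr e' F)

end Cfsg.Agent.H53.SEA
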