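import Cfsg.Agent.H53.SL2Inv

/-! `SL₂(F)`, char ≠ 2, is centrally indecomposable; consequences for two commuting copies of `SL₂`. -/

set_option autoImplicit false

open Matrix

namespace Cfsg.Agent.H53

open Cfsg.Agent.H41

section field
variable {F : Type*} [Field F]

/-- `g` is `±` upper unitriangular. -/
def TriU (g : Matrix.SpecialLinearGroup (Fin 2) F) : Prop := g 1 0 = 0 ∧ g 0 0 = g 1 1

theorem pm_one_of_diag {g : Matrix.SpecialLinearGroup (Fin 2) F} (h01 : g 0 1 = 0) (h10 : g 1 0 = 0)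
    (h : g 0 0 = g 1 1) : g = 1 ∨ g = -1 := by
  have hd := det_eq g
  rw [h01, ← h] at hd
  have hpm : (g 0 0 - 1) * (g 0 0 + 1) = 0 := by linear_combination hd
  rcases mul_eq_zero.mp hpm with h3 | h3
  · left
    have h4 : g 0 0 = 1 := by linear_combination h3
    apply sl2_ext
    · rw [one_00]; exact h4
    · rw [one_01]; exact h01
    · rw [one_10]; exact h10
    · rw [one_11, ← h]; exact h4
  · right
    have h4 : g 0 0 = -1 := by linear_combination h3
    apply sl2_ext
    · rw [neg_00, one_00]; exact h4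
    · rw [neg_01, one_01, h01, neg_zero]
    · rw [neg_10, one_10, h10, neg_zero]
    · rw [neg_11, one_11, ← h]; exact h4

theorem triU_of_comm {a b : Matrix.SpecialLinearGroup (Fin 2) F} (ha : TriU a) (ha1 : ¬ (a = 1 ∨ a = -1))
    (h : b * a = a * b) : TriU b := by
  have hr : a 0 1 ≠ 0 := fun h0 => ha1 (pm_one_of_diag h0 ha.1 ha.2)
  have h00 := congrArg (fun B : Matrix.SpecialLinearGroup (Fin 2) F => B 0 0) h
  have h01 := congrArg (fun B : Matrix.SpecialLinearGroup (Fin 2) F => B 0 1) h
  simp only [mul_00, mul_01] at h00 h01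
  rw [ha.1] at h00
  have h10 : b 1 0 = 0 := by
    have : a 0 1 * b 1 0 = 0 := by linear_combination -h00
    exact (mul_eq_zero.mp this).resolve_left hr
  refine ⟨h10, ?_⟩
  have : a 0 1 * (b 0 0 - b 1 1) = 0 := by
    rw [ha.2] at h01
    linear_combination h01
  have := (mul_eq_zero.mp this).resolve_left hr
  linear_combination this

def uMat : Matrix.SpecialLinearGroup (Fin 2) F := mk4 1 1 0 1 (by ring)
def lMat : Matrix.SpecialLinearGroup (Fin 2) F := mk4 1 0 1 1 (by ring)
def wMat : Matrix.SpecialLinearGroup (Fin 2) F := mk4 0 1 (-1) 0 (by ring)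

theorem triU_uMat : TriU (uMat : Matrix.SpecialLinearGroup (Fin 2) F) := by
  simp [TriU, uMat]

theorem uMat_ne : ¬ ((uMat : Matrix.SpecialLinearGroup (Fin 2) F) = 1 ∨ (uMat : Matrix.SpecialLinearGroup (Fin 2) F) = -1) := by
  rintro (h | h)
  · have := congrArg (fun B : Matrix.SpecialLinearGroup (Fin 2) F => B 0 1) h
    simp [uMat] at this
  · have := congrArg (fun B : Matrix.SpecialLinearGroup (Fin 2) F => B 0 1) h
    simp [uMat] at this

theorem pm_one_of_triU_conj {g : Matrix.SpecialLinearGroup (Fin 2) F} (h : TriU g)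
    (h' : TriU (wMat * g * wMat⁻¹)) : g = 1 ∨ g = -1 := by
  refine pm_one_of_diag ?_ h.1 h.2
  have := h'.1
  simp only [mul_10, mul_11, inv_00, inv_10, wMat, mk4_00, mk4_01, mk4_10, mk4_11] at this
  linear_combination -this

/-- `SL₂` is centrally indecomposable. -/
theorem sl2_indec (A B : Subgroup (Matrix.SpecialLinearGroup (Fin 2) F))
    (hAB : ∀ a ∈ A, ∀ b ∈ B, a * b = b * a) (hgen : ∀ x, ∃ a ∈ A, ∃ b ∈ B, x = a * b) :
    (∀ a ∈ A, a = 1 ∨ a = -1) ∨ (∀ b ∈ B, b = 1 ∨ b = -1) := by
  have hBn : ∀ b ∈ B, ∀ g, g * b * g⁻¹ ∈ B := by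
    intro b hb g
    obtain ⟨a, ha, b', hb', rfl⟩ := hgen g
    have : a * b' * b * (a * b')⁻¹ = b' * b * b'⁻¹ := by
      have h1 := hAB a ha (b' * b * b'⁻¹) (B.mul_mem (B.mul_mem hb' hb) (B.inv_mem hb'))
      calc a * b' * b * (a * b')⁻¹ = (a * (b' * b * b'⁻¹)) * a⁻¹ := by group
        _ = ((b' * b * b'⁻¹) * a) * a⁻¹ := by rw [h1]
        _ = _ := by group
    rw [this]
    exact B.mul_mem (B.mul_mem hb' hb) (B.inv_mem hb')
  have hAn : ∀ a ∈ A, ∀ g, g * a * g⁻¹ ∈ A := by
    intro b hb g
    obtain ⟨a, ha, b', hb', rfl⟩ := hgen g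
    have : a * b' * b * (a * b')⁻¹ = a * b * a⁻¹ := by
      have h1 := hAB b hb b' hb'
      calc a * b' * b * (a * b')⁻¹ = a * (b' * b) * b'⁻¹ * a⁻¹ := by group
        _ = a * (b * b') * b'⁻¹ * a⁻¹ := by rw [h1]
        _ = _ := by group
    rw [this]
    exact A.mul_mem (A.mul_mem ha hb) (A.inv_mem ha)
  obtain ⟨a, ha, b, hb, hu⟩ := hgen uMat
  have hab := hAB a ha b hb
  by_cases ha1 : a = 1 ∨ a = -1
  · -- then b = ± u and A ≤ C(u)
    left
    intro x hx
    have key : ∀ y ∈ A, TriU y := by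
      intro y hy
      apply triU_of_comm triU_uMat uMat_ne
      have h1 := hAB y hy b hb
      rw [hu]
      rcases ha1 with rfl | rfl
      · rw [one_mul]; exact h1
      · calc y * (-1 * b) = -(y * b) := by simp
          _ = -(b * y) := by rw [h1]
          _ = _ := by simp
    exact pm_one_of_triU_conj (key x hx) (key _ (hAn x hx wMat))
  · right
    have hTa : TriU a := by
      apply triU_of_comm triU_uMat uMat_ne
      rw [hu, mul_assoc, hab]
    intro x hx
    have key : ∀ y ∈ B, TriU y := by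
      intro y hy
      exact triU_of_comm hTa ha1 (hAB a ha y hy).symm
    exact pm_one_of_triU_conj (key x hx) (key _ (hBn x hx wMat))

/-- An element commuting up to sign with everything is `±1`. -/
theorem sl2_comm_mod (h2 : (2 : F) ≠ 0) {g : Matrix.SpecialLinearGroup (Fin 2) F}
    (h : ∀ x, g * x = x * g ∨ g * x = -(x * g)) : g = 1 ∨ g = -1 := by
  have key : ∀ x : Matrix.SpecialLinearGroup (Fin 2) F, tr x ≠ 0 → g * x = x * g := by
    intro x hx
    rcases h x with h1 | h1
    · exact h1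
    · exfalso
      have h3 : g * x * g⁻¹ = -x := by
        rw [h1]
        calc -(x * g) * g⁻¹ = -(x * g * g⁻¹) := by simp
          _ = -x := by rw [mul_inv_cancel_right]
      have h4 := tr_conj x g
      rw [h3, tr_neg] at h4
      apply hx
      have : (2 : F) * tr x = 0 := by linear_combination -h4
      exact (mul_eq_zero.mp this).resolve_left h2
  have h1 := key uMat (by simp [tr, uMat]; norm_num; exact h2)
  have h3 := key lMat (by simp [tr, lMat]; norm_num; exact h2)
  have hT := triU_of_comm triU_uMat uMat_ne h1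
  refine pm_one_of_diag ?_ hT.1 hT.2
  have h00 := congrArg (fun B : Matrix.SpecialLinearGroup (Fin 2) F => B 0 0) h3
  simp only [mul_00, lMat, mk4_00, mk4_01, mk4_10, mk4_11] at h00
  linear_combination h00

end field
end Cfsg.Agent.H53
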