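import Cfsg.Agent.H41.SL2Fin
import Cfsg.Agent.H53.Basic

/-! Involutions and elements of square `-1` in `SL₂(F)`, `F` of odd order, transported to a group isomorphic to it. -/

set_option autoImplicit false

open Matrix

namespace Cfsg.Agent.H53

open Cfsg.Agent.H41

section field
variable {F : Type*} [Field F]

theorem sl2_sq_eq_one (h2 : (2 : F) ≠ 0) {A : Matrix.SpecialLinearGroup (Fin 2) F} (h : A * A = 1) :
    A = 1 ∨ A = -1 := by
  have hd := det_eq A
  have h00 := congrArg (fun B : Matrix.SpecialLinearGroup (Fin 2) F => B 0 0) h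
  have h01 := congrArg (fun B : Matrix.SpecialLinearGroup (Fin 2) F => B 0 1) h
  have h10 := congrArg (fun B : Matrix.SpecialLinearGroup (Fin 2) F => B 1 0) h
  have h11 := congrArg (fun B : Matrix.SpecialLinearGroup (Fin 2) F => B 1 1) h
  simp only [mul_00, mul_01, mul_10, mul_11, one_00, one_01, one_10, one_11] at h00 h01 h10 h11
  have ht : A 0 0 + A 1 1 ≠ 0 := by
    intro ht
    apply h2
    have e : A 1 1 = -A 0 0 := by linear_combination ht
    rw [e] at hd
    linear_combination -h00 - hd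
  have hb : A 0 1 = 0 := by
    have : A 0 1 * (A 0 0 + A 1 1) = 0 := by linear_combination h01
    exact (mul_eq_zero.mp this).resolve_right ht
  have hc : A 1 0 = 0 := by
    have : A 1 0 * (A 0 0 + A 1 1) = 0 := by linear_combination h10
    exact (mul_eq_zero.mp this).resolve_right ht
  rw [hb] at h00 hd
  have hde : A 0 0 * (A 0 0 - A 1 1) = 0 := by linear_combination h00 - hd
  have h00' : A 0 0 ≠ 0 := by
    intro h0; rw [h0] at h00; simp at h00
  have e : A 0 0 = A 1 1 := by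
    have := (mul_eq_zero.mp hde).resolve_left h00'
    linear_combination this
  have hpm : (A 0 0 - 1) * (A 0 0 + 1) = 0 := by linear_combination h00
  rcases mul_eq_zero.mp hpm with h3 | h3
  · left
    have h4 : A 0 0 = 1 := by linear_combination h3
    apply sl2_ext
    · rw [one_00]; exact h4
    · rw [one_01]; exact hb
    · rw [one_10]; exact hc
    · rw [one_11, ← e]; exact h4
  · right
    have h4 : A 0 0 = -1 := by linear_combination h3
    apply sl2_ext
    · rw [neg_00, one_00]; exact h4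
    · rw [neg_01, one_01, hb, neg_zero]
    · rw [neg_10, one_10, hc, neg_zero]
    · rw [neg_11, one_11, ← e]; exact h4

theorem sl2_tr_eq_zero_of_sq {A : Matrix.SpecialLinearGroup (Fin 2) F} (h : A * A = -1) :
    tr A = 0 := by
  have h1 := tr_mul_self A
  rw [h, tr_neg] at h1
  have h3 : tr (1 : Matrix.SpecialLinearGroup (Fin 2) F) = 2 := by
    simp only [tr, one_00, one_11]; norm_num
  rw [h3] at h1
  have : tr A ^ 2 = 0 := by linear_combination -h1
  exact pow_eq_zero_iff (two_ne_zero) |>.mp this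

theorem neg_one_ne_one (h2 : (2 : F) ≠ 0) : (-1 : Matrix.SpecialLinearGroup (Fin 2) F) ≠ 1 := by
  intro h
  have h00 := congrArg (fun B : Matrix.SpecialLinearGroup (Fin 2) F => B 0 0) h
  simp only [neg_00, one_00] at h00
  apply h2
  linear_combination -h00

theorem sl2_conj_of_sq [Finite F] (h2 : (2 : F) ≠ 0) {A B : Matrix.SpecialLinearGroup (Fin 2) F}
    (hA : A * A = -1) (hB : B * B = -1) : ∃ P : Matrix.SpecialLinearGroup (Fin 2) F, B = P * A * P⁻¹ := by
  apply exists_conj_of_tr_eq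
  · rw [sl2_tr_eq_zero_of_sq hA]
    intro h
    have : (2 : F) * 2 = 0 := by linear_combination -h
    rcases mul_eq_zero.mp this with h | h <;> exact h2 h
  · rw [sl2_tr_eq_zero_of_sq hA, sl2_tr_eq_zero_of_sq hB]

theorem exists_sl2_sq : ∃ A : Matrix.SpecialLinearGroup (Fin 2) F, A * A = -1 :=
  ⟨comp 0, mul_self_eq_neg_one_of_tr_eq_zero (tr_comp 0)⟩

end field

theorem two_ne_zero_of_odd {F : Type*} [Field F] [Fintype F] (h : Odd (Fintype.card F)) : (2 : F) ≠ 0 := by
  apply Ring.two_ne_zero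
  intro h2
  have := FiniteField.even_card_of_char_two h2
  rw [Nat.odd_iff] at h
  omega

variable {G : Type*} [Group G] {F : Type*} [Field F]

/-- the involution of a subgroup isomorphic to `SL₂`. -/
theorem eq_symm_neg_one (h2 : (2 : F) ≠ 0) {L : Subgroup G} (e : L ≃* Matrix.SpecialLinearGroup (Fin 2) F)
    {j : G} (hjL : j ∈ L) (hj : orderOf j = 2) : e ⟨j, hjL⟩ = -1 := by
  have h1 : (⟨j, hjL⟩ : L) * ⟨j, hjL⟩ = 1 := by
    apply Subtype.ext
    show j * j = 1
    rw [← pow_two, ← hj, pow_orderOf_eq_one]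
  have h3 : e ⟨j, hjL⟩ * e ⟨j, hjL⟩ = 1 := by rw [← map_mul, h1, map_one]
  rcases sl2_sq_eq_one h2 h3 with h | h
  · exfalso
    have : (⟨j, hjL⟩ : L) = 1 := by rwa [map_eq_one_iff e e.injective] at h
    have h4 : j = 1 := congrArg Subtype.val this
    rw [h4, orderOf_one] at hj
    omega
  · exact h

theorem sq_eq_one_of_sl2 (h2 : (2 : F) ≠ 0) {L : Subgroup G} (e : L ≃* Matrix.SpecialLinearGroup (Fin 2) F)
    {j : G} (hjL : j ∈ L) (hj : orderOf j = 2) {x : G} (hx : x ∈ L) (hx2 : x * x = 1) : x = 1 ∨ x = j := by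
  have h3 : e ⟨x, hx⟩ * e ⟨x, hx⟩ = 1 := by
    rw [← map_mul, show (⟨x, hx⟩ : L) * ⟨x, hx⟩ = 1 from Subtype.ext hx2, map_one]
  rcases sl2_sq_eq_one h2 h3 with h | h
  · left
    rw [map_eq_one_iff e e.injective] at h
    exact congrArg Subtype.val h
  · right
    rw [← eq_symm_neg_one h2 e hjL hj] at h
    exact congrArg Subtype.val (e.injective h)

theorem map_sq_eq (h2 : (2 : F) ≠ 0) {L : Subgroup G} (e : L ≃* Matrix.SpecialLinearGroup (Fin 2) F)
    {j : G} (hjL : j ∈ L) (hj : orderOf j = 2) {x : G} (hx : x ∈ L) :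
    x * x = j ↔ e ⟨x, hx⟩ * e ⟨x, hx⟩ = -1 := by
  rw [← eq_symm_neg_one h2 e hjL hj, ← map_mul, e.injective.eq_iff]
  constructor
  · intro h; exact Subtype.ext h
  · intro h; exact congrArg Subtype.val h

theorem conj_of_sq_eq [Finite F] (h2 : (2 : F) ≠ 0) {L : Subgroup G}
    (e : L ≃* Matrix.SpecialLinearGroup (Fin 2) F)
    {j : G} (hjL : j ∈ L) (hj : orderOf j = 2) {x y : G} (hx : x ∈ L) (hy : y ∈ L)
    (hx2 : x * x = j) (hy2 : y * y = j) : ∃ g ∈ L, g * x * g⁻¹ = y := by
  obtain ⟨P, hP⟩ := sl2_conj_of_sq h2 ((map_sq_eq h2 e hjL hj hx).mp hx2) ((map_sq_eq h2 e hjL hj hy).mp hy2)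
  obtain ⟨g, rfl⟩ := e.surjective P
  refine ⟨g, g.2, ?_⟩
  rw [← map_inv, ← map_mul, ← map_mul] at hP
  exact (congrArg Subtype.val (e.injective hP)).symm

theorem exists_sq_eq (h2 : (2 : F) ≠ 0) {L : Subgroup G} (e : L ≃* Matrix.SpecialLinearGroup (Fin 2) F)
    {j : G} (hjL : j ∈ L) (hj : orderOf j = 2) : ∃ x ∈ L, x * x = j := by
  obtain ⟨A, hA⟩ := exists_sl2_sq (F := F)
  obtain ⟨x, rfl⟩ := e.surjective A
  exact ⟨x, x.2, (map_sq_eq h2 e hjL hj x.2).mpr hA⟩

end Cfsg.Agent.H53
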