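import Cfsg.Agent.H53.SL2Indec
import Cfsg.Agent.H4.CardSL

/-! Two commuting copies of `SL₂` (odd characteristic) meeting in their common involution: uniqueness of the
decomposition. -/

set_option autoImplicit false

open Matrix

namespace Cfsg.Agent.H53

open Cfsg.Agent.H41

variable {G : Type*} [Group G]

theorem mem_zpowers_of_orderOf_two {j x : G} (hj : orderOf j = 2) :
    x ∈ Subgroup.zpowers j ↔ x = 1 ∨ x = j := by
  have hjj : j ^ (2 : ℤ) = 1 := by
    have := pow_orderOf_eq_one j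
    rw [hj] at this
    exact_mod_cast this
  constructor
  · rintro ⟨n, rfl⟩
    rcases Int.even_or_odd n with ⟨m, rfl⟩ | ⟨m, rfl⟩
    · left
      show j ^ (m + m) = 1
      rw [← two_mul, _root_.zpow_mul, hjj, _root_.one_zpow]
    · right
      show j ^ (2 * m + 1) = j
      rw [_root_.zpow_add, _root_.zpow_mul, hjj, _root_.one_zpow, one_mul, _root_.zpow_one]
  · rintro (rfl | rfl)
    · exact one_mem _
    · exact Subgroup.mem_zpowers _

theorem indec_of_sl2 {F : Type*} [Field F] (h2 : (2 : F) ≠ 0) {L : Subgroup G}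
    (e : L ≃* Matrix.SpecialLinearGroup (Fin 2) F)
    {j : G} (hjL : j ∈ L) (hj : orderOf j = 2) {A B : Subgroup G} (hA : A ≤ L) (hB : B ≤ L)
    (hAB : ∀ a ∈ A, ∀ b ∈ B, a * b = b * a) (hgen : ∀ x ∈ L, ∃ a ∈ A, ∃ b ∈ B, x = a * b) :
    (∀ a ∈ A, a = 1 ∨ a = j) ∨ (∀ b ∈ B, b = 1 ∨ b = j) := by
  have hjm := eq_symm_neg_one h2 e hjL hj
  have h := sl2_indec ((A.subgroupOf L).map e.toMonoidHom) ((B.subgroupOf L).map e.toMonoidHom) (by
      rintro _ ⟨a, ha, rfl⟩ _ ⟨b, hb, rfl⟩
      rw [← map_mul, ← map_mul]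
      congr 1
      exact Subtype.ext (hAB a ha b hb)) (by
      intro x
      obtain ⟨y, rfl⟩ := e.surjective x
      obtain ⟨a, ha, b, hb, hab⟩ := hgen y y.2
      refine ⟨e ⟨a, hA ha⟩, ⟨⟨a, hA ha⟩, ha, rfl⟩, e ⟨b, hB hb⟩, ⟨⟨b, hB hb⟩, hb, rfl⟩, ?_⟩
      rw [← map_mul]
      congr 1
      exact Subtype.ext hab)
  rcases h with h | h
  · left
    intro a ha
    rcases h (e ⟨a, hA ha⟩) ⟨⟨a, hA ha⟩, ha, rfl⟩ with h1 | h1
    · left
      rw [map_eq_one_iff e e.injective] at h1
      exact congrArg Subtype.val h1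
    · right
      rw [← hjm] at h1
      exact congrArg Subtype.val (e.injective h1)
  · right
    intro a ha
    rcases h (e ⟨a, hB ha⟩) ⟨⟨a, hB ha⟩, ha, rfl⟩ with h1 | h1
    · left
      rw [map_eq_one_iff e e.injective] at h1
      exact congrArg Subtype.val h1
    · right
      rw [← hjm] at h1
      exact congrArg Subtype.val (e.injective h1)

theorem comm_mod_of_sl2 {F : Type*} [Field F] (h2 : (2 : F) ≠ 0) {L : Subgroup G}
    (e : L ≃* Matrix.SpecialLinearGroup (Fin 2) F)
    {j : G} (hjL : j ∈ L) (hj : orderOf j = 2) {g : G} (hg : g ∈ L)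
    (h : ∀ x ∈ L, g * x = x * g ∨ g * x = j * (x * g)) : g = 1 ∨ g = j := by
  have hjm := eq_symm_neg_one h2 e hjL hj
  have h1 : e ⟨g, hg⟩ = 1 ∨ e ⟨g, hg⟩ = -1 := by
    apply sl2_comm_mod h2
    intro x
    obtain ⟨y, rfl⟩ := e.surjective x
    rcases h y y.2 with h1 | h1
    · left
      rw [← map_mul, ← map_mul]
      congr 1
      exact Subtype.ext h1
    · right
      have h3 : (⟨g, hg⟩ : L) * y = ⟨j, hjL⟩ * (y * ⟨g, hg⟩) := Subtype.ext h1
      rw [← map_mul, h3, map_mul, hjm, ← map_mul]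
      simp
  rcases h1 with h1 | h1
  · left
    rw [map_eq_one_iff e e.injective] at h1
    exact congrArg Subtype.val h1
  · right
    rw [← hjm] at h1
    exact congrArg Subtype.val (e.injective h1)

theorem half_of_pair {F F' : Type*} [Field F] [Field F'] (h2 : (2 : F) ≠ 0) (h2' : (2 : F') ≠ 0)
    {L L' M M' : Subgroup G}
    (e : L ≃* Matrix.SpecialLinearGroup (Fin 2) F) (e' : L' ≃* Matrix.SpecialLinearGroup (Fin 2) F')
    (hc : ∀ x ∈ L, ∀ y ∈ L', x * y = y * x) (hcM : ∀ x ∈ M, ∀ y ∈ M', x * y = y * x)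
    {j : G} (hj : orderOf j = 2) (hm : L ⊓ L' = Subgroup.zpowers j) (hmM : M ⊓ M' = Subgroup.zpowers j)
    (hY : L ⊔ L' = M ⊔ M') : L ≤ M ∨ L ≤ M' := by
  have hjL : j ∈ L ⊓ L' := by rw [hm]; exact Subgroup.mem_zpowers j
  have hjM : j ∈ M ⊓ M' := by rw [hmM]; exact Subgroup.mem_zpowers j
  obtain ⟨hjL, hjL'⟩ := hjL
  obtain ⟨hjM, hjM'⟩ := hjM
  -- j commutes with everything in Y
  have hjY : ∀ y ∈ L ⊔ L', j * y = y * j := by
    intro y hy
    obtain ⟨a, ha, b, hb, rfl⟩ := (mem_sup_of_commute hc).mp hy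
    rw [mul_assoc, ← hc j hjL b hb, ← mul_assoc, ← mul_assoc, ← hc a ha j hjL']
  -- elements of M commuting mod j with all of L' lie in L
  have key : ∀ m ∈ L ⊔ L', (∀ y ∈ L', m * y = y * m ∨ m * y = j * (y * m)) → m ∈ L := by
    intro m hmY hcomm
    obtain ⟨a, ha, b, hb, rfl⟩ := (mem_sup_of_commute hc).mp hmY
    have : b = 1 ∨ b = j := by
      apply comm_mod_of_sl2 h2' e' hjL' hj hb
      intro y hy
      rcases hcomm y hy with h | h
      · left
        have h3 : a * (b * y) = a * (y * b) := by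
          rw [← mul_assoc, h, ← mul_assoc, ← mul_assoc, hc a ha y hy]
        exact mul_left_cancel h3
      · right
        have h3 : a * (b * y) = a * (j * (y * b)) := by
          calc a * (b * y) = a * b * y := by group
            _ = j * (y * (a * b)) := h
            _ = j * ((y * a) * b) := by group
            _ = j * ((a * y) * b) := by rw [hc a ha y hy]
            _ = (j * a) * (y * b) := by group
            _ = (a * j) * (y * b) := by rw [hjY a (Subgroup.mem_sup_left ha)]
            _ = _ := by group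
        exact mul_left_cancel h3
    rcases this with rfl | rfl
    · rw [mul_one]; exact ha
    · exact L.mul_mem ha hjL
  have hML : M ≤ L ⊔ L' := by rw [hY]; exact le_sup_left
  have hM'L : M' ≤ L ⊔ L' := by rw [hY]; exact le_sup_right
  have hdec : ∀ x ∈ L, ∃ a ∈ L ⊓ M, ∃ b ∈ L ⊓ M', x = a * b := by
    intro x hx
    have hxY : x ∈ M ⊔ M' := by rw [← hY]; exact Subgroup.mem_sup_left hx
    obtain ⟨m, hm1, m', hm', rfl⟩ := (mem_sup_of_commute hcM).mp hxY
    have hmL : m ∈ L := by
      apply key m (hML hm1)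
      intro y hy
      have hyY : y ∈ M ⊔ M' := by rw [← hY]; exact Subgroup.mem_sup_right hy
      obtain ⟨k, hk, k', hk', rfl⟩ := (mem_sup_of_commute hcM).mp hyY
      have hxy := hc _ hx _ hy
      -- m m' k k' = k k' m m'
      have h1 : (k * m)⁻¹ * (m * k) = (k' * m') * (m' * k')⁻¹ := by
        have h2 : (m * k) * (m' * k') = (k * m) * (k' * m') := by
          calc (m * k) * (m' * k') = m * (k * m') * k' := by group
            _ = m * (m' * k) * k' := by rw [hcM k hk m' hm']
            _ = m * m' * (k * k') := by group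
            _ = k * k' * (m * m') := hxy
            _ = k * (k' * m) * m' := by group
            _ = k * (m * k') * m' := by rw [hcM m hm1 k' hk']
            _ = _ := by group
        rw [eq_mul_inv_iff_mul_eq, mul_assoc, h2]; group
      have h3 : (k * m)⁻¹ * (m * k) ∈ M ⊓ M' :=
        ⟨M.mul_mem (M.inv_mem (M.mul_mem hk hm1)) (M.mul_mem hm1 hk), by
          rw [h1]; exact M'.mul_mem (M'.mul_mem hk' hm') (M'.inv_mem (M'.mul_mem hm' hk'))⟩
      rw [hmM, mem_zpowers_of_orderOf_two hj] at h3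
      rcases h3 with h3 | h3
      · left
        have h4 : m * k = k * m := (inv_mul_eq_one.mp h3).symm
        calc m * (k * k') = (m * k) * k' := by group
          _ = k * (m * k') := by rw [h4]; group
          _ = k * (k' * m) := by rw [hcM m hm1 k' hk']
          _ = _ := by group
      · right
        have h4 : m * k = k * m * j := by rw [← h3]; group
        calc m * (k * k') = (m * k) * k' := by group
          _ = k * m * (j * k') := by rw [h4]; group
          _ = k * m * (k' * j) := by rw [hjY k' (hM'L hk')]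
          _ = k * (m * k') * j := by group
          _ = k * (k' * m) * j := by rw [hcM m hm1 k' hk']
          _ = (k * k' * m) * j := by group
          _ = j * (k * k' * m) := by
              rw [hjY]
              exact mul_mem (mul_mem (hML hk) (hM'L hk')) (hML hm1)
    refine ⟨m, ⟨hmL, hm1⟩, m', ⟨?_, hm'⟩, rfl⟩
    have : m' = m⁻¹ * (m * m') := by group
    rw [this]
    exact L.mul_mem (L.inv_mem hmL) hx
  rcases indec_of_sl2 h2 e hjL hj (A := L ⊓ M) (B := L ⊓ M') inf_le_left inf_le_left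
    (fun a ha b hb => hcM a ha.2 b hb.2) hdec with h | h
  · right
    intro x hx
    obtain ⟨a, ha, b, hb, rfl⟩ := hdec x hx
    rcases h a ha with rfl | rfl
    · rw [one_mul]; exact hb.2
    · exact M'.mul_mem hjM' hb.2
  · left
    intro x hx
    obtain ⟨a, ha, b, hb, rfl⟩ := hdec x hx
    rcases h b hb with rfl | rfl
    · rw [mul_one]; exact ha.2
    · exact M.mul_mem ha.2 hjM

theorem not_le_zpowers {F : Type*} [Field F] (h2 : (2 : F) ≠ 0) {L : Subgroup G}
    (e : L ≃* Matrix.SpecialLinearGroup (Fin 2) F)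
    {j : G} (hjL : j ∈ L) (hj : orderOf j = 2) : ¬ L ≤ Subgroup.zpowers j := by
  intro h
  obtain ⟨x, hx, hxx⟩ := exists_sq_eq h2 e hjL hj
  have hjne : j ≠ 1 := by rintro rfl; rw [orderOf_one] at hj; omega
  have hjj : j * j = 1 := by rw [← pow_two, ← hj, pow_orderOf_eq_one]
  rcases (mem_zpowers_of_orderOf_two hj).mp (h hx) with rfl | rfl
  · rw [one_mul] at hxx; exact hjne hxx.symm
  · rw [hjj] at hxx; exact hjne hxx.symm

theorem pair_unique {F F' K K' : Type*} [Field F] [Field F'] [Field K] [Field K']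
    (h2 : (2 : F) ≠ 0) (h2' : (2 : F') ≠ 0) (k2 : (2 : K) ≠ 0) (k2' : (2 : K') ≠ 0)
    {L L' M M' : Subgroup G}
    (e : L ≃* Matrix.SpecialLinearGroup (Fin 2) F) (e' : L' ≃* Matrix.SpecialLinearGroup (Fin 2) F')
    (f : M ≃* Matrix.SpecialLinearGroup (Fin 2) K) (f' : M' ≃* Matrix.SpecialLinearGroup (Fin 2) K')
    (hc : ∀ x ∈ L, ∀ y ∈ L', x * y = y * x) (hcM : ∀ x ∈ M, ∀ y ∈ M', x * y = y * x)
    {j : G} (hj : orderOf j = 2) (hm : L ⊓ L' = Subgroup.zpowers j) (hmM : M ⊓ M' = Subgroup.zpowers j)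
    (hY : L ⊔ L' = M ⊔ M') : (M = L ∧ M' = L') ∨ (M = L' ∧ M' = L) := by
  have hjL : j ∈ L ⊓ L' := by rw [hm]; exact Subgroup.mem_zpowers j
  have hjM : j ∈ M ⊓ M' := by rw [hmM]; exact Subgroup.mem_zpowers j
  obtain ⟨hjL, hjL'⟩ := hjL
  obtain ⟨hjM, hjM'⟩ := hjM
  have a1 := half_of_pair h2 h2' e e' hc hcM hj hm hmM hY
  have a2 := half_of_pair h2' h2 e' e (fun x hx y hy => (hc y hy x hx).symm) hcM hj
    (by rw [inf_comm]; exact hm) hmM (by rw [sup_comm]; exact hY)
  have b1 := half_of_pair k2 k2' f f' hcM hc hj hmM hm hY.symm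
  have b2 := half_of_pair k2' k2 f' f (fun x hx y hy => (hcM y hy x hx).symm) hc hj
    (by rw [inf_comm]; exact hmM) hm (by rw [sup_comm M' M]; exact hY.symm)
  have nL := not_le_zpowers h2 e hjL hj
  have nL' := not_le_zpowers h2' e' hjL' hj
  have nLL' : ¬ L ≤ L' := fun h => nL (by rw [← hm]; exact le_inf le_rfl h)
  have nL'L : ¬ L' ≤ L := fun h => nL' (by rw [← hm]; exact le_inf h le_rfl)
  have nM := not_le_zpowers k2 f hjM hj
  have nMM' : ¬ M ≤ M' := fun h => nM (by rw [← hmM]; exact le_inf le_rfl h)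
  have nM' := not_le_zpowers k2' f' hjM' hj
  have nM'M : ¬ M' ≤ M := fun h => nM' (by rw [← hmM]; exact le_inf h le_rfl)
  rcases b1 with b1 | b1
  · -- M ≤ L
    have hML : M = L := by
      refine le_antisymm b1 (a1.resolve_right ?_)
      intro h; exact nMM' (b1.trans h)
    left
    refine ⟨hML, ?_⟩
    have hM'L' : M' ≤ L' := by
      refine b2.resolve_left ?_
      intro h; exact nM'M (h.trans hML.ge)
    refine le_antisymm hM'L' (a2.resolve_left ?_)
    intro h; exact nL'L (h.trans hML.le)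
  · have hML : M = L' := by
      refine le_antisymm b1 (a2.resolve_right ?_)
      intro h; exact nMM' (b1.trans h)
    right
    refine ⟨hML, ?_⟩
    have hM'L' : M' ≤ L := by
      refine b2.resolve_right ?_
      intro h; exact nM'M (h.trans hML.ge)
    refine le_antisymm hM'L' (a1.resolve_left ?_)
    intro h; exact nLL' (h.trans hML.le)

theorem card_sl2 (K : Type*) [Field K] [Fintype K] :
    Nat.card (Matrix.SpecialLinearGroup (Fin 2) K) = Fintype.card K * (Fintype.card K ^ 2 - 1) := by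
  have h1 := H4.card_SL_mul (F := K) 2 (by norm_num)
  have hq : 1 < Fintype.card K := Fintype.one_lt_card
  rw [Matrix.card_GL_field, Fin.prod_univ_two] at h1
  simp only [Fin.val_zero, pow_zero, Fin.val_one, pow_one] at h1
  generalize Fintype.card K = q at *
  obtain ⟨r, rfl⟩ : ∃ r, q = r + 1 := ⟨q - 1, by omega⟩
  have hr : 0 < r := by omega
  apply Nat.eq_of_mul_eq_mul_left (show 0 < r + 1 - 1 by omega)
  rw [h1]
  have : (r + 1) ^ 2 - (r + 1) = r * (r + 1) := by
    rw [Nat.sub_eq_iff_eq_add (by nlinarith)]; ring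
  rw [this, Nat.add_sub_cancel]
  ring

theorem card_field_eq_of_sl2 {F F' : Type*} [Field F] [Fintype F] [Field F'] [Fintype F']
    (e : Matrix.SpecialLinearGroup (Fin 2) F ≃* Matrix.SpecialLinearGroup (Fin 2) F') :
    Fintype.card F = Fintype.card F' := by
  have h := Nat.card_congr e.toEquiv
  rw [card_sl2, card_sl2] at h
  have hq : 1 < Fintype.card F := Fintype.one_lt_card
  have hq' : 1 < Fintype.card F' := Fintype.one_lt_card
  generalize Fintype.card F = q at *
  generalize Fintype.card F' = q' at *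
  have mono : ∀ a b : ℕ, 1 < a → a < b → a * (a ^ 2 - 1) < b * (b ^ 2 - 1) := by
    intro a b ha hab
    have h1 : a ^ 2 - 1 < b ^ 2 - 1 := by
      have : a ^ 2 < b ^ 2 := Nat.pow_lt_pow_left hab (by norm_num)
      have : 1 ≤ a ^ 2 := Nat.one_le_pow _ _ (by omega)
      omega
    exact Nat.mul_lt_mul_of_lt_of_lt hab h1
  rcases lt_trichotomy q q' with h1 | h1 | h1
  · exact absurd h (mono _ _ hq h1).ne
  · exact h1
  · exact absurd h.symm (mono _ _ hq' h1).ne

end Cfsg.Agent.H53
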